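import Mathlib
import Cfsg.Agent.Lib.Basic.Glauberman
import Cfsg.Agent.Lib.PLocal.Maschke
import Cfsg.Agent.Lib.Basic.Frattini
import Cfsg.Agent.Lib.Struct.AutFrattini
import Cfsg.Agent.Lib.Struct.Sylow

/-!
# Bridges from abstract coprime actions to the ambient semidirect product
-/

set_option autoImplicit false
set_option linter.unusedSectionVars false
set_option linter.style.haveILetI false

namespace Cfsg.Agent.Lib.Struct

open Subgroup SemidirectProduct

variable {A G : Type*} [Group A] [Finite A] [Group G] [Finite G]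

instance finite_semidirect (ψ : A →* MulAut G) : Finite (G ⋊[ψ] A) :=
  Finite.of_equiv _ (SemidirectProduct.equivProd (φ := ψ)).symm

theorem inl_conj (ψ : A →* MulAut G) (a : A) (g : G) :
    (inr a : G ⋊[ψ] A) * inl g * (inr a)⁻¹ = inl (ψ a g) := by
  rw [inl_aut, map_inv]

theorem inr_le_normalizer_of_invariant (ψ : A →* MulAut G) (H : Subgroup G)
    (hH : ∀ a : A, ∀ x ∈ H, ψ a x ∈ H) :
    (inr : A →* G ⋊[ψ] A).range ≤ normalizer ((H.map (inl : G →* G ⋊[ψ] A) : Subgroup _) : Set _) := by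
  rintro _ ⟨a, rfl⟩
  rw [Subgroup.mem_normalizer_iff]
  intro y
  constructor
  · rintro ⟨x, hx, rfl⟩
    exact ⟨ψ a x, hH a x hx, (inl_conj ψ a x).symm⟩
  · rintro ⟨x, hx, hxe⟩
    have h1 := hH a⁻¹ x hx
    refine ⟨ψ a⁻¹ x, h1, ?_⟩
    have h2 : (inr a : G ⋊[ψ] A)⁻¹ * inl x * inr a = y := by
      have h3 : (inl x : G ⋊[ψ] A) = inr a * y * (inr a)⁻¹ := hxe
      rw [h3]; group
    rw [← h2, ← inl_conj ψ a⁻¹ x, map_inv, inv_inv]

theorem invariant_of_inr_le_normalizer (ψ : A →* MulAut G) (H : Subgroup (G ⋊[ψ] A))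
    (h : (inr : A →* G ⋊[ψ] A).range ≤ normalizer (H : Set _)) (a : A) (x : G)
    (hx : x ∈ H.comap (inl : G →* G ⋊[ψ] A)) : ψ a x ∈ H.comap (inl : G →* G ⋊[ψ] A) := by
  have h1 : (inr a : G ⋊[ψ] A) ∈ normalizer (H : Set _) := h ⟨a, rfl⟩
  have h2 := (Subgroup.mem_normalizer_iff.mp h1 (inl x)).mp hx
  show (inl (ψ a x) : G ⋊[ψ] A) ∈ H
  rw [← inl_conj]
  exact h2

theorem card_range_inl (ψ : A →* MulAut G) : Nat.card (inl : G →* G ⋊[ψ] A).range = Nat.card G :=
  (Nat.card_congr (MonoidHom.ofInjective inl_injective).toEquiv).symm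

theorem card_range_inr (ψ : A →* MulAut G) : Nat.card (inr : A →* G ⋊[ψ] A).range = Nat.card A :=
  (Nat.card_congr (MonoidHom.ofInjective inr_injective).toEquiv).symm

/-- Glauberman's lemma for an abstract action: an invariant Sylow subgroup. -/
theorem exists_invariant_sylow_abs (ψ : A →* MulAut G) (hcop : (Nat.card A).Coprime (Nat.card G))
    (hsol : Group.IsSolvable A ∨ Group.IsSolvable G) (p : ℕ) [hp : Fact p.Prime] :
    ∃ P : Subgroup G, IsPGroup p P ∧ ¬ p ∣ P.index ∧ ∀ a : A, ∀ x ∈ P, ψ a x ∈ P := by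
  let ι : G →* G ⋊[ψ] A := inl
  let κ : A →* G ⋊[ψ] A := inr
  have hn : κ.range ≤ normalizer ((ι.range : Subgroup _) : Set _) := by
    have h1 := inr_le_normalizer_of_invariant ψ ⊤ (fun _ _ _ => trivial)
    rwa [← MonoidHom.range_eq_map] at h1
  have hsol' : Group.IsSolvable κ.range ∨ Group.IsSolvable ι.range := by
    rcases hsol with h | h
    · left
      exact solvable_of_surjective (f := (inr : A →* G ⋊[ψ] A).rangeRestrict) (MonoidHom.rangeRestrict_surjective _)
    · right
      exact solvable_of_surjective (f := (inl : G →* G ⋊[ψ] A).rangeRestrict) (MonoidHom.rangeRestrict_surjective _)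
  obtain ⟨P, hP⟩ := Cfsg.Agent.Lib.Basic.exists_invariant_sylow hn
    (by rw [card_range_inl, card_range_inr]; exact hcop) hsol' p
  refine ⟨(P.map ι.range.subtype).comap ι, ?_, ?_, ?_⟩
  · exact (P.isPGroup'.map _).comap_of_injective ι inl_injective
  · have e : (P.map ι.range.subtype).comap ι = (P : Subgroup ι.range).comap ι.rangeRestrict := by
      ext x
      constructor
      · rintro ⟨y, hy, hxy⟩
        have : y = ι.rangeRestrict x := Subtype.ext hxy
        show ι.rangeRestrict x ∈ (P : Subgroup ι.range)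
        rwa [← this]
      · intro hx
        exact ⟨_, hx, rfl⟩
    rw [e, Subgroup.index_comap_of_surjective _ (MonoidHom.rangeRestrict_surjective _)]
    exact P.not_dvd_index
  · intro a x hx
    exact invariant_of_inr_le_normalizer ψ _ hP a x hx

/-- Maschke's theorem for an abstract coprime action on an abelian group. -/
theorem exists_invariant_complement_abs (ψ : A →* MulAut G) (hcomm : ∀ a b : G, a * b = b * a)
    (hcop : (Nat.card A).Coprime (Nat.card G)) (U W : Subgroup G) (hU : ∀ a : A, ∀ x ∈ U, ψ a x ∈ U)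
    (hinf : U ⊓ W = ⊥) (hsup : U ⊔ W = ⊤) :
    ∃ W' : Subgroup G, (∀ a : A, ∀ x ∈ W', ψ a x ∈ W') ∧ U ⊓ W' = ⊥ ∧ U ⊔ W' = ⊤ := by
  let ι : G →* G ⋊[ψ] A := inl
  let κ : A →* G ⋊[ψ] A := inr
  have hinj : Function.Injective ι := inl_injective
  have hn : κ.range ≤ normalizer ((ι.range : Subgroup _) : Set _) := by
    have h1 := inr_le_normalizer_of_invariant ψ ⊤ (fun _ _ _ => trivial)
    rwa [← MonoidHom.range_eq_map] at h1
  have hab : IsMulCommutative ι.range := ⟨⟨by
    rintro ⟨_, x, rfl⟩ ⟨_, y, rfl⟩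
    apply Subtype.ext
    show ι x * ι y = ι y * ι x
    rw [← map_mul, ← map_mul, hcomm]⟩⟩
  have hUle : U.map ι ≤ ι.range := Subgroup.map_le_range ι U
  have hWle : W.map ι ≤ ι.range := Subgroup.map_le_range ι W
  have hinf' : U.map ι ⊓ W.map ι = ⊥ := by
    rw [← Subgroup.map_inf_eq U W ι hinj, hinf, Subgroup.map_bot]
  have hsup' : U.map ι ⊔ W.map ι = ι.range := by
    rw [← Subgroup.map_sup, hsup, MonoidHom.range_eq_map]
  obtain ⟨W₀, hW₀, hW₀n, hW₀i, hW₀s⟩ := Cfsg.Agent.Lib.PLocal.exists_invariant_complement ι.range κ.range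
    (U.map ι) hab hn (by rw [card_range_inl, card_range_inr]; exact hcop) hUle
    (inr_le_normalizer_of_invariant ψ U hU) (W.map ι) hWle hinf' hsup'
  refine ⟨W₀.comap ι, fun a x hx => invariant_of_inr_le_normalizer ψ _ hW₀n a x hx, ?_, ?_⟩
  · rw [eq_bot_iff]
    intro x hx
    obtain ⟨h1, h2⟩ := Subgroup.mem_inf.mp hx
    have h3 : ι x ∈ U.map ι ⊓ W₀ := Subgroup.mem_inf.mpr ⟨⟨x, h1, rfl⟩, h2⟩
    rw [hW₀i, Subgroup.mem_bot] at h3
    rw [Subgroup.mem_bot]
    exact hinj (by rw [h3, map_one])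
  · apply Subgroup.map_injective hinj
    rw [Subgroup.map_sup, Subgroup.map_comap_eq, inf_eq_right.mpr hW₀, hW₀s, MonoidHom.range_eq_map]

/-- The Frattini subgroup of the Frattini quotient is trivial. -/
theorem frattini_quotient_eq_bot {G : Type*} [Group G] [Finite G] :
    frattini (G ⧸ frattini G) = ⊥ := by
  rw [eq_bot_iff]
  intro x hx
  obtain ⟨g, rfl⟩ := QuotientGroup.mk'_surjective (frattini G) x
  rw [Subgroup.mem_bot]
  apply (QuotientGroup.eq_one_iff g).mpr
  rw [Cfsg.Agent.Lib.Basic.mem_frattini_iff]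
  intro M hM
  have hle : frattini G ≤ M := Cfsg.Agent.Lib.Basic.le_frattini_iff.mp le_rfl M hM
  have hker : (QuotientGroup.mk' (frattini G)).ker ≤ M := by
    rw [QuotientGroup.ker_mk']; exact hle
  have hcomap : (M.map (QuotientGroup.mk' (frattini G))).comap (QuotientGroup.mk' (frattini G)) = M :=
    Subgroup.comap_map_eq_self hker
  have hcoat : IsCoatom (M.map (QuotientGroup.mk' (frattini G))) := by
    constructor
    · intro h
      apply hM.1
      rw [← hcomap, h, Subgroup.comap_top]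
    · intro T hT
      have h1 : M < T.comap (QuotientGroup.mk' (frattini G)) := by
        rw [lt_iff_le_not_ge]
        refine ⟨(Subgroup.map_le_iff_le_comap.mp hT.le), fun h => ?_⟩
        apply hT.not_ge
        intro t ht
        obtain ⟨y, rfl⟩ := QuotientGroup.mk'_surjective (frattini G) t
        exact ⟨y, h ht, rfl⟩
      have h2 := hM.2 _ h1
      rw [eq_top_iff]
      intro t _
      obtain ⟨y, rfl⟩ := QuotientGroup.mk'_surjective (frattini G) t
      have h3 : y ∈ T.comap (QuotientGroup.mk' (frattini G)) := by rw [h2]; trivial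
      exact h3
  have h4 := (Cfsg.Agent.Lib.Basic.mem_frattini_iff.mp hx) _ hcoat
  rw [← hcomap]
  exact h4

end Cfsg.Agent.Lib.Struct
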