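import Mathlib

/-!
# Derived length of `p`-subgroups of linear groups over finite fields
-/

set_option autoImplicit false
set_option linter.unusedSectionVars false
set_option linter.style.haveILetI false
set_option linter.unusedVariables false

namespace Cfsg.Agent.Lib.Struct.LinDerived

open Subgroup Module Polynomial
open scoped commutatorElement

universe u

section Maschke

variable {F V P : Type*} [Field F] [AddCommGroup V] [Module F V] [Group P] [Finite P]
  (ρ : P →* (V →ₗ[F] V))

theorem rho_inv_apply (g : P) (v : V) : ρ g (ρ g⁻¹ v) = v := by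
  rw [← Module.End.mul_apply, ← map_mul, mul_inv_cancel, map_one, Module.End.one_apply]

theorem rho_inv_apply' (g : P) (v : V) : ρ g⁻¹ (ρ g v) = v := by
  rw [← Module.End.mul_apply, ← map_mul, inv_mul_cancel, map_one, Module.End.one_apply]

/-- Maschke's theorem, elementary form. -/
theorem exists_compl (hP : (Nat.card P : F) ≠ 0) (W : Submodule F V)
    (hW : ∀ g : P, ∀ w ∈ W, ρ g w ∈ W) :
    ∃ W' : Submodule F V, IsCompl W W' ∧ ∀ g : P, ∀ w ∈ W', ρ g w ∈ W' := by
  classical
  haveI : Fintype P := Fintype.ofFinite P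
  obtain ⟨f, hf⟩ := LinearMap.exists_leftInverse_of_injective W.subtype (Submodule.ker_subtype W)
  let π : V →ₗ[F] V := W.subtype ∘ₗ f
  have hπ : ∀ w ∈ W, π w = w := by
    intro w hw
    have := LinearMap.congr_fun hf ⟨w, hw⟩
    show ((f w : W) : V) = w
    have h2 : f w = ⟨w, hw⟩ := this
    rw [h2]
  have hπW : ∀ v, π v ∈ W := fun v => (f v).2
  let ψ : V →ₗ[F] V := ∑ g : P, (ρ g) ∘ₗ π ∘ₗ (ρ g⁻¹)
  have hψapp : ∀ v, ψ v = ∑ g : P, ρ g (π (ρ g⁻¹ v)) := by
    intro v
    simp [ψ, LinearMap.sum_apply]
  have hψW : ∀ v, ψ v ∈ W := by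
    intro v
    rw [hψapp]
    exact Submodule.sum_mem _ fun g _ => hW g _ (hπW _)
  have hψw : ∀ w ∈ W, ψ w = (Nat.card P : F) • w := by
    intro w hw
    rw [hψapp]
    have h1 : ∀ g : P, ρ g (π (ρ g⁻¹ w)) = w := by
      intro g
      rw [hπ _ (hW g⁻¹ w hw), rho_inv_apply]
    simp only [h1]
    rw [Finset.sum_const, Finset.card_univ, Nat.card_eq_fintype_card, Nat.cast_smul_eq_nsmul]
  have hψeq : ∀ (h : P) (v : V), ρ h (ψ v) = ψ (ρ h v) := by
    intro h v
    rw [hψapp, hψapp, map_sum]
    have := Equiv.sum_comp (Equiv.mulLeft h) (fun g : P => ρ g (π (ρ g⁻¹ (ρ h v))))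
    rw [← this]
    refine Finset.sum_congr rfl fun g _ => ?_
    simp only [Equiv.coe_mulLeft]
    have e1 : ρ (h * g) = ρ h * ρ g := map_mul _ _ _
    have e2 : ρ (h * g)⁻¹ (ρ h v) = ρ g⁻¹ v := by
      rw [mul_inv_rev, map_mul, Module.End.mul_apply, rho_inv_apply']
    rw [e2, e1, Module.End.mul_apply]
  refine ⟨LinearMap.ker ψ, ?_, ?_⟩
  · rw [isCompl_iff]
    constructor
    · rw [Submodule.disjoint_def]
      intro x hx hx'
      have h1 := hψw x hx
      rw [LinearMap.mem_ker.1 hx'] at h1
      have := (smul_eq_zero.1 h1.symm)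
      rcases this with h2 | h2
      · exact absurd h2 hP
      · exact h2
    · rw [codisjoint_iff, eq_top_iff]
      intro v _
      have e : v = (Nat.card P : F)⁻¹ • ψ v + (v - (Nat.card P : F)⁻¹ • ψ v) := by abel
      rw [e]
      refine Submodule.add_mem_sup (W.smul_mem _ (hψW v)) ?_
      rw [LinearMap.mem_ker, map_sub, map_smul, hψw _ (hψW v), smul_smul, inv_mul_cancel₀ hP, one_smul,
        sub_self]
  · intro g w hw
    rw [LinearMap.mem_ker] at hw ⊢
    rw [← hψeq, hw, map_zero]

/-- Restriction of a representation to an invariant subspace. -/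
noncomputable def restrictRep (W : Submodule F V) (hW : ∀ g : P, ∀ w ∈ W, ρ g w ∈ W) : P →* (W →ₗ[F] W) where
  toFun g := (ρ g).restrict (hW g)
  map_one' := by
    ext w
    simp
  map_mul' a b := by
    ext w
    simp

theorem restrictRep_apply (W : Submodule F V) (hW : ∀ g : P, ∀ w ∈ W, ρ g w ∈ W) (g : P) (w : W) :
    ((restrictRep ρ W hW g w : W) : V) = ρ g w := rfl

end Maschke

/-- The element `x` in the second centre. -/
theorem exists_x {P : Type*} [Group P] [Finite P] {p : ℕ} [hpf : Fact p.Prime] (hP : IsPGroup p P)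
    (hnab : ¬ ∀ a b : P, a * b = b * a) :
    ∃ x : P, x ∉ center P ∧ x ^ p ∈ center P ∧ ∀ g : P, g * x * g⁻¹ * x⁻¹ ∈ center P := by
  have hQ : IsPGroup p (P ⧸ center P) := hP.to_quotient _
  have hnt : Nontrivial (P ⧸ center P) := by
    rw [QuotientGroup.nontrivial_iff]
    intro h
    apply hnab
    intro a b
    have : a ∈ center P := by rw [h]; trivial
    exact (mem_center_iff.1 this b).symm
  haveI := hQ.center_nontrivial
  have hQc : IsPGroup p (center (P ⧸ center P)) := hQ.to_subgroup _
  have hdvd : p ∣ Nat.card (center (P ⧸ center P)) := by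
    obtain ⟨k, hk⟩ := IsPGroup.iff_card.1 hQc
    have h1 : 1 < Nat.card (center (P ⧸ center P)) := Finite.one_lt_card
    rw [hk] at h1 ⊢
    apply dvd_pow_self
    rintro rfl
    simp at h1
  obtain ⟨z, hz⟩ := exists_prime_orderOf_dvd_card' p hdvd
  obtain ⟨x, hx⟩ := QuotientGroup.mk'_surjective (center P) (z : P ⧸ center P)
  have hxe : ((x : P ⧸ center P)) = z := hx
  have hzo : orderOf (z : P ⧸ center P) = p := by rw [Subgroup.orderOf_coe, hz]
  refine ⟨x, ?_, ?_, ?_⟩
  · intro h
    have : ((x : P ⧸ center P)) = 1 := (QuotientGroup.eq_one_iff x).2 h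
    rw [hxe] at this
    rw [this, orderOf_one] at hzo
    exact hpf.out.one_lt.ne hzo
  · rw [← QuotientGroup.eq_one_iff, QuotientGroup.mk_pow, hxe, ← hzo]
    exact pow_orderOf_eq_one _
  · intro g
    rw [← QuotientGroup.eq_one_iff]
    have hc : ∀ y : P ⧸ center P, y * (z : P ⧸ center P) = z * y := fun y =>
      mem_center_iff.1 z.2 y
    simp only [QuotientGroup.mk_mul, QuotientGroup.mk_inv, hxe, hc]
    group

section Field

variable {F V P : Type u} [Field F] [AddCommGroup V] [Module F V] [Finite V] [Group P] [Finite P]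
  (ρ : P →* (V →ₗ[F] V))

/-- The commuting algebra of an irreducible representation is a field. -/
theorem exists_field [Finite F] (hV : Nontrivial V)
    (hirr : ∀ U : Submodule F V, (∀ g : P, ∀ u ∈ U, ρ g u ∈ U) → U = ⊥ ∨ U = ⊤) :
    ∃ (K : Type u) (_ : Field K) (_ : Finite K) (ψ : K →+* (V →ₗ[F] V)),
      Function.Injective ψ ∧ (∀ a g, ψ a * ρ g = ρ g * ψ a) ∧
      (∀ T : V →ₗ[F] V, (∀ g, T * ρ g = ρ g * T) → ∃ a, ψ a = T) ∧
      ∃ ι : F →+* K, ∀ c : F, ψ (ι c) = algebraMap F (V →ₗ[F] V) c := by
  classical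
  let A : Subalgebra F (V →ₗ[F] V) := Subalgebra.centralizer F (Set.range ρ)
  have hmemA : ∀ T : V →ₗ[F] V, T ∈ A ↔ ∀ g, T * ρ g = ρ g * T := by
    intro T
    rw [Subalgebra.mem_centralizer_iff]
    constructor
    · intro h g
      exact (h _ ⟨g, rfl⟩).symm
    · rintro h _ ⟨g, rfl⟩
      exact (h g).symm
  haveI : Finite (V →ₗ[F] V) :=
    Finite.of_injective (fun f => (f : V → V)) DFunLike.coe_injective
  haveI : Nontrivial (V →ₗ[F] V) := by
    obtain ⟨v, hv⟩ := exists_ne (0 : V)
    refine ⟨⟨1, 0, fun h => hv ?_⟩⟩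
    have := LinearMap.congr_fun h v
    simpa using this
  have hdom : IsDomain A := by
    have hnz : NoZeroDivisors A := by
      refine ⟨?_⟩
      intro a b hab
      by_contra hne
      push Not at hne
      obtain ⟨ha, hb⟩ := hne
      have hker : LinearMap.ker (a : V →ₗ[F] V) = ⊥ ∨ LinearMap.ker (a : V →ₗ[F] V) = ⊤ := by
        apply hirr
        intro g u hu
        rw [LinearMap.mem_ker] at hu ⊢
        have h1 := (hmemA _).1 a.2 g
        have h2 := LinearMap.congr_fun h1 u
        simp only [Module.End.mul_apply] at h2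
        rw [h2, hu, map_zero]
      rcases hker with h | h
      · apply hb
        have h1 : ((a * b : A) : V →ₗ[F] V) = 0 := by rw [hab]; rfl
        have hinj := LinearMap.ker_eq_bot.1 h
        apply Subtype.ext
        ext v
        apply hinj
        have := LinearMap.congr_fun h1 v
        simpa using this
      · apply ha
        apply Subtype.ext
        exact LinearMap.ker_eq_top.1 h
    exact NoZeroDivisors.to_isDomain A
  have hfield : IsField A := Finite.isDomain_to_isField A
  letI K : Field A := hfield.toField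
  refine ⟨A, K, inferInstance, A.val.toRingHom, Subtype.val_injective, ?_, ?_⟩
  · intro a g
    exact (hmemA _).1 a.2 g
  · refine ⟨?_, ?_⟩
    · intro T hT
      exact ⟨⟨T, (hmemA T).2 hT⟩, rfl⟩
    · exact ⟨algebraMap F A, fun c => rfl⟩

end Field

/-- The claim to be proved, one dimension at a time. -/
def ClaimAt (p n : ℕ) : Prop :=
  ∀ (F : Type u) [Field F] [Finite F] (V : Type u) [AddCommGroup V] [Module F V] [Finite V]
    (P : Type u) [Group P] [Finite P], IsPGroup p P → (p : F) ≠ 0 →
    ∀ ρ : P →* (V →ₗ[F] V), finrank F V = n → ∀ g ∈ derivedSeries P (Nat.log 2 n + 1), ρ g = 1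

theorem comm_aeval {K V : Type*} [Field K] [AddCommGroup V] [Module K V] (T u : V →ₗ[K] V)
    (h : T * u = u * T) (r : K[X]) : T * aeval u r = aeval u r * T := by
  have hc : Commute T u := h
  induction r using Polynomial.induction_on' with
  | add a b ha hb => rw [map_add, mul_add, add_mul, ha, hb]
  | monomial n a =>
    rw [aeval_monomial]
    have h1 : Commute T (algebraMap K (V →ₗ[K] V) a) := (Algebra.commutes a T).symm
    have h2 : Commute T (u ^ n) := hc.pow_right n
    exact (h1.mul_right h2)

/-- Descent to the field `K[X]/(q)`. -/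
theorem descend {K W B : Type u} [Field K] [Finite K] [AddCommGroup W] [Module K W] [Finite W]
    [Group B] [Finite B] {p : ℕ} (hB : IsPGroup p B) (hpK : (p : K) ≠ 0)
    (ρ : B →* (W →ₗ[K] W)) (uW : W →ₗ[K] W) (hcomm : ∀ h, ρ h * uW = uW * ρ h)
    (q : K[X]) (hq : Irreducible q) (hd : 2 ≤ q.natDegree) (hq0 : aeval uW q = 0)
    (hW : Nontrivial W) (IH : ∀ m < finrank K W, ClaimAt.{u} p m) :
    ∃ m, 1 ≤ m ∧ 2 * m ≤ finrank K W ∧ ∀ h ∈ derivedSeries B (Nat.log 2 m + 1), ρ h = 1 := by
  classical
  haveI : Fact (Irreducible q) := ⟨hq⟩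
  haveI : Module.Finite K W := Module.Finite.of_finite
  let φ : AdjoinRoot q →+* (W →ₗ[K] W) :=
    Ideal.Quotient.lift (Ideal.span {q}) ((aeval uW : K[X] →ₐ[K] _).toRingHom) (by
      intro a ha
      obtain ⟨s, rfl⟩ := Ideal.mem_span_singleton.1 ha
      simp [hq0])
  have hφ : ∀ r : K[X], φ (AdjoinRoot.mk q r) = aeval uW r := fun r => rfl
  letI : Module (AdjoinRoot q) W := Module.compHom W φ
  have hsmul : ∀ (l : AdjoinRoot q) (w : W), l • w = φ l w := fun l w => rfl
  haveI : IsScalarTower K (AdjoinRoot q) W := IsScalarTower.of_algebraMap_smul (fun a w => by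
    rw [hsmul, AdjoinRoot.algebraMap_eq]
    show φ (AdjoinRoot.mk q (C a)) w = a • w
    rw [hφ, aeval_C]
    simp [Module.algebraMap_end_apply])
  haveI : Module.Finite K (AdjoinRoot q) := (AdjoinRoot.powerBasis hq.ne_zero).finite
  haveI : Finite (AdjoinRoot q) := Module.finite_of_finite K
  have hfr : finrank K (AdjoinRoot q) = q.natDegree := by
    rw [(AdjoinRoot.powerBasis hq.ne_zero).finrank, AdjoinRoot.powerBasis_dim]
  have hmul := Module.finrank_mul_finrank K (AdjoinRoot q) W
  rw [hfr] at hmul
  haveI : Module.Finite (AdjoinRoot q) W := Module.Finite.of_finite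
  have hpos : 0 < finrank (AdjoinRoot q) W := Module.finrank_pos
  have hle : 2 * finrank (AdjoinRoot q) W ≤ finrank K W := by
    rw [← hmul]
    exact Nat.mul_le_mul_right _ hd
  let ρL : B →* (W →ₗ[AdjoinRoot q] W) :=
    { toFun := fun h =>
        { toFun := fun w => ρ h w
          map_add' := fun a b => map_add _ _ _
          map_smul' := fun l w => by
            obtain ⟨r, rfl⟩ := AdjoinRoot.mk_surjective l
            simp only [hsmul, hφ, RingHom.id_apply]
            have := comm_aeval (ρ h) uW (hcomm h) r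
            exact LinearMap.congr_fun this w }
      map_one' := by
        ext w
        simp
      map_mul' := fun a b => by
        ext w
        simp }
  have hρL : ∀ h w, ρL h w = ρ h w := fun _ _ => rfl
  have hpL : (p : AdjoinRoot q) ≠ 0 := by
    intro h0
    apply hpK
    have : algebraMap K (AdjoinRoot q) (p : K) = 0 := by
      rw [map_natCast]; exact h0
    exact (map_eq_zero_iff _ (algebraMap K (AdjoinRoot q)).injective).1 this
  refine ⟨finrank (AdjoinRoot q) W, hpos, hle, ?_⟩
  intro h hh
  have h1 := IH (finrank (AdjoinRoot q) W) (by omega) (AdjoinRoot q) W B hB hpL ρL rfl h hh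
  ext w
  have := LinearMap.congr_fun h1 w
  simpa [hρL] using this

theorem core_noeig {K V B : Type u} [Field K] [Finite K] [AddCommGroup V] [Module K V] [Finite V]
    [Group B] [Finite B] {p : ℕ} (hB : IsPGroup p B) (hpK : (p : K) ≠ 0)
    (ρ : B →* (V →ₗ[K] V)) (u : V →ₗ[K] V) (hcomm : ∀ h, ρ h * u = u * ρ h)
    (hV : Nontrivial V)
    (hno : ∀ (a : K) (v : V), u v = a • v → v = 0)
    (IH : ∀ m < finrank K V, ClaimAt.{u} p m) :
    ∃ (v : V) (m : ℕ), v ≠ 0 ∧ 1 ≤ m ∧ 2 * m ≤ finrank K V ∧
      ∀ h ∈ derivedSeries B (Nat.log 2 m + 1), ρ h v = v := by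
  classical
  haveI : Module.Finite K V := Module.Finite.of_finite
  have hint : IsIntegral K u := Algebra.IsIntegral.isIntegral u
  have hdeg : 0 < (minpoly K u).degree := minpoly.degree_pos hint
  obtain ⟨q, hqirr, r, hr⟩ := Polynomial.exists_irreducible_of_degree_pos hdeg
  have hq0 : q ≠ 0 := hqirr.ne_zero
  have hmin0 : minpoly K u ≠ 0 := minpoly.ne_zero hint
  have hr0 : r ≠ 0 := by
    rintro rfl
    rw [mul_zero] at hr
    exact hmin0 hr
  have hqdeg : 2 ≤ q.natDegree := by
    by_contra hlt
    have h1 : q.natDegree = 1 := by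
      have := hqirr.natDegree_pos
      omega
    have h2 : q.degree = 1 := by
      rw [degree_eq_natDegree hq0, h1]
      rfl
    obtain ⟨a, ha⟩ := Polynomial.exists_root_of_degree_eq_one h2
    have h3 : (minpoly K u).IsRoot a := by
      rw [hr]
      exact root_mul_right_of_isRoot _ ha
    have h4 : Module.End.HasEigenvalue u a := Module.End.hasEigenvalue_of_isRoot h3
    obtain ⟨v, hv⟩ := h4.exists_hasEigenvector
    exact hv.2 (hno a v hv.apply_eq_smul)
  have hcq : (aeval u q) * aeval u r = 0 := by
    rw [← map_mul, ← hr, minpoly.aeval]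
  have hr1 : aeval u r ≠ 0 := by
    intro h0
    have h1 := minpoly.degree_le_of_ne_zero K u hr0 h0
    rw [hr, degree_mul] at h1
    have h2 : 0 < q.degree := by
      rw [degree_eq_natDegree hq0]
      exact_mod_cast (by omega : 0 < q.natDegree)
    have h3 : r.degree = (r.natDegree : WithBot ℕ) := degree_eq_natDegree hr0
    rw [degree_eq_natDegree hq0, h3] at h1
    have h4 : ((q.natDegree + r.natDegree : ℕ) : WithBot ℕ) ≤ (r.natDegree : WithBot ℕ) := by
      push_cast
      exact h1
    have h5 : q.natDegree + r.natDegree ≤ r.natDegree := by exact_mod_cast h4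
    omega
  obtain ⟨v₀, hv₀⟩ : ∃ v₀, aeval u r v₀ ≠ 0 := by
    by_contra hall
    push Not at hall
    exact hr1 (LinearMap.ext hall)
  let W : Submodule K V := LinearMap.ker (aeval u q)
  have hmemW : ∀ w, w ∈ W ↔ aeval u q w = 0 := fun w => LinearMap.mem_ker
  have hvW : aeval u r v₀ ∈ W := by
    rw [hmemW]
    have := LinearMap.congr_fun hcq v₀
    simpa using this
  have hinv : ∀ (h : B), ∀ w ∈ W, ρ h w ∈ W := by
    intro h w hw
    rw [hmemW] at hw ⊢
    have := LinearMap.congr_fun (comm_aeval (ρ h) u (hcomm h) q) w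
    simp only [Module.End.mul_apply] at this
    rw [← this, hw, map_zero]
  have huW : ∀ w ∈ W, u w ∈ W := by
    intro w hw
    rw [hmemW] at hw ⊢
    have := LinearMap.congr_fun (comm_aeval u u rfl q) w
    simp only [Module.End.mul_apply] at this
    rw [← this, hw, map_zero]
  let uW : W →ₗ[K] W := u.restrict huW
  have hpow : ∀ (n : ℕ) (w : W), (((uW ^ n) w : W) : V) = (u ^ n) (w : V) := by
    intro n
    induction n with
    | zero => intro w; simp
    | succ n ih =>
      intro w
      rw [pow_succ, pow_succ, Module.End.mul_apply, Module.End.mul_apply, ih]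
      rfl
  have hkey : ∀ (s : K[X]) (w : W), ((aeval uW s w : W) : V) = aeval u s (w : V) := by
    intro s
    induction s using Polynomial.induction_on' with
    | add a b ha hb =>
      intro w
      simp only [map_add, LinearMap.add_apply, Submodule.coe_add, ha, hb]
    | monomial n a =>
      intro w
      rw [aeval_monomial, aeval_monomial, Module.End.mul_apply, Module.End.mul_apply,
        Module.algebraMap_end_apply, Module.algebraMap_end_apply, Submodule.coe_smul, hpow]
  have hq00 : aeval uW q = 0 := by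
    ext w
    rw [hkey]
    simpa using (hmemW _).1 w.2
  have hWnt : Nontrivial W := by
    refine ⟨⟨⟨_, hvW⟩, 0, fun h => hv₀ ?_⟩⟩
    exact congrArg Subtype.val h
  let ρW := restrictRep ρ W hinv
  have hcommW : ∀ h, ρW h * uW = uW * ρW h := by
    intro h
    ext w
    have := LinearMap.congr_fun (hcomm h) (w : V)
    simpa [ρW, uW, restrictRep_apply] using this
  have hfle : finrank K W ≤ finrank K V := Submodule.finrank_le W
  obtain ⟨m, hm1, hm2, hm3⟩ := descend hB hpK ρW uW hcommW q hqirr hqdeg hq00 hWnt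
    (fun m hm => IH m (lt_of_lt_of_le hm hfle))
  refine ⟨aeval u r v₀, m, hv₀, hm1, by omega, ?_⟩
  intro h hh
  have h1 := hm3 h hh
  have h2 := LinearMap.congr_fun h1 ⟨_, hvW⟩
  have h3 := congrArg Subtype.val h2
  simpa [ρW, restrictRep_apply] using h3

theorem core_eig {K V B : Type u} [Field K] [Finite K] [AddCommGroup V] [Module K V] [Finite V]
    [Group B] [Finite B] {p : ℕ} (hB : IsPGroup p B) (hpK : (p : K) ≠ 0)
    (ρ : B →* (V →ₗ[K] V)) (u : V →ₗ[K] V) (hcomm : ∀ h, ρ h * u = u * ρ h)
    (hu : Function.Injective u) (τ : V →ₗ[K] V) (hτ : Function.Injective τ) (κ : K) (hκ0 : κ ≠ 0)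
    (hκ1 : κ ≠ 1) (hτu : ∀ v, τ (u v) = κ • u (τ v)) (a : K) (v : V) (hv0 : v ≠ 0)
    (hv : u v = a • v) (IH : ∀ m < finrank K V, ClaimAt.{u} p m) :
    ∃ (v : V) (m : ℕ), v ≠ 0 ∧ 1 ≤ m ∧ 2 * m ≤ finrank K V ∧
      ∀ h ∈ derivedSeries B (Nat.log 2 m + 1), ρ h v = v := by
  classical
  haveI : Module.Finite K V := Module.Finite.of_finite
  have ha0 : a ≠ 0 := by
    rintro rfl
    rw [zero_smul] at hv
    exact hv0 (hu (by rw [hv, map_zero]))
  let W : Submodule K V := Module.End.eigenspace u a
  have hmemW : ∀ w, w ∈ W ↔ u w = a • w := fun w => Module.End.mem_eigenspace_iff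
  have hvW : v ∈ W := (hmemW v).2 hv
  have hWbot : W ≠ ⊥ := fun h => hv0 (by rw [h] at hvW; simpa using hvW)
  have hinv : ∀ (h : B), ∀ w ∈ W, ρ h w ∈ W := by
    intro h w hw
    rw [hmemW] at hw ⊢
    have := LinearMap.congr_fun (hcomm h) w
    simp only [Module.End.mul_apply] at this
    rw [← this, hw, map_smul]
  let W' : Submodule K V := W.map τ
  have hdisj : Disjoint W W' := by
    rw [Submodule.disjoint_def]
    rintro x hx ⟨y, hy, rfl⟩
    have hy' : u y = a • y := (hmemW y).1 hy
    have hx' : u (τ y) = a • τ y := (hmemW _).1 hx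
    have h1 := hτu y
    rw [hy', map_smul, hx', smul_smul] at h1
    have h2 : (a - κ * a) • τ y = 0 := by
      rw [sub_smul, h1, sub_self]
    rcases smul_eq_zero.1 h2 with h3 | h3
    · exfalso
      have h4 : (1 - κ) * a = 0 := by linear_combination h3
      rcases mul_eq_zero.1 h4 with h5 | h5
      · exact hκ1 (by linear_combination -h5)
      · exact ha0 h5
    · exact h3
  have hrank : finrank K W' = finrank K W :=
    ((Submodule.equivMapOfInjective τ hτ W).finrank_eq).symm
  have h2 : 2 * finrank K W ≤ finrank K V := by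
    have := Submodule.finrank_add_finrank_le_of_disjoint hdisj
    omega
  have h1 : 1 ≤ finrank K W := Submodule.one_le_finrank_iff.2 hWbot
  refine ⟨v, finrank K W, hv0, h1, h2, ?_⟩
  intro h hh
  have h3 := IH (finrank K W) (by omega) K W B hB hpK (restrictRep ρ W hinv) rfl h hh
  have h4 := LinearMap.congr_fun h3 ⟨v, hvW⟩
  have h5 := congrArg Subtype.val h4
  simpa [restrictRep_apply] using h5

/-- If a normal subgroup fixes a nonzero vector of an irreducible faithful module, it is trivial. -/
theorem fix_top {F V P : Type*} [Field F] [AddCommGroup V] [Module F V] [Group P] [Finite P]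
    (ρ : P →* (V →ₗ[F] V)) (hinj : Function.Injective ρ)
    (hirr : ∀ U : Submodule F V, (∀ g : P, ∀ u ∈ U, ρ g u ∈ U) → U = ⊥ ∨ U = ⊤)
    (D : Subgroup P) [hD : D.Normal] (v : V) (hv0 : v ≠ 0) (hv : ∀ h ∈ D, ρ h v = v) :
    ∀ h ∈ D, h = 1 := by
  let U : Submodule F V :=
    { carrier := {w | ∀ h ∈ D, ρ h w = w}
      add_mem' := fun {a b} ha hb h hh => by rw [map_add, ha h hh, hb h hh]
      zero_mem' := fun h _ => map_zero _
      smul_mem' := fun c w hw h hh => by rw [map_smul, hw h hh] }
  have hU : ∀ w, w ∈ U ↔ ∀ h ∈ D, ρ h w = w := fun w => Iff.rfl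
  have hinv : ∀ g : P, ∀ u ∈ U, ρ g u ∈ U := by
    intro g w hw h hh
    have h1 : g⁻¹ * h * g ∈ D := by
      have := hD.conj_mem h hh g⁻¹
      simpa using this
    have h2 := hw _ h1
    have h3 : h * g = g * (g⁻¹ * h * g) := by group
    rw [← Module.End.mul_apply, ← map_mul, h3, map_mul, Module.End.mul_apply, h2]
  rcases hirr U hinv with h | h
  · exfalso
    have : v ∈ U := (hU v).2 hv
    rw [h] at this
    exact hv0 (by simpa using this)
  · intro g hg
    apply hinj
    rw [map_one]
    ext w
    have : w ∈ U := by rw [h]; trivial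
    rw [Module.End.one_apply]
    exact this g hg

theorem derivedSeries_succ_le {P : Type*} [Group P] (B : Subgroup P) (hB : commutator P ≤ B) (k : ℕ) :
    derivedSeries P (k + 1) ≤ (derivedSeries (↥B) k).map B.subtype := by
  induction k with
  | zero =>
    rw [derivedSeries_zero, derivedSeries_one]
    intro x hx
    exact ⟨⟨x, hB hx⟩, trivial, rfl⟩
  | succ k ih =>
    rw [derivedSeries_succ, derivedSeries_succ (↥B) k, Subgroup.map_commutator]
    exact Subgroup.commutator_mono ih ih

/-- Reduction to faithful irreducible modules. -/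
theorem reduce {F : Type u} [Field F] [Finite F] {p : ℕ} [hpf : Fact p.Prime] (hpF : (p : F) ≠ 0)
    (d : ℕ → ℕ) (hd : Monotone d) (n : ℕ)
    (IH : ∀ m < n, ∀ (V P : Type u) [AddCommGroup V] [Module F V] [Finite V] [Group P] [Finite P],
      IsPGroup p P → ∀ ρ : P →* (V →ₗ[F] V), finrank F V = m → ∀ g ∈ derivedSeries P (d m), ρ g = 1)
    (hirr : ∀ (V P : Type u) [AddCommGroup V] [Module F V] [Finite V] [Group P] [Finite P],
      IsPGroup p P → ∀ ρ : P →* (V →ₗ[F] V), finrank F V = n → Nontrivial V →
      Function.Injective ρ →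
      (∀ U : Submodule F V, (∀ g : P, ∀ u ∈ U, ρ g u ∈ U) → U = ⊥ ∨ U = ⊤) →
      ∀ g ∈ derivedSeries P (d n), g = 1)
    (V P : Type u) [AddCommGroup V] [Module F V] [Finite V] [Group P] [Finite P]
    (hP : IsPGroup p P) (ρ : P →* (V →ₗ[F] V)) (hn : finrank F V = n) :
    ∀ g ∈ derivedSeries P (d n), ρ g = 1 := by
  classical
  haveI : Module.Finite F V := Module.Finite.of_finite
  by_cases hV : Nontrivial V
  swap
  · intro g _
    rw [not_nontrivial_iff_subsingleton] at hV
    ext v
    exact Subsingleton.elim _ _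
  by_cases hU : ∃ U : Submodule F V, (∀ g : P, ∀ u ∈ U, ρ g u ∈ U) ∧ U ≠ ⊥ ∧ U ≠ ⊤
  · obtain ⟨U, hinv, hb, ht⟩ := hU
    have hcard : (Nat.card P : F) ≠ 0 := by
      obtain ⟨k, hk⟩ := IsPGroup.iff_card.1 hP
      rw [hk]
      push_cast
      exact pow_ne_zero _ hpF
    obtain ⟨U', hcompl, hinv'⟩ := exists_compl ρ hcard U hinv
    have hsum : finrank F U + finrank F U' = n := by
      rw [← hn]
      exact Submodule.finrank_add_eq_of_isCompl hcompl
    have hb' : U' ≠ ⊥ := by
      rintro rfl
      apply ht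
      have := hcompl.sup_eq_top
      simpa using this
    have h1 : 1 ≤ finrank F U := Submodule.one_le_finrank_iff.2 hb
    have h2 : 1 ≤ finrank F U' := Submodule.one_le_finrank_iff.2 hb'
    intro g hg
    have hg1 := IH (finrank F U) (by omega) U P hP (restrictRep ρ U hinv) rfl g
      (derivedSeries_antitone P (hd (by omega)) hg)
    have hg2 := IH (finrank F U') (by omega) U' P hP (restrictRep ρ U' hinv') rfl g
      (derivedSeries_antitone P (hd (by omega)) hg)
    ext v
    have hv : v ∈ U ⊔ U' := by rw [hcompl.sup_eq_top]; trivial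
    obtain ⟨a, ha, b, hb, rfl⟩ := Submodule.mem_sup.1 hv
    have e1 := congrArg Subtype.val (LinearMap.congr_fun hg1 ⟨a, ha⟩)
    have e2 := congrArg Subtype.val (LinearMap.congr_fun hg2 ⟨b, hb⟩)
    simp only [restrictRep_apply, Module.End.one_apply] at e1 e2
    rw [map_add, e1, e2, Module.End.one_apply]
  · push Not at hU
    have hirr' : ∀ U : Submodule F V, (∀ g : P, ∀ u ∈ U, ρ g u ∈ U) → U = ⊥ ∨ U = ⊤ := by
      intro U hinv
      by_cases h : U = ⊥
      · exact Or.inl h
      · exact Or.inr (hU U hinv h)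
    let ρ' : (P ⧸ ρ.ker) →* (V →ₗ[F] V) := QuotientGroup.lift ρ.ker ρ (fun x hx => hx)
    have hρ' : ∀ g : P, ρ' (g : P ⧸ ρ.ker) = ρ g := fun g => rfl
    have hinj' : Function.Injective ρ' := by
      intro a b
      induction a using QuotientGroup.induction_on with
      | H a =>
        induction b using QuotientGroup.induction_on with
        | H b =>
          intro hab
          rw [hρ', hρ'] at hab
          rw [QuotientGroup.eq]
          rw [MonoidHom.mem_ker, map_mul, ← hab, ← map_mul, inv_mul_cancel, map_one]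
    have hirr'' : ∀ U : Submodule F V, (∀ g : P ⧸ ρ.ker, ∀ u ∈ U, ρ' g u ∈ U) → U = ⊥ ∨ U = ⊤ := by
      intro U hinv
      exact hirr' U fun g w hw => hinv (g : P ⧸ ρ.ker) w hw
    intro g hg
    have hm : (g : P ⧸ ρ.ker) ∈ derivedSeries (P ⧸ ρ.ker) (d n) :=
      map_derivedSeries_le_derivedSeries (QuotientGroup.mk' ρ.ker) (d n)
        (Subgroup.mem_map_of_mem _ hg)
    have := hirr V (P ⧸ ρ.ker) (hP.to_quotient _) ρ' hn hV hinj' hirr'' _ hm
    rw [← hρ', this, map_one]

set_option maxHeartbeats 2000000 in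
/-- The main step: faithful irreducible modules. -/
theorem main_irr {F V P : Type u} [Field F] [Finite F] [AddCommGroup V] [Module F V] [Finite V]
    [Group P] [Finite P] {p : ℕ} [hpf : Fact p.Prime] (hP : IsPGroup p P) (hpF : (p : F) ≠ 0)
    (ρ : P →* (V →ₗ[F] V)) (hV : Nontrivial V) (hinj : Function.Injective ρ)
    (hirr : ∀ U : Submodule F V, (∀ g : P, ∀ u ∈ U, ρ g u ∈ U) → U = ⊥ ∨ U = ⊤)
    (IH : ∀ m < finrank F V, ClaimAt.{u} p m) :
    ∀ g ∈ derivedSeries P (Nat.log 2 (finrank F V) + 1), g = 1 := by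
  classical
  by_cases hab : ∀ a b : P, a * b = b * a
  · intro g hg
    have h2 := derivedSeries_antitone (G := P) (by omega : 1 ≤ Nat.log 2 (finrank F V) + 1) hg
    rw [derivedSeries_one] at h2
    have h3 : commutator P = ⊥ := by
      rw [eq_bot_iff, _root_.commutator_def, commutator_le]
      intro a _ b _
      rw [mem_bot, commutatorElement_eq_one_iff_mul_comm]
      exact hab a b
    rw [h3] at h2
    exact mem_bot.1 h2
  obtain ⟨x, hxc, -, hxz⟩ := exists_x hP hab
  obtain ⟨K, iK, fK, ψ, hψinj, hψc, hψs, ι, hι⟩ := exists_field ρ hV hirr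
  letI : Module K V := Module.compHom V ψ
  have hsmul : ∀ (a : K) (v : V), a • v = ψ a v := fun _ _ => rfl
  letI : Algebra F K := ι.toAlgebra
  haveI : IsScalarTower F K V := IsScalarTower.of_algebraMap_smul (fun c v => by
    show ψ (ι c) v = c • v
    rw [hι, Module.algebraMap_end_apply])
  haveI : Module.Finite F K := Module.Finite.of_finite
  haveI : Module.Finite K V := Module.Finite.of_finite
  have hfr := Module.finrank_mul_finrank F K V
  have hfpos : 0 < finrank F K := Module.finrank_pos
  have hrle : finrank K V ≤ finrank F V := by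
    rw [← hfr]
    exact Nat.le_mul_of_pos_left _ hfpos
  have hpK : (p : K) ≠ 0 := by
    intro h0
    apply hpF
    have : ι (p : F) = 0 := by rw [map_natCast]; exact h0
    exact (map_eq_zero_iff _ ι.injective).1 this
  let ρK : P →* (V →ₗ[K] V) :=
    { toFun := fun h =>
        { toFun := fun w => ρ h w
          map_add' := fun a b => map_add _ _ _
          map_smul' := fun l w => by
            simp only [hsmul, RingHom.id_apply]
            have := LinearMap.congr_fun (hψc l h) w
            exact this.symm }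
      map_one' := by
        ext w
        simp
      map_mul' := fun a b => by
        ext w
        simp }
  have hρK : ∀ h w, ρK h w = ρ h w := fun _ _ => rfl
  let cH : P →* center P := MonoidHom.mk' (fun g => ⟨g * x * g⁻¹ * x⁻¹, hxz g⟩) (by
    intro a b
    apply Subtype.ext
    show a * b * x * (a * b)⁻¹ * x⁻¹ = (a * x * a⁻¹ * x⁻¹) * (b * x * b⁻¹ * x⁻¹)
    have hz : ∀ y : P, (b * x * b⁻¹ * x⁻¹) * y = y * (b * x * b⁻¹ * x⁻¹) :=
      fun y => (mem_center_iff.1 (hxz b) y).symm
    have e1 : a * b * x * (a * b)⁻¹ * x⁻¹ = a * (b * x * b⁻¹ * x⁻¹) * x * a⁻¹ * x⁻¹ := by group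
    have key : ∀ z : P, (∀ y, z * y = y * z) →
        a * z * x * a⁻¹ * x⁻¹ = (a * x * a⁻¹ * x⁻¹) * z := by
      intro z hz
      rw [← hz a, ← hz (a * x * a⁻¹ * x⁻¹)]
      group
    rw [e1]
    exact key _ hz)
  have hcH : ∀ g, ((cH g : center P) : P) = g * x * g⁻¹ * x⁻¹ := fun g => rfl
  let B : Subgroup P := cH.ker
  have hBn : B.Normal := cH.normal_ker
  have hmemB : ∀ h, h ∈ B ↔ h * x = x * h := by
    intro h
    rw [MonoidHom.mem_ker, Subtype.ext_iff, hcH]
    show h * x * h⁻¹ * x⁻¹ = 1 ↔ _
    constructor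
    · intro e
      have : h * x = (h * x * h⁻¹ * x⁻¹) * (x * h) := by group
      rw [this, e, one_mul]
    · intro e
      rw [e]
      group
  have hcomB : commutator P ≤ B := by
    rw [_root_.commutator_def, commutator_le]
    intro a _ b _
    show (a * b * a⁻¹ * b⁻¹) ∈ cH.ker
    rw [MonoidHom.mem_ker, ← commutatorElement_def, map_commutatorElement,
      commutatorElement_eq_one_iff_mul_comm]
    apply Subtype.ext
    exact (mem_center_iff.1 (cH b).2 (cH a : P))
  obtain ⟨g₀, hg₀⟩ : ∃ g₀, cH g₀ ≠ 1 := by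
    by_contra hall
    push Not at hall
    apply hxc
    rw [mem_center_iff]
    intro g
    exact (hmemB g).1 (hall g)
  have hz₀ : ∀ g, ρ ((cH g₀ : center P) : P) * ρ g = ρ g * ρ ((cH g₀ : center P) : P) := by
    intro g
    rw [← map_mul, ← map_mul, (mem_center_iff.1 (cH g₀).2 g).symm]
  obtain ⟨κ, hκ⟩ := hψs _ hz₀
  have hκ0 : κ ≠ 0 := by
    rintro rfl
    obtain ⟨v, hv⟩ := exists_ne (0 : V)
    apply hv
    have h1 := rho_inv_apply ρ ((cH g₀ : center P) : P) v
    rw [← hκ, map_zero] at h1
    simpa using h1.symm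
  have hκ1 : κ ≠ 1 := by
    rintro rfl
    rw [map_one, ← map_one ρ] at hκ
    have := hinj hκ
    apply hg₀
    exact Subtype.ext this.symm
  have hτu : ∀ v, ρK g₀ (ρK x v) = κ • ρK x (ρK g₀ v) := by
    intro v
    rw [hsmul, hκ, hρK, hρK, hρK, hρK, ← Module.End.mul_apply, ← map_mul, ← Module.End.mul_apply,
      ← Module.End.mul_apply, ← map_mul, ← map_mul, hcH]
    congr 2
    group
  have huinj : Function.Injective (ρK x) := by
    intro a b hab
    rw [hρK, hρK] at hab
    have := congrArg (ρ x⁻¹) hab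
    rwa [rho_inv_apply', rho_inv_apply'] at this
  have hτinj : Function.Injective (ρK g₀) := by
    intro a b hab
    rw [hρK, hρK] at hab
    have := congrArg (ρ g₀⁻¹) hab
    rwa [rho_inv_apply', rho_inv_apply'] at this
  have hBp : IsPGroup p B := hP.to_subgroup B
  let ρB : B →* (V →ₗ[K] V) := ρK.comp B.subtype
  have hρB : ∀ (h : B) w, ρB h w = ρ h w := fun _ _ => rfl
  have hcomm : ∀ h, ρB h * ρK x = ρK x * ρB h := by
    intro h
    show ρK (h : P) * ρK x = ρK x * ρK (h : P)
    rw [← map_mul, ← map_mul, (hmemB _).1 h.2]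
  have hIH : ∀ m < finrank K V, ClaimAt.{u} p m := fun m hm => IH m (lt_of_lt_of_le hm hrle)
  have hcore : ∃ (v : V) (m : ℕ), v ≠ 0 ∧ 1 ≤ m ∧ 2 * m ≤ finrank K V ∧
      ∀ h ∈ derivedSeries B (Nat.log 2 m + 1), ρB h v = v := by
    by_cases hev : ∃ (a : K) (v : V), v ≠ 0 ∧ ρK x v = a • v
    · obtain ⟨a, v, hv0, hv⟩ := hev
      exact core_eig hBp hpK ρB (ρK x) hcomm huinj (ρK g₀) hτinj κ hκ0 hκ1 hτu a v hv0 hv hIH
    · push Not at hev
      refine core_noeig hBp hpK ρB (ρK x) hcomm hV ?_ hIH
      intro a v hv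
      by_contra h0
      exact hev a v h0 hv
  obtain ⟨v, m, hv0, hm1, hm2, hm3⟩ := hcore
  have hDn : ((derivedSeries (↥B) (Nat.log 2 m + 1)).map B.subtype).Normal :=
    ConjAct.normal_of_characteristic_of_normal
  have hD := @fix_top F V P _ _ _ _ _ ρ hinj hirr _ hDn v hv0 (by
    rintro _ ⟨h, hh, rfl⟩
    exact hm3 h hh)
  have hlog : Nat.log 2 m + 1 + 1 ≤ Nat.log 2 (finrank F V) + 1 := by
    have h1 : Nat.log 2 (m * 2) = Nat.log 2 m + 1 := Nat.log_mul_base (by norm_num) (by omega)
    have h2 : Nat.log 2 (m * 2) ≤ Nat.log 2 (finrank F V) := Nat.log_mono_right (by omega)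
    omega
  intro g hg
  exact hD g (derivedSeries_succ_le B hcomB _ (derivedSeries_antitone P hlog hg))

theorem claim_all (p : ℕ) [hpf : Fact p.Prime] (n : ℕ) : ClaimAt.{u} p n := by
  induction n using Nat.strong_induction_on with
  | _ n IH =>
    intro F _ _ V _ _ _ P _ _ hP hpF ρ hn
    refine reduce hpF (fun n => Nat.log 2 n + 1) ?_ n ?_ ?_ V P hP ρ hn
    · intro a b hab
      exact Nat.add_le_add_right (Nat.log_mono_right hab) 1
    · intro m hm V P _ _ _ _ _ hP ρ hr
      exact IH m hm F V P hP hpF ρ hr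
    · intro V P _ _ _ _ _ hP ρ hr hV hinj hirr
      have := main_irr hP hpF ρ hV hinj hirr (by rw [hr]; exact IH)
      rw [hr] at this
      exact this

/-- The refined bound, with the order of `q` modulo `p`. -/
theorem outer {F : Type u} [Field F] [Finite F] (q : ℕ) (hq : Nat.card F = q) (p : ℕ)
    [hpf : Fact p.Prime] (hpq : ¬ p ∣ q) (e : ℕ) (he : e = orderOf (q : ZMod p)) (n : ℕ) :
    ∀ (V P : Type u) [AddCommGroup V] [Module F V] [Finite V] [Group P] [Finite P],
      IsPGroup p P → ∀ ρ : P →* (V →ₗ[F] V), finrank F V = n →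
      ∀ g ∈ derivedSeries P (Nat.log 2 (n / e) + 1), ρ g = 1 := by
  classical
  have hp := hpf.out
  have hpF : (p : F) ≠ 0 := by
    intro h0
    apply hpq
    rw [← hq]
    have h1 : addOrderOf (1 : F) = p := by
      apply addOrderOf_eq_prime _ one_ne_zero
      rw [nsmul_one]
      exact h0
    rw [← h1]
    exact addOrderOf_dvd_natCard _
  have hq0 : (q : ZMod p) ≠ 0 := by
    rwa [Ne, ZMod.natCast_eq_zero_iff]
  have hepos : 0 < e := by
    rw [he, orderOf_pos_iff, isOfFinOrder_iff_pow_eq_one]
    exact ⟨p - 1, by have := hp.two_le; omega, ZMod.pow_card_sub_one_eq_one hq0⟩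
  induction n using Nat.strong_induction_on with
  | _ n IH =>
    intro V P _ _ _ _ _ hP ρ hn
    refine reduce hpF (fun n => Nat.log 2 (n / e) + 1) ?_ n ?_ ?_ V P hP ρ hn
    · intro a b hab
      exact Nat.add_le_add_right (Nat.log_mono_right (Nat.div_le_div_right hab)) 1
    · intro m hm V P _ _ _ _ _ hP ρ hr
      exact IH m hm V P hP ρ hr
    · intro V P _ _ _ _ _ hP ρ hr hV hinj hirr
      intro g hg
      by_cases hPt : Nontrivial P
      swap
      · rw [not_nontrivial_iff_subsingleton] at hPt
        exact Subsingleton.elim _ _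
      obtain ⟨K, iK, fK, ψ, hψinj, hψc, hψs, ι, hι⟩ := exists_field ρ hV hirr
      letI : Module K V := Module.compHom V ψ
      have hsmul : ∀ (a : K) (v : V), a • v = ψ a v := fun _ _ => rfl
      letI : Algebra F K := ι.toAlgebra
      haveI : IsScalarTower F K V := IsScalarTower.of_algebraMap_smul (fun c v => by
        show ψ (ι c) v = c • v
        rw [hι, Module.algebraMap_end_apply])
      haveI : Module.Finite F K := Module.Finite.of_finite
      haveI : Module.Finite K V := Module.Finite.of_finite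
      have hfr := Module.finrank_mul_finrank F K V
      have hfpos : 0 < finrank F K := Module.finrank_pos
      have hpK : (p : K) ≠ 0 := by
        intro h0
        apply hpF
        have : ι (p : F) = 0 := by rw [map_natCast]; exact h0
        exact (map_eq_zero_iff _ ι.injective).1 this
      let ρK : P →* (V →ₗ[K] V) :=
        { toFun := fun h =>
            { toFun := fun w => ρ h w
              map_add' := fun a b => map_add _ _ _
              map_smul' := fun l w => by
                simp only [hsmul, RingHom.id_apply]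
                have := LinearMap.congr_fun (hψc l h) w
                exact this.symm }
          map_one' := by
            ext w
            simp
          map_mul' := fun a b => by
            ext w
            simp }
      have hρK : ∀ h w, ρK h w = ρ h w := fun _ _ => rfl
      -- the central element of order `p`
      haveI := hP.center_nontrivial
      have hCp : IsPGroup p (center P) := hP.to_subgroup _
      have hdvd : p ∣ Nat.card (center P) := by
        obtain ⟨k, hk⟩ := IsPGroup.iff_card.1 hCp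
        have h1 : 1 < Nat.card (center P) := Finite.one_lt_card
        rw [hk] at h1 ⊢
        apply dvd_pow_self
        rintro rfl
        simp at h1
      obtain ⟨z, hz⟩ := exists_prime_orderOf_dvd_card' p hdvd
      have hzo : orderOf (z : P) = p := by rw [Subgroup.orderOf_coe, hz]
      have hz₀ : ∀ g, ρ (z : P) * ρ g = ρ g * ρ (z : P) := by
        intro g
        rw [← map_mul, ← map_mul, (mem_center_iff.1 z.2 g).symm]
      obtain ⟨a, ha⟩ := hψs _ hz₀
      have hap : a ^ p = 1 := by
        apply hψinj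
        rw [map_pow, ha, ← map_pow, map_one, ← map_one ρ, ← hzo, pow_orderOf_eq_one]
      have ha1 : a ≠ 1 := by
        rintro rfl
        rw [map_one, ← map_one ρ] at ha
        have h1 := hinj ha
        rw [← h1, orderOf_one] at hzo
        exact hp.one_lt.ne hzo
      have hao : orderOf a = p := orderOf_eq_prime hap ha1
      have ha0 : a ≠ 0 := by
        rintro rfl
        rw [zero_pow hp.ne_zero] at hap
        exact zero_ne_one hap
      -- `p` divides `|K| - 1`
      let au : Kˣ := Units.mk0 a ha0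
      have hauo : orderOf au = p := by
        rw [← hao, ← orderOf_units]
        rfl
      have hpd : p ∣ Nat.card K - 1 := by
        rw [← hauo, ← Nat.card_units]
        exact orderOf_dvd_natCard au
      -- cardinality of `K`
      have hKcard : Nat.card K = q ^ finrank F K := by
        rw [← hq]
        exact Module.natCard_eq_pow_finrank
      have hK1 : 1 ≤ Nat.card K := Nat.card_pos
      have hzm : (q : ZMod p) ^ finrank F K = 1 := by
        have h1 : ((Nat.card K : ℕ) : ZMod p) = ((1 : ℕ) : ZMod p) := by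
          rw [ZMod.natCast_eq_natCast_iff']
          have : Nat.card K = (Nat.card K - 1) + 1 := by omega
          rw [this]
          obtain ⟨c, hc⟩ := hpd
          rw [hc]
          simp [Nat.add_mod]
        rw [hKcard] at h1
        push_cast at h1
        exact h1
      have hedvd : e ∣ finrank F K := by
        rw [he]
        exact orderOf_dvd_of_pow_eq_one hzm
      have hele : e ≤ finrank F K := Nat.le_of_dvd hfpos hedvd
      have hm0 : finrank K V ≤ n / e := by
        rw [Nat.le_div_iff_mul_le hepos, ← hr, ← hfr, mul_comm]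
        exact Nat.mul_le_mul_right _ hele
      have hlog : Nat.log 2 (finrank K V) + 1 ≤ Nat.log 2 (n / e) + 1 :=
        Nat.add_le_add_right (Nat.log_mono_right hm0) 1
      have h2 := claim_all.{u} p (finrank K V) K V P hP hpK ρK rfl g (derivedSeries_antitone P hlog hg)
      apply hinj
      rw [map_one]
      ext v
      have := LinearMap.congr_fun h2 v
      simpa [hρK] using this

/-- The final statement, for subgroups of `GL_n(F)`. -/
theorem gl_derived {F : Type u} [Field F] [Fintype F] (q : ℕ) (hF : Fintype.card F = q) (p : ℕ)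
    [Fact p.Prime] (hpq : ¬ p ∣ q) (n e : ℕ) (he : e = orderOf (q : ZMod p))
    (P : Subgroup (GL (Fin n) F)) (hP : IsPGroup p P) :
    derivedSeries ↥P (Nat.log 2 (n / e) + 1) = ⊥ := by
  classical
  let ρ : ↥P →* ((Fin n → F) →ₗ[F] (Fin n → F)) :=
    { toFun := fun g => Matrix.toLin' ((g : GL (Fin n) F) : Matrix (Fin n) (Fin n) F)
      map_one' := by
        simp
        rfl
      map_mul' := fun a b => by simp [Matrix.toLin'_mul]; rfl }
  have hinj : Function.Injective ρ := by
    intro a b hab
    apply Subtype.ext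
    apply Units.ext
    exact Matrix.toLin'.injective hab
  have hq : Nat.card F = q := by rw [Nat.card_eq_fintype_card, hF]
  have := outer q hq p hpq e he n (Fin n → F) (↥P) hP ρ (Module.finrank_fin_fun F)
  rw [eq_bot_iff]
  intro g hg
  rw [mem_bot]
  apply hinj
  rw [map_one]
  exact this g hg

end Cfsg.Agent.Lib.Struct.LinDerived
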