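import Cfsg.Agent.Lib.Struct.Basic
import Cfsg.Agent.Lib.Transfer.Frobenius
import Cfsg.Agent.Lib.Coprime.Conj

/-!
# Alperin's fusion theorem, group form

An equivalence relation on `G` which identifies `x` with `g x g⁻¹` when `g` normalizes the Sylow
subgroup `P`, and with `w x w⁻¹` when `x` is in a tame intersection `P ∩ Q` and `w` is a `p`-element of
`N(P ∩ Q)`, identifies all the `G`-conjugate elements of `P`.
-/

set_option autoImplicit false

namespace Cfsg.Agent.Lib.Struct

open Subgroup Cfsg.Agent.Lib.Transfer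

variable {G : Type*} [Group G] [Finite G] {p : ℕ} [hp : Fact p.Prime]

/-- The domain of the conjugation by `g` inside `P`. -/
def domOf (P : Subgroup G) (g : G) : Subgroup G := P ⊓ P.comap (MulAut.conj g).toMonoidHom

theorem mem_domOf {P : Subgroup G} {g x : G} : x ∈ domOf P g ↔ x ∈ P ∧ g * x * g⁻¹ ∈ P := Iff.rfl

omit hp in
theorem card_lt_of_lt' {H K : Subgroup G} (h : H < K) : Nat.card H < Nat.card K := by
  have h1 := card_inf_mul_relIndex H K
  rw [inf_of_le_left h.le] at h1
  have h2 : H.relIndex K ≠ 1 := by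
    intro h3
    exact h.not_ge (Subgroup.relIndex_eq_one.mp h3)
  have h3 : H.relIndex K ≠ 0 := by
    intro h4
    rw [h4, mul_zero] at h1
    exact Nat.card_pos.ne' h1.symm
  have h4 : 0 < Nat.card H := Nat.card_pos
  have h5 : 2 ≤ H.relIndex K := by omega
  rw [← h1]
  nlinarith

theorem card_lt_inf_normalizer {P D : Subgroup G} (hP : IsPGroup p P) (hD : D ≤ P) (hne : D ≠ P) :
    Nat.card D < Nat.card (P ⊓ normalizer (D : Set G) : Subgroup G) := by
  obtain ⟨y, hyP, hyN, hyD⟩ := exists_mem_normalizer_of_ne P D hP hD hne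
  refine card_lt_of_lt' (lt_of_le_of_ne (le_inf hD Subgroup.le_normalizer) ?_)
  intro h
  exact hyD (h ▸ (⟨hyP, hyN⟩ : y ∈ P ⊓ normalizer (D : Set G)))

theorem frat_subgroup {X : Type*} [Group X] [Finite X] (T : Sylow p X) (S : Subgroup X)
    (h1 : ∀ x : X, (∃ j, orderOf x = p ^ j) → x ∈ S)
    (h2 : normalizer ((T : Subgroup X) : Set X) ≤ S) : S = ⊤ := by
  have hT : ∀ R : Sylow p X, (R : Subgroup X) ≤ S := by
    intro R x hx
    apply h1
    obtain ⟨j, hj⟩ := (IsPGroup.iff_orderOf.mp R.2) ⟨x, hx⟩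
    exact ⟨j, by simpa using hj⟩
  rw [eq_top_iff]
  intro k _
  obtain ⟨h, hh, hq⟩ := exists_mem_smul_eq_of_le T (k • T) S (hT _) (hT _)
  have h3 : h * k ∈ normalizer ((T : Subgroup X) : Set X) := by
    exact Sylow.smul_eq_iff_mem_normalizer.mp (by rw [mul_smul]; exact hq)
  have h4 := h2 h3
  have h5 : k = h⁻¹ * (h * k) := by group
  rw [h5]
  exact S.mul_mem (S.inv_mem hh) h4

theorem isPGroup_subgroupOf {P N : Subgroup G} (hP : IsPGroup p P) :
    IsPGroup p ((P ⊓ N).subgroupOf N) :=
  (hP.to_le inf_le_left).comap_of_injective N.subtype N.subtype_injective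

theorem exists_move (P : Sylow p G) (D : Subgroup G) :
    ∃ a : G, ((P : Subgroup G) ⊓ normalizer (D : Set G) ≤ domOf (P : Subgroup G) a) ∧
      ¬ p ∣ ((P : Subgroup G) ⊓ normalizer ((D.map (MulAut.conj a).toMonoidHom : Subgroup G) : Set G)).relIndex
        (normalizer ((D.map (MulAut.conj a).toMonoidHom : Subgroup G) : Set G)) := by
  set N := normalizer (D : Set G) with hN
  have hpT : IsPGroup p (((P : Subgroup G) ⊓ N).subgroupOf N) := isPGroup_subgroupOf P.2
  obtain ⟨Q, hQ⟩ := hpT.exists_le_sylow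
  set T : Subgroup G := (Q : Subgroup N).map N.subtype with hT
  have hpT2 : IsPGroup p T := Q.2.map _
  obtain ⟨U, hU⟩ := hpT2.exists_le_sylow
  obtain ⟨a, ha⟩ := MulAction.exists_smul_eq G U P
  have hconj : ∀ y ∈ U, a * y * a⁻¹ ∈ P := by
    intro y hy
    rw [← ha]
    exact conj_mem_smul_sylow hy
  have hPT : (P : Subgroup G) ⊓ N ≤ T := by
    intro y hy
    exact ⟨⟨y, hy.2⟩, hQ hy, rfl⟩
  refine ⟨a, ?_, ?_⟩
  · intro y hy
    exact ⟨hy.1, hconj y (hU (hPT hy))⟩
  · have hN' : normalizer ((D.map (MulAut.conj a).toMonoidHom : Subgroup G) : Set G) =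
        N.map (MulAut.conj a).toMonoidHom := (map_equiv_normalizer_eq D (MulAut.conj a)).symm
    rw [hN']
    set A := T.map (MulAut.conj a).toMonoidHom with hA
    have hAle : A ≤ (P : Subgroup G) ⊓ N.map (MulAut.conj a).toMonoidHom := by
      rintro _ ⟨t, ht, rfl⟩
      refine ⟨hconj t (hU ht), ⟨t, ?_, rfl⟩⟩
      obtain ⟨t', -, rfl⟩ := ht
      exact t'.2
    have hTN : T ≤ N := Subgroup.map_subtype_le _
    have hidx : A.relIndex (N.map (MulAut.conj a).toMonoidHom) = T.relIndex N :=
      Subgroup.relIndex_map_map_of_injective _ _ (MulAut.conj a).injective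
    have hT2 : T.relIndex N = (Q : Subgroup N).index := by
      show (Subgroup.comap N.subtype ((Q : Subgroup N).map N.subtype)).index = _
      rw [Subgroup.comap_map_eq_self_of_injective N.subtype_injective]
    have h3 := Subgroup.relIndex_dvd_of_le_left (N.map (MulAut.conj a).toMonoidHom) hAle
    intro hd
    have h4 := hd.trans h3
    rw [hidx, hT2] at h4
    exact Q.not_dvd_index h4

/-- The Sylow subgroup of a normalizer given by the tameness condition. -/
theorem exists_k (P : Sylow p G) {E E' : Subgroup G} {ψ : G} (hψ : E.map (MulAut.conj ψ).toMonoidHom = E')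
    (hS : ¬ p ∣ ((P : Subgroup G) ⊓ normalizer (E' : Set G)).relIndex (normalizer (E' : Set G))) :
    ∃ k ∈ normalizer (E' : Set G), ∀ y ∈ (P : Subgroup G) ⊓ normalizer (E : Set G),
      k * (ψ * y * ψ⁻¹) * k⁻¹ ∈ P := by
  set N' := normalizer (E' : Set G) with hN'
  have hNe : (normalizer (E : Set G)).map (MulAut.conj ψ).toMonoidHom = N' := by
    rw [hN', ← hψ]
    exact map_equiv_normalizer_eq E (MulAut.conj ψ)
  let T : Sylow p N' := IsPGroup.toSylow (isPGroup_subgroupOf P.2) hS
  have hT : (T : Subgroup N') = ((P : Subgroup G) ⊓ N').subgroupOf N' := rfl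
  set A := ((P : Subgroup G) ⊓ normalizer (E : Set G)).map (MulAut.conj ψ).toMonoidHom with hA
  have hAp : IsPGroup p A := (P.2.to_le inf_le_left).map _
  have hAp' : IsPGroup p (A.subgroupOf N') := hAp.comap_of_injective N'.subtype N'.subtype_injective
  obtain ⟨Q, hQ⟩ := hAp'.exists_le_sylow
  obtain ⟨k, hk⟩ := MulAction.exists_smul_eq N' Q T
  refine ⟨k, k.2, ?_⟩
  intro y hy
  have h1 : ψ * y * ψ⁻¹ ∈ N' := by
    rw [← hNe]
    exact ⟨y, hy.2, rfl⟩
  have h2 : (⟨ψ * y * ψ⁻¹, h1⟩ : N') ∈ A.subgroupOf N' := ⟨y, hy, rfl⟩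
  have h3 := hQ h2
  have h4 : k * ⟨ψ * y * ψ⁻¹, h1⟩ * k⁻¹ ∈ k • Q := conj_mem_smul_sylow h3
  rw [hk] at h4
  have h5 : k * ⟨ψ * y * ψ⁻¹, h1⟩ * k⁻¹ ∈ (T : Subgroup N') := h4
  rw [hT] at h5
  exact h5.1

/-- The **group form of Alperin's fusion theorem**. -/
theorem alperin_rel (P : Sylow p G) (r : G → G → Prop) (hr : Equivalence r)
    (h1 : ∀ g ∈ normalizer ((P : Subgroup G) : Set G), ∀ x ∈ (P : Subgroup G), r x (g * x * g⁻¹))
    (h2 : ∀ (Q : Sylow p G) (w : G),
      ¬ p ∣ ((P : Subgroup G) ⊓ normalizer (((P : Subgroup G) ⊓ (Q : Subgroup G) : Subgroup G) : Set G)).relIndex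
        (normalizer (((P : Subgroup G) ⊓ (Q : Subgroup G) : Subgroup G) : Set G)) →
      ¬ p ∣ ((Q : Subgroup G) ⊓ normalizer (((P : Subgroup G) ⊓ (Q : Subgroup G) : Subgroup G) : Set G)).relIndex
        (normalizer (((P : Subgroup G) ⊓ (Q : Subgroup G) : Subgroup G) : Set G)) →
      w ∈ normalizer (((P : Subgroup G) ⊓ (Q : Subgroup G) : Subgroup G) : Set G) → (∃ k, orderOf w = p ^ k) →
      ∀ x ∈ (P : Subgroup G) ⊓ (Q : Subgroup G), r x (w * x * w⁻¹))
    (g x : G) (hx : x ∈ (P : Subgroup G)) (hgx : g * x * g⁻¹ ∈ (P : Subgroup G)) :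
    r x (g * x * g⁻¹) := by
  suffices main : ∀ (n : ℕ) (g : G), Nat.card P - Nat.card (domOf (P : Subgroup G) g) = n →
      ∀ x ∈ domOf (P : Subgroup G) g, r x (g * x * g⁻¹) from main _ g rfl x ⟨hx, hgx⟩
  intro n
  induction n using Nat.strong_induction_on with
  | _ n ih =>
  intro g hn
  set D := domOf (P : Subgroup G) g with hD
  have hcardle : ∀ g' : G, Nat.card (domOf (P : Subgroup G) g') ≤ Nat.card P := fun g' =>
    Subgroup.card_le_of_le inf_le_left
  have IH : ∀ g' : G, Nat.card D < Nat.card (domOf (P : Subgroup G) g') →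
      ∀ x ∈ domOf (P : Subgroup G) g', r x (g' * x * g'⁻¹) := by
    intro g' hlt
    refine ih _ ?_ g' rfl
    have := hcardle g'
    omega
  by_cases hDP : D = P
  · have hg : g ∈ normalizer ((P : Subgroup G) : Set G) := by
      refine Cfsg.Agent.Lib.Coprime.mem_normalizer_of_conj_le _ _ ?_
      intro y hy
      have : y ∈ D := by rw [hDP]; exact hy
      exact this.2
    intro x hx
    exact h1 g hg x hx.1
  have hDle : D ≤ P := inf_le_left
  have hDlt : Nat.card D < Nat.card P := card_lt_of_lt' (lt_of_le_of_ne hDle hDP)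
  have hcm : ∀ (E : Subgroup G) (a : G), Nat.card (E.map (MulAut.conj a).toMonoidHom) = Nat.card E := by
    intro E a
    exact Nat.card_congr (Subgroup.equivMapOfInjective _ _ (MulAut.conj a).injective).symm.toEquiv
  -- local step
  have K : ∀ E : Subgroup G, E ≤ P → Nat.card E = Nat.card D →
      ¬ p ∣ ((P : Subgroup G) ⊓ normalizer (E : Set G)).relIndex (normalizer (E : Set G)) →
      ∀ k ∈ normalizer (E : Set G), ∀ z ∈ E, r z (k * z * k⁻¹) := by
    intro E hEP hEc hES
    have hEne : E ≠ P := by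
      intro h
      rw [h] at hEc
      omega
    have hElt := card_lt_inf_normalizer P.2 hEP hEne
    set N := normalizer (E : Set G) with hN
    have hmemN : ∀ k ∈ N, ∀ z ∈ E, k * z * k⁻¹ ∈ E := by
      intro k hk z hz
      exact (Subgroup.mem_normalizer_iff.mp hk z).mp hz
    let S : Subgroup N :=
      { carrier := {k | ∀ z ∈ E, r z ((k : G) * z * (k : G)⁻¹)}
        one_mem' := by
          intro z _
          simpa using hr.refl z
        mul_mem' := by
          intro a b ha hb z hz
          have h3 := hb z hz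
          have h4 := ha _ (hmemN b b.2 z hz)
          have e : ((a * b : N) : G) * z * ((a * b : N) : G)⁻¹ =
              (a : G) * ((b : G) * z * (b : G)⁻¹) * (a : G)⁻¹ := by
            simp only [Subgroup.coe_mul]
            group
          rw [e]
          exact hr.trans h3 h4
        inv_mem' := by
          intro a ha z hz
          have h3 := ha _ (hmemN _ (a⁻¹).2 z hz)
          have e : (a : G) * (((a⁻¹ : N) : G) * z * ((a⁻¹ : N) : G)⁻¹) * (a : G)⁻¹ = z := by
            simp only [Subgroup.coe_inv]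
            group
          rw [e] at h3
          exact hr.symm h3 }
    let T : Sylow p N := IsPGroup.toSylow (isPGroup_subgroupOf P.2) hES
    have hT : (T : Subgroup N) = ((P : Subgroup G) ⊓ N).subgroupOf N := rfl
    have hS : S = ⊤ := by
      refine frat_subgroup T S ?_ ?_
      · intro w hw z hz
        have hw' : ∃ j, orderOf (w : G) = p ^ j := by
          obtain ⟨j, hj⟩ := hw
          exact ⟨j, by rwa [Subgroup.orderOf_coe]⟩
        have hEdom : E ≤ domOf (P : Subgroup G) (w : G) := fun y hy => ⟨hEP hy, hEP (hmemN _ w.2 y hy)⟩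
        by_cases hlt : Nat.card D < Nat.card (domOf (P : Subgroup G) (w : G))
        · exact IH _ hlt z (hEdom hz)
        · have hEeq : E = domOf (P : Subgroup G) (w : G) := by
            refine Subgroup.eq_of_le_of_card_ge hEdom ?_
            rw [hEc]
            omega
          -- the Sylow subgroup `Q = w⁻¹ P w`
          set Q : Sylow p G := (w : G)⁻¹ • P with hQ
          have hinf : (P : Subgroup G) ⊓ (Q : Subgroup G) = E := by
            rw [hEeq]
            ext y
            simp only [Subgroup.mem_inf]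
            have : y ∈ (Q : Subgroup G) ↔ (w : G) * y * (w : G)⁻¹ ∈ (P : Subgroup G) := by
              rw [hQ]
              change y ∈ (w : G)⁻¹ • P ↔ _
              rw [mem_smul_sylow, inv_inv]
              rfl
            rw [this]
            rfl
          have hQS : ¬ p ∣ ((Q : Subgroup G) ⊓ N).relIndex N := by
            have hmap : ((P : Subgroup G) ⊓ N).map (MulAut.conj (w : G)⁻¹).toMonoidHom = (Q : Subgroup G) ⊓ N := by
              ext y
              rw [Cfsg.Agent.Lib.Struct.mem_map_conj, Subgroup.mem_inf, Subgroup.mem_inf, inv_inv]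
              have h5 : y ∈ (Q : Subgroup G) ↔ (w : G) * y * (w : G)⁻¹ ∈ (P : Subgroup G) := by
                rw [hQ]
                change y ∈ (w : G)⁻¹ • P ↔ _
                rw [mem_smul_sylow, inv_inv]
                rfl
              rw [h5]
              constructor
              · rintro ⟨h6, h7⟩
                refine ⟨h6, ?_⟩
                have := N.mul_mem (N.mul_mem (N.inv_mem w.2) h7) w.2
                have e : (w : G)⁻¹ * ((w : G) * y * (w : G)⁻¹) * (w : G) = y := by group
                rwa [e] at this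
              · rintro ⟨h6, h7⟩
                exact ⟨h6, N.mul_mem (N.mul_mem w.2 h7) (N.inv_mem w.2)⟩
            have hmapN : N.map (MulAut.conj (w : G)⁻¹).toMonoidHom = N := by
              ext y
              rw [Cfsg.Agent.Lib.Struct.mem_map_conj, inv_inv]
              constructor
              · intro h6
                have := N.mul_mem (N.mul_mem (N.inv_mem w.2) h6) w.2
                have e : (w : G)⁻¹ * ((w : G) * y * (w : G)⁻¹) * (w : G) = y := by group
                rwa [e] at this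
              · intro h6
                exact N.mul_mem (N.mul_mem w.2 h6) (N.inv_mem w.2)
            have hrel := Subgroup.relIndex_map_map_of_injective ((P : Subgroup G) ⊓ N) N
              (f := (MulAut.conj (w : G)⁻¹).toMonoidHom) (MulAut.conj (w : G)⁻¹).injective
            rw [hmap, hmapN] at hrel
            rw [hrel]
            exact hES
          have hz' : z ∈ (P : Subgroup G) ⊓ (Q : Subgroup G) := by
            rw [hinf]; exact hz
          refine h2 Q (w : G) ?_ ?_ ?_ hw' z hz'
          · rw [hinf]; exact hES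
          · rw [hinf]; exact hQS
          · rw [hinf]; exact w.2
      · intro v hv z hz
        have hvT : ((P : Subgroup G) ⊓ N) ≤ domOf (P : Subgroup G) (v : G) := by
          intro y hy
          refine ⟨hy.1, ?_⟩
          have h3 : (⟨y, hy.2⟩ : N) ∈ (T : Subgroup N) := by
            rw [hT]; exact hy
          have h4 := (Subgroup.mem_normalizer_iff.mp hv _).mp h3
          rw [hT] at h4
          exact h4.1
        have h5 : Nat.card D < Nat.card (domOf (P : Subgroup G) (v : G)) := by
          have := Subgroup.card_le_of_le hvT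
          omega
        exact IH _ h5 z (hvT ⟨hEP hz, Subgroup.le_normalizer hz⟩)
    intro k hk z hz
    have : (⟨k, hk⟩ : N) ∈ S := by rw [hS]; trivial
    exact this z hz
  -- move `D` and its image
  obtain ⟨a, ha1, ha2⟩ := exists_move P D
  set D' := D.map (MulAut.conj g).toMonoidHom with hD'
  have hD'le : D' ≤ P := by
    rintro _ ⟨y, hy, rfl⟩
    exact hy.2
  have hD'c : Nat.card D' = Nat.card D := hcm D g
  have hD'ne : D' ≠ P := by
    intro h
    rw [h] at hD'c
    omega
  obtain ⟨b, hb1, hb2⟩ := exists_move P D'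
  set E := D.map (MulAut.conj a).toMonoidHom with hE
  set E' := D'.map (MulAut.conj b).toMonoidHom with hE'
  have hEc : Nat.card E = Nat.card D := hcm D a
  have hE'c : Nat.card E' = Nat.card D := (hcm D' b).trans hD'c
  have hDa : Nat.card D < Nat.card (domOf (P : Subgroup G) a) :=
    (card_lt_inf_normalizer P.2 hDle hDP).trans_le (Subgroup.card_le_of_le ha1)
  have hDb : Nat.card D < Nat.card (domOf (P : Subgroup G) b) :=
    (hD'c ▸ card_lt_inf_normalizer P.2 hD'le hD'ne).trans_le (Subgroup.card_le_of_le hb1)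
  have hEP : E ≤ P := by
    rintro _ ⟨y, hy, rfl⟩
    exact (ha1 ⟨hDle hy, Subgroup.le_normalizer hy⟩).2
  have hE'P : E' ≤ P := by
    rintro _ ⟨y, hy, rfl⟩
    exact (hb1 ⟨hD'le hy, Subgroup.le_normalizer hy⟩).2
  have hEne : E ≠ P := by
    intro h
    rw [h] at hEc
    omega
  set ψ := b * g * a⁻¹ with hψ
  have hψE : E.map (MulAut.conj ψ).toMonoidHom = E' := by
    rw [hE, hE', hD', Subgroup.map_map, Subgroup.map_map]
    congr 1
    ext y
    simp [hψ, MulAut.conj_apply]
    group
  obtain ⟨k, hk1, hk2⟩ := exists_k P hψE hb2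
  have hdomψ : (P : Subgroup G) ⊓ normalizer (E : Set G) ≤ domOf (P : Subgroup G) (k * ψ) := by
    intro y hy
    refine mem_domOf.mpr ⟨hy.1, ?_⟩
    have := hk2 y hy
    have e : k * ψ * y * (k * ψ)⁻¹ = k * (ψ * y * ψ⁻¹) * k⁻¹ := by group
    rw [e]
    exact this
  have hDψ : Nat.card D < Nat.card (domOf (P : Subgroup G) (k * ψ)) :=
    (hEc ▸ card_lt_inf_normalizer P.2 hEP hEne).trans_le (Subgroup.card_le_of_le hdomψ)
  intro x hx
  have hxP : x ∈ (P : Subgroup G) := hx.1
  have hxE : a * x * a⁻¹ ∈ E := ⟨x, hx, rfl⟩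
  have s1 : r x (a * x * a⁻¹) := IH a hDa x (ha1 ⟨hxP, Subgroup.le_normalizer hx⟩)
  have s2 : r (a * x * a⁻¹) ((k * ψ) * (a * x * a⁻¹) * (k * ψ)⁻¹) :=
    IH _ hDψ _ (hdomψ ⟨hEP hxE, Subgroup.le_normalizer hxE⟩)
  have hyD' : g * x * g⁻¹ ∈ D' := ⟨x, hx, rfl⟩
  have s3 : r (g * x * g⁻¹) (b * (g * x * g⁻¹) * b⁻¹) :=
    IH b hDb _ (hb1 ⟨hD'le hyD', Subgroup.le_normalizer hyD'⟩)
  have hzE' : b * (g * x * g⁻¹) * b⁻¹ ∈ E' := ⟨_, hyD', rfl⟩
  have s4 : r (b * (g * x * g⁻¹) * b⁻¹) (k * (b * (g * x * g⁻¹) * b⁻¹) * k⁻¹) :=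
    K E' hE'P hE'c hb2 k hk1 _ hzE'
  have e : (k * ψ) * (a * x * a⁻¹) * (k * ψ)⁻¹ = k * (b * (g * x * g⁻¹) * b⁻¹) * k⁻¹ := by
    rw [hψ]; group
  rw [e] at s2
  exact hr.trans (hr.trans s1 s2) (hr.trans (hr.symm s4) (hr.symm s3))

end Cfsg.Agent.Lib.Struct
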