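import Mathlib
import Cfsg.Agent.Lib.Struct.Blackburn
import Cfsg.Agent.Lib.Fusion2.Meta2

/-!
# Metacyclic `2`-groups with a non-abelian subgroup of order `8`.
-/

set_option autoImplicit false

namespace Cfsg.Agent.Lib.Struct.Blackburn

open Subgroup Cfsg

section classify

variable {S : Type*} [Group S] [Finite S]

/-- The main structural step. -/
theorem exists_gen (h2 : IsPGroup 2 S) (hm : IsMetacyclic S) (E : Subgroup S) (hE8 : Nat.card E = 8)
    (hEc : ∃ a ∈ E, ∃ b ∈ E, a * b ≠ b * a) :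
    ∃ ν e : S, (∀ z : S, z ∈ zpowers ν ∨ z * e ∈ zpowers ν) ∧ e ∉ zpowers ν ∧ e * e ∈ zpowers ν ∧
      (∃ u : ℕ, e * ν * e⁻¹ = ν ^ u ∧ u % 4 = 3) ∧ 4 ∣ orderOf ν := by
  classical
  haveI : Fact (Nat.Prime 2) := ⟨Nat.prime_two⟩
  obtain ⟨N, hNn, hNc, hQc⟩ := hm
  set D := E ⊓ N with hD
  have hDE : D ≤ E := inf_le_left
  have hDN : D ≤ N := inf_le_right
  -- the Sylow structure of `E`: an element generating modulo `D`
  let φ : E →* S ⧸ N := (QuotientGroup.mk' N).comp E.subtype
  have hφ1 : ∀ g : E, φ g = 1 ↔ (g : S) ∈ N := by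
    intro g
    show QuotientGroup.mk' N (g : S) = 1 ↔ _
    rw [← MonoidHom.mem_ker, QuotientGroup.ker_mk']
  haveI : IsCyclic φ.range := Subgroup.isCyclic _
  obtain ⟨⟨_, y₀, rfl⟩, hy₀⟩ := IsCyclic.exists_generator (α := φ.range)
  have hgen : ∀ g : E, ∃ k : ℤ, (g : S) * ((y₀ : S) ^ k)⁻¹ ∈ D := by
    intro g
    obtain ⟨k, hk⟩ := hy₀ ⟨φ g, g, rfl⟩
    refine ⟨k, ?_, ?_⟩
    · exact E.mul_mem g.2 (E.inv_mem (E.zpow_mem y₀.2 k))
    · have h1 : φ (g * (y₀ ^ k)⁻¹) = 1 := by
        have h3 : (φ y₀) ^ k = φ g := by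
          have := congrArg Subtype.val hk
          simpa using this
        rw [map_mul, map_inv, map_zpow, h3, mul_inv_cancel]
      have h3 := (hφ1 _).1 h1
      simpa using h3
  -- the commutativity of `N`
  have hNcomm : ∀ a ∈ N, ∀ b ∈ N, a * b = b * a := by
    intro a ha b hb
    have := (IsCyclic.commutative (α := N)).is_comm.comm (⟨a, ha⟩ : N) ⟨b, hb⟩
    exact congrArg Subtype.val this
  obtain ⟨a₁, ha₁, b₁, hb₁, hab₁⟩ := hEc
  -- if `y₀` commutes with `D` then `E` is abelian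
  have hnoncomm : ¬ ∀ d ∈ D, d * y₀ = y₀ * d := by
    intro hcomm
    apply hab₁
    obtain ⟨k, hk⟩ := hgen ⟨a₁, ha₁⟩
    obtain ⟨l, hl⟩ := hgen ⟨b₁, hb₁⟩
    simp only at hk hl
    set d₁ := a₁ * ((y₀ : S) ^ k)⁻¹ with hd₁
    set d₂ := b₁ * ((y₀ : S) ^ l)⁻¹ with hd₂
    have e1 : a₁ = d₁ * (y₀ : S) ^ k := by rw [hd₁]; group
    have e2 : b₁ = d₂ * (y₀ : S) ^ l := by rw [hd₂]; group
    have h1 : Commute d₁ d₂ := hNcomm _ (hDN hk) _ (hDN hl)
    have h3 : Commute d₁ ((y₀ : S) ^ l) := ((show Commute d₁ (y₀ : S) from hcomm _ hk).zpow_right l)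
    have h4 : Commute ((y₀ : S) ^ k) d₂ := ((show Commute d₂ (y₀ : S) from hcomm _ hl).zpow_right k).symm
    have h5 : Commute ((y₀ : S) ^ k) ((y₀ : S) ^ l) := (Commute.refl _).zpow_zpow k l
    rw [e1, e2]
    exact ((h1.mul_right h3).mul_left (h4.mul_right h5)).eq
  -- the order of `D`
  have hDcard : Nat.card D = 4 := by
    have h1 : Nat.card D ∣ 8 := by
      rw [← hE8]
      exact Subgroup.card_dvd_of_le hDE
    have h3 : Nat.card D ≠ 8 := by
      intro h
      have hDeq : D = E := Subgroup.eq_of_le_of_card_ge hDE (by omega)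
      apply hab₁
      have hEN : E ≤ N := by
        rw [← hDeq]
        exact hDN
      exact hNcomm _ (hEN ha₁) _ (hEN hb₁)
    have h4 : Nat.card D ≠ 1 := by
      intro h
      apply hnoncomm
      have hbot := Subgroup.eq_bot_of_card_eq D h
      intro d hd
      rw [hbot, Subgroup.mem_bot] at hd
      rw [hd]
      simp
    have h5 : Nat.card D ≠ 2 := by
      intro h
      apply hnoncomm
      intro d hd
      -- normal subgroup of order 2 of `E`
      have hy : (y₀ : S) * d * (y₀ : S)⁻¹ ∈ D :=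
        ⟨E.mul_mem (E.mul_mem y₀.2 (hDE hd)) (E.inv_mem y₀.2), hNn.conj_mem _ (hDN hd) _⟩
      by_cases hd1 : d = 1
      · rw [hd1]
        simp
      have hall : ∀ t ∈ D, t = 1 ∨ t = d := by
        intro t ht
        by_contra hcon
        push Not at hcon
        haveI := Fintype.ofFinite D
        let d' : D := ⟨d, hd⟩
        let t' : D := ⟨t, ht⟩
        have h6 : ({1, d', t'} : Finset D).card = 3 := by
          apply Finset.card_eq_three.mpr
          refine ⟨1, d', t', ?_, ?_, ?_, rfl⟩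
          · intro h
            apply hd1
            exact (congrArg Subtype.val h).symm
          · intro h
            apply hcon.1
            exact (congrArg Subtype.val h).symm
          · intro h
            apply hcon.2
            exact (congrArg Subtype.val h).symm
        have h7 := Finset.card_le_univ ({1, d', t'} : Finset D)
        rw [h6, ← Nat.card_eq_fintype_card, h] at h7
        omega
      rcases hall _ hy with h6 | h6
      · exfalso
        apply hd1
        have h7 : (y₀ : S) * d = (y₀ : S) := by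
          have := congrArg (· * (y₀ : S)) h6
          simpa using this
        simpa using h7
      · have h7 : (y₀ : S) * d = d * y₀ := by
          have := congrArg (· * (y₀ : S)) h6
          simpa using this
        exact h7.symm
    have h6 : Nat.card D ∈ Nat.divisors 8 := Nat.mem_divisors.mpr ⟨h1, by norm_num⟩
    have h7 : Nat.divisors 8 = {1, 2, 4, 8} := by decide
    rw [h7] at h6
    simp only [Finset.mem_insert, Finset.mem_singleton] at h6
    omega
  -- generator of `D`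
  haveI hDcyc : IsCyclic D := by
    have e : D ≃* (D.subgroupOf N) := (Subgroup.subgroupOfEquivOfLe hDN).symm
    haveI : IsCyclic (D.subgroupOf N) := Subgroup.isCyclic _
    exact isCyclic_of_surjective e.symm e.symm.surjective
  obtain ⟨a', ha'⟩ := IsCyclic.exists_generator (α := D)
  set a : S := (a' : S) with ha
  have haD : a ∈ D := a'.2
  have hao : orderOf a = 4 := by
    rw [ha, Subgroup.orderOf_coe, orderOf_eq_card_of_forall_mem_zpowers ha', hDcard]
  have hDz : ∀ d ∈ D, d ∈ zpowers a := by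
    intro d hd
    obtain ⟨k, hk⟩ := ha' ⟨d, hd⟩
    refine ⟨k, ?_⟩
    have := congrArg Subtype.val hk
    simpa using this
  have ha4 : a ^ 4 = 1 := by
    rw [← hao]
    exact pow_orderOf_eq_one a
  -- all conjugates of `a` are `a^{±1}`
  have hconj : ∀ g : S, g * a * g⁻¹ = a ∨ g * a * g⁻¹ = a⁻¹ := by
    intro g
    have haN : a ∈ N := hDN haD
    have hgN : g * a * g⁻¹ ∈ N := hNn.conj_mem _ haN g
    have hgo : orderOf (g * a * g⁻¹) = 4 := by rw [Struct.orderOf_conj, hao]
    have hg4 : (g * a * g⁻¹) ^ 4 = 1 := by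
      rw [← hgo]
      exact pow_orderOf_eq_one _
    haveI : IsCyclic N := hNc
    have hmem : (⟨g * a * g⁻¹, hgN⟩ : N) ∈ zpowers (⟨a, haN⟩ : N) := by
      apply Cfsg.Agent.Lib.Fusion2.cyc_mem (Q := N) (zpowers (⟨a, haN⟩ : N))
      rw [Nat.card_zpowers]
      have h1 : orderOf (⟨a, haN⟩ : N) = 4 := by
        rw [← hao]
        exact Subgroup.orderOf_mk _ _
      rw [h1]
      apply Subtype.ext
      exact hg4
    obtain ⟨k, hk⟩ := hmem
    have hk' : a ^ k = g * a * g⁻¹ := congrArg Subtype.val hk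
    have hmod : (4 : ℤ) ≠ 0 := by norm_num
    have hk2 : a ^ k = a ^ (k % 4) := by
      have h1 : (a : S) ^ (4 : ℤ) = 1 := by exact_mod_cast ha4
      conv_lhs => rw [← Int.mul_ediv_add_emod k 4, zpow_add, zpow_mul, h1, one_zpow, one_mul]
    have hr : k % 4 = 0 ∨ k % 4 = 1 ∨ k % 4 = 2 ∨ k % 4 = 3 := by omega
    rcases hr with h0 | h0 | h0 | h0
    · exfalso
      rw [hk2, h0, zpow_zero] at hk'
      rw [← hk', orderOf_one] at hgo
      omega
    · left
      rw [← hk', hk2, h0, zpow_one]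
    · exfalso
      rw [hk2, h0] at hk'
      have h3 : (g * a * g⁻¹) ^ 2 = 1 := by
        rw [← hk']
        have : (a ^ (2 : ℤ)) ^ 2 = a ^ 4 := by
          rw [← zpow_natCast, ← zpow_mul]
          norm_cast
        rw [this, ha4]
      have h4 := orderOf_dvd_of_pow_eq_one h3
      rw [hgo] at h4
      omega
    · right
      rw [← hk', hk2, h0]
      apply eq_inv_of_mul_eq_one_left
      have : (a : S) ^ (3 : ℤ) * a = a ^ 4 := by
        rw [← zpow_natCast a 4, ← zpow_add_one]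
        norm_num
      rw [this, ha4]
  have hsqcomm : ∀ g : S, g ^ 2 * a * (g ^ 2)⁻¹ = a := by
    intro g
    have h1 : g ^ 2 * a * (g ^ 2)⁻¹ = g * (g * a * g⁻¹) * g⁻¹ := by
      rw [pow_two]
      group
    rw [h1]
    rcases hconj g with h3 | h3
    · rw [h3, h3]
    · rw [h3]
      have h4 : g * a⁻¹ * g⁻¹ = (g * a * g⁻¹)⁻¹ := by group
      rw [h4, h3, inv_inv]
  -- element outside
  obtain ⟨y, hyE, hyD⟩ : ∃ y ∈ E, y ∉ D := by
    by_contra hcon
    push Not at hcon
    have : E ≤ D := hcon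
    have h1 := Subgroup.card_le_of_le this
    omega
  have hyN : y ∉ N := fun h => hyD ⟨hyE, h⟩
  have hidx : (D.subgroupOf E).index = 2 := by
    have h1 := Subgroup.card_mul_index (D.subgroupOf E)
    have h3 : Nat.card (D.subgroupOf E) = Nat.card D :=
      Nat.card_congr (Subgroup.subgroupOfEquivOfLe hDE).toEquiv
    rw [h3, hDcard, hE8] at h1
    omega
  have hy2 : y * y ∈ N := by
    have h1 := Subgroup.mul_mem_iff_of_index_two (a := (⟨y, hyE⟩ : E)) (b := (⟨y, hyE⟩ : E)) hidx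
    have h3 : (⟨y, hyE⟩ : E) * ⟨y, hyE⟩ ∈ D.subgroupOf E := h1.mpr Iff.rfl
    exact hDN h3
  -- `y` inverts `a`
  have hEcover : ∀ g ∈ E, g ∈ D ∨ g * y⁻¹ ∈ D := by
    intro g hg
    by_cases hgD : g ∈ D
    · exact Or.inl hgD
    · right
      have h1 := Subgroup.mul_mem_iff_of_index_two (a := (⟨g, hg⟩ : E)) (b := (⟨y, hyE⟩ : E)⁻¹) hidx
      have h3 : (⟨y, hyE⟩ : E)⁻¹ ∉ D.subgroupOf E := by
        intro h
        have := Subgroup.inv_mem _ h
        rw [inv_inv] at this
        exact hyD this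
      have h4 : (⟨g, hg⟩ : E) ∉ D.subgroupOf E := hgD
      have h5 : (⟨g, hg⟩ : E) * (⟨y, hyE⟩ : E)⁻¹ ∈ D.subgroupOf E := h1.mpr (iff_of_false h4 h3)
      exact h5
  have hya : y * a * y⁻¹ = a⁻¹ := by
    rcases hconj y with h3 | h3
    · exfalso
      apply hab₁
      have hc : ∀ d ∈ D, Commute d y := by
        intro d hd
        obtain ⟨k, rfl⟩ := hDz d hd
        have : Commute a y := by
          show a * y = y * a
          have := congrArg (· * y) h3
          simpa using this.symm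
        exact this.zpow_left k
      have hDcomm : ∀ d ∈ D, ∀ d' ∈ D, Commute d d' := fun d hd d' hd' => hNcomm _ (hDN hd) _ (hDN hd')
      have hdec : ∀ g ∈ E, ∃ d ∈ D, ∃ k : ℕ, g = d * y ^ k := by
        intro g hg
        rcases hEcover g hg with h | h
        · exact ⟨g, h, 0, by simp⟩
        · exact ⟨_, h, 1, by simp⟩
      obtain ⟨d₁, hd₁, k, rfl⟩ := hdec a₁ ha₁
      obtain ⟨d₂, hd₂, l, rfl⟩ := hdec b₁ hb₁
      have h5 : Commute (d₁ * y ^ k) (d₂ * y ^ l) := by
        apply Commute.mul_left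
        · exact (hDcomm _ hd₁ _ hd₂).mul_right ((hc _ hd₁).pow_right l)
        · exact ((hc _ hd₂).pow_right k).symm.mul_right ((Commute.refl y).pow_pow k l)
      exact h5.eq
    · exact h3
  have haa : a⁻¹ ≠ a := by
    intro h
    have h1 : a ^ 2 = 1 := by
      rw [pow_two]
      nth_rewrite 1 [← h]
      simp
    have h3 := orderOf_dvd_of_pow_eq_one h1
    rw [hao] at h3
    omega
  -- the generator of the cyclic quotient
  obtain ⟨q', hq'⟩ := IsCyclic.exists_generator (α := S ⧸ N)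
  obtain ⟨q, rfl⟩ := QuotientGroup.mk'_surjective N q'
  have hmk1 : ∀ g, QuotientGroup.mk' N g = 1 ↔ g ∈ N := by
    intro g
    rw [← MonoidHom.mem_ker, QuotientGroup.ker_mk']
  obtain ⟨j, hj⟩ := hq' (QuotientGroup.mk' N y)
  have hj' : QuotientGroup.mk' N (q ^ j) = QuotientGroup.mk' N y := by
    rw [map_zpow]
    exact hj
  have hyq : (q ^ j)⁻¹ * y ∈ N := by
    rw [← hmk1, map_mul, map_inv, hj', inv_mul_cancel]
  have hjodd : Odd j := by
    by_contra hne
    rw [Int.not_odd_iff_even] at hne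
    obtain ⟨t, rfl⟩ := hne
    apply haa
    rw [← hya]
    set n := (q ^ (t + t))⁻¹ * y with hn
    have e1 : y = q ^ (t + t) * n := by
      rw [hn]
      group
    have hqa : Commute (q ^ (t + t)) a := by
      rw [← two_mul, zpow_mul]
      have : Commute (q ^ (2 : ℤ)) a := by
        have h1 : q ^ (2 : ℤ) = q ^ 2 := by norm_cast
        rw [h1]
        show q ^ 2 * a = a * q ^ 2
        have := congrArg (· * q ^ 2) (hsqcomm q)
        simpa using this
      exact this.zpow_left t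
    have hna : Commute n a := hNcomm _ hyq _ (hDN haD)
    have hya' : Commute y a := by
      rw [e1]
      exact hqa.mul_left hna
    rw [hya'.eq]
    simp
  have hq2 : q ^ 2 ∈ N := by
    -- `q̄ ^ (2 j) = 1`, `j` odd
    obtain ⟨t, rfl⟩ := hjodd
    have hq0 : (QuotientGroup.mk' N q) ^ (2 * (2 * t + 1)) = 1 := by
      rw [mul_comm, zpow_mul, ]
      have h1 : (QuotientGroup.mk' N q) ^ (2 * t + 1) = QuotientGroup.mk' N y := by
        rw [← map_zpow]
        exact hj'
      rw [h1]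
      have h3 : QuotientGroup.mk' N (y * y) = 1 := (hmk1 _).2 hy2
      rw [map_mul] at h3
      have h4 : (QuotientGroup.mk' N y) ^ (2 : ℤ) = QuotientGroup.mk' N y * QuotientGroup.mk' N y := by
        norm_cast
        exact pow_two _
      rw [h4, h3]
    obtain ⟨r, hr⟩ := (IsPGroup.iff_orderOf.mp (h2.to_quotient N)) (QuotientGroup.mk' N q)
    have h5 := orderOf_dvd_iff_zpow_eq_one.mpr hq0
    rw [hr] at h5
    have h6 : r ≤ 1 := by
      by_contra hlt
      have h7 : (4 : ℤ) ∣ ((2 ^ r : ℕ) : ℤ) := by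
        have : (4 : ℕ) ∣ 2 ^ r := pow_dvd_pow 2 (show 2 ≤ r by omega)
        exact_mod_cast this
      have h8 := h7.trans h5
      omega
    rw [← hmk1, map_pow]
    have h9 : orderOf (QuotientGroup.mk' N q) ∣ 2 := by
      rw [hr]
      exact pow_dvd_pow 2 h6 |>.trans (by norm_num)
    exact orderOf_dvd_iff_pow_eq_one.mp h9
  have hcover : ∀ z : S, z ∈ N ∨ z * y ∈ N := by
    intro z
    obtain ⟨i, hi⟩ := hq' (QuotientGroup.mk' N z)
    have hi' : QuotientGroup.mk' N (q ^ i) = QuotientGroup.mk' N z := by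
      rw [map_zpow]
      exact hi
    have hz : (q ^ i)⁻¹ * z ∈ N := by
      rw [← hmk1, map_mul, map_inv, hi', inv_mul_cancel]
    have hqe : ∀ t : ℤ, q ^ (t + t) ∈ N := by
      intro t
      rw [← two_mul, zpow_mul]
      apply Subgroup.zpow_mem
      have h1 : q ^ (2 : ℤ) = q ^ 2 := by norm_cast
      rw [h1]
      exact hq2
    rcases Int.even_or_odd i with ⟨t, rfl⟩ | ⟨t, rfl⟩
    · left
      have h1 := N.mul_mem (hqe t) hz
      simpa using h1
    · right
      obtain ⟨s, rfl⟩ := hjodd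
      -- `z y = q^(2t+1) * n * q^(2s+1) * n'`
      have hqn : ∀ u ∈ N, q * u * q⁻¹ ∈ N := fun u hu => hNn.conj_mem _ hu q
      have e1 : QuotientGroup.mk' N (z * y) = 1 := by
        rw [map_mul, ← hi', ← hj', map_zpow, map_zpow, ← zpow_add]
        have h3 : 2 * t + 1 + (2 * s + 1) = (t + s + 1) + (t + s + 1) := by ring
        rw [h3, ← map_zpow, hmk1]
        exact hqe _
      exact (hmk1 _).1 e1
  -- the generator of `N`
  obtain ⟨ν', hν'⟩ := IsCyclic.exists_generator (α := N)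
  set ν : S := (ν' : S) with hν
  have hNz : N = zpowers ν := by
    apply le_antisymm
    · intro w hw
      obtain ⟨k, hk⟩ := hν' ⟨w, hw⟩
      refine ⟨k, ?_⟩
      have := congrArg Subtype.val hk
      simpa using this
    · rw [zpowers_le]
      exact ν'.2
  refine ⟨ν, y, ?_, ?_, ?_, ?_, ?_⟩
  · rw [← hNz]
    exact hcover
  · rw [← hNz]
    exact hyN
  · rw [← hNz]
    exact hy2
  · have hyν : y * ν * y⁻¹ ∈ zpowers ν := by
      rw [← hNz]
      exact hNn.conj_mem _ ν'.2 y
    obtain ⟨u, hu⟩ := (isOfFinOrder_of_finite ν).mem_powers_iff_mem_zpowers.2 hyν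
    have hu' : y * ν * y⁻¹ = ν ^ u := hu.symm
    refine ⟨u, hu', ?_⟩
    have haz : a ∈ zpowers ν := by
      rw [← hNz]
      exact hDN haD
    obtain ⟨t, ht⟩ := (isOfFinOrder_of_finite ν).mem_powers_iff_mem_zpowers.2 haz
    have ht' : a = ν ^ t := ht.symm
    have h1 : a⁻¹ = a ^ u := by
      rw [← hya, ht', ← conj_pow, hu', ← pow_mul, ← pow_mul, mul_comm]
    have h3 : a ^ (u + 1) = 1 := by
      rw [pow_succ, ← h1]
      simp
    have h4 := orderOf_dvd_of_pow_eq_one h3
    rw [hao] at h4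
    omega
  · have h1 : orderOf a ∣ orderOf ν := by
      apply orderOf_dvd_of_mem_zpowers
      rw [← hNz]
      exact hDN haD
    rwa [hao] at h1

/-- The classification. -/
theorem classify (h2 : IsPGroup 2 S) (hm : IsMetacyclic S) (E : Subgroup S) (hE8 : Nat.card E = 8)
    (hEc : ∃ a ∈ E, ∃ b ∈ E, a * b ≠ b * a) :
    ((∃ k : ℕ, Nonempty (S ≃* DihedralGroup (2 ^ (k + 2)))) ∨
      (∃ k : ℕ, Nat.card S = 2 ^ (k + 4) ∧ ∃ a b : S, orderOf a = 2 ^ (k + 3) ∧ orderOf b = 2 ∧
        b * a * b⁻¹ = a ^ (2 ^ (k + 2) - 1)) ∨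
      (∃ k : ℕ, Nonempty (S ≃* QuaternionGroup (2 ^ (k + 1))))) := by
  haveI : Fact (Nat.Prime 2) := ⟨Nat.prime_two⟩
  obtain ⟨ν, e, hcover, he, he2, ⟨u, hu, hu3⟩, h4⟩ := exists_gen h2 hm E hE8 hEc
  obtain ⟨t, ht⟩ := IsPGroup.iff_card.mp h2
  have h8 : 8 ∣ Nat.card S := by
    rw [← hE8]
    exact Subgroup.card_subgroup_dvd_card E
  have ht3 : 3 ≤ t := by
    rw [ht] at h8
    have h9 : (2 : ℕ) ^ 3 ∣ 2 ^ t := by simpa using h8
    exact (Nat.pow_dvd_pow_iff_le_right (by norm_num)).mp h9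
  obtain ⟨k, rfl⟩ : ∃ k, t = k + 3 := ⟨t - 3, by omega⟩
  rcases Cfsg.Agent.Lib.Fusion2.classify_of_gen h2 hcover he he2 hu hu3 h4 with ⟨m, ⟨eS⟩⟩ | ⟨m, ⟨eS⟩⟩ | hq
  · left
    have h1 : Nat.card S = 2 * m := by
      rw [Nat.card_congr eS.toEquiv, DihedralGroup.nat_card]
    have hm : m = 2 ^ (k + 2) := by
      rw [ht] at h1
      have : (2 : ℕ) ^ (k + 3) = 2 * 2 ^ (k + 2) := by ring
      omega
    subst hm
    exact ⟨k, ⟨eS⟩⟩
  · right; right
    have hm0 : m ≠ 0 := by
      rintro rfl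
      haveI : Finite (QuaternionGroup 0) := Finite.of_equiv S eS.toEquiv
      have hinj : Function.Injective (QuaternionGroup.a : ZMod (2 * 0) → QuaternionGroup 0) :=
        fun x y h => QuaternionGroup.a.inj h
      haveI : Finite (ZMod (2 * 0)) := Finite.of_injective _ hinj
      have h0 : Finite ℤ := (inferInstance : Finite (ZMod (2 * 0)))
      exact not_finite ℤ
    haveI : NeZero m := ⟨hm0⟩
    have h1 : Nat.card S = 4 * m := by
      rw [Nat.card_congr eS.toEquiv, Nat.card_eq_fintype_card, QuaternionGroup.card]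
    have hm : m = 2 ^ (k + 1) := by
      rw [ht] at h1
      have : (2 : ℕ) ^ (k + 3) = 4 * 2 ^ (k + 1) := by ring
      omega
    subst hm
    exact ⟨k, ⟨eS⟩⟩
  · right; left
    obtain ⟨n, hn3, hn, x, y, hx, hy, hxy⟩ := hq
    obtain ⟨l, rfl⟩ : ∃ l, n = l + 3 := ⟨n - 3, by omega⟩
    refine ⟨l, by rw [hn], x, y, hx, hy, ?_⟩
    rw [hxy]
    congr 2

end classify

end Cfsg.Agent.Lib.Struct.Blackburn
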