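import Mathlib
import Cfsg.Agent.Lib.Struct.MaxNil
import Cfsg.Agent.Lib.Basic.HallNil
import Cfsg.Agent.Lib.Transfer.Misc
import Cfsg.Prelude.Def_HallClasses

/-!
# Hall subgroups with a nilpotent direct factor and the `D_π` property
-/

set_option autoImplicit false

namespace Cfsg.Agent.Lib.Struct

open Subgroup Cfsg
open scoped Pointwise

variable {G : Type*} [Group G] [Finite G]

/-- `W` contains a conjugate of each subgroup whose order involves only primes dividing `|W|`. -/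
def Cov (W : Subgroup G) : Prop :=
  ∀ U : Subgroup G, (∀ q : ℕ, q.Prime → q ∣ Nat.card U → q ∣ Nat.card W) →
    ∃ g : G, U ≤ W.map (MulAut.conj g).toMonoidHom

theorem mem_normalizer_of_conj_mem {A : Subgroup G} {z : G} (h : ∀ a ∈ A, z * a * z⁻¹ ∈ A) :
    z ∈ normalizer (A : Set G) := by
  rw [← Cfsg.Agent.Lib.Transfer.map_conj_eq_iff]
  apply Subgroup.eq_of_le_of_card_ge
  · rintro _ ⟨a, ha, rfl⟩
    exact h a ha
  · rw [card_conj]

theorem index_conj' (g : G) (H : Subgroup G) : (H.map (MulAut.conj g).toMonoidHom).index = H.index :=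
  Subgroup.index_map_of_bijective (MulAut.conj g).bijective H

theorem centralizes_of_hall {A W : Subgroup G} (hW : W ≤ centralizer (A : Set G))
    (hc : (Nat.card W).Coprime W.index) {z : G} (hz : z ∈ normalizer (A : Set G))
    (hzp : ∀ q : ℕ, q.Prime → q ∣ orderOf z → q ∣ Nat.card W) : z ∈ centralizer (A : Set G) := by
  haveI hN := Cfsg.Agent.Lib.Transfer.centralizer_subgroupOf_normal A
  have hCN : centralizer (A : Set G) ≤ normalizer (A : Set G) := Subgroup.centralizer_le_normalizer _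
  have h1 := Subgroup.pow_index_mem ((centralizer (A : Set G)).subgroupOf (normalizer (A : Set G))) (⟨z, hz⟩ : ↥(normalizer (A : Set G)))
  have h3 : z ^ ((centralizer (A : Set G)).relIndex (normalizer (A : Set G))) ∈ centralizer (A : Set G) := by
    rw [Subgroup.mem_subgroupOf] at h1
    have h3' : z ^ ((centralizer (A : Set G)).subgroupOf (normalizer (A : Set G))).index ∈ centralizer (A : Set G) := by
      simpa using h1
    exact h3'
  have hdiv : (centralizer (A : Set G)).relIndex (normalizer (A : Set G)) ∣ W.index := by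
    rw [← Subgroup.relIndex_mul_index hW, ← Subgroup.relIndex_mul_index hCN]
    exact Dvd.dvd.mul_left (Dvd.intro _ rfl) _
  have hcop : (orderOf z).Coprime ((centralizer (A : Set G)).relIndex (normalizer (A : Set G))) := by
    by_contra hne
    obtain ⟨q, hq, h5, h6⟩ := Nat.Prime.not_coprime_iff_dvd.mp hne
    exact hq.one_lt.ne' (Nat.eq_one_of_dvd_coprimes hc (hzp q hq h5) (h6.trans hdiv))
  exact mem_of_pow_mem_of_coprime _ hcop h3

theorem comm_conj_map {X P : Subgroup G} (hcomm : ∀ a ∈ X, ∀ b ∈ P, a * b = b * a) (g : G) :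
    ∀ a ∈ X.map (MulAut.conj g).toMonoidHom, ∀ b ∈ P.map (MulAut.conj g).toMonoidHom, a * b = b * a := by
  intro a ha b hb
  rw [mem_conj] at ha hb
  have h := hcomm _ ha _ hb
  calc a * b = g * ((g⁻¹ * a * g) * (g⁻¹ * b * g)) * g⁻¹ := by group
    _ = g * ((g⁻¹ * b * g) * (g⁻¹ * a * g)) * g⁻¹ := by rw [h]
    _ = b * a := by group

/-- The inductive step: adjoining a commuting Sylow subgroup. -/
theorem cov_step {X P : Subgroup G} {p : ℕ} [hp : Fact p.Prime] (hX : Cov X) (hXh : (Nat.card X).Coprime X.index)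
    (hP : IsPGroup p P) (hPi : ¬ p ∣ P.index) (hpX : ¬ p ∣ Nat.card X) (hcomm : ∀ a ∈ X, ∀ b ∈ P, a * b = b * a) :
    Cov (X ⊔ P) ∧ (Nat.card ↥(X ⊔ P)).Coprime (X ⊔ P).index := by
  classical
  obtain ⟨PS, hPS⟩ := sylow_of_not_dvd_index hP hPi
  have hpconj : ∀ D : Subgroup G, IsPGroup p D → ∃ g : G, D ≤ P.map (MulAut.conj g).toMonoidHom := by
    intro D hD
    obtain ⟨Q, hQ⟩ := hD.exists_le_sylow
    obtain ⟨g, hg⟩ := MulAction.exists_smul_eq G PS Q
    refine ⟨g, fun x hx => ?_⟩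
    rw [mem_conj, ← hPS]
    have h1 := hQ hx
    rw [← hg] at h1
    exact Cfsg.Agent.Lib.Transfer.mem_smul_sylow.mp h1
  obtain ⟨k, hk⟩ := IsPGroup.iff_card.mp hP
  have hcopXP : (Nat.card X).Coprime (Nat.card P) := by
    rw [hk]
    apply Nat.Coprime.pow_right
    exact ((Nat.Prime.coprime_iff_not_dvd hp.out).mpr hpX).symm
  have hinf : X ⊓ P = ⊥ := Subgroup.inf_eq_bot_of_coprime hcopXP
  have hcard : Nat.card ↥(X ⊔ P) = Nat.card X * Nat.card P := card_sup_eq_of_comm hcomm hinf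
  have hPc : Nat.card (P : Subgroup G) * P.index = Nat.card G := Subgroup.card_mul_index _
  have hXc : Nat.card X * X.index = Nat.card G := Subgroup.card_mul_index _
  have hSc : Nat.card ↥(X ⊔ P) * (X ⊔ P).index = Nat.card G := Subgroup.card_mul_index _
  have hidx1 : X.index = Nat.card P * (X ⊔ P).index := by
    apply Nat.eq_of_mul_eq_mul_left (Nat.card_pos (α := X))
    rw [hXc, ← hSc, hcard, mul_assoc]
  have hidx2 : P.index = Nat.card X * (X ⊔ P).index := by
    apply Nat.eq_of_mul_eq_mul_left (Nat.card_pos (α := P))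
    rw [hPc, ← hSc, hcard]
    ring
  have hprimes : ∀ q : ℕ, q.Prime → q ∣ Nat.card ↥(X ⊔ P) → q ∣ Nat.card X ∨ q = p := by
    intro q hq hd
    rw [hcard] at hd
    rcases hq.dvd_mul.mp hd with h | h
    · exact Or.inl h
    · rw [hk] at h
      exact Or.inr ((Nat.prime_dvd_prime_iff_eq hq hp.out).mp (hq.dvd_of_dvd_pow h))
  refine ⟨?_, ?_⟩
  swap
  · by_contra hne
    obtain ⟨q, hq, h5, h6⟩ := Nat.Prime.not_coprime_iff_dvd.mp hne
    rcases hprimes q hq h5 with h7 | h7
    · exact hq.one_lt.ne' (Nat.eq_one_of_dvd_coprimes hXh h7 (by rw [hidx1]; exact Dvd.dvd.mul_left h6 _))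
    · subst h7
      exact hPi (by rw [hidx2]; exact Dvd.dvd.mul_left h6 _)
  intro U hU
  have hUpr : ∀ q : ℕ, q.Prime → q ∣ Nat.card U → q ∣ Nat.card X ∨ q = p := fun q hq hd =>
    hprimes q hq (hU q hq hd)
  -- `U` is `p`-nilpotent
  have hst : Cfsg.Agent.Lib.Transfer.FrobeniusStable p ↥U := by
    intro D hD g hg hgc
    obtain ⟨g₀, hg₀⟩ := hpconj (D.map U.subtype) (hD.map _)
    have hz : (g : G) ∈ normalizer ((D.map U.subtype : Subgroup G) : Set G) := by
      apply mem_normalizer_of_conj_mem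
      rintro _ ⟨d, hd, rfl⟩
      have h1 := (Subgroup.mem_normalizer_iff.mp hg d).mp hd
      exact ⟨_, h1, rfl⟩
    have hW : X.map (MulAut.conj g₀).toMonoidHom ≤ centralizer ((D.map U.subtype : Subgroup G) : Set G) := by
      intro w hw
      rw [Subgroup.mem_centralizer_iff]
      intro a ha
      exact (comm_conj_map hcomm g₀ w hw a (hg₀ ha)).symm
    have h1 := centralizes_of_hall hW (by rw [card_conj, index_conj']; exact hXh) hz (by
      intro q hq hd
      rw [card_conj]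
      have h3 : orderOf (g : G) = orderOf g := Subgroup.orderOf_coe g
      rw [h3] at hd
      have h4 : q ∣ Nat.card U := hd.trans (orderOf_dvd_natCard g)
      rcases hUpr q hq h4 with h5 | h5
      · exact h5
      · exfalso
        rw [h5] at hd
        exact hp.out.one_lt.ne' (Nat.eq_one_of_dvd_coprimes hgc hd dvd_rfl))
    rw [Subgroup.mem_centralizer_iff] at h1 ⊢
    intro d hd
    exact Subtype.ext (h1 d ⟨d, hd, rfl⟩)
  obtain ⟨S, K, hKn, hKc⟩ := Cfsg.Agent.Lib.Transfer.hasNormalPComplement_of_stable hst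
  have hKp : ¬ p ∣ Nat.card K := by
    have h3 : Nat.card K = (S : Subgroup ↥U).index := hKc.index_eq_card.symm
    rw [h3]
    exact S.not_dvd_index
  obtain ⟨K', hK'⟩ : ∃ K' : Subgroup G, K' = K.map U.subtype := ⟨_, rfl⟩
  obtain ⟨S', hS'⟩ : ∃ S' : Subgroup G, S' = (S : Subgroup ↥U).map U.subtype := ⟨_, rfl⟩
  have hcK' : Nat.card K' = Nat.card K := by
    rw [hK']
    exact Subgroup.card_map_of_injective U.subtype_injective
  have hS'p : IsPGroup p S' := by
    rw [hS']
    exact S.2.map _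
  obtain ⟨g, hg⟩ := hX K' (by
    intro q hq hd
    rw [hcK'] at hd
    have h4 : q ∣ Nat.card U := hd.trans (Subgroup.card_subgroup_dvd_card K)
    rcases hUpr q hq h4 with h5 | h5
    · exact h5
    · exfalso
      rw [h5] at hd
      exact hKp hd)
  -- `S'` centralizes `K'`
  have hScomm : ∀ y ∈ S', y ∈ centralizer (K' : Set G) := by
    intro y hy
    have hyU : y ∈ U := by
      rw [hS'] at hy
      obtain ⟨s, -, rfl⟩ := hy
      exact s.2
    have hz : y ∈ normalizer (K' : Set G) := by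
      apply mem_normalizer_of_conj_mem
      intro a ha
      rw [hK'] at ha ⊢
      obtain ⟨b, hb, rfl⟩ := ha
      exact ⟨_, hKn.conj_mem b hb ⟨y, hyU⟩, rfl⟩
    have hW : P.map (MulAut.conj g).toMonoidHom ≤ centralizer (K' : Set G) := by
      intro w hw
      rw [Subgroup.mem_centralizer_iff]
      intro a ha
      exact comm_conj_map hcomm g a (hg ha) w hw
    refine centralizes_of_hall hW ?_ hz ?_
    · rw [card_conj, index_conj', hk]
      apply Nat.Coprime.pow_left
      exact (Nat.Prime.coprime_iff_not_dvd hp.out).mpr hPi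
    · intro q hq hd
      rw [card_conj]
      obtain ⟨m, hm⟩ := IsPGroup.iff_orderOf.mp hS'p ⟨y, hy⟩
      rw [Subgroup.orderOf_mk] at hm
      rw [hm] at hd
      have h3 : q = p := (Nat.prime_dvd_prime_iff_eq hq hp.out).mp (hq.dvd_of_dvd_pow hd)
      rw [h3]
      have hPne : p ∣ Nat.card P := by
        by_contra hnd
        -- then `S'` is trivial and `q` cannot divide `orderOf y`
        have hPtriv : k = 0 := by
          by_contra hk0
          exact hnd (by rw [hk]; exact dvd_pow_self p hk0)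
        have hdG : ¬ p ∣ Nat.card G := by
          rw [← hPc, hk, hPtriv, pow_zero, one_mul]
          exact hPi
        exact hdG (by
          have h5 : p ∣ orderOf y := by
            rw [hm]
            rw [h3] at hd
            exact hd
          exact h5.trans (orderOf_dvd_natCard y))
      exact hPne
  -- the Sylow argument in the centralizer
  obtain ⟨Ce, hCe⟩ : ∃ Ce : Subgroup G, Ce = centralizer (K' : Set G) := ⟨_, rfl⟩
  obtain ⟨P₁, hP₁⟩ : ∃ P₁ : Subgroup G, P₁ = P.map (MulAut.conj g).toMonoidHom := ⟨_, rfl⟩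
  have hP₁Ce : P₁ ≤ Ce := by
    rw [hP₁, hCe]
    intro w hw
    rw [Subgroup.mem_centralizer_iff]
    intro a ha
    exact comm_conj_map hcomm g a (hg ha) w hw
  have hP₁p : IsPGroup p P₁ := by
    rw [hP₁]
    exact hP.map _
  have hP₁i : ¬ p ∣ (P₁.subgroupOf Ce).index := by
    intro h
    apply hPi
    rw [← index_conj' g P, ← hP₁, ← Subgroup.relIndex_mul_index hP₁Ce]
    exact Dvd.dvd.mul_right h _
  have hP₁pC : IsPGroup p ↥(P₁.subgroupOf Ce) :=
    hP₁p.of_equiv (Subgroup.subgroupOfEquivOfLe hP₁Ce).symm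
  obtain ⟨Q₁, hQ₁⟩ := sylow_of_not_dvd_index hP₁pC hP₁i
  have hS'Ce : S' ≤ Ce := by
    rw [hCe]
    exact hScomm
  have hS''p : IsPGroup p ↥(S'.subgroupOf Ce) :=
    hS'p.of_equiv (Subgroup.subgroupOfEquivOfLe hS'Ce).symm
  obtain ⟨Q₂, hQ₂⟩ := hS''p.exists_le_sylow
  obtain ⟨w, hw⟩ := MulAction.exists_smul_eq ↥Ce Q₁ Q₂
  refine ⟨(w : G) * g, ?_⟩
  have hUsup : U ≤ K' ⊔ S' := by
    intro u hu
    have h1 : (⟨u, hu⟩ : ↥U) ∈ K ⊔ (S : Subgroup ↥U) := by
      rw [hKc.sup_eq_top]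
      exact Subgroup.mem_top _
    have h3 : K' ⊔ S' = (K ⊔ (S : Subgroup ↥U)).map U.subtype := by
      rw [Subgroup.map_sup, hK', hS']
    rw [h3]
    exact ⟨_, h1, rfl⟩
  refine hUsup.trans (sup_le ?_ ?_)
  · intro k' hk'
    have h3 := hg hk'
    rw [mem_conj] at h3
    rw [mem_conj]
    have hwc : (w : G)⁻¹ * k' * w = k' := by
      have hw2 : (w : G) ∈ centralizer (K' : Set G) := hCe ▸ w.2
      have h5 := Subgroup.mem_centralizer_iff.mp hw2 k' hk'
      rw [mul_assoc, h5]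
      group
    have e : ((w : G) * g)⁻¹ * k' * ((w : G) * g) = g⁻¹ * ((w : G)⁻¹ * k' * w) * g := by group
    rw [e, hwc]
    exact Subgroup.mem_sup_left h3
  · intro s hs
    have h3 : (⟨s, hS'Ce hs⟩ : ↥Ce) ∈ (Q₂ : Subgroup ↥Ce) := hQ₂ hs
    rw [← hw] at h3
    have h4 := Cfsg.Agent.Lib.Transfer.mem_smul_sylow.mp h3
    have h5 : w⁻¹ * (⟨s, hS'Ce hs⟩ : ↥Ce) * w ∈ (P₁.subgroupOf Ce) := by
      rw [← hQ₁]
      exact h4
    rw [Subgroup.mem_subgroupOf] at h5
    have h6 : (w : G)⁻¹ * s * w ∈ P₁ := by simpa using h5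
    rw [hP₁, mem_conj] at h6
    rw [mem_conj]
    have e : ((w : G) * g)⁻¹ * s * ((w : G) * g) = g⁻¹ * ((w : G)⁻¹ * s * w) * g := by group
    rw [e]
    exact Subgroup.mem_sup_right h6

/-- Induction over the nilpotent factor. -/
theorem cov_nilp : ∀ (n : ℕ) (A X : Subgroup G), Nat.card A = n → Group.IsNilpotent A → Cov X →
    (Nat.card X).Coprime X.index → (Nat.card A).Coprime A.index → (Nat.card A).Coprime (Nat.card X) →
    (∀ a ∈ X, ∀ b ∈ A, a * b = b * a) → Cov (X ⊔ A) := by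
  intro n
  induction n using Nat.strong_induction_on with
  | _ n ih =>
  intro A X hn hA hX hXh hAh hAX hcomm
  by_cases hA1 : Nat.card A = 1
  · rw [Subgroup.card_eq_one.mp hA1, sup_bot_eq]
    exact hX
  obtain ⟨p, hp, hpA⟩ := Nat.exists_prime_and_dvd hA1
  haveI : Fact p.Prime := ⟨hp⟩
  obtain ⟨K₁, K₂, hK₁, hK₂, hsup, hK₁p, hK₂c, hcard, hK12⟩ := Cfsg.Agent.Lib.Basic.exists_nilpotent_decomp hA p
  have hpK₂ : ¬ p ∣ Nat.card K₂ := fun h => hp.one_lt.ne' (Nat.eq_one_of_dvd_coprimes hK₂c h dvd_rfl)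
  have hpAi : ¬ p ∣ A.index := fun h => hp.one_lt.ne' (Nat.eq_one_of_dvd_coprimes hAh hpA h)
  have hidx : K₁.index = Nat.card K₂ * A.index := by
    apply Nat.eq_of_mul_eq_mul_left (Nat.card_pos (α := K₁))
    rw [Subgroup.card_mul_index, ← mul_assoc, hcard, Subgroup.card_mul_index]
  have hidx2 : K₂.index = Nat.card K₁ * A.index := by
    apply Nat.eq_of_mul_eq_mul_left (Nat.card_pos (α := K₂))
    rw [Subgroup.card_mul_index, ← mul_assoc, mul_comm (Nat.card K₂), hcard, Subgroup.card_mul_index]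
  have hK₁i : ¬ p ∣ K₁.index := by
    rw [hidx, hp.dvd_mul]
    tauto
  have hpX : ¬ p ∣ Nat.card X := fun h => hp.one_lt.ne' (Nat.eq_one_of_dvd_coprimes hAX hpA h)
  have hcommK₁ : ∀ a ∈ X, ∀ b ∈ K₁, a * b = b * a := fun a ha b hb => hcomm a ha b (hK₁ hb)
  obtain ⟨hcov, hhall⟩ := cov_step hX hXh hK₁p hK₁i hpX hcommK₁
  have hK₁X : (Nat.card K₁).Coprime (Nat.card X) :=
    Nat.Coprime.coprime_dvd_left (by
      rw [← hcard]
      exact Dvd.intro _ rfl) hAX
  have hK₂X : (Nat.card K₂).Coprime (Nat.card X) :=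
    Nat.Coprime.coprime_dvd_left (by
      rw [← hcard]
      exact Dvd.intro_left _ rfl) hAX
  have hK₂K₁ : (Nat.card K₂).Coprime (Nat.card K₁) := by
    obtain ⟨k, hk⟩ := IsPGroup.iff_card.mp hK₁p
    rw [hk]
    exact Nat.Coprime.pow_right k hK₂c
  have hlt : Nat.card K₂ < n := by
    have h1 : p ∣ Nat.card K₁ := by
      rw [← hcard] at hpA
      rcases hp.dvd_mul.mp hpA with h | h
      · exact h
      · exact absurd h hpK₂
    have h3 : 2 ≤ Nat.card K₁ := hp.two_le.trans (Nat.le_of_dvd Nat.card_pos h1)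
    have h4 : 0 < Nat.card K₂ := Nat.card_pos
    rw [← hn, ← hcard]
    nlinarith
  have hinfXK₁ : X ⊓ K₁ = ⊥ := Subgroup.inf_eq_bot_of_coprime hK₁X.symm
  have hres := ih _ hlt K₂ (X ⊔ K₁) rfl (nil_of_le hK₂ hA) hcov hhall (by
      rw [hidx2]
      refine Nat.Coprime.mul_right hK₂K₁ ?_
      exact Nat.Coprime.coprime_dvd_left (by
        rw [← hcard]
        exact Dvd.intro_left _ rfl) hAh) (by
      rw [card_sup_eq_of_comm hcommK₁ hinfXK₁]
      exact Nat.Coprime.mul_right hK₂X hK₂K₁) (by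
      intro a ha b hb
      obtain ⟨x, hx, y, hy, rfl⟩ := Cfsg.Agent.Lib.Components.exists_mul_of_mem_sup_of_commutes hcommK₁ ha
      have h1 := hcomm x hx b (hK₂ hb)
      have h3 := hK12 y hy b hb
      calc x * y * b = x * (y * b) := by group
        _ = x * (b * y) := by rw [h3]
        _ = (x * b) * y := by group
        _ = (b * x) * y := by rw [h1]
        _ = _ := by group)
  rwa [sup_assoc, hsup] at hres

/-- Wielandt's theorem on Hall subgroups with a nilpotent direct factor. -/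
theorem dpi_of_direct (σ τ π : Set ℕ) (hπ : π = σ ∪ τ) (hd : Disjoint σ τ) (H Hs Ht : Subgroup G)
    (hH : IsPiHall π H) (hs : IsPiSubgroup σ Hs) (ht : IsPiSubgroup τ Ht) (hsn : Group.IsNilpotent Hs)
    (hjoin : Hs ⊔ Ht = H) (hcomm : ∀ a ∈ Hs, ∀ b ∈ Ht, a * b = b * a) (hD : IsDPiGroup τ G) :
    IsDPiGroup π G := by
  classical
  have hnot : ∀ q : ℕ, q ∈ σ → q ∈ τ → False := fun q h1 h2 => Set.disjoint_left.mp hd h1 h2
  have hcopst : (Nat.card Hs).Coprime (Nat.card Ht) := by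
    by_contra hne
    obtain ⟨q, hq, h5, h6⟩ := Nat.Prime.not_coprime_iff_dvd.mp hne
    exact hnot q (hs q hq h5) (ht q hq h6)
  have hinf : Hs ⊓ Ht = ⊥ := Subgroup.inf_eq_bot_of_coprime hcopst
  have hcard : Nat.card H = Nat.card Hs * Nat.card Ht := by
    rw [← hjoin]
    exact card_sup_eq_of_comm hcomm hinf
  have hidxt : Ht.index = Nat.card Hs * H.index := by
    apply Nat.eq_of_mul_eq_mul_left (Nat.card_pos (α := Ht))
    rw [Subgroup.card_mul_index, ← mul_assoc, mul_comm (Nat.card Ht), ← hcard, Subgroup.card_mul_index]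
  have hidxs : Hs.index = Nat.card Ht * H.index := by
    apply Nat.eq_of_mul_eq_mul_left (Nat.card_pos (α := Hs))
    rw [Subgroup.card_mul_index, ← mul_assoc, ← hcard, Subgroup.card_mul_index]
  have hHt : ∀ q : ℕ, q.Prime → q ∈ τ → ¬ q ∣ Ht.index := by
    intro q hq hqt h
    rw [hidxt, hq.dvd_mul] at h
    rcases h with h | h
    · exact hnot q (hs q hq h) hqt
    · exact hH.2 q hq (hπ ▸ Or.inr hqt) h
  have hHs : ∀ q : ℕ, q.Prime → q ∈ σ → ¬ q ∣ Hs.index := by
    intro q hq hqs h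
    rw [hidxs, hq.dvd_mul] at h
    rcases h with h | h
    · exact hnot q hqs (ht q hq h)
    · exact hH.2 q hq (hπ ▸ Or.inl hqs) h
  have hcHt : (Nat.card Ht).Coprime Ht.index := by
    by_contra hne
    obtain ⟨q, hq, h5, h6⟩ := Nat.Prime.not_coprime_iff_dvd.mp hne
    exact hHt q hq (ht q hq h5) h6
  have hcHs : (Nat.card Hs).Coprime Hs.index := by
    by_contra hne
    obtain ⟨q, hq, h5, h6⟩ := Nat.Prime.not_coprime_iff_dvd.mp hne
    exact hHs q hq (hs q hq h5) h6
  have hmaxHt : Maximal (IsPiSubgroup τ) Ht := by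
    refine ⟨ht, fun K hK hle => ?_⟩
    have h1 : Ht.relIndex K = 1 := by
      by_contra hne
      obtain ⟨q, hq, h3⟩ := Nat.exists_prime_and_dvd hne
      have h4 : q ∣ Nat.card K := h3.trans (Subgroup.relIndex_dvd_card _ _)
      apply hHt q hq (hK q hq h4)
      rw [← Subgroup.relIndex_mul_index hle]
      exact Dvd.dvd.mul_right h3 _
    exact Subgroup.relIndex_eq_one.mp h1
  have hCovt : Cov Ht := by
    intro U hU
    have hUt : IsPiSubgroup τ U := fun q hq h => ht q hq (hU q hq h)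
    have hne : ({K : Subgroup G | IsPiSubgroup τ K ∧ U ≤ K}).Nonempty := ⟨U, hUt, le_rfl⟩
    obtain ⟨M, hM⟩ := (Set.toFinite _).exists_maximal hne
    have hMmax : Maximal (IsPiSubgroup τ) M :=
      ⟨hM.1.1, fun K hK hle => hM.2 ⟨hK, hM.1.2.trans hle⟩ hle⟩
    obtain ⟨g, hg⟩ := hD Ht M hmaxHt hMmax
    exact ⟨g, hg ▸ hM.1.2⟩
  have hCov : Cov H := by
    have h1 := cov_nilp _ Hs Ht rfl hsn hCovt hcHt hcHs hcopst (fun a ha b hb => (hcomm b hb a ha).symm)
    rwa [sup_comm, hjoin] at h1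
  have hmax : ∀ K : Subgroup G, Maximal (IsPiSubgroup π) K → ∃ g : G, K = H.map (MulAut.conj g).toMonoidHom := by
    intro K hK
    obtain ⟨g, hg⟩ := hCov K (by
      intro q hq h
      have h1 : q ∣ Nat.card G := h.trans (Subgroup.card_subgroup_dvd_card K)
      rw [← Subgroup.card_mul_index H, hq.dvd_mul] at h1
      rcases h1 with h1 | h1
      · exact h1
      · exact absurd h1 (hH.2 q hq (hK.1 q hq h)))
    refine ⟨g, le_antisymm hg (hK.2 ?_ hg)⟩
    intro q hq h
    rw [card_conj] at h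
    exact hH.1 q hq h
  intro K₁ K₂ h1 h2
  obtain ⟨g₁, hg₁⟩ := hmax K₁ h1
  obtain ⟨g₂, hg₂⟩ := hmax K₂ h2
  refine ⟨g₂ * g₁⁻¹, ?_⟩
  rw [hg₁, hg₂]
  ext x
  rw [mem_conj, mem_conj, mem_conj]
  have e : g₁⁻¹ * ((g₂ * g₁⁻¹)⁻¹ * x * (g₂ * g₁⁻¹)) * g₁ = g₂⁻¹ * x * g₂ := by group
  rw [e]

end Cfsg.Agent.Lib.Struct
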