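import Mathlib

/-! # Coverings of a coprime module by fixed points of conjugates: basic tools.

Everything is written multiplicatively: `N` is a finite commutative group, automorphisms are
elements of `MulAut N`. -/

set_option autoImplicit false

namespace Cfsg.Agent.Lib.Struct.FixCover

universe u

variable {N : Type u} [CommGroup N]

@[simp] theorem aut_mul (f g : MulAut N) (x : N) : (f * g) x = f (g x) := rfl
@[simp] theorem aut_one (x : N) : (1 : MulAut N) x = x := rfl
@[simp] theorem aut_inv_self (f : MulAut N) (x : N) : f⁻¹ (f x) = x := f.symm_apply_apply x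
@[simp] theorem aut_self_inv (f : MulAut N) (x : N) : f (f⁻¹ x) = x := f.apply_symm_apply x

theorem aut_ext {f g : MulAut N} (h : ∀ x, f x = g x) : f = g := MulEquiv.ext h

theorem eq_one_of_pow_eq_one [Finite N] {m : ℕ} (h : (Nat.card N).Coprime m) {x : N}
    (hx : x ^ m = 1) : x = 1 := by
  have h1 : orderOf x ∣ m := orderOf_dvd_of_pow_eq_one hx
  have h2 : orderOf x ∣ Nat.card N := orderOf_dvd_natCard x
  have h3 : orderOf x = 1 := Nat.eq_one_of_dvd_coprimes h h2 h1
  exact orderOf_eq_one_iff.mp h3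

theorem mem_of_pow_mem [Finite N] {m : ℕ} (h : (Nat.card N).Coprime m) (U : Subgroup N)
    {x : N} (hx : x ^ m ∈ U) : x ∈ U := by
  have h2 : orderOf x ∣ Nat.card N := orderOf_dvd_natCard x
  have hc : (orderOf x).Coprime m := Nat.Coprime.coprime_dvd_left h2 h
  have h3 : x ∈ Subgroup.zpowers (x ^ m) := by
    rw [mem_zpowers_pow_iff]
    exact Nat.Coprime.symm hc
  exact (Subgroup.zpowers_le.mpr hx) h3

/-- Fixed points of a subgroup of automorphisms. -/
def fixS (Y : Subgroup (MulAut N)) : Subgroup N where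
  carrier := {v | ∀ y ∈ Y, y v = v}
  mul_mem' := by
    intro a b ha hb y hy
    rw [map_mul, ha y hy, hb y hy]
  one_mem' := by
    intro y _
    exact map_one y
  inv_mem' := by
    intro a ha y hy
    rw [map_inv, ha y hy]

@[simp] theorem mem_fixS {Y : Subgroup (MulAut N)} {v : N} : v ∈ fixS Y ↔ ∀ y ∈ Y, y v = v := Iff.rfl

/-- The stabiliser of a vector. -/
def stab (v : N) : Subgroup (MulAut N) where
  carrier := {f | f v = v}
  mul_mem' := by
    intro a b ha hb
    change a (b v) = v
    rw [show b v = v from hb, show a v = v from ha]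
  one_mem' := rfl
  inv_mem' := by
    intro a ha
    change a⁻¹ v = v
    have h : a v = v := ha
    conv_lhs => rw [← h]
    exact aut_inv_self a v

@[simp] theorem mem_stab {v : N} {f : MulAut N} : f ∈ stab v ↔ f v = v := Iff.rfl

theorem mem_fixS_iff_le {Y : Subgroup (MulAut N)} {v : N} : v ∈ fixS Y ↔ Y ≤ stab v := Iff.rfl

theorem fix_sup {K L : Subgroup (MulAut N)} {v : N} (h1 : v ∈ fixS K) (h2 : v ∈ fixS L) :
    v ∈ fixS (K ⊔ L) :=
  mem_fixS_iff_le.mpr (sup_le (mem_fixS_iff_le.mp h1) (mem_fixS_iff_le.mp h2))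

theorem fix_pow {f : MulAut N} {v : N} (h : f v = v) (i : ℕ) : (f ^ i) v = v :=
  (stab v).pow_mem h i

theorem fix_zpow {f : MulAut N} {v : N} (h : f v = v) (i : ℤ) : (f ^ i) v = v :=
  (stab v).zpow_mem h i

theorem fix_of_mem_zpowers {f g : MulAut N} {v : N} (h : f v = v) (hg : g ∈ Subgroup.zpowers f) :
    g v = v := by
  have : Subgroup.zpowers f ≤ stab v := Subgroup.zpowers_le.mpr h
  exact this hg

theorem aut_pow_comm {f g : MulAut N} (h : g * f = f * g) (i : ℕ) (v : N) :
    g ((f ^ i) v) = (f ^ i) (g v) := by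
  have h1 : g * f ^ i = f ^ i * g := (Commute.pow_right h i)
  exact congrArg (fun k : MulAut N => k v) h1

/-! ### Cyclic norms -/

section cyc
variable (p : ℕ)

/-- The norm `1 + f + ... + f^(p-1)`. -/
def cyc (f : MulAut N) (v : N) : N := ∏ i ∈ Finset.range p, (f ^ i) v

variable {p}

theorem cyc_mul (f : MulAut N) (a b : N) : cyc p f (a * b) = cyc p f a * cyc p f b := by
  simp only [cyc, map_mul, Finset.prod_mul_distrib]

theorem cyc_one (f : MulAut N) : cyc p f 1 = 1 := by
  simp [cyc]

theorem cyc_inv (f : MulAut N) (a : N) : cyc p f a⁻¹ = (cyc p f a)⁻¹ := by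
  simp only [cyc, map_inv, Finset.prod_inv_distrib]

theorem cyc_pow (f : MulAut N) (m : ℕ) (a : N) : cyc p f (a ^ m) = cyc p f a ^ m := by
  simp only [cyc, map_pow, Finset.prod_pow]

theorem cyc_fixed {f : MulAut N} (hf : f ^ p = 1) (v : N) : f (cyc p f v) = cyc p f v := by
  unfold cyc
  rw [map_prod]
  have h1 : ∀ i, f ((f ^ i) v) = (f ^ (i + 1)) v := by
    intro i
    rw [pow_succ']
    rfl
  simp only [h1]
  have h2 := Finset.prod_range_succ (fun i => (f ^ i) v) p
  have h3 := Finset.prod_range_succ' (fun i => (f ^ i) v) p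
  rw [h2] at h3
  rw [hf, pow_zero] at h3
  exact (mul_right_cancel h3).symm

theorem cyc_of_fixed {f : MulAut N} {v : N} (h : f v = v) : cyc p f v = v ^ p := by
  unfold cyc
  simp only [fix_pow h]
  simp

theorem cyc_comm {f g : MulAut N} (h : g * f = f * g) (v : N) : g (cyc p f v) = cyc p f (g v) := by
  unfold cyc
  rw [map_prod]
  exact Finset.prod_congr rfl fun i _ => aut_pow_comm h i v

theorem pow_apply_mem (U : Subgroup N) {f : MulAut N} (hU : ∀ u ∈ U, f u ∈ U) {v : N} (hv : v ∈ U)
    (i : ℕ) : (f ^ i) v ∈ U := by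
  induction i with
  | zero => simpa using hv
  | succ i ih =>
    rw [pow_succ']
    exact hU _ ih

theorem cyc_mem (U : Subgroup N) {f : MulAut N} (hU : ∀ u ∈ U, f u ∈ U) {v : N} (hv : v ∈ U) :
    cyc p f v ∈ U := by
  unfold cyc
  exact Subgroup.prod_mem U fun i _ => pow_apply_mem U hU hv i

theorem cyc_cyc_comm {f g : MulAut N} (h : g * f = f * g) (v : N) :
    cyc p g (cyc p f v) = cyc p f (cyc p g v) := by
  unfold cyc
  simp only [map_prod]
  rw [Finset.prod_comm]
  refine Finset.prod_congr rfl fun i _ => Finset.prod_congr rfl fun j _ => ?_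
  exact aut_pow_comm (Commute.pow_left h j) i v

/-- If `cyc b u = 1` then the norms of `a * b ^ i` multiply to `u ^ p`. -/
theorem eig_sum [Finite N] (hp : p.Prime) (hN : (Nat.card N).Coprime p) {a b : MulAut N}
    (hab : a * b = b * a) (ha : a ^ p = 1) (hb : b ^ p = 1) {u : N} (hu : cyc p b u = 1) :
    ∏ i ∈ Finset.range p, cyc p (a * b ^ i) u = u ^ p := by
  unfold cyc
  rw [Finset.prod_comm]
  have hk : ∀ k ∈ Finset.range p, k ≠ 0 →
      ∏ i ∈ Finset.range p, ((a * b ^ i) ^ k) u = 1 := by
    intro k hk hk0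
    have hkp : k < p := Finset.mem_range.mp hk
    have hterm : ∀ i ∈ Finset.range p, ((a * b ^ i) ^ k) u = (a ^ k) (((b ^ k) ^ i) u) := by
      intro i _
      have hc : Commute a (b ^ i) := Commute.pow_right hab i
      rw [hc.mul_pow, ← pow_mul, ← pow_mul, mul_comm i k]
      rfl
    rw [Finset.prod_congr rfl hterm]
    rw [← map_prod]
    have hkey : cyc p (b ^ k) u = 1 := by
      set w := cyc p (b ^ k) u with hw
      have hcop : (orderOf b).Coprime k := by
        have hd : orderOf b ∣ p := orderOf_dvd_of_pow_eq_one hb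
        have : Nat.Coprime p k :=
          (Nat.Prime.coprime_iff_not_dvd hp).mpr (Nat.not_dvd_of_pos_of_lt (Nat.pos_of_ne_zero hk0) hkp)
        exact Nat.Coprime.coprime_dvd_left hd this
      have hbk : (b ^ k) ^ p = 1 := by
        rw [← pow_mul, mul_comm, pow_mul, hb, one_pow]
      have h1 : (b ^ k) w = w := cyc_fixed hbk u
      have h2 : b w = w := by
        have hmem : b ∈ Subgroup.zpowers (b ^ k) := by
          rw [mem_zpowers_pow_iff]
          exact Nat.Coprime.symm hcop
        exact fix_of_mem_zpowers h1 hmem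
      have h3 : cyc p b w = w ^ p := cyc_of_fixed h2
      have h4 : cyc p b w = 1 := by
        have hcomm : b * b ^ k = b ^ k * b := (Commute.pow_right (Commute.refl b) k)
        rw [hw, cyc_cyc_comm hcomm, hu, cyc_one]
      exact eq_one_of_pow_eq_one hN (h3 ▸ h4)
    have : ∏ i ∈ Finset.range p, ((b ^ k) ^ i) u = 1 := hkey
    rw [this, map_one]
  have h0mem : (0 : ℕ) ∈ Finset.range p := Finset.mem_range.mpr hp.pos
  rw [Finset.prod_eq_single_of_mem 0 h0mem (fun k hk' hk0 => hk k hk' hk0)]
  simp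

end cyc

/-! ### The trace over a finite subgroup -/

section tr
variable (Y : Subgroup (MulAut N)) [Fintype Y]

/-- The trace over a subgroup. -/
def tr (v : N) : N := ∏ y : Y, (y : MulAut N) v

theorem tr_mul (a b : N) : tr Y (a * b) = tr Y a * tr Y b := by
  simp only [tr, map_mul, Finset.prod_mul_distrib]

theorem tr_one : tr Y 1 = 1 := by
  simp [tr]

theorem tr_inv (a : N) : tr Y a⁻¹ = (tr Y a)⁻¹ := by
  simp only [tr, map_inv, Finset.prod_inv_distrib]

theorem tr_pow (m : ℕ) (a : N) : tr Y (a ^ m) = tr Y a ^ m := by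
  simp only [tr, map_pow, Finset.prod_pow]

theorem tr_fix {y₀ : MulAut N} (hy : y₀ ∈ Y) (v : N) : y₀ (tr Y v) = tr Y v := by
  unfold tr
  rw [map_prod]
  exact Fintype.prod_equiv (Equiv.mulLeft (⟨y₀, hy⟩ : Y)) _ _ (fun y => rfl)

theorem tr_mem_fixS (v : N) : tr Y v ∈ fixS Y := fun _ hy => tr_fix Y hy v

theorem tr_of_fixS {v : N} (hv : v ∈ fixS Y) : tr Y v = v ^ Nat.card Y := by
  unfold tr
  have : ∀ y : Y, (y : MulAut N) v = v := fun y => hv y y.2
  simp only [this, Finset.prod_const, Finset.card_univ, Nat.card_eq_fintype_card]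

theorem tr_conj [Finite N] {g : MulAut N} (hg : ∀ y ∈ Y, g * y * g⁻¹ ∈ Y) (v : N) :
    g (tr Y v) = tr Y (g v) := by
  unfold tr
  rw [map_prod]
  let φ : Y → Y := fun y => ⟨g * y * g⁻¹, hg y y.2⟩
  have hinj : Function.Injective φ := by
    intro a b hab
    have h1 : g * (a : MulAut N) * g⁻¹ = g * b * g⁻¹ := congrArg Subtype.val hab
    exact Subtype.ext (by simpa using h1)
  have hbij : Function.Bijective φ := Finite.injective_iff_bijective.mp hinj
  symm
  refine Function.Bijective.prod_comp hbij (fun y : Y => (y : MulAut N) (g v)) |>.symm.trans ?_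
  refine Finset.prod_congr rfl fun y _ => ?_
  show (g * (y : MulAut N) * g⁻¹) (g v) = g ((y : MulAut N) v)
  simp

end tr

end Cfsg.Agent.Lib.Struct.FixCover
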