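import Cfsg.Agent.Lib.Struct.FixA

/-! # Coverings: hyperplanes of an elementary abelian group of automorphisms, block lemma. -/

set_option autoImplicit false

namespace Cfsg.Agent.Lib.Struct.FixCover

universe u

variable {N : Type u} [CommGroup N]

/-- Elementary abelian, as subgroup. -/
structure IsEA (p : ℕ) (Y : Subgroup (MulAut N)) : Prop where
  comm : ∀ x ∈ Y, ∀ y ∈ Y, x * y = y * x
  exp : ∀ x ∈ Y, x ^ p = 1

/-- Hyperplane of a subgroup. -/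
def IsHyper (Y K : Subgroup (MulAut N)) : Prop :=
  K ≤ Y ∧ K ≠ Y ∧ ∀ L : Subgroup (MulAut N), K ≤ L → L ≤ Y → L = K ∨ L = Y

/-- Generic coprime power membership. -/
theorem mem_of_pow_prime {G : Type*} [Group G] {p : ℕ} (hp : p.Prime) (H : Subgroup G) {k : G}
    (hk : k ^ p = 1) {i : ℕ} (hi0 : i ≠ 0) (hip : i < p) (hm : k ^ i ∈ H) : k ∈ H := by
  have hd : orderOf k ∣ p := orderOf_dvd_of_pow_eq_one hk
  have hc : Nat.Coprime p i :=
    (Nat.Prime.coprime_iff_not_dvd hp).mpr (Nat.not_dvd_of_pos_of_lt (Nat.pos_of_ne_zero hi0) hip)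
  have hc' : (orderOf k).Coprime i := Nat.Coprime.coprime_dvd_left hd hc
  have h3 : k ∈ Subgroup.zpowers (k ^ i) := by
    rw [mem_zpowers_pow_iff]
    exact Nat.Coprime.symm hc'
  exact (Subgroup.zpowers_le.mpr hm) h3

theorem cyc_mem_fixS {p : ℕ} {K : Subgroup (MulAut N)} {t : MulAut N}
    (ht : ∀ k ∈ K, k * t = t * k) {v : N} (hv : v ∈ fixS K) : cyc p t v ∈ fixS K := by
  intro k hk
  rw [cyc_comm (ht k hk), hv k hk]

theorem span_hyper [Finite N] {p : ℕ} (hp : p.Prime) (hN : (Nat.card N).Coprime p)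
    {Y : Subgroup (MulAut N)} (hY : IsEA p Y) (hfix : fixS Y = ⊥) (U : Subgroup N)
    (hU : ∀ K, IsHyper Y K → fixS K ≤ U) : U = ⊤ := by
  classical
  have key : ∀ K : Subgroup (MulAut N), K ≤ Y → fixS K ≤ U := by
    intro K
    induction K using WellFoundedGT.induction with
    | ind K ih =>
      intro hKY v hv
      by_cases hKeq : K = Y
      · subst hKeq
        rw [hfix] at hv
        rw [Subgroup.mem_bot.mp hv]
        exact U.one_mem
      by_cases hhyp : IsHyper Y K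
      · exact hU K hhyp hv
      have hL : ∃ L : Subgroup (MulAut N), K ≤ L ∧ L ≤ Y ∧ L ≠ K ∧ L ≠ Y := by
        by_contra hcon
        push_neg at hcon
        refine hhyp ⟨hKY, hKeq, fun L h1 h2 => ?_⟩
        by_cases h3 : L = K
        · exact Or.inl h3
        · exact Or.inr (hcon L h1 h2 h3)
      obtain ⟨L, hKL, hLY, hLK, hLne⟩ := hL
      obtain ⟨y, hyL, hyK⟩ := SetLike.exists_of_lt (lt_of_le_of_ne hKL (Ne.symm hLK))
      obtain ⟨y', hy'Y, hy'L⟩ := SetLike.exists_of_lt (lt_of_le_of_ne hLY hLne)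
      have hcyc : ∀ t ∈ Y, t ∉ K → ∀ u ∈ fixS K, cyc p t u ∈ U := by
        intro t htY htK u hu
        have hgt : K < K ⊔ Subgroup.zpowers t := by
          refine lt_of_le_of_ne le_sup_left ?_
          intro h
          apply htK
          rw [h]
          exact Subgroup.mem_sup_right (Subgroup.mem_zpowers t)
        have hle : K ⊔ Subgroup.zpowers t ≤ Y := sup_le hKY (Subgroup.zpowers_le.mpr htY)
        refine ih _ hgt hle ?_
        refine fix_sup ?_ ?_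
        · exact cyc_mem_fixS (fun k hk => hY.comm k (hKY hk) t htY) hu
        · exact mem_fixS_iff_le.mpr (Subgroup.zpowers_le.mpr (cyc_fixed (hY.exp t htY) u))
      set c₁ := cyc p y' v with hc₁def
      have hc₁ : c₁ ∈ U := hcyc y' hy'Y (fun h => hy'L (hKL h)) v hv
      have hc₁K : c₁ ∈ fixS K := cyc_mem_fixS (fun k hk => hY.comm k (hKY hk) y' hy'Y) hv
      have hy'c : y' c₁ = c₁ := cyc_fixed (hY.exp y' hy'Y) v
      set u := v ^ p * c₁⁻¹ with hudef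
      have huK : u ∈ fixS K := (fixS K).mul_mem ((fixS K).pow_mem hv p) ((fixS K).inv_mem hc₁K)
      have hcycu : cyc p y' u = 1 := by
        rw [hudef, cyc_mul, cyc_pow, cyc_inv, cyc_of_fixed hy'c, ← hc₁def]
        simp
      have hyY : y ∈ Y := hLY hyL
      have hes := eig_sum hp hN (hY.comm y hyY y' hy'Y) (hY.exp y hyY) (hY.exp y' hy'Y) hcycu
      have hup : u ^ p ∈ U := by
        rw [← hes]
        refine Subgroup.prod_mem U fun i hi => ?_
        have hip : i < p := Finset.mem_range.mp hi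
        refine hcyc _ (Y.mul_mem hyY (Y.pow_mem hy'Y i)) ?_ u huK
        intro hmem
        by_cases hi0 : i = 0
        · subst hi0
          apply hyK
          simpa using hmem
        · apply hy'L
          refine mem_of_pow_prime hp L (hY.exp y' hy'Y) hi0 hip ?_
          have := L.mul_mem (L.inv_mem hyL) (hKL hmem)
          simpa using this
      have hfin : v ^ (p * p) ∈ U := by
        have h1 : v ^ (p * p) = u ^ p * c₁ ^ p := by
          rw [hudef, mul_pow, inv_pow, pow_mul]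
          simp
        rw [h1]
        exact U.mul_mem hup (U.pow_mem hc₁ p)
      exact mem_of_pow_mem (Nat.Coprime.mul_right hN hN) U hfin
  rw [eq_top_iff]
  intro v _
  refine key ⊥ bot_le ?_
  intro y hy
  rw [Subgroup.mem_bot.mp hy]
  rfl

/-- The trace as a homomorphism. -/
def trHom (Y : Subgroup (MulAut N)) [Fintype Y] : N →* N where
  toFun := tr Y
  map_one' := tr_one Y
  map_mul' := tr_mul Y

theorem hyper_sup {Y K K₀ : Subgroup (MulAut N)} (h : IsHyper Y K) (h₀ : IsHyper Y K₀)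
    (hne : K ≠ K₀) : K ⊔ K₀ = Y := by
  have hle : K ⊔ K₀ ≤ Y := sup_le h.1 h₀.1
  rcases h₀.2.2 (K ⊔ K₀) le_sup_right hle with h1 | h1
  · have hKK : K ≤ K₀ := by
      rw [← h1]
      exact le_sup_left
    rcases h.2.2 K₀ hKK h₀.1 with h2 | h2
    · exact absurd h2.symm hne
    · exact absurd h2 h₀.2.1
  · exact h1

theorem coprime_card_of_exp [Finite N] {p : ℕ} (hp : p.Prime) (hN : (Nat.card N).Coprime p)
    {K : Subgroup (MulAut N)} (hK : ∀ x ∈ K, x ^ p = 1) : (Nat.card N).Coprime (Nat.card K) := by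
  haveI : Fact p.Prime := ⟨hp⟩
  have hpg : IsPGroup p K := by
    intro x
    exact ⟨1, by
      apply Subtype.ext
      simpa using hK x x.2⟩
  obtain ⟨n, hn⟩ := IsPGroup.iff_card.mp hpg
  rw [hn]
  exact Nat.Coprime.pow_right n hN

theorem indep [Finite N] {p : ℕ} (hp : p.Prime) (hN : (Nat.card N).Coprime p)
    {Y : Subgroup (MulAut N)} (hY : IsEA p Y) (hfix : fixS Y = ⊥)
    (S : Finset (Subgroup (MulAut N))) (hS : ∀ K ∈ S, IsHyper Y K)
    (a : Subgroup (MulAut N) → N) (ha : ∀ K ∈ S, a K ∈ fixS K) (hprod : ∏ K ∈ S, a K = 1) :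
    ∀ K ∈ S, a K = 1 := by
  classical
  intro K₀ hK₀
  haveI : Fintype K₀ := Fintype.ofFinite K₀
  have h1 : ∏ K ∈ S, trHom K₀ (a K) = 1 := by
    rw [← map_prod, hprod, map_one]
  have h2 : ∀ K ∈ S, K ≠ K₀ → trHom K₀ (a K) = 1 := by
    intro K hK hne
    have hsup := hyper_sup (hS K hK) (hS K₀ hK₀) hne
    have hmem : trHom K₀ (a K) ∈ fixS Y := by
      rw [← hsup]
      refine fix_sup ?_ (tr_mem_fixS K₀ (a K))
      intro k hk
      have hkY := (hS K hK).1 hk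
      have hg : ∀ y ∈ K₀, k * y * k⁻¹ ∈ K₀ := by
        intro y hy
        have := hY.comm k hkY y ((hS K₀ hK₀).1 hy)
        rw [this]
        simpa using hy
      change k (tr K₀ (a K)) = tr K₀ (a K)
      rw [tr_conj K₀ hg, ha K hK k hk]
    rw [hfix] at hmem
    exact Subgroup.mem_bot.mp hmem
  rw [Finset.prod_eq_single_of_mem K₀ hK₀ h2] at h1
  have h3 : tr K₀ (a K₀) = a K₀ ^ Nat.card K₀ := tr_of_fixS K₀ (ha K₀ hK₀)
  have h4 : a K₀ ^ Nat.card K₀ = 1 := by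
    rw [← h3]
    exact h1
  exact eq_one_of_pow_eq_one (coprime_card_of_exp hp hN fun x hx => hY.exp x ((hS K₀ hK₀).1 hx)) h4

/-- Restriction of a stabiliser to an invariant subgroup. -/
def res (U : Subgroup N) (T : Subgroup (MulAut N)) (hT : ∀ t ∈ T, ∀ u ∈ U, t u ∈ U) :
    T →* MulAut U where
  toFun t :=
    { toFun := fun u => ⟨(t : MulAut N) u, hT t t.2 u u.2⟩
      invFun := fun u => ⟨(t : MulAut N)⁻¹ u, hT _ (T.inv_mem t.2) u u.2⟩
      left_inv := fun u => Subtype.ext (aut_inv_self _ _)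
      right_inv := fun u => Subtype.ext (aut_self_inv _ _)
      map_mul' := fun a b => Subtype.ext (map_mul _ _ _) }
  map_one' := by
    ext u
    rfl
  map_mul' := by
    intro a b
    ext u
    rfl

/-- The covering property. -/
def CoverAt (p : ℕ) (N : Type u) [CommGroup N] : Prop :=
  ∀ Γ R : Subgroup (MulAut N), R ≤ Γ → (∀ g ∈ Γ, ∀ r ∈ R, g * r * g⁻¹ ∈ R) → IsPGroup p R →
    ∀ b ∈ R, b ≠ 1 → ∃ v : N, ∀ g ∈ Γ, (g * b * g⁻¹) v ≠ v

theorem restrict {p : ℕ} {U : Subgroup N} (hC : CoverAt p U) {T R₀ : Subgroup (MulAut N)}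
    (hT : ∀ t ∈ T, ∀ u ∈ U, t u ∈ U) (hR₀T : R₀ ≤ T)
    (hnorm : ∀ t ∈ T, ∀ r ∈ R₀, t * r * t⁻¹ ∈ R₀) (hR₀ : IsPGroup p R₀) {b : MulAut N}
    (hb : b ∈ R₀) {u₀ : N} (hu₀ : u₀ ∈ U) (hbu : b u₀ ≠ u₀) :
    ∃ w ∈ U, ∀ t ∈ T, (t * b * t⁻¹) w ≠ w := by
  let ρ := res U T hT
  have hbT : b ∈ T := hR₀T hb
  have hmap : ∀ r (hr : r ∈ T) (u : U), ((ρ ⟨r, hr⟩ u : U) : N) = r u := fun _ _ _ => rfl
  have hmapinv : ∀ r (hr : r ∈ T) (u : U), (((ρ ⟨r, hr⟩)⁻¹ u : U) : N) = r⁻¹ u := fun _ _ _ => rfl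
  have hb1 : ρ ⟨b, hbT⟩ ≠ 1 := by
    intro h
    apply hbu
    have := hmap b hbT ⟨u₀, hu₀⟩
    rw [h] at this
    exact this.symm
  obtain ⟨v', hv'⟩ := hC ρ.range ((R₀.subgroupOf T).map ρ) (Subgroup.map_le_range _ _)
    (by
      rintro g' ⟨t, rfl⟩ r' ⟨r, hr, rfl⟩
      refine ⟨t * r * t⁻¹, ?_, by simp⟩
      rw [SetLike.mem_coe, Subgroup.mem_subgroupOf] at hr ⊢
      exact hnorm t t.2 r hr)
    (IsPGroup.map (H := R₀.subgroupOf T) (IsPGroup.comap_subtype hR₀) ρ)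
    (ρ ⟨b, hbT⟩) ⟨⟨b, hbT⟩, by rw [SetLike.mem_coe, Subgroup.mem_subgroupOf]; exact hb, rfl⟩ hb1
  refine ⟨v', v'.2, ?_⟩
  intro t ht hfix
  apply hv' (ρ ⟨t, ht⟩) ⟨⟨t, ht⟩, rfl⟩
  apply Subtype.ext
  exact hfix

/-- Conjugate of a subgroup. -/
abbrev conjS (g : MulAut N) (K : Subgroup (MulAut N)) : Subgroup (MulAut N) :=
  K.map (MulAut.conj g).toMonoidHom

theorem mem_conjS {g x : MulAut N} {K : Subgroup (MulAut N)} :
    x ∈ conjS g K ↔ g⁻¹ * x * g ∈ K := by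
  constructor
  · rintro ⟨k, hk, rfl⟩
    simpa [mul_assoc] using hk
  · intro h
    exact ⟨_, h, by simp [mul_assoc]⟩

theorem conj_mem_conjS {g x : MulAut N} {K : Subgroup (MulAut N)} (hx : x ∈ K) :
    g * x * g⁻¹ ∈ conjS g K := by
  rw [mem_conjS]
  simpa [mul_assoc] using hx

theorem hyper_conj {Γ Y K : Subgroup (MulAut N)} (hYn : ∀ g ∈ Γ, ∀ y ∈ Y, g * y * g⁻¹ ∈ Y)
    (hK : IsHyper Y K) {g : MulAut N} (hg : g ∈ Γ) : IsHyper Y (conjS g K) := by
  have hginv : g⁻¹ ∈ Γ := Γ.inv_mem hg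
  have hY1 : ∀ y, g * y * g⁻¹ ∈ Y → y ∈ Y := by
    intro y hy
    have := hYn _ hginv _ hy
    simpa [mul_assoc] using this
  have hY2 : ∀ y, g⁻¹ * y * g ∈ Y → y ∈ Y := by
    intro y hy
    have := hYn _ hg _ hy
    simpa [mul_assoc] using this
  refine ⟨?_, ?_, ?_⟩
  · intro x hx
    exact hY2 x (hK.1 (mem_conjS.mp hx))
  · intro h
    apply hK.2.1
    apply le_antisymm hK.1
    intro y hy
    have h1 : g * y * g⁻¹ ∈ Y := hYn g hg y hy
    rw [← h, mem_conjS] at h1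
    simpa [mul_assoc] using h1
  · intro L h1 h2
    have h3 : K ≤ conjS g⁻¹ L := by
      intro x hx
      rw [mem_conjS]
      have := h1 (conj_mem_conjS (g := g) hx)
      simpa using this
    have h4 : conjS g⁻¹ L ≤ Y := by
      intro x hx
      rw [mem_conjS] at hx
      simp only [inv_inv] at hx
      exact hY1 x (h2 hx)
    rcases hK.2.2 _ h3 h4 with h5 | h5
    · left
      apply le_antisymm _ h1
      intro x hx
      rw [mem_conjS, ← h5, mem_conjS]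
      simpa [mul_assoc] using hx
    · right
      apply le_antisymm h2
      intro x hx
      have h6 : g⁻¹ * x * g ∈ conjS g⁻¹ L := by
        rw [h5]
        have := hYn _ hginv _ hx
        simpa using this
      rw [mem_conjS] at h6
      simpa [mul_assoc] using h6

theorem fixS_ne_top_of_ne_bot {K : Subgroup (MulAut N)} (hK : K ≠ ⊥) : fixS K ≠ ⊤ := by
  intro h
  apply hK
  rw [eq_bot_iff]
  intro k hk
  rw [Subgroup.mem_bot]
  apply aut_ext
  intro x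
  have : x ∈ fixS K := by
    rw [h]
    exact Subgroup.mem_top x
  exact this k hk

/-- The block lemma. -/
theorem block [Finite N] {p : ℕ} (hp : p.Prime) (hN : (Nat.card N).Coprime p)
    (IH : ∀ U : Subgroup N, U ≠ ⊤ → CoverAt p U) {Γ Y R₀ : Subgroup (MulAut N)}
    (hY : IsEA p Y) (hYn : ∀ g ∈ Γ, ∀ y ∈ Y, g * y * g⁻¹ ∈ Y) (hfix : fixS Y = ⊥)
    (hbig : ∃ y₁ ∈ Y, ∃ y₂ ∈ Y, y₁ ≠ 1 ∧ y₂ ∉ Subgroup.zpowers y₁)
    (hR₀Γ : R₀ ≤ Γ) (hR₀n : ∀ g ∈ Γ, ∀ r ∈ R₀, g * r * g⁻¹ ∈ R₀) (hR₀p : IsPGroup p R₀)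
    (hcomm : ∀ r ∈ R₀, ∀ y ∈ Y, r * y = y * r)
    {b : MulAut N} (hb : b ∈ R₀) (hb1 : b ≠ 1) : ∃ v : N, ∀ g ∈ Γ, (g * b * g⁻¹) v ≠ v := by
  classical
  obtain ⟨y₁, hy₁, y₂, hy₂, hy₁1, hy₂n⟩ := hbig
  have hnebot : ∀ K, IsHyper Y K → K ≠ ⊥ := by
    rintro K hK rfl
    rcases hK.2.2 (Subgroup.zpowers y₁) bot_le (Subgroup.zpowers_le.mpr hy₁) with h | h
    · exact hy₁1 (Subgroup.zpowers_eq_bot.mp h)
    · exact hy₂n (h ▸ hy₂)
  have hK₁ : ∃ K₁, IsHyper Y K₁ ∧ ∃ u₀ ∈ fixS K₁, b u₀ ≠ u₀ := by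
    by_contra hcon
    push_neg at hcon
    have := span_hyper hp hN hY hfix (fixS (Subgroup.zpowers b)) (fun K hK u hu =>
      mem_fixS_iff_le.mpr (Subgroup.zpowers_le.mpr (hcon K hK u hu)))
    apply hb1
    apply aut_ext
    intro x
    have hx : x ∈ fixS (Subgroup.zpowers b) := by
      rw [this]
      exact Subgroup.mem_top x
    exact hx b (Subgroup.mem_zpowers b)
  obtain ⟨K₁, hK₁, u₀, hu₀, hbu₀⟩ := hK₁
  let T : Subgroup (MulAut N) := Γ ⊓ Subgroup.normalizer (K₁ : Set (MulAut N))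
  have hTmem : ∀ t, t ∈ T ↔ t ∈ Γ ∧ ∀ k, k ∈ K₁ ↔ t * k * t⁻¹ ∈ K₁ := by
    intro t
    rw [Subgroup.mem_inf, Subgroup.mem_normalizer_iff]
  have hTstab : ∀ t ∈ T, ∀ u ∈ fixS K₁, t u ∈ fixS K₁ := by
    intro t ht u hu k hk
    have h1 : t⁻¹ * k * t ∈ K₁ := by
      rw [((hTmem t).mp ht).2]
      simpa [mul_assoc] using hk
    have h2 := hu _ h1
    have h3 : (t⁻¹ * k * t) u = t⁻¹ (k (t u)) := rfl
    rw [h3] at h2
    calc k (t u) = t (t⁻¹ (k (t u))) := (aut_self_inv t _).symm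
      _ = t u := by rw [h2]
  have hR₀T : R₀ ≤ T := by
    intro r hr
    refine (hTmem r).mpr ⟨hR₀Γ hr, fun k => ?_⟩
    have hr' : ∀ k ∈ Y, r * k * r⁻¹ = k := by
      intro k hk
      rw [hcomm r hr k hk]
      simp
    constructor
    · intro hk
      rw [hr' k (hK₁.1 hk)]
      exact hk
    · intro hk
      have h4 : r⁻¹ * (r * k * r⁻¹) * r⁻¹⁻¹ = k := by group
      have h5 := (hK₁.1 hk)
      rw [← h4]
      have h6 : r⁻¹ * (r * k * r⁻¹) * r⁻¹⁻¹ = r * k * r⁻¹ := by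
        have h7 : r⁻¹ * (r * k * r⁻¹) = (r * k * r⁻¹) * r⁻¹ := by
          have := hcomm r hr _ h5
          calc r⁻¹ * (r * k * r⁻¹) = r⁻¹ * (r * k * r⁻¹) * (r * r⁻¹) := by simp
            _ = r⁻¹ * ((r * k * r⁻¹) * r) * r⁻¹ := by group
            _ = r⁻¹ * (r * (r * k * r⁻¹)) * r⁻¹ := by rw [this]
            _ = (r * k * r⁻¹) * r⁻¹ := by group
        rw [h7]
        simp
      rw [h6]
      exact hk
  have hT_norm : ∀ t ∈ T, ∀ r ∈ R₀, t * r * t⁻¹ ∈ R₀ := fun t ht r hr =>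
    hR₀n t ((hTmem t).mp ht).1 r hr
  obtain ⟨w, hw, hwT⟩ := restrict (IH _ (fixS_ne_top_of_ne_bot (hnebot K₁ hK₁))) hTstab hR₀T
    hT_norm hR₀p hb hu₀ hbu₀
  -- the orbit of `K₁`
  let O : Finset (Subgroup (MulAut N)) :=
    (Set.toFinite {K : Subgroup (MulAut N) | ∃ g ∈ Γ, K = conjS g K₁}).toFinset
  have hO : ∀ K, K ∈ O ↔ ∃ g ∈ Γ, K = conjS g K₁ := by
    intro K
    simp [O]
  have hchoose : ∀ K, ∃ g : MulAut N, K ∈ O → g ∈ Γ ∧ K = conjS g K₁ := by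
    intro K
    by_cases hK : K ∈ O
    · obtain ⟨g, hg, h⟩ := (hO K).mp hK
      exact ⟨g, fun _ => ⟨hg, h⟩⟩
    · exact ⟨1, fun h => absurd h hK⟩
  choose gg hgg using hchoose
  have hOhyper : ∀ K ∈ O, IsHyper Y K := by
    intro K hK
    obtain ⟨hg, h⟩ := hgg K hK
    rw [h]
    exact hyper_conj hYn hK₁ hg
  have hgw : ∀ K ∈ O, gg K w ∈ fixS K := by
    intro K hK y hy
    obtain ⟨hg, h⟩ := hgg K hK
    rw [h, mem_conjS] at hy
    have h2 := hw _ hy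
    have h3 : (( gg K)⁻¹ * y * gg K) w = (gg K)⁻¹ (y (gg K w)) := rfl
    rw [h3] at h2
    calc y (gg K w) = gg K ((gg K)⁻¹ (y (gg K w))) := (aut_self_inv _ _).symm
      _ = gg K w := by rw [h2]
  refine ⟨∏ K ∈ O, gg K w, ?_⟩
  intro h hh hfx
  set b' := h * b * h⁻¹ with hb'
  have hb'R : b' ∈ R₀ := hR₀n h hh b hb
  have hstab : ∀ K ∈ O, ∀ u ∈ fixS K, b' u ∈ fixS K := by
    intro K hK u hu k hk
    have hc : k * b' = b' * k := (hcomm b' hb'R k ((hOhyper K hK).1 hk)).symm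
    have : k (b' u) = b' (k u) := congrArg (fun f : MulAut N => f u) hc
    rw [this, hu k hk]
  have hind := indep hp hN hY hfix O hOhyper (fun K => b' (gg K w) * (gg K w)⁻¹)
    (fun K hK => (fixS K).mul_mem (hstab K hK _ (hgw K hK)) ((fixS K).inv_mem (hgw K hK)))
    (by
      rw [Finset.prod_mul_distrib, Finset.prod_inv_distrib, ← map_prod, hfx]
      simp)
  set K₂ := conjS h K₁ with hK₂
  have hK₂O : K₂ ∈ O := (hO K₂).mpr ⟨h, hh, rfl⟩
  have hfx2 : b' (gg K₂ w) = gg K₂ w := by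
    have := hind K₂ hK₂O
    exact mul_inv_eq_one.mp this
  obtain ⟨hg₂, hconj⟩ := hgg K₂ hK₂O
  have htT : (gg K₂)⁻¹ * h ∈ T := by
    refine (hTmem _).mpr ⟨Γ.mul_mem (Γ.inv_mem hg₂) hh, fun k => ?_⟩
    have h1 : (gg K₂)⁻¹ * h * k * ((gg K₂)⁻¹ * h)⁻¹ = (gg K₂)⁻¹ * (h * k * h⁻¹) * gg K₂ := by
      group
    rw [h1, ← mem_conjS, ← hconj, hK₂, mem_conjS]
    have h2 : h⁻¹ * (h * k * h⁻¹) * h = k := by group
    rw [h2]
  apply hwT _ htT
  have h3 : ((gg K₂)⁻¹ * h) * b * ((gg K₂)⁻¹ * h)⁻¹ = (gg K₂)⁻¹ * b' * gg K₂ := by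
    rw [hb']
    group
  rw [h3]
  show (gg K₂)⁻¹ (b' (gg K₂ w)) = w
  rw [hfx2]
  exact aut_inv_self _ _

end Cfsg.Agent.Lib.Struct.FixCover
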