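import Cfsg.Agent.Lib.Struct.FixB

/-! # Coverings: groups of symplectic type acting on a coprime module. -/

set_option autoImplicit false

namespace Cfsg.Agent.Lib.Struct.FixCover

universe u

section grp
variable {G : Type*} [Group G]

theorem pow_rel {x y z₀ : G} (h : x * y = z₀ * y * x) (hxz : x * z₀ = z₀ * x) (i : ℕ) :
    x ^ i * y = z₀ ^ i * y * x ^ i := by
  induction i with
  | zero => simp
  | succ i ih =>
    have hc : Commute x (z₀ ^ i) := Commute.pow_right hxz i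
    calc x ^ (i+1) * y = x * (x ^ i * y) := by rw [pow_succ', mul_assoc]
      _ = x * (z₀ ^ i * y * x ^ i) := by rw [ih]
      _ = (x * z₀ ^ i) * y * x ^ i := by simp only [mul_assoc]
      _ = (z₀ ^ i * x) * y * x ^ i := by rw [hc.eq]
      _ = z₀ ^ i * (x * y) * x ^ i := by simp only [mul_assoc]
      _ = z₀ ^ i * (z₀ * y * x) * x ^ i := by rw [h]
      _ = z₀ ^ (i+1) * y * x ^ (i+1) := by
        rw [pow_succ z₀ i, pow_succ' x i]; simp only [mul_assoc]

theorem adjust [Finite G] {x y g z₀ : G} {p : ℕ} (hp : p ≠ 0) (hz : z₀ ^ p = 1)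
    (h : x * y = z₀ * y * x) (hxz : x * z₀ = z₀ * x) (hgz : g * z₀ = z₀ * g)
    (hg : g * y * g⁻¹ * y⁻¹ ∈ Subgroup.zpowers z₀) :
    ∃ i : ℕ, (g * x ^ i) * y = y * (g * x ^ i) := by
  obtain ⟨k, hk⟩ := (mem_powers_iff_mem_zpowers).mpr hg
  have hk' : z₀ ^ k = g * y * g⁻¹ * y⁻¹ := hk
  refine ⟨k * (p - 1), ?_⟩
  set i := k * (p - 1) with hi
  have hsum : z₀ ^ i * z₀ ^ k = 1 := by
    rw [← pow_add]
    have : i + k = p * k := by
      rw [hi]
      obtain ⟨q, rfl⟩ := Nat.exists_eq_succ_of_ne_zero hp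
      simp only [Nat.succ_eq_add_one, Nat.add_sub_cancel]
      ring
    rw [this, pow_mul, hz, one_pow]
  have hgy : g * y = z₀ ^ k * y * g := by
    rw [hk']
    group
  have hgi : Commute g (z₀ ^ i) := Commute.pow_right hgz i
  calc (g * x ^ i) * y = g * (x ^ i * y) := by rw [mul_assoc]
    _ = g * (z₀ ^ i * y * x ^ i) := by rw [pow_rel h hxz]
    _ = (g * z₀ ^ i) * y * x ^ i := by simp only [mul_assoc]
    _ = (z₀ ^ i * g) * y * x ^ i := by rw [hgi.eq]
    _ = z₀ ^ i * (g * y) * x ^ i := by simp only [mul_assoc]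
    _ = z₀ ^ i * (z₀ ^ k * y * g) * x ^ i := by rw [hgy]
    _ = (z₀ ^ i * z₀ ^ k) * y * g * x ^ i := by simp only [mul_assoc]
    _ = y * (g * x ^ i) := by rw [hsum]; simp only [one_mul, mul_assoc]

theorem adjust2 [Finite G] {x y g z₀ : G} {p : ℕ} (hp : p ≠ 0) (hz : z₀ ^ p = 1)
    (h : x * y = z₀ * y * x) (hxz : x * z₀ = z₀ * x) (hyz : y * z₀ = z₀ * y)
    (hgz : g * z₀ = z₀ * g)
    (hg1 : g * x * g⁻¹ * x⁻¹ ∈ Subgroup.zpowers z₀)
    (hg2 : g * y * g⁻¹ * y⁻¹ ∈ Subgroup.zpowers z₀) :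
    ∃ i j : ℕ, (g * x ^ i * y ^ j) * x = x * (g * x ^ i * y ^ j) ∧
      (g * x ^ i * y ^ j) * y = y * (g * x ^ i * y ^ j) := by
  obtain ⟨i, hi⟩ := adjust hp hz h hxz hgz hg2
  set g' := g * x ^ i with hg'
  have hg'z : g' * z₀ = z₀ * g' := by
    have hc : Commute (x ^ i) z₀ := Commute.pow_left hxz i
    rw [hg', mul_assoc, hc.eq, ← mul_assoc, hgz, mul_assoc]
  have hxi : Commute x (x ^ i) := Commute.pow_right (Commute.refl x) i
  have h' : y * x = z₀⁻¹ * x * y := by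
    have h1 : z₀⁻¹ * x * y = y * x := by
      rw [mul_assoc, h]
      group
    exact h1.symm
  have hg1' : g' * x * g'⁻¹ * x⁻¹ ∈ Subgroup.zpowers z₀⁻¹ := by
    have : g' * x * g'⁻¹ * x⁻¹ = g * x * g⁻¹ * x⁻¹ := by
      have h1 : g' * x = g * x * x ^ i := by
        rw [hg', mul_assoc, ← hxi.eq, mul_assoc]
      rw [h1, hg']
      group
    rw [this]
    simpa using hg1
  obtain ⟨j, hj⟩ := adjust (x := y) (y := x) (g := g') (z₀ := z₀⁻¹) hp (by simp [hz]) h'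
    (by
      have := (Commute.inv_right (show Commute y z₀ from hyz)).eq
      exact this)
    (by
      have := (Commute.inv_right (show Commute g' z₀ from hg'z)).eq
      exact this)
    hg1'
  refine ⟨i, j, hj, ?_⟩
  have hyj : Commute y (y ^ j) := Commute.pow_right (Commute.refl y) j
  calc g' * y ^ j * y = g' * (y ^ j * y) := mul_assoc _ _ _
    _ = g' * (y * y ^ j) := by rw [hyj.eq]
    _ = (g' * y) * y ^ j := (mul_assoc _ _ _).symm
    _ = y * g' * y ^ j := by rw [hi]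
    _ = y * (g' * y ^ j) := mul_assoc _ _ _

end grp

variable {N : Type u} [CommGroup N]

/-- Symplectic type data. -/
structure Sympl (p : ℕ) (W : Subgroup (MulAut N)) (z : MulAut N) : Prop where
  z_mem : z ∈ W
  z_ne : z ≠ 1
  exp : ∀ x ∈ W, x ^ p = 1
  z_central : ∀ x ∈ W, x * z = z * x
  comm : ∀ x ∈ W, ∀ y ∈ W, x * y * x⁻¹ * y⁻¹ ∈ Subgroup.zpowers z
  center : ∀ x ∈ W, (∀ y ∈ W, x * y = y * x) → x ∈ Subgroup.zpowers z
  fix : ∀ u : N, z u = u → u = 1

theorem zp_gen [Finite N] {p : ℕ} (hp : p.Prime) {z ζ : MulAut N} (hz : z ^ p = 1)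
    (hζ : ζ ∈ Subgroup.zpowers z) (hne : ζ ≠ 1) : z ∈ Subgroup.zpowers ζ := by
  obtain ⟨k, hk⟩ := (mem_powers_iff_mem_zpowers).mpr hζ
  have hk' : z ^ k = ζ := hk
  have hmod : z ^ (k % p) = ζ := by
    rw [← hk']
    conv_rhs => rw [← Nat.mod_add_div k p, pow_add, pow_mul, hz, one_pow, mul_one]
  refine mem_of_pow_prime hp _ hz (i := k % p) ?_ (Nat.mod_lt _ hp.pos) ?_
  · intro h0
    rw [h0, pow_zero] at hmod
    exact hne hmod.symm
  · rw [hmod]
    exact Subgroup.mem_zpowers ζ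

theorem zp_comm {x z ζ : MulAut N} (h : x * z = z * x) (hζ : ζ ∈ Subgroup.zpowers z) :
    x * ζ = ζ * x := by
  obtain ⟨i, rfl⟩ := Subgroup.mem_zpowers_iff.mp hζ
  exact (Commute.zpow_right (show Commute x z from h) i).eq

theorem zp_fix [Finite N] {p : ℕ} (hp : p.Prime) {z ζ : MulAut N} (hz : z ^ p = 1)
    (hfix : ∀ u : N, z u = u → u = 1) (hζ : ζ ∈ Subgroup.zpowers z) (hne : ζ ≠ 1) {u : N}
    (hu : ζ u = u) : u = 1 :=
  hfix u (fix_of_mem_zpowers hu (zp_gen hp hz hζ hne))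

/-- centraliser of an element -/
abbrev cenOf (x : MulAut N) : Subgroup (MulAut N) := Subgroup.centralizer ({x} : Set (MulAut N))

theorem mem_cenOf {x g : MulAut N} : g ∈ cenOf x ↔ g * x = x * g := by
  rw [Subgroup.mem_centralizer_singleton_iff]

/-- The reduced group. -/
abbrev W2 (W : Subgroup (MulAut N)) (x y : MulAut N) : Subgroup (MulAut N) :=
  W ⊓ cenOf x ⊓ cenOf y

theorem mem_W2 {W : Subgroup (MulAut N)} {x y g : MulAut N} :
    g ∈ W2 W x y ↔ g ∈ W ∧ g * x = x * g ∧ g * y = y * g := by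
  rw [W2, Subgroup.mem_inf, Subgroup.mem_inf, mem_cenOf, mem_cenOf]
  tauto

/-- Splitting: data. -/
structure SplitData (p : ℕ) (W : Subgroup (MulAut N)) (z x y z₀ : MulAut N) : Prop where
  hx : x ∈ W
  hy : y ∈ W
  hz₀def : z₀ = x * y * x⁻¹ * y⁻¹
  hz₀ : z₀ ∈ Subgroup.zpowers z
  hz₀1 : z₀ ≠ 1
  hxy : x * y = z₀ * y * x
  hz₀p : z₀ ^ p = 1
  hzz₀ : z ∈ Subgroup.zpowers z₀
  hzp : Subgroup.zpowers z₀ = Subgroup.zpowers z
  hW2 : Sympl p (W2 W x y) z
  hxW2 : x ∉ W2 W x y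
  hD : ∀ g ∈ W, ∃ i j : ℕ, g * x ^ i * y ^ j ∈ W2 W x y

theorem Sympl.split [Finite N] {p : ℕ} (hp : p.Prime) {W : Subgroup (MulAut N)} {z : MulAut N}
    (h : Sympl p W z) {x : MulAut N} (hx : x ∈ W) (hxz : x ∉ Subgroup.zpowers z) :
    ∃ y z₀, SplitData p W z x y z₀ := by
  have hy : ∃ y ∈ W, x * y ≠ y * x := by
    by_contra hcon
    push_neg at hcon
    exact hxz (h.center x hx hcon)
  obtain ⟨y, hy, hxy⟩ := hy
  have hzp : z ^ p = 1 := h.exp z h.z_mem
  set z₀ := x * y * x⁻¹ * y⁻¹ with hz₀def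
  have hz₀ : z₀ ∈ Subgroup.zpowers z := h.comm x hx y hy
  have hz₀1 : z₀ ≠ 1 := by
    intro h1
    apply hxy
    have : x * y * x⁻¹ * y⁻¹ * (y * x) = y * x := by
      rw [← hz₀def, h1, one_mul]
    rw [← this]
    group
  have hz₀W : z₀ ∈ W := W.mul_mem (W.mul_mem (W.mul_mem hx hy) (W.inv_mem hx)) (W.inv_mem hy)
  have hz₀p : z₀ ^ p = 1 := h.exp _ hz₀W
  have hzz₀ : z ∈ Subgroup.zpowers z₀ := zp_gen hp hzp hz₀ hz₀1
  have hzeq : Subgroup.zpowers z₀ = Subgroup.zpowers z :=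
    le_antisymm (Subgroup.zpowers_le.mpr hz₀) (Subgroup.zpowers_le.mpr hzz₀)
  have hxy' : x * y = z₀ * y * x := by
    rw [hz₀def]
    group
  have hcomm : ∀ g ∈ W, g * z₀ = z₀ * g := fun g hg => zp_comm (h.z_central g hg) hz₀
  have hD : ∀ g ∈ W, ∃ i j : ℕ, g * x ^ i * y ^ j ∈ W2 W x y := by
    intro g hg
    obtain ⟨i, j, h1, h2⟩ := adjust2 hp.ne_zero hz₀p hxy' (hcomm x hx) (hcomm y hy) (hcomm g hg)
      (by rw [hzeq]; exact h.comm g hg x hx) (by rw [hzeq]; exact h.comm g hg y hy)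
    refine ⟨i, j, mem_W2.mpr ⟨?_, h1, h2⟩⟩
    exact W.mul_mem (W.mul_mem hg (W.pow_mem hx i)) (W.pow_mem hy j)
  have hW2le : ∀ g, g ∈ W2 W x y → g ∈ W := fun g hg => (mem_W2.mp hg).1
  refine ⟨y, z₀, hx, hy, hz₀def, hz₀, hz₀1, hxy', hz₀p, hzz₀, hzeq, ?_, ?_, hD⟩
  · refine ⟨mem_W2.mpr ⟨h.z_mem, (h.z_central x hx).symm, (h.z_central y hy).symm⟩, h.z_ne,
      fun g hg => h.exp g (hW2le g hg), fun g hg => h.z_central g (hW2le g hg),
      fun a ha b hb => h.comm a (hW2le a ha) b (hW2le b hb), ?_, h.fix⟩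
    intro g hg hgc
    obtain ⟨hgW, hgx, hgy⟩ := mem_W2.mp hg
    refine h.center g hgW fun k hk => ?_
    obtain ⟨i, j, hij⟩ := hD k hk
    have h1 := hgc _ hij
    have hcx : Commute g (x ^ i) := Commute.pow_right hgx i
    have hcy : Commute g (y ^ j) := Commute.pow_right hgy j
    have hck : Commute g (k * x ^ i * y ^ j) := h1
    have h2 : Commute g (k * x ^ i) := by
      have := hck.mul_right hcy.inv_right
      simpa [mul_assoc] using this
    have h3 : Commute g k := by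
      have := h2.mul_right hcx.inv_right
      simpa [mul_assoc] using this
    exact h3
  · intro hmem
    apply hxy
    exact ((mem_W2.mp hmem).2.2).symm ▸ rfl

/-- Every automorphism acting on `W` through `⟨z⟩` acts as an inner automorphism of `W`. -/
theorem centralize [Finite N] {p : ℕ} (hp : p.Prime) : ∀ (n : ℕ) (W : Subgroup (MulAut N))
    (z : MulAut N), Nat.card W = n → Sympl p W z → ∀ r : MulAut N, r * z = z * r →
    (∀ h ∈ W, r * h * r⁻¹ * h⁻¹ ∈ Subgroup.zpowers z) →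
    ∃ w ∈ W, ∀ h ∈ W, (r * w⁻¹) * h = h * (r * w⁻¹) := by
  intro n
  induction n using Nat.strong_induction_on with
  | _ n ih =>
    intro W z hn hS r hrz hr
    by_cases hW : ∀ x ∈ W, x ∈ Subgroup.zpowers z
    · refine ⟨1, W.one_mem, fun h hh => ?_⟩
      simpa using zp_comm hrz (hW h hh)
    push_neg at hW
    obtain ⟨x, hx, hxz⟩ := hW
    obtain ⟨y, z₀, hd⟩ := hS.split hp hx hxz
    have hcomm : ∀ g ∈ W, g * z₀ = z₀ * g := fun g hg => zp_comm (hS.z_central g hg) hd.hz₀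
    obtain ⟨i, j, h1, h2⟩ := adjust2 hp.ne_zero hd.hz₀p hd.hxy (hcomm x hx) (hcomm y hd.hy)
      (zp_comm hrz hd.hz₀) (by rw [hd.hzp]; exact hr x hx) (by rw [hd.hzp]; exact hr y hd.hy)
    set r' := r * x ^ i * y ^ j with hr'
    have hlt : Nat.card (W2 W x y) < n := by
      rw [← hn]
      refine lt_of_le_of_ne (Subgroup.card_le_of_le fun g hg => (mem_W2.mp hg).1) ?_
      intro he
      have := Subgroup.eq_of_le_of_card_ge (fun g hg => (mem_W2.mp hg).1) (le_of_eq he.symm)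
      exact hd.hxW2 (this.ge hx)
    have hxW : ∀ h ∈ W2 W x y, x ^ i * y ^ j * h * (x ^ i * y ^ j)⁻¹ = h := by
      intro h hh
      obtain ⟨_, hhx, hhy⟩ := mem_W2.mp hh
      have c1 : Commute (x ^ i) h := (Commute.pow_right (show Commute h x from hhx) i).symm
      have c2 : Commute (y ^ j) h := (Commute.pow_right (show Commute h y from hhy) j).symm
      have c3 : Commute (x ^ i * y ^ j) h := c1.mul_left c2
      rw [c3.eq]
      exact mul_inv_cancel_right _ _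
    obtain ⟨w₂, hw₂, hw₂c⟩ := ih _ hlt (W2 W x y) z rfl hd.hW2 r' (by
        have c1 : Commute (x ^ i) z := Commute.pow_left (hS.z_central x hx) i
        have c2 : Commute (y ^ j) z := Commute.pow_left (hS.z_central y hd.hy) j
        have c3 : Commute r z := hrz
        have c4 : Commute r' z := (c3.mul_left c1).mul_left c2
        exact c4.eq) (by
        intro h hh
        have : r' * h * r'⁻¹ * h⁻¹ = r * h * r⁻¹ * h⁻¹ := by
          have h3 : r' * h * r'⁻¹ = r * (x ^ i * y ^ j * h * (x ^ i * y ^ j)⁻¹) * r⁻¹ := by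
            rw [hr']
            group
          rw [h3, hxW h hh]
        rw [this]
        exact hr h (mem_W2.mp hh).1)
    obtain ⟨hw₂W, hw₂x, hw₂y⟩ := mem_W2.mp hw₂
    have hrr : Commute (r' * w₂⁻¹) x := by
      have c1 : Commute r' x := h1
      have c2 : Commute w₂ x := hw₂x
      exact c1.mul_left c2.inv_left
    have hrr2 : Commute (r' * w₂⁻¹) y := by
      have c1 : Commute r' y := h2
      have c2 : Commute w₂ y := hw₂y
      exact c1.mul_left c2.inv_left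
    refine ⟨w₂ * (y ^ j)⁻¹ * (x ^ i)⁻¹, W.mul_mem (W.mul_mem hw₂W (W.inv_mem (W.pow_mem hd.hy j)))
      (W.inv_mem (W.pow_mem hx i)), ?_⟩
    have hrew : r * (w₂ * (y ^ j)⁻¹ * (x ^ i)⁻¹)⁻¹ = r' * w₂⁻¹ := by
      rw [hr']
      group
    intro h hh
    rw [hrew]
    obtain ⟨k, l, hkl⟩ := hd.hD h hh
    have h3 : Commute (r' * w₂⁻¹) (h * x ^ k * y ^ l) := hw₂c _ hkl
    have h4 : Commute (r' * w₂⁻¹) (h * x ^ k) := by
      have := h3.mul_right (Commute.pow_right hrr2 l).inv_right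
      simpa [mul_assoc] using this
    have h5 : Commute (r' * w₂⁻¹) h := by
      have := h4.mul_right (Commute.pow_right hrr k).inv_right
      simpa [mul_assoc] using this
    exact h5

/-- Eigenvalue projection. -/
theorem eig_proj [Finite N] {p : ℕ} (hN : (Nat.card N).Coprime p) {x ξ ζ : MulAut N}
    (hxξ : x * ξ = ξ * x) (hξζ : ξ * ζ = ζ * ξ) (hxζ : x * ζ = ζ * x) {u : N} (hu : x u = ζ u)
    (hfix : ξ⁻¹ * ζ ≠ 1 → ∀ t : N, (ξ⁻¹ * ζ) t = t → t = 1) (hθp : (ξ⁻¹ * ζ) ^ p = 1) :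
    (ξ = ζ → cyc p (ξ⁻¹ * x) u = u ^ p) ∧ (ξ ≠ ζ → cyc p (ξ⁻¹ * x) u = 1) := by
  set θ := ξ⁻¹ * ζ with hθ
  have hτ : (ξ⁻¹ * x) u = θ u := by
    show ξ⁻¹ (x u) = ξ⁻¹ (ζ u)
    rw [hu]
  have hcθ : (ξ⁻¹ * x) * θ = θ * (ξ⁻¹ * x) := by
    have c1 : Commute ξ⁻¹ ξ⁻¹ := Commute.refl _
    have c2 : Commute x ξ⁻¹ := (show Commute x ξ from hxξ).inv_right
    have c3 : Commute ξ⁻¹ ζ := (show Commute ξ ζ from hξζ).inv_left
    have c4 : Commute x ζ := hxζ
    have c5 : Commute (ξ⁻¹ * x) ξ⁻¹ := c1.mul_left c2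
    have c6 : Commute (ξ⁻¹ * x) ζ := c3.mul_left c4
    exact (c5.mul_right c6).eq
  have hpow : ∀ i : ℕ, ((ξ⁻¹ * x) ^ i) u = (θ ^ i) u := by
    intro i
    induction i with
    | zero => rfl
    | succ i ih =>
      rw [pow_succ, pow_succ]
      show ((ξ⁻¹ * x) ^ i) ((ξ⁻¹ * x) u) = (θ ^ i) (θ u)
      rw [hτ]
      have := aut_pow_comm (f := ξ⁻¹ * x) (g := θ) hcθ.symm i u
      rw [ih] at this
      rw [← this]
      exact (aut_pow_comm (f := θ) (g := θ) (Commute.refl θ) i u).symm.symm ▸ rfl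
  have hc : cyc p (ξ⁻¹ * x) u = cyc p θ u := by
    unfold cyc
    exact Finset.prod_congr rfl fun i _ => hpow i
  rw [hc]
  constructor
  · intro he
    have : θ = 1 := by
      rw [hθ, he]
      simp
    rw [this]
    exact cyc_of_fixed rfl
  · intro he
    refine hfix ?_ _ (cyc_fixed hθp u)
    intro h1
    apply he
    exact (inv_mul_eq_one.mp h1)

/-- Regular vectors for groups of symplectic type. -/
theorem regular [Finite N] {p : ℕ} (hp : p.Prime) (hp2 : p ≠ 2) (hN : (Nat.card N).Coprime p) :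
    ∀ (n : ℕ) (W : Subgroup (MulAut N)) (z : MulAut N), Nat.card W = n → Sympl p W z →
    ∀ N₁ : Subgroup N, N₁ ≠ ⊥ → (∀ g ∈ W, ∀ u ∈ N₁, g u ∈ N₁) →
    ∃ v ∈ N₁, ∀ g ∈ W, g v = v → g = 1 := by
  intro n
  induction n using Nat.strong_induction_on with
  | _ n ih =>
    intro W z hn hS N₁ hN₁ hstab
    have hzp : z ^ p = 1 := hS.exp z hS.z_mem
    obtain ⟨u, hu, hu1⟩ := (Subgroup.bot_or_exists_ne_one N₁).resolve_left hN₁
    by_cases hW : ∀ x ∈ W, x ∈ Subgroup.zpowers z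
    · refine ⟨u, hu, fun g hg hgu => ?_⟩
      by_contra hg1
      exact hu1 (zp_fix hp hzp hS.fix (hW g hg) hg1 hgu)
    push_neg at hW
    obtain ⟨x, hx, hxz⟩ := hW
    obtain ⟨y, z₀, hd⟩ := hS.split hp hx hxz
    have hy := hd.hy
    have hcomm : ∀ g ∈ W, g * z₀ = z₀ * g := fun g hg => zp_comm (hS.z_central g hg) hd.hz₀
    have hz₀W : z₀ ∈ W := by
      have : Subgroup.zpowers z ≤ W := Subgroup.zpowers_le.mpr hS.z_mem
      exact this hd.hz₀
    have hZW : Subgroup.zpowers z ≤ W := Subgroup.zpowers_le.mpr hS.z_mem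
    let N₂ : Subgroup N := N₁ ⊓ fixS (Subgroup.zpowers x)
    have hmemN₂ : ∀ t, t ∈ N₂ ↔ t ∈ N₁ ∧ x t = t := by
      intro t
      rw [Subgroup.mem_inf]
      constructor
      · rintro ⟨h1, h2⟩
        exact ⟨h1, h2 x (Subgroup.mem_zpowers x)⟩
      · rintro ⟨h1, h2⟩
        exact ⟨h1, mem_fixS_iff_le.mpr (Subgroup.zpowers_le.mpr h2)⟩
    have hrel : ∀ i : ℕ, x * y ^ i = y ^ i * (x * z₀ ^ i) := by
      intro i
      induction i with
      | zero => simp
      | succ i ih =>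
        have hc : Commute y (z₀ ^ i) := Commute.pow_right (hcomm y hy) i
        have hxy' : x * y = y * (x * z₀) := by
          rw [hd.hxy]
          have hc1 : x * z₀ = z₀ * x := hcomm x hx
          have hc2 : y * z₀ = z₀ * y := hcomm y hy
          rw [hc1, ← mul_assoc, hc2]
        calc x * y ^ (i+1) = (x * y ^ i) * y := by rw [pow_succ, mul_assoc]
          _ = (y ^ i * (x * z₀ ^ i)) * y := by rw [ih]
          _ = y ^ i * (x * (z₀ ^ i * y)) := by simp only [mul_assoc]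
          _ = y ^ i * (x * (y * z₀ ^ i)) := by rw [← hc.eq]
          _ = y ^ i * ((x * y) * z₀ ^ i) := by simp only [mul_assoc]
          _ = y ^ i * ((y * (x * z₀)) * z₀ ^ i) := by rw [hxy']
          _ = y ^ (i+1) * (x * z₀ ^ (i+1)) := by
            rw [pow_succ y i, pow_succ' z₀ i]; simp only [mul_assoc]
    have hN₂ : N₂ ≠ ⊥ := by
      have hcz : cyc p z₀ u = 1 :=
        zp_fix hp hzp hS.fix hd.hz₀ hd.hz₀1 (cyc_fixed hd.hz₀p u)
      have hes := eig_sum hp hN (a := x) (b := z₀) (hcomm x hx) (hS.exp x hx) hd.hz₀p hcz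
      have hup : u ^ p ≠ 1 := fun h => hu1 (eq_one_of_pow_eq_one hN h)
      have hex : ∃ i ∈ Finset.range p, cyc p (x * z₀ ^ i) u ≠ 1 := by
        by_contra hcon
        push_neg at hcon
        rw [Finset.prod_eq_one hcon] at hes
        exact hup hes.symm
      obtain ⟨i, _, hne⟩ := hex
      have hmemi : x * z₀ ^ i ∈ W := W.mul_mem hx (W.pow_mem hz₀W i)
      set u' := cyc p (x * z₀ ^ i) u with hu'
      have hu'N : u' ∈ N₁ := cyc_mem N₁ (fun t ht => hstab _ hmemi t ht) hu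
      have hu'fix : (x * z₀ ^ i) u' = u' := cyc_fixed (hS.exp _ hmemi) u
      have h2 : x ((y ^ i) u') = (y ^ i) u' := by
        have h3 : (x * y ^ i) u' = (y ^ i * (x * z₀ ^ i)) u' := by rw [hrel i]
        have h4 : (y ^ i * (x * z₀ ^ i)) u' = (y ^ i) ((x * z₀ ^ i) u') := rfl
        rw [h4, hu'fix] at h3
        exact h3
      have hmem : (y ^ i) u' ∈ N₂ :=
        (hmemN₂ _).mpr ⟨hstab _ (W.pow_mem hy i) _ hu'N, h2⟩
      intro hbot
      rw [hbot, Subgroup.mem_bot] at hmem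
      apply hne
      have h5 : (y ^ i) u' = (y ^ i) 1 := by rw [hmem, map_one]
      exact (y ^ i).injective h5
    have hlt : Nat.card (W2 W x y) < n := by
      rw [← hn]
      refine lt_of_le_of_ne (Subgroup.card_le_of_le fun g hg => (mem_W2.mp hg).1) ?_
      intro he
      have := Subgroup.eq_of_le_of_card_ge (fun g hg => (mem_W2.mp hg).1) (le_of_eq he.symm)
      exact hd.hxW2 (this.ge hx)
    have hstab₂ : ∀ g ∈ W2 W x y, ∀ t ∈ N₂, g t ∈ N₂ := by
      intro g hg t ht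
      obtain ⟨hgW, hgx, _⟩ := mem_W2.mp hg
      obtain ⟨h1, h2⟩ := (hmemN₂ t).mp ht
      refine (hmemN₂ _).mpr ⟨hstab g hgW t h1, ?_⟩
      have h3 : (x * g) t = (g * x) t := by rw [hgx]
      have h4 : (g * x) t = g (x t) := rfl
      rw [h4, h2] at h3
      exact h3
    obtain ⟨v₀, hv₀, hv₀r⟩ := ih _ hlt (W2 W x y) z rfl hd.hW2 N₂ hN₂ hstab₂
    obtain ⟨hv₀N, hxv₀⟩ := (hmemN₂ v₀).mp hv₀
    have hv₀1 : v₀ ≠ 1 := fun h =>
      hS.z_ne (hv₀r z hd.hW2.z_mem (by rw [h, map_one]))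
    set v₁ := y v₀ with hv₁def
    have hxv₁ : x v₁ = z₀ v₁ := by
      have h3 : (x * y) v₀ = (z₀ * y * x) v₀ := by rw [hd.hxy]
      have h4 : (z₀ * y * x) v₀ = z₀ (y (x v₀)) := rfl
      rw [h4, hxv₀] at h3
      exact h3
    have hv₁1 : v₁ ≠ 1 := by
      intro h
      apply hv₀1
      have h5 : y v₀ = y 1 := by
        rw [map_one]
        exact h
      exact y.injective h5
    refine ⟨v₀ * v₁, N₁.mul_mem hv₀N (hstab y hy _ hv₀N), ?_⟩
    intro g hg hgv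
    set c := g * x * g⁻¹ * x⁻¹ with hcdef
    have hc : c ∈ Subgroup.zpowers z := hS.comm g hg x hx
    have hcW : c ∈ W := hZW hc
    have hcinv : c⁻¹ ∈ Subgroup.zpowers z := Subgroup.inv_mem _ hc
    have hxg : x * g = c⁻¹ * g * x := by
      rw [hcdef]
      group
    have hxa₀ : x (g v₀) = c⁻¹ (g v₀) := by
      have h3 : (x * g) v₀ = (c⁻¹ * g * x) v₀ := by rw [hxg]
      have h4 : (c⁻¹ * g * x) v₀ = c⁻¹ (g (x v₀)) := rfl
      rw [h4, hxv₀] at h3
      exact h3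
    have hxa₁ : x (g v₁) = (c⁻¹ * z₀) (g v₁) := by
      have h3 : (x * g) v₁ = (c⁻¹ * g * x) v₁ := by rw [hxg]
      have h4 : (c⁻¹ * g * x) v₁ = c⁻¹ (g (x v₁)) := rfl
      rw [h4, hxv₁] at h3
      have h5 : g (z₀ v₁) = z₀ (g v₁) := congrArg (fun f : MulAut N => f v₁) (hcomm g hg)
      rw [h5] at h3
      exact h3
    have heq : g v₀ * g v₁ = v₀ * v₁ := by
      rw [← map_mul]
      exact hgv
    -- the projections
    have hcomZ : ∀ ζ ∈ Subgroup.zpowers z, x * ζ = ζ * x := fun ζ hζ =>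
      zp_comm (hS.z_central x hx) hζ
    have hZZ : ∀ ξ ∈ Subgroup.zpowers z, ∀ ζ ∈ Subgroup.zpowers z, ξ * ζ = ζ * ξ := by
      intro ξ hξ ζ hζ
      exact zp_comm (hS.z_central ξ (hZW hξ)) hζ
    have hproj : ∀ ξ ∈ Subgroup.zpowers z, ∀ ζ ∈ Subgroup.zpowers z, ∀ t : N, x t = ζ t →
        (ξ = ζ → cyc p (ξ⁻¹ * x) t = t ^ p) ∧ (ξ ≠ ζ → cyc p (ξ⁻¹ * x) t = 1) := by
      intro ξ hξ ζ hζ t ht
      have hm : ξ⁻¹ * ζ ∈ Subgroup.zpowers z := Subgroup.mul_mem _ (Subgroup.inv_mem _ hξ) hζ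
      exact eig_proj hN (hcomZ ξ hξ) (hZZ ξ hξ ζ hζ) (hcomZ ζ hζ) ht
        (fun hne t' ht' => zp_fix hp hzp hS.fix hm hne ht') (hS.exp _ (hZW hm))
    have hone : (1 : MulAut N) ∈ Subgroup.zpowers z := Subgroup.one_mem _
    have hx1 : x v₀ = (1 : MulAut N) v₀ := hxv₀
    have hzc : c⁻¹ * z₀ ∈ Subgroup.zpowers z := Subgroup.mul_mem _ hcinv hd.hz₀
    have hrelξ : ∀ ξ, cyc p ξ (g v₀) * cyc p ξ (g v₁) = cyc p ξ v₀ * cyc p ξ v₁ := by
      intro ξ
      rw [← cyc_mul, ← cyc_mul, heq]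
    have hv₀p : v₀ ^ p ≠ 1 := fun h => hv₀1 (eq_one_of_pow_eq_one hN h)
    have hv₁p : v₁ ^ p ≠ 1 := fun h => hv₁1 (eq_one_of_pow_eq_one hN h)
    have hcase1 : c⁻¹ = 1 ∨ c⁻¹ * z₀ = 1 := by
      by_contra hcon
      push_neg at hcon
      obtain ⟨h1, h2⟩ := hcon
      have e1 := ((hproj 1 hone _ hcinv _ hxa₀).2 (Ne.symm h1))
      have e2 := ((hproj 1 hone _ hzc _ hxa₁).2 (Ne.symm h2))
      have e3 := ((hproj 1 hone 1 hone _ hx1).1 rfl)
      have e4 := ((hproj 1 hone _ hd.hz₀ _ hxv₁).2 (Ne.symm hd.hz₀1))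
      have := hrelξ ((1 : MulAut N)⁻¹ * x)
      rw [e1, e2, e3, e4] at this
      simp only [mul_one] at this
      exact hv₀p this.symm
    have hcase2 : c⁻¹ = z₀ ∨ c⁻¹ = 1 := by
      by_contra hcon
      push_neg at hcon
      obtain ⟨h1, h2⟩ := hcon
      have e1 := ((hproj z₀ hd.hz₀ _ hcinv _ hxa₀).2 (Ne.symm h1))
      have e2 := ((hproj z₀ hd.hz₀ _ hzc _ hxa₁).2 (fun h => h2 (by
        have h3 : (1 : MulAut N) * z₀ = c⁻¹ * z₀ := by rw [one_mul]; exact h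
        exact (mul_right_cancel h3).symm)))
      have e3 := ((hproj z₀ hd.hz₀ 1 hone _ hx1).2 hd.hz₀1)
      have e4 := ((hproj z₀ hd.hz₀ _ hd.hz₀ _ hxv₁).1 rfl)
      have := hrelξ (z₀⁻¹ * x)
      rw [e1, e2, e3, e4] at this
      simp only [mul_one, one_mul] at this
      exact hv₁p this.symm
    have hc1 : c⁻¹ = 1 := by
      by_contra hne
      have h1 := hcase1.resolve_left hne
      have h2 := hcase2.resolve_right hne
      rw [h2] at h1
      apply hd.hz₀1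
      have h3 : z₀ ^ 2 = 1 := by rw [sq]; exact h1
      have h4 : orderOf z₀ ∣ 2 := orderOf_dvd_of_pow_eq_one h3
      have h5 : orderOf z₀ ∣ p := orderOf_dvd_of_pow_eq_one hd.hz₀p
      have h6 : Nat.Coprime 2 p := (Nat.coprime_primes Nat.prime_two hp).mpr (Ne.symm hp2)
      have h7 := Nat.eq_one_of_dvd_coprimes h6 h4 h5
      exact orderOf_eq_one_iff.mp h7
    rw [hc1] at hxa₀ hxa₁ hxg
    rw [one_mul] at hxa₁ hxg
    have hxa₀' : x (g v₀) = g v₀ := hxa₀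
    -- components
    set t := g v₀ * v₀⁻¹ with ht
    have ht2 : t = v₁ * (g v₁)⁻¹ := by
      rw [ht, ← div_eq_mul_inv, ← div_eq_mul_inv, div_eq_div_iff_mul_eq_mul, heq, mul_comm]
    have hxt1 : x t = t := by
      rw [ht, map_mul, map_inv, hxa₀', hxv₀]
    have hxt2 : x t = z₀ t := by
      rw [ht2, map_mul, map_inv, hxv₁, hxa₁, map_mul, map_inv]
    have ht1 : t = 1 :=
      zp_fix hp hzp hS.fix hd.hz₀ hd.hz₀1 (hxt2.symm.trans hxt1)
    have ha₀ : g v₀ = v₀ := by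
      rw [ht] at ht1
      exact mul_inv_eq_one.mp ht1
    have ha₁ : g v₁ = v₁ := by
      rw [ht2] at ht1
      exact (mul_inv_eq_one.mp ht1).symm
    -- commuting with y
    set d := g * y * g⁻¹ * y⁻¹ with hddef
    have hd1 : d ∈ Subgroup.zpowers z := hS.comm g hg y hy
    have hgy : g * y = d * y * g := by
      rw [hddef]
      group
    have hdv : d v₁ = v₁ := by
      have h3 : (g * y) v₀ = (d * y * g) v₀ := by rw [hgy]
      have h4 : (d * y * g) v₀ = d (y (g v₀)) := rfl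
      rw [h4, ha₀] at h3
      have h5 : (g * y) v₀ = g v₁ := rfl
      rw [h5, ha₁] at h3
      exact h3.symm
    have hd_one : d = 1 := by
      by_contra hne
      exact hv₁1 (zp_fix hp hzp hS.fix hd1 hne hdv)
    have hgy' : g * y = y * g := by
      rw [hgy, hd_one, one_mul]
    have hgx' : g * x = x * g := by
      rw [hxg]
    exact hv₀r g (mem_W2.mpr ⟨hg, hgx', hgy'⟩) ha₀

end Cfsg.Agent.Lib.Struct.FixCover
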