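import Cfsg.Agent.Lib.Struct.FixC

/-! # Coverings: the subgroups `Ω₁(Z(R))` and `Ω₁(Z₂(R))`, for odd `p`. -/

set_option autoImplicit false

namespace Cfsg.Agent.Lib.Struct.FixCover

universe u

section W
variable {G : Type*} [Group G]

theorem class2_pow {x y c : G} (h : y * x = c * x * y) (hcx : c * x = x * c) (hcy : c * y = y * c)
    (n : ℕ) : (x * y) ^ n = x ^ n * y ^ n * c ^ (n.choose 2) := by
  induction n with
  | zero => simp
  | succ n ih =>
    have hyn : y ^ n * x = c ^ n * x * y ^ n := pow_rel h hcy.symm n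
    have hc1 : Commute (c ^ (n.choose 2)) x := Commute.pow_left hcx _
    have hc2 : Commute (c ^ (n.choose 2)) y := Commute.pow_left hcy _
    have hc3 : Commute (c ^ n) (x ^ n) := (Commute.pow_left (show Commute c x from hcx) n).pow_right n
    have hc4 : Commute (c ^ n) x := Commute.pow_left hcx n
    have hc5 : Commute (c ^ n) y := Commute.pow_left hcy n
    have hch : (n + 1).choose 2 = n + n.choose 2 := by
      rw [Nat.choose_succ_succ' n 1, Nat.choose_one_right]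
    calc (x * y) ^ (n + 1) = (x ^ n * y ^ n * c ^ (n.choose 2)) * (x * y) := by rw [pow_succ, ih]
      _ = x ^ n * y ^ n * (c ^ (n.choose 2) * x) * y := by simp only [mul_assoc]
      _ = x ^ n * y ^ n * (x * c ^ (n.choose 2)) * y := by rw [hc1.eq]
      _ = x ^ n * (y ^ n * x) * c ^ (n.choose 2) * y := by simp only [mul_assoc]
      _ = x ^ n * (c ^ n * x * y ^ n) * c ^ (n.choose 2) * y := by rw [hyn]
      _ = (x ^ n * c ^ n) * x * y ^ n * (c ^ (n.choose 2) * y) := by simp only [mul_assoc]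
      _ = (c ^ n * x ^ n) * x * y ^ n * (y * c ^ (n.choose 2)) := by rw [hc3.eq, hc2.eq]
      _ = c ^ n * (x ^ n * x) * (y ^ n * y) * c ^ (n.choose 2) := by simp only [mul_assoc]
      _ = c ^ n * x ^ (n + 1) * y ^ (n + 1) * c ^ (n.choose 2) := by rw [pow_succ x, pow_succ y]
      _ = x ^ (n + 1) * y ^ (n + 1) * c ^ ((n + 1).choose 2) := by
        have hc6 : Commute (c ^ n) (x ^ (n + 1) * y ^ (n + 1)) :=
          (hc4.pow_right (n + 1)).mul_right (hc5.pow_right (n + 1))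
        rw [hch, pow_add c n, mul_assoc (c ^ n) (x ^ (n + 1)), hc6.eq]
        simp only [mul_assoc]

/-- `Ω₁` of the second centre (of a group of odd exponent-`p` elements). -/
def WW (p : ℕ) (hp : p.Prime) (hp2 : p ≠ 2) (R : Subgroup G) : Subgroup G where
  carrier := {x | x ∈ R ∧ x ^ p = 1 ∧ ∀ r ∈ R, ∀ s ∈ R,
    (x * r * x⁻¹ * r⁻¹) * s = s * (x * r * x⁻¹ * r⁻¹)}
  mul_mem' := by
    rintro x y ⟨hxR, hxp, hx⟩ ⟨hyR, hyp, hy⟩
    refine ⟨R.mul_mem hxR hyR, ?_, ?_⟩
    · set c := y * x * y⁻¹ * x⁻¹ with hc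
      have hcx : c * x = x * c := hy x hxR x hxR
      have hcy : c * y = y * c := hy x hxR y hyR
      have hyx : y * x = c * x * y := by
        rw [hc]
        group
      have hcp : c ^ p = 1 := by
        have h1 : y * x * y⁻¹ = c * x := by
          rw [hc]
          group
        have h2 : (y * x * y⁻¹) ^ p = 1 := by
          rw [conj_pow, hxp, mul_one, mul_inv_cancel]
        rw [h1, (show Commute c x from hcx).mul_pow, hxp, mul_one] at h2
        exact h2
      rw [class2_pow hyx hcx hcy p, hxp, hyp, one_mul, one_mul]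
      have hd : p ∣ p.choose 2 := hp.dvd_choose_self (by norm_num) (lt_of_le_of_ne hp.two_le (Ne.symm hp2))
      obtain ⟨k, hk⟩ := hd
      rw [hk, pow_mul, hcp, one_pow]
    · intro r hr s hs
      set c₁ := y * r * y⁻¹ * r⁻¹ with hc₁
      set c₂ := x * r * x⁻¹ * r⁻¹ with hc₂
      have hc₁x : c₁ * x = x * c₁ := hy r hr x hxR
      have hc₂c : c₁ * c₂ * s = s * (c₁ * c₂) := by
        rw [mul_assoc, hx r hr s hs, ← mul_assoc, hy r hr s hs, mul_assoc]
      have heq : x * y * r * (x * y)⁻¹ * r⁻¹ = c₁ * c₂ := by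
        have h1 : y * r * y⁻¹ = c₁ * r := by
          rw [hc₁]
          group
        have h2 : x * r * x⁻¹ = c₂ * r := by
          rw [hc₂]
          group
        calc x * y * r * (x * y)⁻¹ * r⁻¹ = x * (y * r * y⁻¹) * x⁻¹ * r⁻¹ := by group
          _ = x * (c₁ * r) * x⁻¹ * r⁻¹ := by rw [h1]
          _ = (x * c₁) * r * x⁻¹ * r⁻¹ := by simp only [mul_assoc]
          _ = (c₁ * x) * r * x⁻¹ * r⁻¹ := by rw [hc₁x]
          _ = c₁ * (x * r * x⁻¹) * r⁻¹ := by simp only [mul_assoc]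
          _ = c₁ * (c₂ * r) * r⁻¹ := by rw [h2]
          _ = c₁ * c₂ := by group
      rw [heq]
      exact hc₂c
  one_mem' := by
    refine ⟨R.one_mem, one_pow p, ?_⟩
    intro r _ s _
    simp
  inv_mem' := by
    rintro x ⟨hxR, hxp, hx⟩
    refine ⟨R.inv_mem hxR, by rw [inv_pow, hxp, inv_one], ?_⟩
    intro r hr s hs
    set c := x * r * x⁻¹ * r⁻¹ with hc
    have hcs := hx r hr s hs
    have hcx : c * x = x * c := hx r hr x hxR
    have heq : x⁻¹ * r * x⁻¹⁻¹ * r⁻¹ = c⁻¹ := by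
      have h1 : x * r * x⁻¹ = c * r := by
        rw [hc]
        group
      have h2 : r = x⁻¹ * (c * r) * x := by
        rw [← h1]
        group
      have h3 : x⁻¹ * c = c * x⁻¹ := by
        have := (show Commute c x from hcx).inv_right.eq
        exact this.symm
      have h4 : r = c * (x⁻¹ * r * x) := by
        calc r = x⁻¹ * (c * r) * x := h2
          _ = (x⁻¹ * c) * r * x := by simp only [mul_assoc]
          _ = (c * x⁻¹) * r * x := by rw [h3]
          _ = c * (x⁻¹ * r * x) := by simp only [mul_assoc]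
      have h5 : x⁻¹ * r * x = c⁻¹ * r := by
        rw [eq_inv_mul_iff_mul_eq]
        exact h4.symm
      rw [inv_inv, h5]
      group
    rw [heq]
    have := (show Commute c s from hcs).inv_left.eq
    exact this

theorem mem_WW {p : ℕ} {hp : p.Prime} {hp2 : p ≠ 2} {R : Subgroup G} {x : G} :
    x ∈ WW p hp hp2 R ↔ x ∈ R ∧ x ^ p = 1 ∧ ∀ r ∈ R, ∀ s ∈ R,
    (x * r * x⁻¹ * r⁻¹) * s = s * (x * r * x⁻¹ * r⁻¹) := Iff.rfl

theorem conj_mem_WW {p : ℕ} {hp : p.Prime} {hp2 : p ≠ 2} {R : Subgroup G} {g : G}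
    (hg : ∀ r ∈ R, g * r * g⁻¹ ∈ R) (hg' : ∀ r ∈ R, g⁻¹ * r * g ∈ R) {x : G}
    (hx : x ∈ WW p hp hp2 R) : g * x * g⁻¹ ∈ WW p hp hp2 R := by
  obtain ⟨hxR, hxp, hx⟩ := hx
  refine ⟨hg x hxR, by rw [conj_pow, hxp, mul_one, mul_inv_cancel], ?_⟩
  intro r hr s hs
  have hr' := hg' r hr
  have hs' := hg' s hs
  have h := hx _ hr' _ hs'
  have heq : (g * x * g⁻¹) * r * (g * x * g⁻¹)⁻¹ * r⁻¹
      = g * (x * (g⁻¹ * r * g) * x⁻¹ * (g⁻¹ * r * g)⁻¹) * g⁻¹ := by
    group
  rw [heq]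
  set d := x * (g⁻¹ * r * g) * x⁻¹ * (g⁻¹ * r * g)⁻¹ with hd
  have h2 : s = g * (g⁻¹ * s * g) * g⁻¹ := by group
  calc g * d * g⁻¹ * s = g * (d * (g⁻¹ * s * g)) * g⁻¹ := by group
    _ = g * ((g⁻¹ * s * g) * d) * g⁻¹ := by rw [h]
    _ = s * (g * d * g⁻¹) := by group

/-- `Ω₁(Z(R))`. -/
def ZZR (p : ℕ) (R : Subgroup G) : Subgroup G where
  carrier := {x | x ∈ R ∧ x ^ p = 1 ∧ ∀ r ∈ R, x * r = r * x}
  mul_mem' := by
    rintro x y ⟨hxR, hxp, hx⟩ ⟨hyR, hyp, hy⟩
    refine ⟨R.mul_mem hxR hyR, ?_, ?_⟩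
    · have hc : Commute x y := hx y hyR
      rw [hc.mul_pow, hxp, hyp, one_mul]
    · intro r hr
      rw [mul_assoc, hy r hr, ← mul_assoc, hx r hr, mul_assoc]
  one_mem' := ⟨R.one_mem, one_pow p, fun r _ => by simp⟩
  inv_mem' := by
    rintro x ⟨hxR, hxp, hx⟩
    refine ⟨R.inv_mem hxR, by rw [inv_pow, hxp, inv_one], ?_⟩
    intro r hr
    exact (show Commute x r from hx r hr).inv_left.eq

theorem mem_ZZR {p : ℕ} {R : Subgroup G} {x : G} :
    x ∈ ZZR p R ↔ x ∈ R ∧ x ^ p = 1 ∧ ∀ r ∈ R, x * r = r * x := Iff.rfl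

theorem ZZR_le_WW {p : ℕ} {hp : p.Prime} {hp2 : p ≠ 2} {R : Subgroup G} :
    ZZR p R ≤ WW p hp hp2 R := by
  rintro x ⟨hxR, hxp, hx⟩
  refine ⟨hxR, hxp, ?_⟩
  intro r hr s hs
  rw [hx r hr]
  simp

theorem exists_pow_order {p : ℕ} {b : G} (k : ℕ) (hk : b ^ (p ^ k) = 1) (hb : b ≠ 1) :
    ∃ j : ℕ, b ^ (p ^ j) ≠ 1 ∧ (b ^ (p ^ j)) ^ p = 1 := by
  induction k with
  | zero => simp at hk; exact absurd hk hb
  | succ k ih =>
    by_cases h : b ^ (p ^ k) = 1
    · exact ih h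
    · exact ⟨k, h, by rw [← pow_mul, ← pow_succ]; exact hk⟩

end W

section p2

variable {P : Type*} [Group P] [Finite P] {p : ℕ} [hpf : Fact p.Prime]

theorem exists_central_of_normal (hP : IsPGroup p P) {B : Subgroup P} [hB : B.Normal]
    (hd : p ∣ Nat.card B) : ∃ b ∈ B, b ≠ 1 ∧ b ∈ Subgroup.center P := by
  have hc : IsPGroup p (ConjAct P) := hP.of_equiv ConjAct.toConjAct
  have h0 : (1 : B) ∈ MulAction.fixedPoints (ConjAct P) B := by
    intro g
    exact smul_one g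
  obtain ⟨b, hb, hne⟩ := hc.exists_fixed_point_of_prime_dvd_card_of_fixed_point B hd h0
  refine ⟨b, b.2, ?_, ?_⟩
  · intro h
    apply hne
    exact (Subtype.ext h).symm
  · rw [Subgroup.mem_center_iff]
    intro g
    have h1 := hb (ConjAct.toConjAct g)
    have h2 := congrArg Subtype.val h1
    rw [ConjAct.Subgroup.val_conj_smul, ConjAct.smul_def, ConjAct.ofConjAct_toConjAct] at h2
    exact mul_inv_eq_iff_eq_mul.mp h2

theorem le_center_of_card_prime (hP : IsPGroup p P) {B : Subgroup P} [hB : B.Normal]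
    (hc : Nat.card B = p) : B ≤ Subgroup.center P := by
  obtain ⟨b, hb, hb1, hbz⟩ := exists_central_of_normal hP (B := B) (by rw [hc])
  intro x hx
  have h1 : (⟨x, hx⟩ : B) ∈ Subgroup.zpowers (⟨b, hb⟩ : B) :=
    mem_zpowers_of_prime_card hc (fun h => hb1 (congrArg Subtype.val h))
  obtain ⟨i, hi⟩ := Subgroup.mem_zpowers_iff.mp h1
  have h2 : b ^ i = x := congrArg Subtype.val hi
  rw [← h2]
  exact Subgroup.zpow_mem _ hbz i

/-- A normal subgroup of order `p²` of a `p`-group lies in the second centre. -/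
theorem normal_sq_center (hP : IsPGroup p P) {A : Subgroup P} (hA : A.Normal)
    (hcard : Nat.card A = p ^ 2) (a : P) (ha : a ∈ A) (c : P) :
    a * c * a⁻¹ * c⁻¹ ∈ Subgroup.center P := by
  have hp := hpf.out
  obtain ⟨z₁, hz₁, hz₁1, hz₁c⟩ := exists_central_of_normal hP (B := A) (by rw [hcard]; exact dvd_pow_self p two_ne_zero)
  let Z₁ : Subgroup P := A ⊓ Subgroup.center P
  haveI hZ₁n : Z₁.Normal := Subgroup.normal_inf_normal _ _
  let π := QuotientGroup.mk' Z₁
  let f : A →* P ⧸ Z₁ := π.comp A.subtype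
  have hQ : IsPGroup p (P ⧸ Z₁) := hP.to_quotient Z₁
  have hrange : f.range = A.map π := by
    ext x
    simp [f, MonoidHom.mem_range, Subgroup.mem_map]
  haveI hBn : f.range.Normal := by
    rw [hrange]
    exact hA.map π (QuotientGroup.mk'_surjective Z₁)
  have hcards : Nat.card f.ker * Nat.card f.range = p ^ 2 := by
    rw [← hcard, ← Subgroup.index_ker f]
    exact Subgroup.card_mul_index f.ker
  have hkerne : Nat.card f.ker ≠ 1 := by
    intro h
    have hbot : f.ker = ⊥ := Subgroup.card_eq_one.mp h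
    have hz : (⟨z₁, hz₁⟩ : A) ∈ f.ker := by
      rw [MonoidHom.mem_ker]
      show π z₁ = 1
      exact (QuotientGroup.eq_one_iff z₁).mpr (Subgroup.mem_inf.mpr ⟨hz₁, hz₁c⟩)
    rw [hbot, Subgroup.mem_bot] at hz
    exact hz₁1 (congrArg Subtype.val hz)
  have hkerdvd : Nat.card f.ker ∣ p ^ 2 := ⟨_, hcards.symm⟩
  obtain ⟨k, hk2, hk⟩ := (Nat.dvd_prime_pow hp).mp hkerdvd
  have hk0 : k ≠ 0 := by
    intro h0
    rw [h0, pow_zero] at hk
    exact hkerne hk
  have hrdvd : Nat.card f.range ∣ p := by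
    obtain ⟨m, rfl⟩ := Nat.exists_eq_succ_of_ne_zero hk0
    have h1 : p ^ (m + 1) * Nat.card f.range = p * p := by
      rw [← hk, hcards, sq]
    rw [pow_succ', mul_assoc] at h1
    have h2 := Nat.eq_of_mul_eq_mul_left hp.pos h1
    exact Dvd.intro_left (p ^ m) h2
  have hrcenter : f.range ≤ Subgroup.center (P ⧸ Z₁) := by
    rcases (Nat.dvd_prime hp).mp hrdvd with h | h
    · rw [Subgroup.card_eq_one.mp h]
      exact bot_le
    · exact le_center_of_card_prime hQ h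
  have hπa : π a ∈ Subgroup.center (P ⧸ Z₁) := hrcenter ⟨⟨a, ha⟩, rfl⟩
  have hc1 := (Subgroup.mem_center_iff.mp hπa) (π c)
  have hmem : a * c * a⁻¹ * c⁻¹ ∈ Z₁ := by
    rw [← QuotientGroup.eq_one_iff]
    show π (a * c * a⁻¹ * c⁻¹) = 1
    rw [map_mul, map_mul, map_mul, map_inv, map_inv, ← hc1]
    group
  exact (Subgroup.mem_inf.mp hmem).2

end p2

end Cfsg.Agent.Lib.Struct.FixCover
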