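import Cfsg.Agent.Lib.Struct.FixF
import Cfsg.Agent.Lib.Struct.Basic
import Cfsg.Agent.Lib.Basic.Core
import Cfsg.Agent.Lib.Basic.MinNormal
import Cfsg.Agent.Lib.Components.Basic

/-! # From the covering theorem to `p`-subgroups subnormal in their joins with a conjugate. -/

set_option autoImplicit false

namespace Cfsg.Agent.Lib.Struct.FixCover

universe u

open Cfsg Cfsg.Agent.Lib.Basic
open scoped Pointwise

section
variable {G : Type u} [Group G]

/-- The join of `A` and a conjugate. -/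
abbrev dd (A : Subgroup G) (g : G) : Subgroup G := A ⊔ A.map (MulAut.conj g).toMonoidHom

/-- A `p`-subgroup containing `A`, normal in the join. -/
def Good (p : ℕ) (A : Subgroup G) (g : G) : Prop :=
  ∃ T : Subgroup G, A ≤ T ∧ T ≤ dd A g ∧ IsPGroup p T ∧ ∀ d ∈ dd A g, ∀ t ∈ T, d * t * d⁻¹ ∈ T

theorem dd_map {H : Type u} [Group H] (f : G →* H) (A : Subgroup G) (g : G) :
    dd (A.map f) (f g) = (dd A g).map f := by
  unfold dd
  rw [Subgroup.map_sup]
  congr 1
  ext y
  constructor
  · rintro ⟨_, ⟨a, ha, rfl⟩, rfl⟩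
    exact ⟨(MulAut.conj g).toMonoidHom a, ⟨a, ha, rfl⟩, by simp⟩
  · rintro ⟨_, ⟨a, ha, rfl⟩, rfl⟩
    exact ⟨f a, ⟨a, ha, rfl⟩, by simp⟩

theorem Good.map {H : Type u} [Group H] {p : ℕ} (f : G →* H) {A : Subgroup G} {g : G}
    (h : Good p A g) : Good p (A.map f) (f g) := by
  obtain ⟨T, h1, h2, h3, h4⟩ := h
  refine ⟨T.map f, Subgroup.map_mono h1, ?_, h3.map f, ?_⟩
  · rw [dd_map]
    exact Subgroup.map_mono h2
  · rw [dd_map]
    rintro _ ⟨d, hd, rfl⟩ _ ⟨t, ht, rfl⟩
    exact ⟨d * t * d⁻¹, h4 d hd t ht, by simp⟩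

theorem good_of_subnormal [Finite G] {p : ℕ} [Fact p.Prime] {A : Subgroup G} (hA : IsPGroup p A) {g : G}
    (h : (A.subgroupOf (A ⊔ MulAut.conj g • A)).IsSubnormal) : Good p A g := by
  have hcs : MulAut.conj g • A = A.map (MulAut.conj g).toMonoidHom :=
    Cfsg.Agent.Lib.Struct.conj_smul_eq_map g A
  rw [hcs] at h
  set D := dd A g with hD
  have hAp : IsPGroup p (A.subgroupOf D) := IsPGroup.comap_subtype hA
  have hle := Cfsg.Agent.Lib.Components.subnormal_le_pCore h hAp
  refine ⟨(pCore p D).map D.subtype, ?_, ?_, ?_, ?_⟩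
  · intro a ha
    have haD : a ∈ D := Subgroup.mem_sup_left ha
    exact ⟨⟨a, haD⟩, hle (Subgroup.mem_subgroupOf.mpr ha), rfl⟩
  · rintro _ ⟨x, _, rfl⟩
    exact x.2
  · exact (pCore_isPGroup p).map _
  · rintro d hd _ ⟨t, ht, rfl⟩
    have hn := (pCore_normal p (G := D)).conj_mem t ht ⟨d, hd⟩
    exact ⟨_, hn, rfl⟩

theorem quot_good {p : ℕ} (X : Subgroup G) [X.Normal] {A : Subgroup G}
    (hgood : ∀ c : G, ∃ g, IsConj c g ∧ Good p A g) :
    ∀ c : G ⧸ X, ∃ g, IsConj c g ∧ Good p (A.map (QuotientGroup.mk' X)) g := by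
  intro c
  obtain ⟨c₀, rfl⟩ := QuotientGroup.mk'_surjective X c
  obtain ⟨g, h1, h2⟩ := hgood c₀
  exact ⟨QuotientGroup.mk' X g, (QuotientGroup.mk' X).map_isConj h1, h2.map _⟩

/-- Use of the covering theorem in a group. -/
theorem cover_use [Finite G] {p : ℕ} (hp : p.Prime) (hp2 : p ≠ 2) (M : Subgroup G) [hMn : M.Normal]
    (hMc : ∀ x ∈ M, ∀ y ∈ M, x * y = y * x) (hcop : (Nat.card M).Coprime p) {L : Subgroup G}
    (hLn : L.Normal) (hLp : ∀ l ∈ L, ∃ k, l ^ (p ^ k) ∈ M) {a₀ : G} (ha₀ : a₀ ∈ L) {n₁ : G}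
    (hn₁ : n₁ ∈ M) (hne : a₀ * n₁ ≠ n₁ * a₀) :
    ∃ n₀ ∈ M, ∀ x : G, (x * a₀ * x⁻¹) * n₀ ≠ n₀ * (x * a₀ * x⁻¹) := by
  letI inst : CommGroup M :=
    { (inferInstance : Group M) with mul_comm := fun a b => Subtype.ext (hMc a a.2 b b.2) }
  let ρ : G →* MulAut M := MulAut.conjNormal
  have hρ : ∀ (g : G) (n : M), ((ρ g n : M) : G) = g * n * g⁻¹ := fun g n => rfl
  have hRp : IsPGroup p (L.map ρ) := by
    rintro ⟨_, l, hl, rfl⟩
    obtain ⟨k, hk⟩ := hLp l hl
    refine ⟨k, Subtype.ext ?_⟩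
    show ρ l ^ (p ^ k) = 1
    rw [← map_pow]
    apply aut_ext
    intro n
    apply Subtype.ext
    rw [hρ, hMc _ hk n n.2]
    simp
  have hb1 : ρ a₀ ≠ 1 := by
    intro h
    apply hne
    have h1 := hρ a₀ ⟨n₁, hn₁⟩
    rw [h] at h1
    have h2 : n₁ = a₀ * n₁ * a₀⁻¹ := h1
    exact (mul_inv_eq_iff_eq_mul.mp h2.symm)
  obtain ⟨v, hv⟩ := cover_all (N := M) hp hp2 (Nat.card M) rfl hcop ρ.range (L.map ρ)
    (Subgroup.map_le_range _ _)
    (by
      rintro _ ⟨x, rfl⟩ _ ⟨l, hl, rfl⟩
      exact ⟨x * l * x⁻¹, hLn.conj_mem l hl x, by simp⟩)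
    hRp (ρ a₀) ⟨a₀, ha₀, rfl⟩ hb1
  refine ⟨v, v.2, fun x h => hv (ρ x) ⟨x, rfl⟩ ?_⟩
  have h1 : ρ x * ρ a₀ * (ρ x)⁻¹ = ρ (x * a₀ * x⁻¹) := by simp
  rw [h1]
  apply Subtype.ext
  rw [hρ]
  exact mul_inv_eq_of_eq_mul h

end

/-- The main theorem, with `Good` in place of subnormality. -/
theorem main_good {p : ℕ} (hp : p.Prime) (hp2 : p ≠ 2) : ∀ (n : ℕ) (G : Type u) [Group G] [Finite G],
    Nat.card G = n → Group.IsSolvable G → ∀ A : Subgroup G, IsPGroup p A →
    (∀ c : G, ∃ g, IsConj c g ∧ Good p A g) → A ≤ pCore p G := by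
  intro n
  haveI : Fact p.Prime := ⟨hp⟩
  induction n using Nat.strong_induction_on with
  | _ n ih =>
    intro G _ _ hn hsol A hA hgood
    have hq : ∀ (X : Subgroup G) [X.Normal], X ≠ ⊥ →
        A ≤ (pCore p (G ⧸ X)).comap (QuotientGroup.mk' X) := by
      intro X _ hX
      have hlt : Nat.card (G ⧸ X) < n := by
        rw [← hn, Subgroup.card_eq_card_quotient_mul_card_subgroup X]
        have h1 : 1 < Nat.card X := by
          have h2 : Nontrivial X := (Subgroup.nontrivial_iff_ne_bot X).mpr hX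
          exact Finite.one_lt_card
        have h3 : 0 < Nat.card (G ⧸ X) := Nat.card_pos
        exact lt_mul_of_one_lt_right h3 h1
      haveI := hsol
      have := ih _ hlt (G ⧸ X) rfl inferInstance (A.map (QuotientGroup.mk' X))
        (hA.map _) (quot_good X hgood)
      exact Subgroup.map_le_iff_le_comap.mp this
    have hLp : ∀ (X : Subgroup G) [X.Normal], ∀ l ∈ (pCore p (G ⧸ X)).comap (QuotientGroup.mk' X),
        ∃ k, l ^ (p ^ k) ∈ X := by
      intro X _ l hl
      obtain ⟨k, hk⟩ := (pCore_isPGroup p (G := G ⧸ X)) ⟨QuotientGroup.mk' X l, hl⟩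
      refine ⟨k, ?_⟩
      rw [← QuotientGroup.eq_one_iff]
      exact congrArg Subtype.val hk
    by_cases hO : pCore p G = ⊥
    · rw [hO, le_bot_iff]
      by_contra hA0
      haveI : Nontrivial G := by
        have : Nontrivial A := (Subgroup.nontrivial_iff_ne_bot A).mpr hA0
        exact A.subtype_injective.nontrivial
      obtain ⟨M, hMin⟩ := exists_isMinNormal (G := G)
      haveI : Group.IsSolvable G := hsol
      obtain ⟨hMc, q, hq', hqexp⟩ := hMin.elementary
      haveI hMn : M.Normal := hMin.1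
      haveI : Fact q.Prime := ⟨hq'⟩
      have hMq : IsPGroup q M := fun x => ⟨1, Subtype.ext (by simpa using hqexp x x.2)⟩
      have hqp : q ≠ p := by
        rintro rfl
        have := le_pCore hMn hMq
        rw [hO] at this
        exact hMin.2.1 (le_bot_iff.mp this)
      have hMcomm : ∀ x ∈ M, ∀ y ∈ M, x * y = y * x := fun x hx y hy =>
        congrArg Subtype.val (hMc.is_comm.comm ⟨x, hx⟩ ⟨y, hy⟩)
      have hqpc : Nat.Coprime q p := (Nat.coprime_primes hq' hp).mpr hqp
      have hcop : (Nat.card M).Coprime p := by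
        obtain ⟨m, hm⟩ := IsPGroup.iff_card.mp hMq
        rw [hm]
        exact Nat.Coprime.pow_left m hqpc
      have hpq : ∀ m ∈ M, ∀ k : ℕ, m ^ (p ^ k) = 1 → m = 1 := by
        intro m hm k hk
        have h1 : orderOf m ∣ p ^ k := orderOf_dvd_of_pow_eq_one hk
        have h2 : orderOf m ∣ q := orderOf_dvd_of_pow_eq_one (hqexp m hm)
        have h3 : Nat.Coprime q (p ^ k) := Nat.Coprime.pow_right k hqpc
        exact orderOf_eq_one_iff.mp (Nat.eq_one_of_dvd_coprimes h3 h2 h1)
      let L : Subgroup G := (pCore p (G ⧸ M)).comap (QuotientGroup.mk' M)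
      have hLn : L.Normal := Subgroup.Normal.comap inferInstance _
      have hAL : A ≤ L := hq M hMin.2.1
      have hLpM := hLp M
      by_cases hcomm : ∀ a ∈ A, ∀ n ∈ M, a * n = n * a
      · let X : Subgroup G := L ⊓ Subgroup.centralizer (M : Set G)
        have hXmem : ∀ x, x ∈ X ↔ x ∈ L ∧ ∀ m ∈ M, m * x = x * m := by
          intro x
          rw [Subgroup.mem_inf, Subgroup.mem_centralizer_iff]
          rfl
        have hXn : X.Normal := by
          haveI := hLn
          exact Subgroup.normal_inf_normal _ _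
        have hpg : IsPGroup p (X ⧸ Subgroup.center X) := by
          intro y
          obtain ⟨x, rfl⟩ := QuotientGroup.mk_surjective y
          obtain ⟨hxL, _⟩ := (hXmem x).mp x.2
          obtain ⟨k, hk⟩ := hLpM x hxL
          refine ⟨k, ?_⟩
          rw [← QuotientGroup.mk_pow, QuotientGroup.eq_one_iff, Subgroup.mem_center_iff]
          intro w
          apply Subtype.ext
          have h1 := ((hXmem w).mp w.2).2 _ hk
          exact h1.symm
        have hnil : Group.IsNilpotent X := of_quotient_center_nilpotent (IsPGroup.isNilpotent hpg)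
        have hAX : A ≤ X := fun a ha => (hXmem a).mpr ⟨hAL ha, fun m hm => (hcomm a ha m hm).symm⟩
        obtain ⟨P, hP⟩ := (IsPGroup.comap_subtype hA : IsPGroup p (A.subgroupOf X)).exists_le_sylow
        have hle := sylow_map_le_pCore_of_nilpotent hXn hnil p P
        rw [hO] at hle
        apply hA0
        rw [eq_bot_iff]
        intro a ha
        have hax := hAX ha
        have : a ∈ (P : Subgroup X).map X.subtype :=
          ⟨⟨a, hax⟩, hP (Subgroup.mem_subgroupOf.mpr ha), rfl⟩
        exact hle this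
      · push_neg at hcomm
        obtain ⟨a₀, ha₀, n₁, hn₁, hne⟩ := hcomm
        obtain ⟨n₀, hn₀, hcover⟩ := cover_use hp hp2 M hMcomm hcop hLn hLpM (hAL ha₀) hn₁ hne
        obtain ⟨g, hconj, T, hAT, hTD, hTp, hTn⟩ := hgood n₀
        obtain ⟨x, hx⟩ := isConj_iff.mp hconj
        have hgM : g ∈ M := hx ▸ hMn.conj_mem n₀ hn₀ x
        have hDle : dd A g ≤ A ⊔ M := by
          refine sup_le le_sup_left ?_
          rintro _ ⟨a, ha, rfl⟩
          have h1 : (MulAut.conj g).toMonoidHom a = (g * (a * g⁻¹ * a⁻¹)) * a := by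
            show g * a * g⁻¹ = _
            group
          rw [h1]
          exact (A ⊔ M).mul_mem
            (Subgroup.mem_sup_right (M.mul_mem hgM (hMn.conj_mem _ (M.inv_mem hgM) a)))
            (Subgroup.mem_sup_left ha)
        have hTA : T ≤ A := by
          intro t ht
          obtain ⟨a, ha, m, hm, rfl⟩ := Subgroup.mem_sup_of_normal_right.mp (hDle (hTD ht))
          have hmT : m ∈ T := by
            have := T.mul_mem (T.inv_mem (hAT ha)) ht
            simpa using this
          obtain ⟨k, hk⟩ := hTp ⟨m, hmT⟩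
          have hm1 : m = 1 := hpq m hm k (congrArg Subtype.val hk)
          rw [hm1, mul_one]
          exact ha
        have hTA' : ∀ d ∈ dd A g, ∀ a ∈ A, d * a * d⁻¹ ∈ A := fun d hd a ha =>
          hTA (hTn d hd a (hAT ha))
        have hAM : ∀ y ∈ A, y ∈ M → y = 1 := by
          intro y hy hyM
          obtain ⟨k, hk⟩ := hA ⟨y, hy⟩
          exact hpq y hyM k (congrArg Subtype.val hk)
        have hcommg : ∀ a ∈ A, g * a = a * g := by
          intro a ha
          set u := g * a * g⁻¹ with hu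
          have huD : u ∈ dd A g := Subgroup.mem_sup_right ⟨a, ha, rfl⟩
          have haD : a ∈ dd A g := Subgroup.mem_sup_left ha
          set m := u * a⁻¹ with hm
          have hmD : m ∈ dd A g := (dd A g).mul_mem huD ((dd A g).inv_mem haD)
          have hmM : m ∈ M := by
            have h1 : m = g * (a * g⁻¹ * a⁻¹) := by
              rw [hm, hu]
              group
            rw [h1]
            exact M.mul_mem hgM (hMn.conj_mem _ (M.inv_mem hgM) a)
          have hma : m * a = a * m := by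
            have h1 : m * a * m⁻¹ ∈ A := hTA' m hmD a ha
            have h2 : m * a * m⁻¹ * a⁻¹ ∈ A := A.mul_mem h1 (A.inv_mem ha)
            have h3 : m * a * m⁻¹ * a⁻¹ ∈ M := by
              have h6 : m * a * m⁻¹ * a⁻¹ = m * (a * m⁻¹ * a⁻¹) := by group
              rw [h6]
              exact M.mul_mem hmM (hMn.conj_mem _ (M.inv_mem hmM) a)
            have h4 := hAM _ h2 h3
            have h5 : m * a * m⁻¹ = a := mul_inv_eq_one.mp h4
            exact mul_inv_eq_iff_eq_mul.mp h5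
          obtain ⟨k, hk⟩ := hA ⟨a, ha⟩
          have hak : a ^ (p ^ k) = 1 := congrArg Subtype.val hk
          have huk : u ^ (p ^ k) = 1 := by
            rw [hu, conj_pow, hak]
            simp
          have hum : u = m * a := by
            rw [hm]
            simp
          have hmk : m ^ (p ^ k) = 1 := by
            have h7 := huk
            rw [hum, (show Commute m a from hma).mul_pow, hak, mul_one] at h7
            exact h7
          have hm1 := hpq m hmM k hmk
          rw [hm1, one_mul] at hum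
          exact mul_inv_eq_iff_eq_mul.mp hum
        have h := hcommg a₀ ha₀
        apply hcover x⁻¹
        rw [← hx] at h
        calc x⁻¹ * a₀ * x⁻¹⁻¹ * n₀ = x⁻¹ * (a₀ * (x * n₀ * x⁻¹)) * x := by group
          _ = x⁻¹ * ((x * n₀ * x⁻¹) * a₀) * x := by rw [h]
          _ = n₀ * (x⁻¹ * a₀ * x⁻¹⁻¹) := by group
    · -- quotient by `O_p(G)`
      have h1 := hq (pCore p G) hO
      have hLn : ((pCore p (G ⧸ pCore p G)).comap (QuotientGroup.mk' (pCore p G))).Normal :=
        Subgroup.Normal.comap inferInstance _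
      refine h1.trans (le_pCore hLn ?_)
      rintro ⟨l, hl⟩
      obtain ⟨k, hk⟩ := hLp _ l hl
      obtain ⟨m, hm⟩ := (pCore_isPGroup p (G := G)) ⟨_, hk⟩
      refine ⟨k + m, Subtype.ext ?_⟩
      have h2 : (l ^ (p ^ k)) ^ (p ^ m) = 1 := congrArg Subtype.val hm
      show l ^ (p ^ (k + m)) = 1
      rw [pow_add, pow_mul]
      exact h2

end Cfsg.Agent.Lib.Struct.FixCover
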