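import Cfsg.Agent.Lib.Struct.FixD
import Cfsg.Agent.S0126

/-! # Coverings: the main theorem. -/

set_option autoImplicit false

namespace Cfsg.Agent.Lib.Struct.FixCover

universe u

theorem not_isCyclic_of_two {C : Type*} [Group C] [Finite C] {p : ℕ} (hp : p.Prime) {z c : C}
    (hz : z ^ p = 1) (hz1 : z ≠ 1) (hc : c ^ p = 1) (hcz : c ∉ Subgroup.zpowers z) :
    ¬ IsCyclic C := by
  classical
  intro hcyc
  haveI : Fintype C := Fintype.ofFinite C
  have hle := IsCyclic.card_pow_eq_one_le (α := C) (n := p) hp.pos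
  haveI : Fact p.Prime := ⟨hp⟩
  have hcard : Nat.card (Subgroup.zpowers z) = p := by
    rw [Nat.card_zpowers]
    exact orderOf_eq_prime hz hz1
  have hS : (Finset.univ.filter (· ∈ Subgroup.zpowers z)).card = p := by
    rw [← Fintype.card_subtype, ← Nat.card_eq_fintype_card]
    exact hcard
  have hss : Finset.univ.filter (· ∈ Subgroup.zpowers z) ⊂ Finset.univ.filter (fun a : C => a ^ p = 1) := by
    refine Finset.ssubset_iff_of_subset ?_ |>.mpr ⟨c, by simp [hc], by simp [hcz]⟩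
    intro a ha
    simp only [Finset.mem_filter, Finset.mem_univ, true_and] at ha ⊢
    obtain ⟨i, rfl⟩ := Subgroup.mem_zpowers_iff.mp ha
    rw [← zpow_natCast, ← zpow_mul, mul_comm, zpow_mul, zpow_natCast, hz, one_zpow]
  have := Finset.card_lt_card hss
  omega

variable {N : Type u} [CommGroup N]

theorem fix_bot_of_trivial [Finite N] {p : ℕ} (hp : p.Prime) (hN : (Nat.card N).Coprime p)
    {Γ Y : Subgroup (MulAut N)} (hY0 : Y ≠ ⊥) (hYn : ∀ g ∈ Γ, ∀ y ∈ Y, g * y * g⁻¹ ∈ Y)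
    (hYp : ∀ y ∈ Y, y ^ p = 1) {b : MulAut N} (hb1 : b ≠ 1)
    (hP0 : ∀ U : Subgroup N, U ≠ ⊤ → (∀ g ∈ Γ, ∀ u ∈ U, g u ∈ U) → ∀ u ∈ U, b u = u) :
    fixS Y = ⊥ := by
  classical
  by_contra hne
  haveI : Fintype Y := Fintype.ofFinite Y
  have hU : ∀ g ∈ Γ, ∀ u ∈ fixS Y, g u ∈ fixS Y := by
    intro g hg u hu y hy
    have h1 : g⁻¹ * y * g⁻¹⁻¹ ∈ Y := hYn _ (Γ.inv_mem hg) y hy
    rw [inv_inv] at h1
    have h2 := hu _ h1
    have h3 : (g⁻¹ * y * g) u = g⁻¹ (y (g u)) := rfl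
    rw [h3] at h2
    calc y (g u) = g (g⁻¹ (y (g u))) := (aut_self_inv _ _).symm
      _ = g u := by rw [h2]
  let D : Subgroup N := (trHom Y).ker
  have hDmem : ∀ t, t ∈ D ↔ tr Y t = 1 := fun t => MonoidHom.mem_ker
  have hD : ∀ g ∈ Γ, ∀ u ∈ D, g u ∈ D := by
    intro g hg u hu
    rw [hDmem] at hu ⊢
    rw [← tr_conj Y (hYn g hg) u, hu, map_one]
  have hcop := coprime_card_of_exp hp hN hYp
  obtain ⟨u₀, hu₀, hu₀1⟩ := (Subgroup.bot_or_exists_ne_one _).resolve_left hne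
  have hDtop : D ≠ ⊤ := by
    intro h
    have : u₀ ∈ D := h ▸ Subgroup.mem_top _
    rw [hDmem, tr_of_fixS Y hu₀] at this
    exact hu₀1 (eq_one_of_pow_eq_one hcop this)
  have hUtop := fixS_ne_top_of_ne_bot hY0
  apply hb1
  apply aut_ext
  intro v
  set m := Nat.card Y with hm
  have h1 : b (tr Y v) = tr Y v := hP0 _ hUtop hU _ (tr_mem_fixS Y v)
  have h2 : v ^ m * (tr Y v)⁻¹ ∈ D := by
    rw [hDmem, tr_mul, tr_inv, tr_pow, tr_of_fixS Y (tr_mem_fixS Y v)]
    simp [hm]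
  have h3 := hP0 _ hDtop hD _ h2
  rw [map_mul, map_inv, h1, mul_left_inj, map_pow] at h3
  have h4 : (b v * v⁻¹) ^ m = 1 := by
    rw [mul_pow, inv_pow, h3]
    simp
  have h5 := eq_one_of_pow_eq_one hcop h4
  exact mul_inv_eq_one.mp h5

theorem cover_aux [Finite N] {p : ℕ} (hp : p.Prime) (hp2 : p ≠ 2) (hN : (Nat.card N).Coprime p)
    (IH : ∀ U : Subgroup N, U ≠ ⊤ → CoverAt p U) {Γ R : Subgroup (MulAut N)} (hRΓ : R ≤ Γ)
    (hRn : ∀ g ∈ Γ, ∀ r ∈ R, g * r * g⁻¹ ∈ R) (hRp : IsPGroup p R) {b : MulAut N} (hbR : b ∈ R)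
    (hb1 : b ≠ 1) (hbp : b ^ p = 1) : ∃ v : N, ∀ g ∈ Γ, (g * b * g⁻¹) v ≠ v := by
  classical
  haveI : Fact p.Prime := ⟨hp⟩
  by_cases hU : ∃ U : Subgroup N, U ≠ ⊤ ∧ (∀ g ∈ Γ, ∀ u ∈ U, g u ∈ U) ∧ ∃ u ∈ U, b u ≠ u
  · obtain ⟨U, hU1, hU2, u, hu, hbu⟩ := hU
    obtain ⟨w, _, hw⟩ := restrict (IH U hU1) hU2 hRΓ hRn hRp hbR hu hbu
    exact ⟨w, hw⟩
  have hP0 : ∀ U : Subgroup N, U ≠ ⊤ → (∀ g ∈ Γ, ∀ u ∈ U, g u ∈ U) → ∀ u ∈ U, b u = u := by
    intro U h1 h2 u hu
    by_contra h3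
    exact hU ⟨U, h1, h2, u, hu, h3⟩
  have hg' : ∀ g ∈ Γ, ∀ r ∈ R, g⁻¹ * r * g ∈ R := by
    intro g hg r hr
    have := hRn _ (Γ.inv_mem hg) r hr
    rwa [inv_inv] at this
  -- Ω₁(Z(R))
  set Zr := ZZR p R with hZr
  have hZrn : ∀ g ∈ Γ, ∀ y ∈ Zr, g * y * g⁻¹ ∈ Zr := by
    rintro g hg y ⟨hyR, hyp, hy⟩
    refine ⟨hRn g hg y hyR, by rw [conj_pow, hyp, mul_one, mul_inv_cancel], fun r hr => ?_⟩
    have h := hy _ (hg' g hg r hr)
    calc g * y * g⁻¹ * r = g * (y * (g⁻¹ * r * g)) * g⁻¹ := by group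
      _ = g * ((g⁻¹ * r * g) * y) * g⁻¹ := by rw [h]
      _ = r * (g * y * g⁻¹) := by group
  have hZrEA : IsEA p Zr := ⟨fun x hx y hy => hx.2.2 y hy.1, fun x hx => hx.2.1⟩
  obtain ⟨z, hzZ, hz1⟩ : ∃ z ∈ Zr, z ≠ 1 := by
    haveI : Nontrivial R := ⟨⟨⟨b, hbR⟩, 1, fun h => hb1 (congrArg Subtype.val h)⟩⟩
    haveI := hRp.center_nontrivial
    obtain ⟨c, hc1⟩ := exists_ne (1 : Subgroup.center R)
    have hcne : (c : R) ≠ 1 := fun h => hc1 (Subtype.ext h)
    obtain ⟨k, hk⟩ := hRp (c : R)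
    have hcne' : ((c : R) : MulAut N) ≠ 1 := fun h => hcne (Subtype.ext h)
    obtain ⟨j, hj1, hj2⟩ := exists_pow_order (b := ((c : R) : MulAut N)) (p := p) k
      (congrArg Subtype.val hk) hcne'
    refine ⟨_, ⟨?_, hj2, ?_⟩, hj1⟩
    · exact R.pow_mem (c : R).2 _
    · intro r hr
      have hcomm : (c : R) * ⟨r, hr⟩ = ⟨r, hr⟩ * (c : R) :=
        (Subgroup.mem_center_iff.mp c.2 ⟨r, hr⟩).symm
      have : ((c : R) : MulAut N) * r = r * ((c : R) : MulAut N) := congrArg Subtype.val hcomm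
      exact (Commute.pow_left this _).eq
  have hZr0 : Zr ≠ ⊥ := by
    intro h
    rw [h] at hzZ
    exact hz1 (Subgroup.mem_bot.mp hzZ)
  have hfixZ : fixS Zr = ⊥ := fix_bot_of_trivial hp hN hZr0 hZrn hZrEA.exp hb1 hP0
  by_cases hbig : ∃ y₁ ∈ Zr, ∃ y₂ ∈ Zr, y₁ ≠ 1 ∧ y₂ ∉ Subgroup.zpowers y₁
  · exact block hp hN IH hZrEA hZrn hfixZ hbig hRΓ hRn hRp (fun r hr y hy => (hy.2.2 r hr).symm)
      hbR hb1
  push_neg at hbig
  have hZrz : ∀ y ∈ Zr, y ∈ Subgroup.zpowers z := fun y hy => hbig z hzZ y hy hz1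
  have hzp : z ^ p = 1 := hzZ.2.1
  have hzR : z ∈ R := hzZ.1
  have hzcen : ∀ r ∈ R, r * z = z * r := fun r hr => (hzZ.2.2 r hr).symm
  have hfixz : ∀ u : N, z u = u → u = 1 := by
    intro u hu
    have : u ∈ fixS Zr := fun y hy => fix_of_mem_zpowers hu (hZrz y hy)
    rw [hfixZ] at this
    exact Subgroup.mem_bot.mp this
  set W := WW p hp hp2 R with hW
  have hWn : ∀ g ∈ Γ, ∀ y ∈ W, g * y * g⁻¹ ∈ W := fun g hg y hy =>
    conj_mem_WW (hRn g hg) (hg' g hg) hy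
  have hWR : ∀ x ∈ W, x ∈ R := fun x hx => hx.1
  have hWp : ∀ x ∈ W, x ^ p = 1 := fun x hx => hx.2.1
  have hZrW : Zr ≤ W := ZZR_le_WW
  have hcomZ : ∀ x ∈ W, ∀ r ∈ R, x * r * x⁻¹ * r⁻¹ ∈ Subgroup.zpowers z := by
    intro x hx r hr
    apply hZrz
    refine ⟨?_, ?_, hx.2.2 r hr⟩
    · exact R.mul_mem (R.mul_mem (R.mul_mem hx.1 hr) (R.inv_mem hx.1)) (R.inv_mem hr)
    · have h1 : r * x⁻¹ * r⁻¹ ∈ W := hWn r (hRΓ hr) _ (W.inv_mem hx)
      have h2 : x * r * x⁻¹ * r⁻¹ = x * (r * x⁻¹ * r⁻¹) := by group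
      rw [h2]
      exact hWp _ (W.mul_mem hx h1)
  -- the centre of `W`
  let Y : Subgroup (MulAut N) := W ⊓ Subgroup.centralizer (W : Set (MulAut N))
  have hYmem : ∀ x, x ∈ Y ↔ x ∈ W ∧ ∀ h ∈ W, x * h = h * x := by
    intro x
    rw [Subgroup.mem_inf, Subgroup.mem_centralizer_iff]
    constructor
    · rintro ⟨h1, h2⟩
      exact ⟨h1, fun h hh => (h2 h hh).symm⟩
    · rintro ⟨h1, h2⟩
      exact ⟨h1, fun h hh => (h2 h hh).symm⟩
  have hYn : ∀ g ∈ Γ, ∀ y ∈ Y, g * y * g⁻¹ ∈ Y := by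
    intro g hg y hy
    obtain ⟨h1, h2⟩ := (hYmem y).mp hy
    refine (hYmem _).mpr ⟨hWn g hg y h1, fun h hh => ?_⟩
    have h3 : g⁻¹ * h * g ∈ W := by
      have := hWn _ (Γ.inv_mem hg) h hh
      rwa [inv_inv] at this
    have h4 := h2 _ h3
    calc g * y * g⁻¹ * h = g * (y * (g⁻¹ * h * g)) * g⁻¹ := by group
      _ = g * ((g⁻¹ * h * g) * y) * g⁻¹ := by rw [h4]
      _ = h * (g * y * g⁻¹) := by group
  have hYEA : IsEA p Y := ⟨fun x hx y hy => ((hYmem x).mp hx).2 y ((hYmem y).mp hy).1,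
    fun x hx => hWp x ((hYmem x).mp hx).1⟩
  have hzY : z ∈ Y := (hYmem z).mpr ⟨hZrW hzZ, fun h hh => (hzcen h hh.1).symm⟩
  have hfixY : fixS Y = ⊥ := by
    rw [eq_bot_iff]
    intro u hu
    exact Subgroup.mem_bot.mpr (hfixz u (hu z hzY))
  by_cases hbigY : ∃ y₁ ∈ Y, ∃ y₂ ∈ Y, y₁ ≠ 1 ∧ y₂ ∉ Subgroup.zpowers y₁
  · by_cases hbY : ∀ y ∈ Y, b * y = y * b
    · let R₀ : Subgroup (MulAut N) := R ⊓ Subgroup.centralizer (Y : Set (MulAut N))
      have hR₀mem : ∀ x, x ∈ R₀ ↔ x ∈ R ∧ ∀ y ∈ Y, x * y = y * x := by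
        intro x
        rw [Subgroup.mem_inf, Subgroup.mem_centralizer_iff]
        constructor
        · rintro ⟨h1, h2⟩
          exact ⟨h1, fun h hh => (h2 h hh).symm⟩
        · rintro ⟨h1, h2⟩
          exact ⟨h1, fun h hh => (h2 h hh).symm⟩
      refine block hp hN IH hYEA hYn hfixY hbigY (fun x hx => hRΓ ((hR₀mem x).mp hx).1) ?_
        (IsPGroup.to_le hRp inf_le_left) (fun r hr y hy => ((hR₀mem r).mp hr).2 y hy)
        ((hR₀mem b).mpr ⟨hbR, hbY⟩) hb1
      intro g hg r hr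
      obtain ⟨h1, h2⟩ := (hR₀mem r).mp hr
      refine (hR₀mem _).mpr ⟨hRn g hg r h1, fun y hy => ?_⟩
      have h3 : g⁻¹ * y * g ∈ Y := by
        have := hYn _ (Γ.inv_mem hg) y hy
        rwa [inv_inv] at this
      have h4 := h2 _ h3
      calc g * r * g⁻¹ * y = g * (r * (g⁻¹ * y * g)) * g⁻¹ := by group
        _ = g * ((g⁻¹ * y * g) * r) * g⁻¹ := by rw [h4]
        _ = y * (g * r * g⁻¹) := by group
    · push_neg at hbY
      obtain ⟨y₀, hy₀, hby₀⟩ := hbY
      have hKex : ∃ K, IsHyper Y K ∧ ∃ v ∈ fixS K, v ≠ 1 := by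
        by_contra hcon
        push_neg at hcon
        have h1 := span_hyper hp hN hYEA hfixY ⊥ (fun K hK u hu =>
          Subgroup.mem_bot.mpr (hcon K hK u hu))
        apply hb1
        apply aut_ext
        intro x
        have hx1 : x ∈ (⊥ : Subgroup N) := h1 ▸ Subgroup.mem_top x
        rw [Subgroup.mem_bot.mp hx1]
        simp
      obtain ⟨K, hK, v, hvK, hv1⟩ := hKex
      refine ⟨v, fun h hh hfx => ?_⟩
      set b' := h * b * h⁻¹ with hb'
      have hb'R : b' ∈ R := hRn h hh b hbR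
      have hb'Γ := hRΓ hb'R
      have hK' : IsHyper Y (conjS b' K) := hyper_conj hYn hK hb'Γ
      have hvK' : v ∈ fixS (conjS b' K) := by
        intro x hx
        rw [mem_conjS] at hx
        have h2 := hvK _ hx
        have h3 : (b'⁻¹ * x * b') v = b'⁻¹ (x (b' v)) := rfl
        rw [h3, hfx] at h2
        calc x v = b' (b'⁻¹ (x v)) := (aut_self_inv _ _).symm
          _ = b' v := by rw [h2]
          _ = v := hfx
      have hKeq : conjS b' K = K := by
        by_contra hne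
        have h1 := hyper_sup hK' hK hne
        have h2 : v ∈ fixS Y := by
          rw [← h1]
          exact fix_sup hvK' hvK
        rw [hfixY] at h2
        exact hv1 (Subgroup.mem_bot.mp h2)
      have hzK : z ∉ K := by
        intro h1
        exact hv1 (hfixz v (hvK z h1))
      have hbk : ∀ k ∈ K, b' * k = k * b' := by
        intro k hk
        have hkW := ((hYmem k).mp (hK.1 hk)).1
        set d := b' * k * b'⁻¹ * k⁻¹ with hd
        have hdK : d ∈ K := by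
          have h1 : b' * k * b'⁻¹ ∈ conjS b' K := conj_mem_conjS hk
          rw [hKeq] at h1
          exact K.mul_mem h1 (K.inv_mem hk)
        have hdz : d ∈ Subgroup.zpowers z := by
          have h1 := hcomZ k hkW b' hb'R
          have h2 : d = (k * b' * k⁻¹ * b'⁻¹)⁻¹ := by
            rw [hd]
            group
          rw [h2]
          exact Subgroup.inv_mem _ h1
        by_contra hne
        have hd1 : d ≠ 1 := by
          intro h1
          apply hne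
          rw [hd] at h1
          have h2 : b' * k * b'⁻¹ = k := mul_inv_eq_one.mp h1
          exact mul_inv_eq_iff_eq_mul.mp h2
        have hzd := zp_gen hp hzp hdz hd1
        exact hzK ((Subgroup.zpowers_le.mpr hdK) hzd)
      have hYsup : K ⊔ Subgroup.zpowers z = Y := by
        have hle : K ⊔ Subgroup.zpowers z ≤ Y := sup_le hK.1 (Subgroup.zpowers_le.mpr hzY)
        rcases hK.2.2 _ le_sup_left hle with h1 | h1
        · exfalso
          apply hzK
          rw [← h1]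
          exact Subgroup.mem_sup_right (Subgroup.mem_zpowers z)
        · exact h1
      have hb'Y : ∀ y ∈ Y, y * b' = b' * y := by
        have hle : K ⊔ Subgroup.zpowers z ≤ cenOf b' := by
          refine sup_le ?_ (Subgroup.zpowers_le.mpr ?_)
          · intro k hk
            exact mem_cenOf.mpr (hbk k hk).symm
          · exact mem_cenOf.mpr (hzZ.2.2 b' hb'R)
        intro y hy
        rw [← hYsup] at hy
        exact mem_cenOf.mp (hle hy)
      apply hby₀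
      have h1 := hb'Y _ (hYn h hh y₀ hy₀)
      have e1 : h * (b * y₀) * h⁻¹ = h * (y₀ * b) * h⁻¹ := by
        calc h * (b * y₀) * h⁻¹ = b' * (h * y₀ * h⁻¹) := by rw [hb']; group
          _ = (h * y₀ * h⁻¹) * b' := h1.symm
          _ = h * (y₀ * b) * h⁻¹ := by rw [hb']; group
      exact mul_left_cancel (mul_right_cancel e1)
  · push_neg at hbigY
    have hYz : ∀ y ∈ Y, y ∈ Subgroup.zpowers z := fun y hy => hbigY z hzY y hy hz1
    have hS : Sympl p W z := ⟨hZrW hzZ, hz1, hWp, fun x hx => hzcen x hx.1,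
      fun x hx y hy => hcomZ x hx y hy.1, fun x hx hc => hYz x ((hYmem x).mpr ⟨hx, hc⟩), hfixz⟩
    have hcent : ∀ r ∈ R, ∃ w ∈ W, ∀ h ∈ W, (r * w⁻¹) * h = h * (r * w⁻¹) := by
      intro r hr
      refine centralize hp _ W z rfl hS r (hzcen r hr) ?_
      intro h hh
      have h1 := hcomZ h hh r hr
      have h2 : r * h * r⁻¹ * h⁻¹ = (h * r * h⁻¹ * r⁻¹)⁻¹ := by group
      rw [h2]
      exact Subgroup.inv_mem _ h1
    have hH : ∀ c ∈ R, (∀ h ∈ W, c * h = h * c) → c ^ p = 1 → c ∈ Subgroup.zpowers z := by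
      intro c hcR hcW hcp
      by_contra hcz
      let C : Subgroup (MulAut N) := R ⊓ Subgroup.centralizer (W : Set (MulAut N))
      have hCmem : ∀ x, x ∈ C ↔ x ∈ R ∧ ∀ h ∈ W, x * h = h * x := by
        intro x
        rw [Subgroup.mem_inf, Subgroup.mem_centralizer_iff]
        constructor
        · rintro ⟨h1, h2⟩
          exact ⟨h1, fun h hh => (h2 h hh).symm⟩
        · rintro ⟨h1, h2⟩
          exact ⟨h1, fun h hh => (h2 h hh).symm⟩
      have hCp : IsPGroup p C := IsPGroup.to_le hRp inf_le_left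
      have hdecomp : ∀ r ∈ R, ∃ c' ∈ C, ∃ w ∈ W, r = c' * w := by
        intro r hr
        obtain ⟨w, hw, hwc⟩ := hcent r hr
        exact ⟨r * w⁻¹, (hCmem _).mpr ⟨R.mul_mem hr (R.inv_mem hw.1), hwc⟩, w, hw, by group⟩
      have hcC : c ∈ C := (hCmem c).mpr ⟨hcR, hcW⟩
      have hzC : z ∈ C := (hCmem z).mpr ⟨hzR, fun h hh => (hzcen h hh.1).symm⟩
      have hnc : ¬ IsCyclic C := by
        refine not_isCyclic_of_two hp (z := ⟨z, hzC⟩) (c := ⟨c, hcC⟩) (Subtype.ext hzp)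
          (fun h => hz1 (congrArg Subtype.val h)) (Subtype.ext hcp) ?_
        intro hmem
        apply hcz
        obtain ⟨i, hi⟩ := Subgroup.mem_zpowers_iff.mp hmem
        have : z ^ i = c := congrArg Subtype.val hi
        rw [← this]
        exact Subgroup.zpow_mem_zpowers z i
      obtain ⟨A, hAn, hAe, hAc⟩ := Cfsg.Agent.S0126.result hp2 hCp hnc
      have hAz : ∀ a ∈ A, ((a : C) : MulAut N) ∈ Subgroup.zpowers z := by
        intro a ha
        apply hYz
        set x := ((a : C) : MulAut N) with hx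
        have hxC := (hCmem x).mp a.2
        have hxp : x ^ p = 1 := congrArg Subtype.val (hAe.2 a ha)
        have hxW : x ∈ W := by
          refine ⟨hxC.1, hxp, fun r hr s hs => ?_⟩
          obtain ⟨c₁, hc₁, w₁, hw₁, rfl⟩ := hdecomp r hr
          obtain ⟨c₂, hc₂, w₂, hw₂, rfl⟩ := hdecomp s hs
          have hxw : x * w₁ = w₁ * x := hxC.2 w₁ hw₁
          have hcen := normal_sq_center hCp hAn hAc a ha ⟨c₁, hc₁⟩
          set d : C := a * ⟨c₁, hc₁⟩ * a⁻¹ * (⟨c₁, hc₁⟩ : C)⁻¹ with hd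
          have hdval : x * (c₁ * w₁) * x⁻¹ * (c₁ * w₁)⁻¹ = (d : MulAut N) := by
            rw [hd]
            show _ = x * c₁ * x⁻¹ * c₁⁻¹
            have h5 : w₁ * x⁻¹ * w₁⁻¹ = x⁻¹ := by
              have h6 : Commute x w₁ := hxw
              rw [← h6.inv_left.eq]
              group
            calc x * (c₁ * w₁) * x⁻¹ * (c₁ * w₁)⁻¹ = x * c₁ * (w₁ * x⁻¹ * w₁⁻¹) * c₁⁻¹ := by group
              _ = x * c₁ * x⁻¹ * c₁⁻¹ := by rw [h5]
          rw [hdval]
          have h6 : Commute (d : MulAut N) c₂ := by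
            have := Subgroup.mem_center_iff.mp hcen ⟨c₂, hc₂⟩
            exact (congrArg Subtype.val this).symm
          have h7 : Commute (d : MulAut N) w₂ := ((hCmem _).mp d.2).2 w₂ hw₂
          exact (h6.mul_right h7).eq
        exact (hYmem x).mpr ⟨hxW, hxC.2⟩
      have hle : A.map C.subtype ≤ Subgroup.zpowers z := by
        rintro _ ⟨a, ha, rfl⟩
        exact hAz a ha
      have hcardz : Nat.card (Subgroup.zpowers z) = p := by
        rw [Nat.card_zpowers]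
        exact orderOf_eq_prime hzp hz1
      have hcardA : Nat.card (A.map C.subtype) = p ^ 2 := by
        rw [← hAc]
        exact Nat.card_congr (A.equivMapOfInjective _ C.subtype_injective).symm.toEquiv
      have := Subgroup.card_le_of_le hle
      rw [hcardz, hcardA] at this
      have hp' : p ^ 2 > p := by nlinarith [hp.two_le]
      omega
    have hbW : b ∈ W := by
      obtain ⟨w, hw, hwc⟩ := hcent b hbR
      set c := b * w⁻¹ with hc
      have hcR : c ∈ R := R.mul_mem hbR (R.inv_mem hw.1)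
      have hbcw : b = c * w := by
        rw [hc]
        group
      have hcw : Commute c w := hwc w hw
      have hcp : c ^ p = 1 := by
        have h1 : b ^ p = c ^ p * w ^ p := by rw [hbcw, hcw.mul_pow]
        rw [hbp, hWp w hw, mul_one] at h1
        exact h1.symm
      have hcz := hH c hcR hwc hcp
      rw [hbcw]
      exact W.mul_mem ((Subgroup.zpowers_le.mpr (hZrW hzZ)) hcz) hw
    have hN1 : (⊤ : Subgroup N) ≠ ⊥ := by
      intro h
      apply hb1
      apply aut_ext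
      intro x
      have : x ∈ (⊥ : Subgroup N) := h ▸ Subgroup.mem_top x
      rw [Subgroup.mem_bot.mp this]
      simp
    obtain ⟨v, _, hv⟩ := regular hp hp2 hN _ W z rfl hS ⊤ hN1 (fun _ _ _ _ => Subgroup.mem_top _)
    refine ⟨v, fun h hh hfx => ?_⟩
    have h1 := hv _ (hWn h hh b hbW) hfx
    apply hb1
    have h2 : b = h⁻¹ * (h * b * h⁻¹) * h := by group
    rw [h2, h1]
    simp

theorem cover_step [Finite N] {p : ℕ} (hp : p.Prime) (hp2 : p ≠ 2) (hN : (Nat.card N).Coprime p)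
    (IH : ∀ U : Subgroup N, U ≠ ⊤ → CoverAt p U) : CoverAt p N := by
  intro Γ R hRΓ hRn hRp b hbR hb1
  obtain ⟨k, hk⟩ := hRp ⟨b, hbR⟩
  have hk' : b ^ (p ^ k) = 1 := congrArg Subtype.val hk
  obtain ⟨j, hj1, hj2⟩ := exists_pow_order k hk' hb1
  obtain ⟨v, hv⟩ := cover_aux hp hp2 hN IH hRΓ hRn hRp (R.pow_mem hbR _) hj1 hj2
  refine ⟨v, fun g hg hfx => hv g hg ?_⟩
  have h1 : g * b ^ (p ^ j) * g⁻¹ = (g * b * g⁻¹) ^ (p ^ j) := (conj_pow).symm
  rw [h1]
  exact fix_pow hfx _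

/-- The covering theorem. -/
theorem cover_all {p : ℕ} (hp : p.Prime) (hp2 : p ≠ 2) : ∀ (n : ℕ) (N : Type u) [CommGroup N]
    [Finite N], Nat.card N = n → (Nat.card N).Coprime p → CoverAt p N := by
  intro n
  induction n using Nat.strong_induction_on with
  | _ n ih =>
    intro N _ _ hn hN
    refine cover_step hp hp2 hN ?_
    intro U hU
    have hlt : Nat.card U < n := by
      rw [← hn]
      exact lt_of_le_of_ne (Subgroup.card_le_card_group U)
        (fun h => hU (Subgroup.eq_top_of_card_eq U h))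
    exact ih _ hlt U rfl (Nat.Coprime.coprime_dvd_left (Subgroup.card_subgroup_dvd_card U) hN)

end Cfsg.Agent.Lib.Struct.FixCover
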