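import Mathlib
import Cfsg.Agent.Lib.Struct.Basic
import Cfsg.Agent.Lib.Struct.Sylow
import Cfsg.Agent.Lib.Coprime.Conj

/-!
# Groups all of whose noncentral centralizers are maximal subgroups.
-/

set_option autoImplicit false

universe u

namespace Cfsg.Agent.Lib.Struct.MaxCentralizer

open Subgroup

variable {G : Type*} [Group G]

/-- The centralizer of an element. -/
abbrev Cz (x : G) : Subgroup G := centralizer ({x} : Set G)

theorem mem_Cz {x y : G} : y ∈ Cz x ↔ x * y = y * x := by
  rw [Cz, mem_centralizer_iff]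
  simp

theorem Cz_le_Cz_pow (x : G) (n : ℕ) : Cz x ≤ Cz (x ^ n) := by
  intro c hc
  rw [mem_Cz] at hc ⊢
  have : Commute x c := hc
  exact (this.pow_left n)

/-- Centralizer abelian. -/
def Ab (x : G) : Prop := ∀ a ∈ Cz x, ∀ b ∈ Cz x, a * b = b * a

theorem sum_inv_sq_aux (N : ℕ) (hN : 2 ≤ N) :
    ∑ m ∈ Finset.Ico 3 (N + 1), (1 : ℚ) / (m : ℚ) ^ 2 ≤ 1 / 2 - 1 / (N : ℚ) := by
  induction N, hN using Nat.le_induction with
  | base => norm_num
  | succ n hn ih =>
    rw [Finset.sum_Ico_succ_top (by omega)]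
    have hn0 : (0 : ℚ) < (n : ℚ) := by
      have : 0 < n := by omega
      exact_mod_cast this
    have key : (1 : ℚ) / (((n + 1 : ℕ) : ℚ)) ^ 2 ≤ 1 / (n : ℚ) - 1 / ((n + 1 : ℕ) : ℚ) := by
      push_cast
      rw [div_sub_div _ _ hn0.ne' (by positivity), div_le_div_iff₀ (by positivity) (by positivity)]
      nlinarith
    linarith

theorem sum_inv_sq_lt (S : Finset ℕ) (hS : ∀ p ∈ S, 3 ≤ p) :
    ∑ p ∈ S, (1 : ℚ) / (p : ℚ) ^ 2 < 1 / 2 := by
  set N := S.sup id + 2 with hN
  have hsub : S ⊆ Finset.Ico 3 (N + 1) := by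
    intro p hp
    rw [Finset.mem_Ico]
    refine ⟨hS p hp, ?_⟩
    have : id p ≤ S.sup id := Finset.le_sup hp
    simp only [id] at this
    omega
  have h1 : ∑ p ∈ S, (1 : ℚ) / (p : ℚ) ^ 2 ≤ ∑ m ∈ Finset.Ico 3 (N + 1), (1 : ℚ) / (m : ℚ) ^ 2 :=
    Finset.sum_le_sum_of_subset_of_nonneg hsub (fun _ _ _ => by positivity)
  have h2 := sum_inv_sq_aux N (by omega)
  have h3 : (0 : ℚ) < 1 / (N : ℚ) := by
    have : 0 < N := by omega
    positivity
  linarith

section core

variable [Finite G] (h : ∀ x : G, x ≠ 1 → IsCoatom (Cz x))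

include h

theorem Cz_eq_of_le {x y : G} (hx : x ≠ 1) (hy : y ≠ 1) (hle : Cz x ≤ Cz y) : Cz x = Cz y := by
  by_contra hne
  exact (h y hy).1 ((h x hx).2 _ (lt_of_le_of_ne hle hne))

theorem pow_eq_one_of_commute {a b : G} (hb : b ≠ 1) (ha : a ≠ 1) (hab : a * b = b * a)
    (hne : Cz a ≠ Cz b) : b ^ orderOf a = 1 := by
  by_contra hbn
  have hc : Commute a b := hab
  have h1 : (a * b) ^ orderOf a = b ^ orderOf a := by
    rw [hc.mul_pow, pow_orderOf_eq_one, one_mul]
  have hab1 : a * b ≠ 1 := by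
    intro h0
    rw [h0, one_pow] at h1
    exact hbn h1.symm
  have h2 : Cz b = Cz (b ^ orderOf a) := Cz_eq_of_le h hb hbn (Cz_le_Cz_pow b _)
  have h3 : Cz (a * b) = Cz ((a * b) ^ orderOf a) :=
    Cz_eq_of_le h hab1 (by rwa [h1]) (Cz_le_Cz_pow _ _)
  rw [h1] at h3
  have h4 : Cz b = Cz (a * b) := h2.trans h3.symm
  have h5 : Cz b ≤ Cz a := by
    intro c hc1
    have hc2 : c ∈ Cz (a * b) := h4 ▸ hc1
    rw [mem_Cz] at hc1 hc2 ⊢
    have : a * c * b = c * a * b := by
      calc a * c * b = a * (c * b) := by group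
        _ = a * (b * c) := by rw [hc1]
        _ = a * b * c := by group
        _ = c * (a * b) := hc2
        _ = c * a * b := by group
    exact mul_right_cancel this
  exact hne (Cz_eq_of_le h hb ha h5).symm

theorem orderOf_eq_of_commute {a b : G} (ha : a ≠ 1) (hb : b ≠ 1) (hab : a * b = b * a)
    (hne : Cz a ≠ Cz b) : orderOf a = orderOf b :=
  Nat.dvd_antisymm (orderOf_dvd_of_pow_eq_one (pow_eq_one_of_commute h ha hb hab.symm hne.symm))
    (orderOf_dvd_of_pow_eq_one (pow_eq_one_of_commute h hb ha hab hne))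

theorem orderOf_prime_of_commute {a b : G} (ha : a ≠ 1) (hb : b ≠ 1) (hab : a * b = b * a)
    (hne : Cz a ≠ Cz b) : (orderOf a).Prime := by
  have hn1 : orderOf a ≠ 1 := by
    rw [Ne, orderOf_eq_one_iff]
    exact ha
  have hn0 : 0 < orderOf a := orderOf_pos a
  set q := (orderOf a).minFac with hq
  have hqp : q.Prime := Nat.minFac_prime hn1
  have hqd : q ∣ orderOf a := Nat.minFac_dvd _
  by_cases haq : a ^ q = 1
  · have h1 : orderOf a ∣ q := orderOf_dvd_of_pow_eq_one haq
    have h2 : orderOf a = q := Nat.dvd_antisymm h1 hqd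
    rw [h2]
    exact hqp
  · exfalso
    have h1 : Cz a = Cz (a ^ q) := Cz_eq_of_le h ha haq (Cz_le_Cz_pow a _)
    have h2 : orderOf (a ^ q) = orderOf b := by
      apply orderOf_eq_of_commute h haq hb
      · have : Commute a b := hab
        exact this.pow_left q
      · rw [← h1]
        exact hne
    have h3 := orderOf_eq_of_commute h ha hb hab hne
    have h4 : orderOf (a ^ q) = orderOf a / q := by
      rw [orderOf_pow_of_dvd hqp.ne_zero hqd]
    rw [h2, ← h3] at h4
    have h5 : orderOf a / q < orderOf a := Nat.div_lt_self hn0 hqp.one_lt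
    omega

/-- Non-abelian centralizers have prime exponent. -/
theorem exponent_of_not_ab {x : G} (hx : x ≠ 1) (hna : ¬ Ab x) :
    (orderOf x).Prime ∧ ∀ y ∈ Cz x, y ^ orderOf x = 1 := by
  unfold Ab at hna
  push_neg at hna
  obtain ⟨w, hw, c, hc, hwc⟩ := hna
  have hwne : w ≠ 1 := by
    rintro rfl
    simp at hwc
  have hle : Cz x ≠ Cz w := by
    intro he
    apply hwc
    have : c ∈ Cz w := he ▸ hc
    rw [mem_Cz] at this
    exact this
  have hxw : x * w = w * x := mem_Cz.mp hw
  refine ⟨orderOf_prime_of_commute h hx hwne hxw hle, ?_⟩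
  intro y hy
  by_cases hy1 : y = 1
  · rw [hy1, one_pow]
  by_cases hCy : Cz y = Cz x
  · have h1 : w ∈ Cz y := hCy ▸ hw
    have h2 : orderOf y = orderOf w := orderOf_eq_of_commute h hy1 hwne (mem_Cz.mp h1) (hCy ▸ hle)
    have h3 := orderOf_eq_of_commute h hx hwne hxw hle
    rw [h3, ← h2, pow_orderOf_eq_one]
  · have h2 : orderOf x = orderOf y :=
      orderOf_eq_of_commute h hx hy1 (mem_Cz.mp hy) (Ne.symm hCy)
    rw [h2, pow_orderOf_eq_one]

end core

section core2

variable [Finite G] (h : ∀ x : G, x ≠ 1 → IsCoatom (Cz x))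

include h

theorem isPGroup_Cz {x : G} (hx : x ≠ 1) (hna : ¬ Ab x) : IsPGroup (orderOf x) (Cz x) := by
  obtain ⟨_, h2⟩ := exponent_of_not_ab h hx hna
  intro y
  refine ⟨1, ?_⟩
  rw [pow_one]
  exact Subtype.ext (by simpa using h2 y y.2)

theorem isSolvable_of_normal {x : G} (hx : x ≠ 1) (hn : (Cz x).Normal) : Group.IsSolvable G := by
  haveI := hn
  have hM : Group.IsSolvable (Cz x) := by
    by_cases hab : Ab x
    · letI : CommGroup (Cz x) :=
        { (inferInstance : Group (Cz x)) with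
          mul_comm := fun a b => Subtype.ext (hab a a.2 b b.2) }
      exact isSolvable_of_comm (fun a b => mul_comm a b)
    · have hp := (exponent_of_not_ab h hx hab).1
      haveI : Fact (orderOf x).Prime := ⟨hp⟩
      haveI := (isPGroup_Cz h hx hab).isNilpotent
      infer_instance
  have hco := h x hx
  obtain ⟨g, hg⟩ : ∃ g : G, g ∉ Cz x := by
    by_contra hcon
    push_neg at hcon
    exact hco.1 (eq_top_iff.mpr fun y _ => hcon y)
  have hcyc : IsCyclic (G ⧸ Cz x) := by
    rw [isCyclic_iff_exists_zpowers_eq_top]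
    refine ⟨(QuotientGroup.mk' (Cz x)) g, ?_⟩
    have h1 : zpowers g ⊔ Cz x = ⊤ := by
      by_contra hne
      have h2 : Cz x ≤ zpowers g ⊔ Cz x := le_sup_right
      have h3 : Cz x = zpowers g ⊔ Cz x := by
        by_contra hne2
        exact hne (hco.2 _ (lt_of_le_of_ne h2 hne2))
      apply hg
      rw [h3]
      exact Subgroup.mem_sup_left (mem_zpowers g)
    have h2 := congrArg (Subgroup.map (QuotientGroup.mk' (Cz x))) h1
    rw [Subgroup.map_sup, Subgroup.map_top_of_surjective _ (QuotientGroup.mk'_surjective _),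
      MonoidHom.map_zpowers] at h2
    have h3 : (Cz x).map (QuotientGroup.mk' (Cz x)) = ⊥ := by
      rw [eq_bot_iff]
      rintro _ ⟨y, hy, rfl⟩
      rw [Subgroup.mem_bot]
      exact (QuotientGroup.eq_one_iff y).mpr hy
    rw [h3, sup_bot_eq] at h2
    exact h2
  haveI : Group.IsSolvable (G ⧸ Cz x) := by
    letI := hcyc
    letI : CommGroup (G ⧸ Cz x) := IsCyclic.commGroup
    exact isSolvable_of_comm (fun a b => mul_comm a b)
  exact solvable_of_ker_le_range (Cz x).subtype (QuotientGroup.mk' (Cz x)) (by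
    rw [QuotientGroup.ker_mk', Subgroup.range_subtype])

/-- Non-abelian centralizers are Sylow subgroups. -/
theorem exists_sylow_Cz {x : G} (hx : x ≠ 1) (hna : ¬ Ab x) {p : ℕ} [hp : Fact p.Prime]
    (hxp : orderOf x = p) : ∃ S : Sylow p G, (S : Subgroup G) = Cz x := by
  have h1 : IsPGroup p (Cz x) := hxp ▸ isPGroup_Cz h hx hna
  obtain ⟨Q, hQ⟩ := h1.exists_le_sylow
  refine ⟨Q, ?_⟩
  by_contra hne
  have h2 : (Q : Subgroup G) = ⊤ := (h x hx).2 _ (lt_of_le_of_ne hQ (Ne.symm hne))
  have h3 : IsPGroup p G := by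
    intro g
    obtain ⟨k, hk⟩ := Q.isPGroup' ⟨g, by rw [h2]; trivial⟩
    exact ⟨k, by simpa using congrArg Subtype.val hk⟩
  haveI : Nontrivial G := ⟨⟨x, 1, hx⟩⟩
  haveI := h3.center_nontrivial
  obtain ⟨⟨z, hz⟩, hz1⟩ := exists_ne (1 : center G)
  have hz2 : z ≠ 1 := fun h0 => hz1 (Subtype.ext h0)
  apply (h z hz2).1
  rw [eq_top_iff]
  intro y _
  rw [mem_Cz]
  exact ((Subgroup.mem_center_iff.mp hz) y).symm

omit h in
theorem card_center_mul_le {P : Subgroup G} {p : ℕ} [hp : Fact p.Prime] (hP : IsPGroup p P)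
    (hna : ¬ ∀ a ∈ P, ∀ b ∈ P, a * b = b * a) :
    Nat.card (center P) * p ^ 2 ≤ Nat.card P := by
  obtain ⟨j, hj⟩ := hP.index (center P)
  have h1 := Subgroup.card_mul_index (center P)
  rw [hj] at h1
  have hj2 : 2 ≤ j := by
    by_contra hcon
    apply hna
    have hj3 : j = 0 ∨ j = 1 := by omega
    have hcomm : ∀ a b : P, a * b = b * a := by
      rcases hj3 with rfl | rfl
      · have h2 : center P = ⊤ := by
          rw [← Subgroup.index_eq_one]
          simpa using hj
        intro a b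
        have : a ∈ center P := h2 ▸ Subgroup.mem_top a
        exact ((Subgroup.mem_center_iff.mp this) b).symm
      · have h2 : Nat.card (P ⧸ center P) = p := by
          have : Nat.card (P ⧸ center P) = (center P).index := rfl
          rw [this, hj, pow_one]
        haveI : IsCyclic (P ⧸ center P) := isCyclic_of_prime_card h2
        exact commutative_of_cyclic_center_quotient (QuotientGroup.mk' (center P))
          (by rw [QuotientGroup.ker_mk'])
    intro a ha b hb
    exact congrArg Subtype.val (hcomm ⟨a, ha⟩ ⟨b, hb⟩)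
  rw [← h1]
  exact Nat.mul_le_mul_left _ (Nat.pow_le_pow_right hp.out.pos hj2)

end core2

section count

variable [Finite G] (h : ∀ x : G, x ≠ 1 → IsCoatom (Cz x))

include h

theorem ncard_orderOf_mul_le (hall : ∀ x : G, x ≠ 1 → ¬ Ab x) {p : ℕ} [hp : Fact p.Prime] :
    {x : G | orderOf x = p}.ncard * p ^ 2 ≤ Nat.card G := by
  classical
  by_cases hex : ∃ x₀ : G, orderOf x₀ = p
  swap
  · push_neg at hex
    have h0 : {x : G | orderOf x = p} = ∅ := Set.eq_empty_of_forall_notMem fun x hx => hex x hx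
    simp [h0]
  obtain ⟨x₀, hx₀⟩ := hex
  have hne1 : ∀ x : G, orderOf x = p → x ≠ 1 := by
    rintro x hx rfl
    rw [orderOf_one] at hx
    exact hp.out.one_lt.ne hx
  have hx₀1 := hne1 x₀ hx₀
  obtain ⟨S₀, hS₀⟩ := exists_sylow_Cz h hx₀1 (hall _ hx₀1) hx₀
  set P₀ := Cz x₀ with hP₀
  let f : (G ⧸ P₀) × center P₀ → G := fun q => (q.1.out) * ((q.2 : P₀) : G) * (q.1.out)⁻¹
  have hsub : {x : G | orderOf x = p} ⊆ Set.range f := by
    intro x hx
    have hx1 := hne1 x hx
    obtain ⟨S, hS⟩ := exists_sylow_Cz h hx1 (hall _ hx1) hx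
    obtain ⟨g, hg⟩ := MulAction.exists_smul_eq G S₀ S
    have hzcent : ∀ c ∈ P₀, c * (g⁻¹ * x * g) = (g⁻¹ * x * g) * c := by
      intro c hc
      have h1 : g * c * g⁻¹ ∈ Cz x := by
        rw [← hS, ← hg, Sylow.coe_subgroup_smul, hS₀]
        exact ⟨c, hc, rfl⟩
      rw [mem_Cz] at h1
      calc c * (g⁻¹ * x * g) = g⁻¹ * ((g * c * g⁻¹) * x) * g := by group
        _ = g⁻¹ * (x * (g * c * g⁻¹)) * g := by rw [h1]
        _ = (g⁻¹ * x * g) * c := by group
    have hzP : g⁻¹ * x * g ∈ P₀ := by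
      rw [hP₀, mem_Cz]
      exact hzcent x₀ (mem_Cz.mpr rfl)
    let zz : center P₀ := ⟨⟨g⁻¹ * x * g, hzP⟩, Subgroup.mem_center_iff.mpr
      (fun c => Subtype.ext (hzcent c c.2))⟩
    refine ⟨((g : G ⧸ P₀), zz), ?_⟩
    obtain ⟨t, ht⟩ := QuotientGroup.mk_out_eq_mul P₀ g
    show ((g : G ⧸ P₀)).out * (g⁻¹ * x * g) * ((g : G ⧸ P₀)).out⁻¹ = x
    rw [ht]
    have key : ∀ u : G, u * (g⁻¹ * x * g) = (g⁻¹ * x * g) * u →
        g * u * (g⁻¹ * x * g) * (g * u)⁻¹ = x := by
      intro u hu
      calc g * u * (g⁻¹ * x * g) * (g * u)⁻¹ = g * (u * (g⁻¹ * x * g)) * u⁻¹ * g⁻¹ := by group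
        _ = g * ((g⁻¹ * x * g) * u) * u⁻¹ * g⁻¹ := by rw [hu]
        _ = x := by group
    exact key t (hzcent t t.2)
  have h1 := Set.ncard_le_ncard hsub (Set.toFinite _)
  have h2 : (Set.range f).ncard ≤ Nat.card ((G ⧸ P₀) × center P₀) := by
    rw [← Nat.card_coe_set_eq]
    exact Finite.card_range_le f
  rw [Nat.card_prod] at h2
  have h3 := card_center_mul_le (P := P₀) (p := p) (hx₀ ▸ isPGroup_Cz h hx₀1 (hall _ hx₀1))
    (hall _ hx₀1)
  have h4 := Subgroup.card_mul_index P₀
  have h5 : Nat.card (G ⧸ P₀) = P₀.index := rfl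
  calc {x : G | orderOf x = p}.ncard * p ^ 2
      ≤ (Nat.card (G ⧸ P₀) * Nat.card (center P₀)) * p ^ 2 := Nat.mul_le_mul_right _ (h1.trans h2)
    _ = Nat.card (G ⧸ P₀) * (Nat.card (center P₀) * p ^ 2) := by ring
    _ ≤ Nat.card (G ⧸ P₀) * Nat.card P₀ := Nat.mul_le_mul_left _ h3
    _ = Nat.card G := by rw [h5, mul_comm, h4]

theorem false_of_all_not_ab (hall : ∀ x : G, x ≠ 1 → ¬ Ab x) (x₀ : G) (hx₀ : x₀ ≠ 1) : False := by
  classical
  haveI := Fintype.ofFinite G
  haveI : Nontrivial G := ⟨⟨x₀, 1, hx₀⟩⟩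
  have hn2 : 1 < Nat.card G := Finite.one_lt_card
  have hpos : 0 < Nat.card G := Nat.card_pos
  set π := ((Nat.card G).primeFactors).erase 2 with hπ
  have hord : ∀ x : G, x ≠ 1 → orderOf x ∈ π := by
    intro x hx
    have hp := exponent_of_not_ab h hx (hall x hx)
    have h2 : orderOf x ≠ 2 := by
      intro h2
      apply hall x hx
      rw [h2] at hp
      intro a ha b hb
      have ha2 := hp.2 a ha
      have hb2 := hp.2 b hb
      have hab2 := hp.2 (a * b) (mul_mem ha hb)
      have h3 : a⁻¹ = a := by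
        rw [inv_eq_iff_mul_eq_one, ← pow_two]
        exact ha2
      have h4 : b⁻¹ = b := by
        rw [inv_eq_iff_mul_eq_one, ← pow_two]
        exact hb2
      have h5 : (a * b)⁻¹ = a * b := by
        rw [inv_eq_iff_mul_eq_one, ← pow_two]
        exact hab2
      rw [mul_inv_rev, h3, h4] at h5
      exact h5.symm
    exact Finset.mem_erase.mpr ⟨h2, Nat.mem_primeFactors.mpr
      ⟨hp.1, orderOf_dvd_natCard x, Nat.card_pos.ne'⟩⟩
  let E : ℕ → Finset G := fun p => Finset.univ.filter (fun x => orderOf x = p)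
  have hcov : (Finset.univ.erase (1 : G)) ⊆ π.biUnion E := by
    intro x hx
    have hx1 : x ≠ 1 := (Finset.mem_erase.mp hx).1
    exact Finset.mem_biUnion.mpr ⟨orderOf x, hord x hx1, by simp [E]⟩
  have hcard : Nat.card G - 1 ≤ ∑ p ∈ π, (E p).card := by
    have h1 := Finset.card_le_card hcov
    have h2 := Finset.card_biUnion_le (s := π) (t := E)
    rw [Finset.card_erase_of_mem (Finset.mem_univ _), Finset.card_univ,
      ← Nat.card_eq_fintype_card] at h1
    exact h1.trans h2
  have hE : ∀ p ∈ π, ((E p).card : ℚ) ≤ (Nat.card G : ℚ) * (1 / (p : ℚ) ^ 2) := by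
    intro p hp
    have hpp : p.Prime := Nat.prime_of_mem_primeFactors (Finset.mem_of_mem_erase hp)
    haveI : Fact p.Prime := ⟨hpp⟩
    have h1 := ncard_orderOf_mul_le h hall (p := p)
    have h2 : {x : G | orderOf x = p}.ncard = (E p).card := by
      rw [← Set.ncard_coe_finset]
      congr 1
      ext x
      simp [E]
    rw [h2] at h1
    have h3 : (0 : ℚ) < (p : ℚ) ^ 2 := by
      have := hpp.pos
      positivity
    rw [mul_one_div, le_div_iff₀ h3]
    exact_mod_cast h1
  have hπ3 : ∀ p ∈ π, 3 ≤ p := by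
    intro p hp
    have hpp : p.Prime := Nat.prime_of_mem_primeFactors (Finset.mem_of_mem_erase hp)
    have h2 : p ≠ 2 := (Finset.mem_erase.mp hp).1
    have := hpp.two_le
    omega
  have hsum := sum_inv_sq_lt π hπ3
  have hq : ((Nat.card G : ℚ) - 1) ≤ ∑ p ∈ π, ((E p).card : ℚ) := by
    have : Nat.card G ≤ (∑ p ∈ π, (E p).card) + 1 := by omega
    have h3 : ((Nat.card G : ℕ) : ℚ) ≤ ((∑ p ∈ π, (E p).card) + 1 : ℕ) := by exact_mod_cast this
    push_cast at h3
    linarith
  have h4 : ∑ p ∈ π, ((E p).card : ℚ) ≤ (Nat.card G : ℚ) * ∑ p ∈ π, (1 / (p : ℚ) ^ 2) := by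
    rw [Finset.mul_sum]
    exact Finset.sum_le_sum hE
  have hnq : (2 : ℚ) ≤ (Nat.card G : ℚ) := by exact_mod_cast hn2
  have h5 : (Nat.card G : ℚ) * ∑ p ∈ π, (1 / (p : ℚ) ^ 2) < (Nat.card G : ℚ) * (1 / 2) :=
    mul_lt_mul_of_pos_left hsum (by linarith)
  linarith

theorem exists_normal_of_ab {x : G} (hx : x ≠ 1) (hab : Ab x) (hnn : ¬ (Cz x).Normal) :
    ∃ k : G, k ≠ 1 ∧ (Cz k).Normal := by
  classical
  set A := Cz x with hA
  have hco := h x hx
  have hN : normalizer (A : Set G) = A := by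
    by_contra hne
    have h1 : normalizer (A : Set G) = ⊤ :=
      hco.2 _ (lt_of_le_of_ne le_normalizer (Ne.symm hne))
    exact hnn (Subgroup.normalizer_eq_top_iff.mp h1)
  have hC1 : ∀ a ∈ A, a ≠ 1 → Cz a = A := by
    intro a ha ha1
    apply (Cz_eq_of_le h hx ha1 ?_).symm
    intro c hc
    rw [mem_Cz]
    exact hab a ha c hc
  have hSyl : ∀ (r : ℕ) [Fact r.Prime] (a : G), a ∈ A → orderOf a = r →
      ∃ R : Sylow r G, a ∈ (R : Subgroup G) ∧ (R : Subgroup G) ≤ A := by
    intro r hr a ha hao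
    have ha1 : a ≠ 1 := by
      rintro rfl
      rw [orderOf_one] at hao
      exact hr.out.one_lt.ne hao
    have h1 : IsPGroup r (zpowers a) :=
      IsPGroup.iff_card.mpr ⟨1, by rw [Nat.card_zpowers, hao, pow_one]⟩
    obtain ⟨R, hR⟩ := h1.exists_le_sylow
    have haR : a ∈ (R : Subgroup G) := hR (mem_zpowers a)
    refine ⟨R, haR, ?_⟩
    haveI : Nontrivial (R : Subgroup G) := ⟨⟨⟨a, haR⟩, 1, fun h0 => ha1 (congrArg Subtype.val h0)⟩⟩
    haveI := R.isPGroup'.center_nontrivial
    obtain ⟨z, hz⟩ := exists_ne (1 : center (R : Subgroup G))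
    have hz1 : ((z : (R : Subgroup G)) : G) ≠ 1 := fun h0 => hz (Subtype.ext (Subtype.ext h0))
    have hzc : ∀ c ∈ (R : Subgroup G), c * ((z : (R : Subgroup G)) : G) = ((z : (R : Subgroup G)) : G) * c := by
      intro c hc
      exact congrArg Subtype.val ((Subgroup.mem_center_iff.mp z.2) ⟨c, hc⟩)
    have hzA : ((z : (R : Subgroup G)) : G) ∈ A := by
      rw [← hC1 a ha ha1, mem_Cz]
      exact hzc a haR
    intro c hc
    rw [← hC1 _ hzA hz1, mem_Cz]
    exact (hzc c hc).symm
  have hNC : ∀ (r : ℕ) [Fact r.Prime] (a : G) (R : Sylow r G), a ∈ (R : Subgroup G) → a ≠ 1 →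
      (R : Subgroup G) ≤ A → normalizer ((R : Subgroup G) : Set G) ≤ centralizer ((R : Subgroup G) : Set G) := by
    intro r _ a R haR ha1 hRA g hg
    have hgaR : g * a * g⁻¹ ∈ (R : Subgroup G) := (Subgroup.mem_normalizer_iff.mp hg a).mp haR
    have hgaA := hRA hgaR
    have hga1 : g * a * g⁻¹ ≠ 1 := by
      intro h0
      apply ha1
      have : a = g⁻¹ * (g * a * g⁻¹) * g := by group
      rw [this, h0]
      group
    have hgN : g ∈ normalizer (A : Set G) := by
      apply Cfsg.Agent.Lib.Coprime.mem_normalizer_of_conj_le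
      intro y hy
      rw [← hC1 _ hgaA hga1, mem_Cz]
      have h1 : y ∈ Cz a := by
        rw [hC1 a (hRA haR) ha1]
        exact hy
      rw [mem_Cz] at h1
      calc g * a * g⁻¹ * (g * y * g⁻¹) = g * (a * y) * g⁻¹ := by group
        _ = g * (y * a) * g⁻¹ := by rw [h1]
        _ = g * y * g⁻¹ * (g * a * g⁻¹) := by group
    rw [hN] at hgN
    rw [mem_centralizer_iff]
    intro c hc
    exact hab c (hRA hc) g hgN
  -- the kernels of transfer
  have hKer : ∀ (r : ℕ) [Fact r.Prime] (a : G), a ∈ A → orderOf a = r →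
      ∃ L : Subgroup G, L.Normal ∧ L ≠ ⊤ ∧ ∀ c : G, Nat.Coprime (orderOf c) r → c ∈ L := by
    intro r hr a ha hao
    have ha1 : a ≠ 1 := by
      rintro rfl
      rw [orderOf_one] at hao
      exact hr.out.one_lt.ne hao
    obtain ⟨R, haR, hRA⟩ := hSyl r a ha hao
    have hNC' := hNC r a R haR ha1 hRA
    refine ⟨(MonoidHom.transferSylow R hNC').ker, inferInstance, ?_, ?_⟩
    · intro htop
      have h1 := (MonoidHom.ker_transferSylow_isComplement' R hNC').disjoint
      have h2 : a ∈ (MonoidHom.transferSylow R hNC').ker := htop ▸ Subgroup.mem_top a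
      exact ha1 (Subgroup.disjoint_def.mp h1 h2 haR)
    · intro c hc
      rw [MonoidHom.mem_ker]
      obtain ⟨j, hj⟩ := (IsPGroup.iff_orderOf.mp R.isPGroup') (MonoidHom.transferSylow R hNC' c)
      have h1 : orderOf (MonoidHom.transferSylow R hNC' c) ∣ orderOf c := orderOf_map_dvd _ _
      rw [hj] at h1
      have h2 : Nat.Coprime (r ^ j) (orderOf c) := (Nat.Coprime.pow_left j hc.symm)
      have h3 : r ^ j = 1 := Nat.Coprime.eq_one_of_dvd h2 h1
      rw [h3, orderOf_eq_one_iff] at hj
      exact hj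
  -- the prime q
  have hidx : A.index ≠ 1 := by
    intro h1
    exact hco.1 (Subgroup.index_eq_one.mp h1)
  set q := A.index.minFac with hq
  have hqp : q.Prime := Nat.minFac_prime hidx
  haveI : Fact q.Prime := ⟨hqp⟩
  have hqA : ¬ q ∣ Nat.card A := by
    intro hd
    obtain ⟨a, ha⟩ := exists_prime_orderOf_dvd_card' (G := A) q hd
    have hao : orderOf (a : G) = q := by rw [Subgroup.orderOf_coe]; exact ha
    obtain ⟨R, _, hRA⟩ := hSyl q a a.2 hao
    exact Cfsg.Agent.Lib.Struct.not_dvd_index_of_sylow_le R hRA (Nat.minFac_dvd _)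
  obtain ⟨k, hk⟩ := exists_prime_orderOf_dvd_card' (G := G) q
    ((Nat.minFac_dvd _).trans (Subgroup.index_dvd_card A))
  have hk1 : k ≠ 1 := by
    rintro rfl
    rw [orderOf_one] at hk
    exact hqp.one_lt.ne hk
  refine ⟨k, hk1, ?_⟩
  set K : Subgroup G := normalClosure {c : G | Nat.Coprime (orderOf c) (Nat.card A)} with hK
  have hKtop : K ≠ ⊤ := by
    have hA1 : Nat.card A ≠ 1 := by
      intro h1
      have h2 := Subgroup.card_eq_one.mp h1
      have h3 : x ∈ A := by
        rw [hA, mem_Cz]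
      rw [h2] at h3
      exact hx ((Subgroup.mem_bot).mp h3)
    obtain ⟨r, hr, hrd⟩ := Nat.exists_prime_and_dvd hA1
    haveI : Fact r.Prime := ⟨hr⟩
    obtain ⟨a, ha⟩ := exists_prime_orderOf_dvd_card' (G := A) r hrd
    have hao : orderOf (a : G) = r := by rw [Subgroup.orderOf_coe]; exact ha
    obtain ⟨L, hLn, hLt, hL⟩ := hKer r a a.2 hao
    haveI := hLn
    intro htop
    apply hLt
    rw [eq_top_iff, ← htop]
    apply Subgroup.normalClosure_le_normal
    intro c hc
    exact hL c (Nat.Coprime.coprime_dvd_right hrd hc)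
  have hle : Cz k ≤ K := by
    intro c hc
    apply Subgroup.subset_normalClosure
    show Nat.Coprime (orderOf c) (Nat.card A)
    by_contra hnc
    obtain ⟨r, hr, hr1, hr2⟩ := Nat.Prime.not_coprime_iff_dvd.mp hnc
    haveI : Fact r.Prime := ⟨hr⟩
    obtain ⟨a, ha⟩ := exists_prime_orderOf_dvd_card' (G := A) r hr2
    have hao : orderOf (a : G) = r := by rw [Subgroup.orderOf_coe]; exact ha
    obtain ⟨R, _, hRA⟩ := hSyl r a a.2 hao
    have hc' : orderOf (c ^ (orderOf c / r)) = r := orderOf_pow_orderOf_div (orderOf_pos c).ne' hr1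
    have h1 : IsPGroup r (zpowers (c ^ (orderOf c / r))) :=
      IsPGroup.iff_card.mpr ⟨1, by rw [Nat.card_zpowers, hc', pow_one]⟩
    obtain ⟨R', hR'⟩ := h1.exists_le_sylow
    obtain ⟨g, hg⟩ := MulAction.exists_smul_eq G R' R
    have hy : g * c ^ (orderOf c / r) * g⁻¹ ∈ (R : Subgroup G) := by
      rw [← hg, Sylow.coe_subgroup_smul]
      exact ⟨_, hR' (mem_zpowers _), rfl⟩
    have hyA := hRA hy
    have hy1 : g * c ^ (orderOf c / r) * g⁻¹ ≠ 1 := by
      intro h0
      have h2 : c ^ (orderOf c / r) = 1 := by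
        have : c ^ (orderOf c / r) = g⁻¹ * (g * c ^ (orderOf c / r) * g⁻¹) * g := by group
        rw [this, h0]
        group
      rw [h2, orderOf_one] at hc'
      exact hr.one_lt.ne hc'
    have hkA : g * k * g⁻¹ ∈ A := by
      rw [← hC1 _ hyA hy1, mem_Cz]
      have h2 : c ^ (orderOf c / r) ∈ Cz k := Subgroup.pow_mem _ hc _
      rw [mem_Cz] at h2
      calc g * c ^ (orderOf c / r) * g⁻¹ * (g * k * g⁻¹) = g * (c ^ (orderOf c / r) * k) * g⁻¹ := by group
        _ = g * (k * c ^ (orderOf c / r)) * g⁻¹ := by rw [h2]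
        _ = g * k * g⁻¹ * (g * c ^ (orderOf c / r) * g⁻¹) := by group
    apply hqA
    have h2 : orderOf (g * k * g⁻¹) = q := by
      rw [Cfsg.Agent.Lib.Struct.orderOf_conj]
      exact hk
    rw [← h2, ← Subgroup.orderOf_mk _ hkA]
    exact orderOf_dvd_natCard _
  have hEq : Cz k = K := by
    by_contra hne
    exact hKtop ((h k hk1).2 _ (lt_of_le_of_ne hle hne))
  rw [hEq]
  exact Subgroup.normalClosure_normal

theorem isSolvable_core : Group.IsSolvable G := by
  by_cases hnt : ∃ x : G, x ≠ 1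
  · obtain ⟨x₀, hx₀⟩ := hnt
    by_cases hall : ∀ x : G, x ≠ 1 → ¬ Ab x
    · exact (false_of_all_not_ab h hall x₀ hx₀).elim
    · push_neg at hall
      obtain ⟨x, hx, hab⟩ := hall
      by_cases hn : (Cz x).Normal
      · exact isSolvable_of_normal h hx hn
      · obtain ⟨k, hk, hkn⟩ := exists_normal_of_ab h hx hab hn
        exact isSolvable_of_normal h hk hkn
  · push_neg at hnt
    haveI : Subsingleton G := ⟨fun a b => by rw [hnt a, hnt b]⟩
    infer_instance

end count

theorem isSolvable_of_centralizers_maximal (n : ℕ) : ∀ (G : Type u) [Group G] [Finite G], Nat.card G = n →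
    (∀ g : G, g ∉ center G → IsCoatom (centralizer ({g} : Set G))) → Group.IsSolvable G := by
  induction n using Nat.strong_induction_on with
  | _ n ih =>
    intro G _ _ hn h
    by_cases hZ : center G = ⊥
    · apply isSolvable_core
      intro x hx
      apply h
      rw [hZ]
      simpa using hx
    · have hlt : Nat.card (G ⧸ center G) < n := by
        rw [← hn]
        have h3 : Nat.card (G ⧸ center G) * Nat.card (center G) = Nat.card G :=
          (Subgroup.card_eq_card_quotient_mul_card_subgroup _).symm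
        have h4 : 1 < Nat.card (center G) := by
          rw [Subgroup.one_lt_card_iff_ne_bot]
          exact hZ
        rw [← h3]
        exact lt_mul_of_one_lt_right Nat.card_pos h4
      haveI : Group.IsSolvable (G ⧸ center G) := by
        apply ih _ hlt (G ⧸ center G) rfl
        intro gb hgb
        obtain ⟨g, rfl⟩ := QuotientGroup.mk'_surjective (center G) gb
        have hg : g ∉ center G := by
          intro hg
          apply hgb
          have h1 : (QuotientGroup.mk' (center G)) g = 1 := (QuotientGroup.eq_one_iff g).mpr hg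
          rw [h1]
          exact one_mem _
        have hco := h g hg
        set L := (centralizer ({(QuotientGroup.mk' (center G)) g} : Set (G ⧸ center G))).comap
          (QuotientGroup.mk' (center G)) with hL
        have hle : centralizer ({g} : Set G) ≤ L := by
          intro c hc
          rw [hL, Subgroup.mem_comap, mem_centralizer_iff]
          intro y hy
          rw [Set.mem_singleton_iff] at hy
          subst hy
          rw [← map_mul, ← map_mul, (mem_Cz.mp hc)]
        have hLne : L ≠ ⊤ := by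
          intro htop
          apply hgb
          rw [Subgroup.mem_center_iff]
          intro c
          obtain ⟨c, rfl⟩ := QuotientGroup.mk'_surjective (center G) c
          have : c ∈ L := htop ▸ Subgroup.mem_top c
          rw [hL, Subgroup.mem_comap, mem_centralizer_iff] at this
          exact (this _ rfl).symm
        have hEq : centralizer ({g} : Set G) = L := by
          by_contra hne
          exact hLne (hco.2 _ (lt_of_le_of_ne hle hne))
        constructor
        · intro htop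
          apply hLne
          rw [hL, htop, Subgroup.comap_top]
        · intro M hM
          have hsurj := QuotientGroup.mk'_surjective (center G)
          have h1 : L < M.comap (QuotientGroup.mk' (center G)) := by
            constructor
            · exact Subgroup.comap_mono hM.le
            · intro hcon
              apply hM.2
              have h2 := Subgroup.map_mono (f := QuotientGroup.mk' (center G)) hcon
              rw [Subgroup.map_comap_eq_self_of_surjective hsurj, hL,
                Subgroup.map_comap_eq_self_of_surjective hsurj] at h2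
              exact h2
          rw [← hEq] at h1
          have h2 := hco.2 _ h1
          rw [← Subgroup.map_comap_eq_self_of_surjective hsurj M, h2,
            Subgroup.map_top_of_surjective _ hsurj]
      haveI : Group.IsSolvable (center G) := isSolvable_of_comm
        (fun a b => Subtype.ext ((Subgroup.mem_center_iff.mp a.2 (b : G)).symm))
      exact solvable_of_ker_le_range (center G).subtype (QuotientGroup.mk' (center G)) (by
        rw [QuotientGroup.ker_mk', Subgroup.range_subtype])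

end Cfsg.Agent.Lib.Struct.MaxCentralizer
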