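import Mathlib

/-! Multiply transitive groups: Witt's lemma, Jordan's theorem on prime cycles. -/

set_option autoImplicit false

open Equiv Equiv.Perm MulAction

namespace Cfsg.Agent.Lib.Struct.Mult

variable {α : Type*} [Fintype α] [DecidableEq α]

lemma aiv (f : Perm α) (x : α) : f (f⁻¹ x) = x := by simp

lemma iav (f : Perm α) (x : α) : f⁻¹ (f x) = x := by simp

/-- Multiple transitivity in terms of partial injections. -/
theorem exists_extend (G : Subgroup (Perm α)) {m : ℕ} (hG : IsMultiplyPretransitive G α m)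
    (hm : m ≤ Fintype.card α) (D : Finset α) (hD : D.card ≤ m) (f : α → α) (hf : Set.InjOn f D) :
    ∃ g ∈ G, ∀ d ∈ D, g d = f d := by
  have hs : IsMultiplyPretransitive G α D.card :=
    isMultiplyPretransitive_of_le (n := m) hD (by simpa using hm)
  let e₀ : Fin D.card ≃ D := D.equivFin.symm
  let e₁ : Fin D.card ↪ α := ⟨fun i => (e₀ i : α), fun i j h => e₀.injective (Subtype.ext h)⟩
  let e₂ : Fin D.card ↪ α :=
    ⟨fun i => f (e₀ i), fun i j h => e₀.injective (Subtype.ext (hf (e₀ i).2 (e₀ j).2 h))⟩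
  obtain ⟨g, hg⟩ := exists_smul_eq G e₁ e₂
  refine ⟨g.1, g.2, fun d hd => ?_⟩
  have h1 := DFunLike.congr_fun hg (e₀.symm ⟨d, hd⟩)
  have h2 : (g • e₁) (e₀.symm ⟨d, hd⟩) = (g : Perm α) d := by
    change (g : Perm α) ((e₀ (e₀.symm ⟨d, hd⟩) : D) : α) = (g : Perm α) d
    rw [Equiv.apply_symm_apply]
  have h3 : e₂ (e₀.symm ⟨d, hd⟩) = f d := by
    change f ((e₀ (e₀.symm ⟨d, hd⟩) : D) : α) = f d
    rw [Equiv.apply_symm_apply]
  rw [← h2, ← h3, h1]

/-- Pointwise stabiliser of a finite set. -/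
def fixG (D : Finset α) : Subgroup (Perm α) where
  carrier := {g | ∀ d ∈ D, g d = d}
  mul_mem' := by
    intro a b ha hb d hd
    simp only [Set.mem_setOf_eq] at ha hb
    simp [Perm.mul_apply, hb d hd, ha d hd]
  one_mem' := by
    intro d _
    rfl
  inv_mem' := by
    intro a ha d hd
    simp only [Set.mem_setOf_eq] at ha
    rw [Perm.inv_eq_iff_eq]
    exact (ha d hd).symm

lemma mem_fixG {D : Finset α} {g : Perm α} : g ∈ fixG D ↔ ∀ d ∈ D, g d = d := Iff.rfl

/-- Witt's lemma: a permutation normalising `H` can be corrected by an element of `H` so as to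
normalise a given Sylow subgroup of `H`. -/
theorem witt {p : ℕ} [Fact p.Prime] (H : Subgroup (Perm α)) (P : Sylow p H) (g : Perm α)
    (hg : ∀ h, h ∈ H ↔ g * h * g⁻¹ ∈ H) :
    ∃ h ∈ H, ∀ u ∈ (P : Subgroup H).map H.subtype,
      (h * g) * u * (h * g)⁻¹ ∈ (P : Subgroup H).map H.subtype := by
  let φ : H ≃* H :=
    { toFun := fun x => ⟨g * x * g⁻¹, (hg x).1 x.2⟩
      invFun := fun x => ⟨g⁻¹ * x * g, (hg _).2 (by
        have : g * (g⁻¹ * (x : Perm α) * g) * g⁻¹ = x := by group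
        rw [this]
        exact x.2)⟩
      left_inv := by
        intro x
        ext1
        simp [mul_assoc]
      right_inv := by
        intro x
        ext1
        simp [mul_assoc]
      map_mul' := by
        intro x y
        ext1
        simp [mul_assoc] }
  obtain ⟨h, hh⟩ := exists_smul_eq H (φ • P) P
  refine ⟨h.1, h.2, ?_⟩
  rintro _ ⟨u, hu, rfl⟩
  have h1 : φ u ∈ ((φ • P : Sylow p H) : Subgroup H) :=
    Subgroup.smul_mem_pointwise_smul u φ (P : Subgroup H) hu
  have h2 : MulAut.conj h • φ u ∈ ((h • (φ • P) : Sylow p H) : Subgroup H) :=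
    Subgroup.smul_mem_pointwise_smul _ (MulAut.conj h) _ h1
  rw [hh] at h2
  refine ⟨_, h2, ?_⟩
  simp [φ, MulAut.smul_def, mul_assoc]

lemma conj_inv_mem {A : Type*} [Group A] [Finite A] (T : Subgroup A) (a : A)
    (ha : ∀ t ∈ T, a * t * a⁻¹ ∈ T) : ∀ t ∈ T, a⁻¹ * t * a ∈ T := by
  have hk : ∀ k : ℕ, ∀ t ∈ T, a ^ k * t * (a ^ k)⁻¹ ∈ T := by
    intro k
    induction k with
    | zero =>
      intro t ht
      simpa using ht
    | succ k ih =>
      intro t ht
      have := ih _ (ha t ht)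
      have e : a ^ (k + 1) * t * (a ^ (k + 1))⁻¹ = a ^ k * (a * t * a⁻¹) * (a ^ k)⁻¹ := by
        rw [pow_succ]
        group
      rw [e]
      exact this
  intro t ht
  have h0 : 0 < orderOf a := orderOf_pos a
  have e1 : a⁻¹ = a ^ (orderOf a - 1) := by
    rw [inv_eq_iff_mul_eq_one, ← pow_succ', Nat.sub_add_cancel h0, pow_orderOf_eq_one]
  have := hk (orderOf a - 1) t ht
  rw [← e1] at this
  simpa using this

lemma exists_pow_conj {A : Type*} [Group A] (T : Subgroup A) [hT : IsCyclic T] (a : A)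
    (ha : ∀ t ∈ T, a * t * a⁻¹ ∈ T) : ∃ i : ℤ, ∀ t ∈ T, a * t * a⁻¹ = t ^ i := by
  obtain ⟨τ, hτ⟩ := hT.exists_generator
  obtain ⟨i, hi⟩ := Subgroup.mem_zpowers_iff.mp (hτ ⟨a * τ * a⁻¹, ha _ τ.2⟩)
  have hi' : (τ : A) ^ i = a * τ * a⁻¹ := by
    have := congrArg Subtype.val hi
    simpa using this
  refine ⟨i, fun t ht => ?_⟩
  obtain ⟨j, hj⟩ := Subgroup.mem_zpowers_iff.mp (hτ ⟨t, ht⟩)
  have hj' : (τ : A) ^ j = t := by
    have := congrArg Subtype.val hj
    simpa using this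
  rw [← hj']
  have e : a * (τ : A) ^ j * a⁻¹ = (a * τ * a⁻¹) ^ j := by
    exact (conj_zpow).symm
  rw [e, ← hi', ← zpow_mul, ← zpow_mul, mul_comm]

/-- Commutators of elements normalising a cyclic group centralise it. -/
theorem comm_of_cyclic {A : Type*} [Group A] [Finite A] (T : Subgroup A) [IsCyclic T] (a b : A)
    (ha : ∀ t ∈ T, a * t * a⁻¹ ∈ T) (hb : ∀ t ∈ T, b * t * b⁻¹ ∈ T) :
    ∀ t ∈ T, (a * b * a⁻¹ * b⁻¹) * t = t * (a * b * a⁻¹ * b⁻¹) := by
  intro t ht
  obtain ⟨i, hi⟩ := exists_pow_conj T a ha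
  obtain ⟨j, hj⟩ := exists_pow_conj T b hb
  have ha' := conj_inv_mem T a ha
  have hb' := conj_inv_mem T b hb
  set t' := b * (a * (a⁻¹ * (b⁻¹ * t * b) * a) * a⁻¹) * b⁻¹ with ht'
  -- work with `s = a⁻¹ b⁻¹ t b a`, which lies in `T`
  set s := a⁻¹ * (b⁻¹ * t * b) * a with hs
  have hsT : s ∈ T := ha' _ (hb' t ht)
  have e1 : a * s * a⁻¹ = b⁻¹ * t * b := by
    rw [hs]
    group
  have e2 : t = b * (a * s * a⁻¹) * b⁻¹ := by
    rw [e1]
    group
  have e3 : b * (a * s * a⁻¹) * b⁻¹ = s ^ (i * j) := by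
    rw [hi s hsT, hj _ (T.zpow_mem hsT i), ← zpow_mul]
  have e4 : a * (b * s * b⁻¹) * a⁻¹ = s ^ (i * j) := by
    rw [hj s hsT, hi _ (T.zpow_mem hsT j), ← zpow_mul, mul_comm]
  have e5 : a * b * a⁻¹ * b⁻¹ * t * (a * b * a⁻¹ * b⁻¹)⁻¹ = t := by
    have e6 : a * b * a⁻¹ * b⁻¹ * t * (a * b * a⁻¹ * b⁻¹)⁻¹ = a * (b * s * b⁻¹) * a⁻¹ := by
      rw [hs]
      group
    rw [e6, e4, ← e3, ← e2]
  calc a * b * a⁻¹ * b⁻¹ * t
      = (a * b * a⁻¹ * b⁻¹ * t * (a * b * a⁻¹ * b⁻¹)⁻¹) * (a * b * a⁻¹ * b⁻¹) := by group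
    _ = t * (a * b * a⁻¹ * b⁻¹) := by rw [e5]

section orbit

variable {p : ℕ} [hp : Fact p.Prime]

/-- The image of a `p`-group on an orbit of size `p` has order dividing `p`. -/
lemma card_range_dvd (P : Subgroup (Perm α)) (hP : IsPGroup p P) (y₀ : α)
    (hO : Nat.card (orbit P y₀) = p) :
    Nat.card (toPermHom P (orbit P y₀)).range ∣ p := by
  set ρ := toPermHom P (orbit P y₀) with hρ
  have hI' : IsPGroup p ρ.range := by
    intro g
    obtain ⟨t, ht⟩ := g.2
    obtain ⟨k, hk⟩ := hP t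
    refine ⟨k, Subtype.ext ?_⟩
    have h0 : ρ (t ^ p ^ k) = 1 := by rw [hk, map_one]
    rw [map_pow, ht] at h0
    simpa using h0
  obtain ⟨k, hk⟩ := IsPGroup.iff_card.mp hI'
  have hdiv : Nat.card ρ.range ∣ p.factorial := by
    have h1 : Nat.card ρ.range ∣ Nat.card (Perm (orbit P y₀)) := Subgroup.card_subgroup_dvd_card _
    rwa [Nat.card_perm, hO] at h1
  have hk1 : k ≤ 1 := by
    by_contra h
    have h2 : 2 ≤ k := by omega
    have h3 : p ^ 2 ∣ p.factorial := by
      refine dvd_trans (pow_dvd_pow p h2) ?_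
      rw [← hk]
      exact hdiv
    obtain ⟨s, hs⟩ : ∃ s, p = s + 1 := ⟨p - 1, by have := hp.out.pos; omega⟩
    have h4 : p ∣ s.factorial := by
      have e : p.factorial = p * s.factorial := by
        conv_lhs => rw [hs, Nat.factorial_succ, ← hs]
      rw [e, pow_two] at h3
      exact Nat.dvd_of_mul_dvd_mul_left hp.out.pos h3
    have h5 := (hp.out.dvd_factorial).mp h4
    omega
  rw [hk]
  calc p ^ k ∣ p ^ 1 := pow_dvd_pow p hk1
    _ = p := pow_one p

/-- Elements of `P` have order dividing `p` on an orbit of size `p`. -/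
theorem orbit_pow_p (P : Subgroup (Perm α)) (hP : IsPGroup p P) (y₀ : α)
    (hO : Nat.card (orbit P y₀) = p) (v : Perm α) (hv : v ∈ P) :
    ∀ y ∈ orbit P y₀, (v ^ p) y = y := by
  intro y hy
  set ρ := toPermHom P (orbit P y₀) with hρ
  have h1 := card_range_dvd P hP y₀ hO
  have h2 : (⟨ρ ⟨v, hv⟩, ⟨_, rfl⟩⟩ : ρ.range) ^ p = 1 :=
    orderOf_dvd_iff_pow_eq_one.mp ((orderOf_dvd_natCard _).trans h1)
  have h3 : (ρ ⟨v, hv⟩) ^ p = 1 := by
    have := congrArg Subtype.val h2
    simpa using this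
  have h4 : ((ρ ⟨v ^ p, P.pow_mem hv p⟩) : Perm (orbit P y₀)) = 1 := by
    have e : (⟨v ^ p, P.pow_mem hv p⟩ : P) = (⟨v, hv⟩ : P) ^ p := rfl
    rw [e, map_pow, h3]
  have h5 := DFunLike.congr_fun h4 ⟨y, hy⟩
  have h6 := congrArg Subtype.val h5
  exact h6

/-- On an orbit of size `p`, every element of `P` acts as a power of any element moving a point. -/
theorem orbit_power (P : Subgroup (Perm α)) (hP : IsPGroup p P) (y₀ : α)
    (hO : Nat.card (orbit P y₀) = p) (u₀ : Perm α) (hu₀ : u₀ ∈ P) (y₁ : α)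
    (hy₁ : y₁ ∈ orbit P y₀) (hmv : u₀ y₁ ≠ y₁)
    (v : Perm α) (hv : v ∈ P) : ∃ s : ℕ, ∀ y ∈ orbit P y₀, v y = (u₀ ^ s) y := by
  set ρ := toPermHom P (orbit P y₀) with hρ
  have h1 := card_range_dvd P hP y₀ hO
  have hne : (⟨ρ ⟨u₀, hu₀⟩, ⟨_, rfl⟩⟩ : ρ.range) ≠ 1 := by
    intro h
    have h2 : ρ ⟨u₀, hu₀⟩ = 1 := congrArg Subtype.val h
    have h3 := DFunLike.congr_fun h2 ⟨y₁, hy₁⟩
    exact hmv (congrArg Subtype.val h3)
  have hcard : Nat.card ρ.range = p := by
    rcases (Nat.dvd_prime hp.out).mp h1 with e | e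
    · exfalso
      have : Subsingleton ρ.range := (Nat.card_eq_one_iff_unique.mp e).1
      exact hne (Subsingleton.elim _ _)
    · exact e
  have hmem := mem_zpowers_of_prime_card (g' := (⟨ρ ⟨v, hv⟩, ⟨_, rfl⟩⟩ : ρ.range)) hcard hne
  have hfin : IsOfFinOrder (⟨ρ ⟨u₀, hu₀⟩, ⟨_, rfl⟩⟩ : ρ.range) := isOfFinOrder_of_finite _
  have hmem2 := hfin.mem_powers_iff_mem_zpowers.mpr hmem
  obtain ⟨s, hs⟩ := hmem2
  refine ⟨s, fun y hy => ?_⟩
  have h2 : ρ ⟨v, hv⟩ = (ρ ⟨u₀, hu₀⟩) ^ s := by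
    have := congrArg Subtype.val hs
    simpa using this.symm
  have h3 : ρ ⟨v, hv⟩ = ρ ⟨u₀ ^ s, P.pow_mem hu₀ s⟩ := by
    rw [h2]
    have e : (⟨u₀ ^ s, P.pow_mem hu₀ s⟩ : P) = (⟨u₀, hu₀⟩ : P) ^ s := rfl
    rw [e, map_pow]
  have h5 := DFunLike.congr_fun h3 ⟨y, hy⟩
  have h6 := congrArg Subtype.val h5
  exact h6

end orbit

/-- `π` preserves the finite set `F`. -/
def Pres (F : Finset α) (π : Perm α) : Prop := ∀ d, π d ∈ F ↔ d ∈ F

/-- `n` agrees with `π` on `F`. -/
def Res (F : Finset α) (n π : Perm α) : Prop := ∀ d ∈ F, n d = π d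

lemma pres_mul (F : Finset α) {a b : Perm α} (ha : Pres F a) (hb : Pres F b) : Pres F (a * b) := by
  intro d
  rw [Perm.mul_apply, ha, hb]

lemma pres_inv (F : Finset α) (a : Perm α) (ha : Pres F a) : Pres F a⁻¹ := by
  intro d
  have := ha (a⁻¹ d)
  rw [aiv] at this
  exact this.symm

lemma pres_swap (F : Finset α) {a b : α} (ha : a ∈ F) (hb : b ∈ F) : Pres F (swap a b) := by
  intro d
  by_cases h1 : d = a
  · subst h1
    rw [swap_apply_left]
    exact ⟨fun _ => ha, fun _ => hb⟩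
  by_cases h2 : d = b
  · subst h2
    rw [swap_apply_right]
    exact ⟨fun _ => hb, fun _ => ha⟩
  rw [swap_apply_of_ne_of_ne h1 h2]

lemma pres_pow (F : Finset α) {a : Perm α} (ha : Pres F a) (k : ℕ) : Pres F (a ^ k) := by
  induction k with
  | zero =>
    intro d
    simp
  | succ k ih =>
    rw [pow_succ]
    exact pres_mul F ih ha

lemma pres_of_res (F : Finset α) (g π : Perm α) (h : Res F g π) (hπ : Pres F π) : Pres F g := by
  have h1 : ∀ d ∈ F, g d ∈ F := fun d hd => by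
    rw [h d hd]
    exact (hπ d).2 hd
  have h2 : F.image g = F :=
    Finset.eq_of_subset_of_card_le (by
      intro y hy
      obtain ⟨d, hd, rfl⟩ := Finset.mem_image.mp hy
      exact h1 d hd) (by rw [Finset.card_image_of_injective _ g.injective])
  intro d
  constructor
  · intro hd
    rw [← h2] at hd
    obtain ⟨e, he, he'⟩ := Finset.mem_image.mp hd
    rwa [← g.injective he']
  · exact h1 d

lemma res_mul (F : Finset α) {n n' π π' : Perm α} (h : Res F n π) (h' : Res F n' π')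
    (hp : Pres F π') : Res F (n * n') (π * π') := by
  intro d hd
  simp only [Perm.mul_apply]
  rw [h' d hd]
  exact h _ ((hp d).2 hd)

lemma res_inv (F : Finset α) {n π : Perm α} (h : Res F n π) (hp : Pres F π) : Res F n⁻¹ π⁻¹ := by
  intro d hd
  have h1 : π⁻¹ d ∈ F := (pres_inv F π hp d).2 hd
  have h2 := h _ h1
  rw [aiv] at h2
  rw [Perm.inv_eq_iff_eq, h2]

lemma res_pow (F : Finset α) {n π : Perm α} (h : Res F n π) (hp : Pres F π) (k : ℕ) :
    Res F (n ^ k) (π ^ k) := by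
  induction k with
  | zero =>
    intro d _
    simp
  | succ k ih =>
    rw [pow_succ, pow_succ]
    exact res_mul F ih h hp

/-- Jordan: a primitive group containing a cycle of prime length `p ≤ n - 3` contains `A_n`. -/
theorem alt_le_of_cycle (G : Subgroup (Perm α)) (hG : IsPreprimitive G α) {p : ℕ} (hp : p.Prime)
    (hp' : p + 3 ≤ Fintype.card α) {x : Perm α} (hxc : x.IsCycle) (hxp : x.support.card = p)
    (hx : x ∈ G) : alternatingGroup α ≤ G := by
  classical
  haveI : Fact p.Prime := ⟨hp⟩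
  set F : Finset α := x.supportᶜ with hF
  have hf : F.card + p = Fintype.card α := by
    rw [hF, Finset.card_compl, hxp]
    have : p ≤ Fintype.card α := by omega
    omega
  have hf3 : 3 ≤ F.card := by omega
  obtain ⟨m, hm⟩ : ∃ m, F.card = m + 1 := ⟨F.card - 1, by omega⟩
  have hMP : IsMultiplyPreprimitive G α (m + 2) := by
    apply hG.isMultiplyPreprimitive (s := (x.supportᶜ : Set α)) (n := m)
    · have := Set.ncard_coe_finset F
      rw [hF, Finset.coe_compl] at this
      rw [this, ← hF, hm]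
    · rw [Nat.card_eq_fintype_card]
      have := hp.two_le
      omega
    · have := isPretransitive_of_isCycle_mem hxc hx
      apply IsPreprimitive.of_prime_card
      convert! hp
      rw [Nat.card_eq_fintype_card, Fintype.card_subtype, ← hxp]
      apply congr_arg
      ext y
      simp [SubMulAction.mem_ofFixingSubgroup_iff]
  have hMT : IsMultiplyPretransitive G α (m + 2) :=
    IsMultiplyPreprimitive.isMultiplyPretransitive ..
  -- the subgroup `H`
  set H : Subgroup (Perm α) := G ⊓ fixG F with hH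
  have hxF : ∀ d ∈ F, x d = d := by
    intro d hd
    rw [hF, Finset.mem_compl, mem_support, not_not] at hd
    exact hd
  have hxH : x ∈ H := ⟨hx, hxF⟩
  have hxpow : x ^ p = 1 := by
    have := hxc.orderOf
    rw [hxp] at this
    rw [← this]
    exact pow_orderOf_eq_one x
  have hord : orderOf x = p := by
    rw [hxc.orderOf, hxp]
  -- a Sylow subgroup containing `x`
  have hX₀ : IsPGroup p (Subgroup.zpowers (⟨x, hxH⟩ : H)) := by
    apply IsPGroup.of_card (n := 1)
    rw [Nat.card_zpowers, pow_one, Subgroup.orderOf_mk, hord]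
  obtain ⟨P, hPX⟩ := hX₀.exists_le_sylow
  set P' : Subgroup (Perm α) := (P : Subgroup H).map H.subtype with hP'
  have hP'p : IsPGroup p P' := P.isPGroup'.map _
  have hxP' : x ∈ P' := ⟨⟨x, hxH⟩, hPX (Subgroup.mem_zpowers _), rfl⟩
  have hP'H : P' ≤ H := by
    rintro _ ⟨u, _, rfl⟩
    exact u.2
  have hP'F : ∀ v ∈ P', ∀ d ∈ F, v d = d := fun v hv d hd => (hP'H hv).2 d hd
  -- the orbit is the support
  have hne : x.support.Nonempty := by
    rw [← Finset.card_pos, hxp]
    exact hp.pos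
  obtain ⟨y₀, hy₀⟩ := hne
  have hy₀' : x y₀ ≠ y₀ := mem_support.mp hy₀
  have horb : ∀ y, y ∈ orbit P' y₀ ↔ y ∈ x.support := by
    intro y
    constructor
    · rintro ⟨v, rfl⟩
      have hvs : (v : Perm α) y₀ ∈ x.support := by
        by_contra hcon
        have h1 : (v : Perm α) y₀ ∈ F := by
          rw [hF, Finset.mem_compl]
          exact hcon
        have h2 : (v : Perm α)⁻¹ ((v : Perm α) y₀) = (v : Perm α) y₀ :=
          hP'F _ (P'.inv_mem v.2) _ h1
        rw [iav] at h2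
        rw [← h2] at hcon
        exact hcon hy₀
      exact hvs
    · intro hy
      obtain ⟨i, hi⟩ := hxc.exists_pow_eq hy₀' (mem_support.mp hy)
      exact ⟨⟨x ^ i, P'.pow_mem hxP' i⟩, hi⟩
  have hO : Nat.card (orbit P' y₀) = p := by
    have e : orbit P' y₀ = (x.support : Set α) := Set.ext horb
    rw [e, Nat.card_coe_set_eq, Set.ncard_coe_finset, hxp]
  -- `P'` is generated by `x`
  have hP'T : P' = Subgroup.zpowers x := by
    apply le_antisymm
    · intro v hv
      obtain ⟨s, hs⟩ := orbit_power P' hP'p y₀ hO x hxP' y₀ (mem_orbit_self _) hy₀' v hv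
      have : v = x ^ s := by
        ext t
        by_cases ht : t ∈ x.support
        · exact hs t ((horb t).2 ht)
        · have ht' : t ∈ F := by
            rw [hF, Finset.mem_compl]
            exact ht
          rw [hP'F v hv t ht', hP'F _ (P'.pow_mem hxP' s) t ht']
      rw [this]
      exact Subgroup.npow_mem_zpowers x s
    · exact Subgroup.zpowers_le.mpr hxP'
  -- lifting permutations of `F`
  have hlift : ∀ π : Perm α, Pres F π → ∃ n ∈ G, Res F n π ∧
      ∀ t ∈ Subgroup.zpowers x, n * t * n⁻¹ ∈ Subgroup.zpowers x := by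
    intro π hπ
    have hMc : m + 2 ≤ Fintype.card α := by
      have := hp.two_le
      omega
    obtain ⟨g, hgG, hgπ⟩ := exists_extend G hMT hMc F (by omega) π
      (fun a _ b _ h => π.injective h)
    have hgP : Pres F g := pres_of_res F g π hgπ hπ
    obtain ⟨h, hhH, hhw⟩ := witt H P g (by
      intro h
      constructor
      · intro hh
        refine ⟨G.mul_mem (G.mul_mem hgG hh.1) (G.inv_mem hgG), ?_⟩
        intro d hd
        have h1 : g⁻¹ d ∈ F := (pres_inv F g hgP d).2 hd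
        simp only [Perm.mul_apply]
        rw [hh.2 _ h1, aiv]
      · intro hh
        have hh1 : h ∈ G := by
          have := G.mul_mem (G.mul_mem (G.inv_mem hgG) hh.1) hgG
          have e : g⁻¹ * (g * h * g⁻¹) * g = h := by group
          rwa [e] at this
        refine ⟨hh1, ?_⟩
        intro d hd
        have h1 : g d ∈ F := (hgP d).2 hd
        have h2 := hh.2 _ h1
        simp only [Perm.mul_apply] at h2
        rw [iav] at h2
        exact g.injective h2)
    refine ⟨h * g, G.mul_mem hhH.1 hgG, ?_, ?_⟩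
    · intro d hd
      simp only [Perm.mul_apply]
      rw [hgπ d hd]
      exact hhH.2 _ ((hπ d).2 hd)
    · intro t ht
      rw [← hP'T] at ht ⊢
      exact hhw t ht
  -- three points of `F`
  obtain ⟨a, b, c, ha, hb, hc, hab, hac, hbc⟩ : ∃ a b c, a ∈ F ∧ b ∈ F ∧ c ∈ F ∧ a ≠ b ∧ a ≠ c ∧ b ≠ c := by
    have h2 : 2 < F.card := by omega
    obtain ⟨a, ha, b, hb, c, hc, hab, hac, hbc⟩ := Finset.two_lt_card.mp h2
    exact ⟨a, b, c, ha, hb, hc, hab, hac, hbc⟩
  have hπ₁ : Pres F (swap a b) := pres_swap F ha hb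
  have hπ₂ : Pres F (swap a c) := pres_swap F ha hc
  obtain ⟨n₁, hn₁G, hn₁, hn₁T⟩ := hlift _ hπ₁
  obtain ⟨n₂, hn₂G, hn₂, hn₂T⟩ := hlift _ hπ₂
  set c₀ := n₁ * n₂ * n₁⁻¹ * n₂⁻¹ with hc₀
  have hcomm : c₀ * x = x * c₀ :=
    comm_of_cyclic (Subgroup.zpowers x) n₁ n₂ hn₁T hn₂T x (Subgroup.mem_zpowers x)
  have hc₀G : c₀ ∈ G :=
    G.mul_mem (G.mul_mem (G.mul_mem hn₁G hn₂G) (G.inv_mem hn₁G)) (G.inv_mem hn₂G)
  set ρ := swap a b * swap a c * (swap a b)⁻¹ * (swap a c)⁻¹ with hρ
  have hρ3 : ρ.IsThreeCycle := by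
    have e : ρ = (swap a b * swap a c) * (swap a b * swap a c) := by
      rw [hρ, swap_inv, swap_inv]
      group
    rw [e]
    exact (isThreeCycle_swap_mul_swap_same hab hac hbc).isThreeCycle_sq
  have hc₀ρ : Res F c₀ ρ :=
    res_mul F (res_mul F (res_mul F hn₁ hn₂ hπ₂) (res_inv F hn₁ hπ₁) (pres_inv F _ hπ₁))
      (res_inv F hn₂ hπ₂) (pres_inv F _ hπ₂)
  -- `c₀` acts on the support of `x` as a power of `x`
  have hc₀s : c₀ y₀ ∈ x.support := by
    rw [mem_support]
    intro h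
    apply hy₀'
    apply c₀.injective
    have := congrArg (fun f : Perm α => f y₀) hcomm
    simp only [Perm.mul_apply] at this
    rw [this, h]
  obtain ⟨i, hi⟩ := hxc.exists_pow_eq hy₀' (mem_support.mp hc₀s)
  have hcx : ∀ j : ℕ, c₀ * x ^ j = x ^ j * c₀ := fun j =>
    (Commute.pow_right (show Commute c₀ x from hcomm) j).eq
  have hon : ∀ y ∈ x.support, c₀ y = (x ^ i) y := by
    intro y hy
    obtain ⟨j, hj⟩ := hxc.exists_pow_eq hy₀' (mem_support.mp hy)
    rw [← hj]
    have h1 := congrArg (fun f : Perm α => f y₀) (hcx j)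
    simp only [Perm.mul_apply] at h1
    rw [h1, ← hi]
    have h2 : x ^ j * x ^ i = x ^ i * x ^ j := by
      rw [← pow_add, ← pow_add, add_comm]
    exact congrArg (fun f : Perm α => f y₀) h2
  have hmem : ρ ∈ G := by
    have e : ρ = (x ^ i)⁻¹ * c₀ := by
      ext t
      by_cases ht : t ∈ x.support
      · have h1 : t ≠ a := by
          rintro rfl
          exact (Finset.mem_compl.mp ha) ht
        have h2 : t ≠ b := by
          rintro rfl
          exact (Finset.mem_compl.mp hb) ht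
        have h3 : t ≠ c := by
          rintro rfl
          exact (Finset.mem_compl.mp hc) ht
        simp only [Perm.mul_apply, hon t ht]
        rw [iav, hρ, swap_inv, swap_inv]
        simp only [Perm.mul_apply]
        rw [swap_apply_of_ne_of_ne h1 h3, swap_apply_of_ne_of_ne h1 h2,
          swap_apply_of_ne_of_ne h1 h3, swap_apply_of_ne_of_ne h1 h2]
      · have ht' : t ∈ F := by
          rw [hF, Finset.mem_compl]
          exact ht
        have h1 := hc₀ρ t ht'
        have hρF : ρ t ∈ F := ((pres_mul F (pres_mul F (pres_mul F hπ₁ hπ₂) (pres_inv F _ hπ₁))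
          (pres_inv F _ hπ₂)) t).2 ht'
        have h2 : (x ^ i)⁻¹ (ρ t) = ρ t :=
          hP'F _ (P'.inv_mem (P'.pow_mem hxP' i)) _ hρF
        simp only [Perm.mul_apply]
        rw [h1, h2]
    rw [e]
    exact G.mul_mem (G.inv_mem (G.pow_mem hx i)) hc₀G
  exact alternatingGroup_le_of_isPreprimitive_of_isThreeCycle_mem hG hρ3 hmem

end Cfsg.Agent.Lib.Struct.Mult
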