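import Mathlib
import Cfsg.Agent.Lib.PGroups.Wielandt
import Cfsg.Agent.Lib.Struct.Basic

/-!
# Twenty-two Sylow 3-subgroups: the geometry of lines
-/

set_option autoImplicit false

namespace Cfsg.Agent.Lib.Struct.N22

open Subgroup MulAction
open scoped Pointwise

universe u

variable {G : Type u} [Group G] [Finite G]

instance fact3 : Fact (Nat.Prime 3) := ⟨Nat.prime_three⟩

theorem card_eq (P Q : Sylow 3 G) : Nat.card (P : Subgroup G) = Nat.card (Q : Subgroup G) :=
  Nat.card_congr (Sylow.equiv P Q).toEquiv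

theorem eq_of_le {P Q : Sylow 3 G} (h : (P : Subgroup G) ≤ Q) : P = Q :=
  Sylow.ext (Subgroup.eq_of_le_of_card_ge h (card_eq Q P).le)

theorem card_smul_eq (g : G) (D : Subgroup G) : Nat.card ↥(MulAut.conj g • D) = Nat.card D :=
  Nat.card_congr (Subgroup.equivSMul (MulAut.conj g) D).symm.toEquiv

theorem smul_le_smul_iff (g : G) {D E : Subgroup G} : MulAut.conj g • D ≤ MulAut.conj g • E ↔ D ≤ E :=
  Subgroup.pointwise_smul_le_pointwise_smul_iff

theorem smul_fix_iff {A : Subgroup G} (hA : IsPGroup 3 A) {g : G} (hg : g ∈ A) (Q : Sylow 3 G) :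
    g • Q = Q ↔ g ∈ (Q : Subgroup G) := by
  rw [Sylow.smul_eq_iff_mem_normalizer]
  constructor
  · intro h
    have h1 : g ∈ A ⊓ normalizer (Q : Set G) := ⟨hg, h⟩
    rw [hA.inf_normalizer_sylow Q] at h1
    exact h1.2
  · intro h
    exact Subgroup.le_normalizer h

theorem smul_fix_iff' (P : Sylow 3 G) {g : G} (hg : g ∈ (P : Subgroup G)) (Q : Sylow 3 G) :
    g • Q = Q ↔ g ∈ (Q : Subgroup G) :=
  smul_fix_iff P.isPGroup' hg Q

/-- Adjacent Sylow subgroups: distinct, with intersection of index three. -/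
def Adj (P Q : Sylow 3 G) : Prop :=
  P ≠ Q ∧ 3 * Nat.card ↥((P : Subgroup G) ⊓ Q) = Nat.card (P : Subgroup G)

theorem Adj.symm {P Q : Sylow 3 G} (h : Adj P Q) : Adj Q P := by
  refine ⟨h.1.symm, ?_⟩
  rw [inf_comm, h.2]
  exact card_eq P Q

/-- The subgroups defining lines. -/
def IsLn (D : Subgroup G) : Prop :=
  ∃ P Q : Sylow 3 G, P ≠ Q ∧ D ≤ P ∧ D ≤ Q ∧ 3 * Nat.card D = Nat.card (P : Subgroup G)

theorem IsLn.card {D : Subgroup G} (h : IsLn D) (R : Sylow 3 G) :
    3 * Nat.card D = Nat.card (R : Subgroup G) := by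
  obtain ⟨P, Q, -, -, -, h1⟩ := h
  rw [h1]
  exact card_eq P R

theorem index3_eq {D I R : Subgroup G} (hc : 3 * Nat.card D = Nat.card R) (h1 : D ≤ I) (h2 : I ≤ R)
    (h3 : I ≠ R) : I = D := by
  have ha : Nat.card D ∣ Nat.card I := Subgroup.card_dvd_of_le h1
  have hb : Nat.card I ∣ Nat.card R := Subgroup.card_dvd_of_le h2
  obtain ⟨k, hk⟩ := ha
  have hpos : 0 < Nat.card D := Nat.card_pos
  have hk3 : k ∣ 3 := by
    rw [← hc, hk, mul_comm 3] at hb
    exact (Nat.mul_dvd_mul_iff_left hpos).mp hb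
  rcases (Nat.dvd_prime Nat.prime_three).mp hk3 with rfl | rfl
  · symm
    apply Subgroup.eq_of_le_of_card_ge h1
    rw [hk, mul_one]
  · exfalso
    apply h3
    apply Subgroup.eq_of_le_of_card_ge h2
    rw [hk, ← hc, mul_comm]

theorem IsLn.inf_eq {D : Subgroup G} (h : IsLn D) {R S : Sylow 3 G} (hR : D ≤ R) (hS : D ≤ S) (hne : R ≠ S) :
    (R : Subgroup G) ⊓ S = D := by
  apply index3_eq (h.card R) (le_inf hR hS) inf_le_left
  intro he
  exact hne (eq_of_le (he ▸ inf_le_right))

theorem IsLn.adj {D : Subgroup G} (h : IsLn D) {R S : Sylow 3 G} (hR : D ≤ R) (hS : D ≤ S) (hne : R ≠ S) :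
    Adj R S := by
  refine ⟨hne, ?_⟩
  rw [h.inf_eq hR hS hne]
  exact h.card R

theorem Adj.isLn {P Q : Sylow 3 G} (h : Adj P Q) : IsLn ((P : Subgroup G) ⊓ Q) :=
  ⟨P, Q, h.1, inf_le_left, inf_le_right, h.2⟩

/-- Conjugation and `IsLn`. -/
theorem coe_smul_sylow (g : G) (R : Sylow 3 G) : ((g • R : Sylow 3 G) : Subgroup G) = MulAut.conj g • (R : Subgroup G) :=
  Sylow.coe_subgroup_smul

theorem IsLn.conj {D : Subgroup G} (h : IsLn D) (g : G) : IsLn (MulAut.conj g • D) := by
  obtain ⟨P, Q, hne, hP, hQ, hc⟩ := h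
  refine ⟨g • P, g • Q, ?_, ?_, ?_, ?_⟩
  · intro he
    exact hne (smul_left_cancel g he)
  · rw [coe_smul_sylow]
    exact (smul_le_smul_iff g).mpr hP
  · rw [coe_smul_sylow]
    exact (smul_le_smul_iff g).mpr hQ
  · rw [card_smul_eq, hc, coe_smul_sylow, card_smul_eq]

theorem inf_smul (g : G) (A B : Subgroup G) :
    (MulAut.conj g • A) ⊓ (MulAut.conj g • B) = MulAut.conj g • (A ⊓ B) := by
  rw [Subgroup.smul_inf]

theorem Adj.conj {P Q : Sylow 3 G} (h : Adj P Q) (g : G) : Adj (g • P) (g • Q) := by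
  refine ⟨fun he => h.1 (smul_left_cancel g he), ?_⟩
  rw [coe_smul_sylow, coe_smul_sylow, inf_smul, card_smul_eq, card_smul_eq]
  exact h.2

theorem adj_conj_iff {P Q : Sylow 3 G} (g : G) : Adj (g • P) (g • Q) ↔ Adj P Q := by
  refine ⟨fun h => ?_, fun h => h.conj g⟩
  have := h.conj g⁻¹
  simpa using this

/-- Elements of a Sylow subgroup normalize index three subgroups. -/
theorem IsLn.conj_eq {D : Subgroup G} (h : IsLn D) {R : Sylow 3 G} (hR : D ≤ R) {g : G} (hg : g ∈ (R : Subgroup G)) :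
    MulAut.conj g • D = D := by
  have hc := h.card R
  have h2 : Nat.card ↥(D.subgroupOf R) = Nat.card D :=
    Nat.card_congr (Subgroup.subgroupOfEquivOfLe hR).toEquiv
  have hidx : (D.subgroupOf R).index = 3 := by
    have h1 := Subgroup.card_mul_index (D.subgroupOf R)
    rw [h2, ← hc, mul_comm 3] at h1
    exact Nat.eq_of_mul_eq_mul_left Nat.card_pos h1
  obtain ⟨k, hk⟩ := R.isPGroup'.exists_card_eq
  have hk0 : k ≠ 0 := by
    rintro rfl
    rw [pow_zero] at hk
    have : 0 < Nat.card D := Nat.card_pos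
    omega
  have hmin : (Nat.card (R : Subgroup G)).minFac = 3 := by
    rw [hk]
    exact Nat.Prime.pow_minFac Nat.prime_three hk0
  have hn : (D.subgroupOf R).Normal :=
    Subgroup.normal_of_index_eq_minFac_card (by rw [hidx, hmin])
  have hle : MulAut.conj g • D ≤ D := by
    intro x hx
    rw [Struct.mem_conj_smul] at hx
    have h3 := hn.conj_mem ⟨g⁻¹ * x * g, hR hx⟩ (by simpa [Subgroup.mem_subgroupOf] using hx) ⟨g, hg⟩
    rw [Subgroup.mem_subgroupOf] at h3
    have h4 : ((⟨g, hg⟩ : (R : Subgroup G)) * ⟨g⁻¹ * x * g, hR hx⟩ * (⟨g, hg⟩ : (R : Subgroup G))⁻¹ : (R : Subgroup G)).1 = x := by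
      show g * (g⁻¹ * x * g) * g⁻¹ = x
      group
    rwa [h4] at h3
  exact Subgroup.eq_of_le_of_card_ge hle (card_smul_eq g D).ge

/-- Orbit size times intersection is the order. -/
theorem orbit_card_mul (P Q : Sylow 3 G) :
    Nat.card (orbit (P : Subgroup G) Q) * Nat.card ↥((P : Subgroup G) ⊓ Q) = Nat.card (P : Subgroup G) := by
  have h1 := Subgroup.index_mul_card (stabilizer (P : Subgroup G) Q)
  rw [index_stabilizer, ← Nat.card_coe_set_eq] at h1
  have h2 : Nat.card (stabilizer (P : Subgroup G) Q) = Nat.card ↥((P : Subgroup G) ⊓ Q) := by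
    have hs : stabilizer (P : Subgroup G) Q = (Q : Subgroup G).subgroupOf P := by
      ext a
      rw [mem_stabilizer_iff, Subgroup.mem_subgroupOf]
      exact smul_fix_iff' P a.2 Q
    rw [hs, inf_comm, ← Subgroup.inf_subgroupOf_right]
    exact Nat.card_congr (Subgroup.subgroupOfEquivOfLe inf_le_right).toEquiv
  rw [h2] at h1
  exact h1

/-- Every `P`-orbit of points in a line other than `P` has size three. -/
theorem three_dvd_line {D : Subgroup G} (hD : IsLn D) {P : Sylow 3 G} (hP : D ≤ (P : Subgroup G)) :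
    3 ∣ Nat.card {R : Sylow 3 G // D ≤ (R : Subgroup G) ∧ R ≠ P} := by
  apply Cfsg.Agent.Lib.PGroups.dvd_card_subtype_of_orbit (A := (P : Subgroup G))
  · rintro ⟨a, ha⟩ R ⟨h1, h2⟩
    have hfix : a • P = P := (smul_fix_iff' P ha P).mpr ha
    constructor
    · show D ≤ ((a • R : Sylow 3 G) : Subgroup G)
      rw [coe_smul_sylow, ← hD.conj_eq hP ha]
      exact (smul_le_smul_iff a).mpr h1
    · intro he
      apply h2
      have he' : a • R = P := he
      rw [← hfix] at he'
      exact smul_left_cancel a he'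
  · rintro R ⟨h1, h2⟩
    have h3 := orbit_card_mul P R
    rw [hD.inf_eq hP h1 h2.symm, ← hD.card P, mul_comm 3] at h3
    have h4 := Nat.eq_of_mul_eq_mul_right Nat.card_pos (h3.trans (mul_comm _ _))
    rw [h4]

section Count

open scoped Classical

variable [Fintype (Sylow 3 G)] [Fintype (Subgroup G)]

/-- Neighbours. -/
noncomputable def nbr (P : Sylow 3 G) : Finset (Sylow 3 G) := Finset.univ.filter (Adj P)

/-- Points of a line. -/
noncomputable def ln (D : Subgroup G) : Finset (Sylow 3 G) := Finset.univ.filter (fun R => D ≤ (R : Subgroup G))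

/-- Lines through a point. -/
noncomputable def lines (P : Sylow 3 G) : Finset (Subgroup G) :=
  Finset.univ.filter (fun D => IsLn D ∧ D ≤ (P : Subgroup G))

theorem mem_nbr {P Q : Sylow 3 G} : Q ∈ nbr P ↔ Adj P Q := by simp [nbr]

theorem mem_ln {D : Subgroup G} {R : Sylow 3 G} : R ∈ ln D ↔ D ≤ (R : Subgroup G) := by simp [ln]

theorem mem_lines {P : Sylow 3 G} {D : Subgroup G} : D ∈ lines P ↔ IsLn D ∧ D ≤ (P : Subgroup G) := by
  simp [lines]

theorem nbr_card (P : Sylow 3 G) : (nbr P).card = ∑ D ∈ lines P, ((ln D).card - 1) := by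
  have h1 : nbr P = (lines P).biUnion (fun D => (ln D).erase P) := by
    ext Q
    rw [mem_nbr, Finset.mem_biUnion]
    constructor
    · intro h
      refine ⟨_, mem_lines.mpr ⟨h.isLn, inf_le_left⟩, ?_⟩
      rw [Finset.mem_erase, mem_ln]
      exact ⟨h.1.symm, inf_le_right⟩
    · rintro ⟨D, hD, hQ⟩
      rw [Finset.mem_erase, mem_ln] at hQ
      rw [mem_lines] at hD
      exact hD.1.adj hD.2 hQ.2 hQ.1.symm
  rw [h1, Finset.card_biUnion]
  · apply Finset.sum_congr rfl
    intro D hD
    rw [mem_lines] at hD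
    rw [Finset.card_erase_of_mem (mem_ln.mpr hD.2)]
  · intro D hD E hE hne
    show Disjoint _ _
    rw [Finset.disjoint_left]
    intro Q hQ hQ'
    rw [Finset.mem_erase, mem_ln] at hQ hQ'
    rw [Finset.mem_coe, mem_lines] at hD hE
    apply hne
    rw [← hD.1.inf_eq hD.2 hQ.2 hQ.1.symm, hE.1.inf_eq hE.2 hQ'.2 hQ'.1.symm]

theorem card_filter_natCard {α : Type*} [Fintype α] (p : α → Prop) [DecidablePred p] :
    (Finset.univ.filter p).card = Nat.card {x // p x} := by
  rw [Nat.card_eq_fintype_card, Fintype.card_subtype]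

theorem ln_mod {D : Subgroup G} (hD : IsLn D) {P : Sylow 3 G} (hP : D ≤ (P : Subgroup G)) :
    ∃ j, (ln D).card = 3 * j + 1 := by
  have h1 := three_dvd_line hD hP
  have h2 : ((ln D).erase P) = Finset.univ.filter (fun R : Sylow 3 G => D ≤ (R : Subgroup G) ∧ R ≠ P) := by
    ext R
    simp [Finset.mem_erase, mem_ln, and_comm]
  have h4 : ((ln D).erase P).card = Nat.card {R : Sylow 3 G // D ≤ (R : Subgroup G) ∧ R ≠ P} := by
    rw [h2]
    exact card_filter_natCard _
  rw [← h4, Finset.card_erase_of_mem (mem_ln.mpr hP)] at h1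
  obtain ⟨j, hj⟩ := h1
  have h3 : 0 < (ln D).card := Finset.card_pos.mpr ⟨P, mem_ln.mpr hP⟩
  exact ⟨j, by omega⟩

theorem nonadj_dvd (P : Sylow 3 G) :
    9 ∣ (Finset.univ.filter (fun R : Sylow 3 G => R ≠ P ∧ ¬ Adj P R)).card := by
  rw [card_filter_natCard]
  apply Cfsg.Agent.Lib.PGroups.dvd_card_subtype_of_orbit (A := (P : Subgroup G))
  · rintro ⟨a, ha⟩ R ⟨h1, h2⟩
    have hfix : a • P = P := (smul_fix_iff' P ha P).mpr ha
    constructor
    · intro he
      apply h1
      have he' : a • R = P := he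
      rw [← hfix] at he'
      exact smul_left_cancel a he'
    · intro h3
      apply h2
      have h4 : Adj (a • P) (a • R) := by rw [hfix]; exact h3
      exact (adj_conj_iff a).mp h4
  · rintro R ⟨h1, h2⟩
    have h3 := orbit_card_mul P R
    obtain ⟨k, hk⟩ := IsPGroup.card_orbit P.isPGroup' R
    rw [hk] at h3 ⊢
    have hk2 : 2 ≤ k := by
      by_contra hlt
      have : k = 0 ∨ k = 1 := by omega
      rcases this with rfl | rfl
      · apply h1
        rw [pow_zero, one_mul] at h3
        have h4 : (P : Subgroup G) ⊓ R = P := Subgroup.eq_of_le_of_card_ge inf_le_left h3.ge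
        exact (eq_of_le (inf_eq_left.mp h4)).symm
      · apply h2
        exact ⟨h1.symm, by rwa [pow_one] at h3⟩
    exact (by norm_num : (9:ℕ) = 3 ^ 2) ▸ pow_dvd_pow 3 hk2

theorem nbr_add_nonadj (P : Sylow 3 G) (h22 : Nat.card (Sylow 3 G) = 22) :
    (nbr P).card + (Finset.univ.filter (fun R : Sylow 3 G => R ≠ P ∧ ¬ Adj P R)).card = 21 := by
  have h1 : Disjoint (nbr P) (Finset.univ.filter (fun R : Sylow 3 G => R ≠ P ∧ ¬ Adj P R)) := by
    rw [Finset.disjoint_left]
    intro R hR hR'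
    rw [Finset.mem_filter] at hR'
    exact hR'.2.2 (mem_nbr.mp hR)
  rw [← Finset.card_union_of_disjoint h1]
  have h2 : nbr P ∪ Finset.univ.filter (fun R : Sylow 3 G => R ≠ P ∧ ¬ Adj P R) = Finset.univ.erase P := by
    ext R
    rw [Finset.mem_union, mem_nbr, Finset.mem_filter, Finset.mem_erase]
    constructor
    · rintro (h | h)
      · exact ⟨h.1.symm, Finset.mem_univ _⟩
      · exact ⟨h.2.1, Finset.mem_univ _⟩
    · rintro ⟨h, -⟩
      by_cases h3 : Adj P R
      · exact Or.inl h3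
      · exact Or.inr ⟨Finset.mem_univ _, h, h3⟩
  rw [h2, Finset.card_erase_of_mem (Finset.mem_univ _), Finset.card_univ, ← Nat.card_eq_fintype_card, h22]

theorem conj_inv_smul_smul' (g : G) (D : Subgroup G) : MulAut.conj g⁻¹ • MulAut.conj g • D = D := by
  rw [smul_smul, ← map_mul, inv_mul_cancel, map_one, one_smul]

theorem conj_smul_inv_smul' (g : G) (D : Subgroup G) : MulAut.conj g • MulAut.conj g⁻¹ • D = D := by
  rw [smul_smul, ← map_mul, mul_inv_cancel, map_one, one_smul]

theorem ln_conj_card (g : G) (D : Subgroup G) : (ln (MulAut.conj g • D)).card = (ln D).card := by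
  symm
  refine Finset.card_bij' (fun R _ => g • R) (fun R _ => g⁻¹ • R) ?_ ?_ ?_ ?_
  · intro R hR
    rw [mem_ln] at hR ⊢
    rw [coe_smul_sylow]
    exact (smul_le_smul_iff g).mpr hR
  · intro R hR
    rw [mem_ln] at hR ⊢
    rw [coe_smul_sylow, ← conj_inv_smul_smul' g D]
    exact (smul_le_smul_iff g⁻¹).mpr hR
  · intro R _
    exact inv_smul_smul g R
  · intro R _
    exact smul_inv_smul g R

/-- The number of lines of a given size through a point. -/
noncomputable def cnt (l : ℕ) (P : Sylow 3 G) : ℕ := ((lines P).filter (fun D => (ln D).card = l)).card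

theorem cnt_conj (l : ℕ) (g : G) (P : Sylow 3 G) : cnt l (g • P) = cnt l P := by
  unfold cnt
  symm
  refine Finset.card_bij' (fun D _ => MulAut.conj g • D) (fun D _ => MulAut.conj g⁻¹ • D) ?_ ?_ ?_ ?_
  · intro D hD
    rw [Finset.mem_filter, mem_lines] at hD ⊢
    refine ⟨⟨hD.1.1.conj g, ?_⟩, by rw [ln_conj_card]; exact hD.2⟩
    rw [coe_smul_sylow]
    exact (smul_le_smul_iff g).mpr hD.1.2
  · intro D hD
    rw [Finset.mem_filter, mem_lines] at hD ⊢
    refine ⟨⟨hD.1.1.conj g⁻¹, ?_⟩, by rw [ln_conj_card]; exact hD.2⟩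
    rw [coe_smul_sylow] at hD
    rw [← conj_inv_smul_smul' g (P : Subgroup G)]
    exact (smul_le_smul_iff g⁻¹).mpr hD.1.2
  · intro D _
    exact conj_inv_smul_smul' g D
  · intro D _
    exact conj_smul_inv_smul' g D

theorem cnt_const (l : ℕ) (P Q : Sylow 3 G) : cnt l P = cnt l Q := by
  obtain ⟨g, rfl⟩ := MulAction.exists_smul_eq G Q P
  exact cnt_conj l g Q

theorem double_count (l : ℕ) (P : Sylow 3 G) (h22 : Nat.card (Sylow 3 G) = 22) :
    l ∣ 22 * cnt l P := by
  let T : Finset (Subgroup G) := Finset.univ.filter (fun D => IsLn D ∧ (ln D).card = l)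
  let r : Sylow 3 G → Subgroup G → Prop := fun R D => D ≤ (R : Subgroup G)
  have h1 := Finset.sum_card_bipartiteAbove_eq_sum_card_bipartiteBelow (s := (Finset.univ : Finset (Sylow 3 G))) (t := T) r
  have h2 : ∀ R ∈ (Finset.univ : Finset (Sylow 3 G)), (T.bipartiteAbove r R).card = cnt l P := by
    intro R _
    rw [cnt_const l P R]
    unfold cnt
    congr 1
    ext D
    rw [Finset.mem_bipartiteAbove, Finset.mem_filter, Finset.mem_filter, mem_lines]
    simp only [Finset.mem_univ, true_and, r]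
    tauto
  have h3 : ∀ D ∈ T, ((Finset.univ : Finset (Sylow 3 G)).bipartiteBelow r D).card = l := by
    intro D hD
    rw [Finset.mem_filter] at hD
    rw [← hD.2.2]
    congr 1
  rw [Finset.sum_congr rfl h2, Finset.sum_congr rfl h3, Finset.sum_const, Finset.sum_const, Finset.card_univ,
    ← Nat.card_eq_fintype_card, h22, smul_eq_mul, smul_eq_mul] at h1
  rw [h1]
  exact Dvd.intro_left _ rfl

/-- Lines have size four or twenty-two. -/
theorem line_size {P : Sylow 3 G} {D : Subgroup G} (hD : D ∈ lines P) (h22 : Nat.card (Sylow 3 G) = 22) :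
    (ln D).card = 4 ∨ (ln D).card = 22 := by
  obtain ⟨hL, hDP⟩ := mem_lines.mp hD
  obtain ⟨j, hj⟩ := ln_mod hL hDP
  have hle : (ln D).card ≤ 22 := by
    have := Finset.card_le_univ (ln D)
    rwa [← Nat.card_eq_fintype_card, h22] at this
  obtain ⟨A, B, hne, hA, hB, -⟩ := hL
  have hge : 2 ≤ (ln D).card := by
    have h1 : ({A, B} : Finset (Sylow 3 G)) ⊆ ln D := by
      intro x hx
      simp only [Finset.mem_insert, Finset.mem_singleton] at hx
      rcases hx with rfl | rfl
      · exact mem_ln.mpr hA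
      · exact mem_ln.mpr hB
    have h2 := Finset.card_le_card h1
    rwa [Finset.card_pair hne] at h2
  -- the count
  obtain ⟨l, hl⟩ : ∃ l, l = (ln D).card := ⟨_, rfl⟩
  have hc1 : 1 ≤ cnt l P := by
    apply Finset.card_pos.mpr
    exact ⟨D, Finset.mem_filter.mpr ⟨hD, hl.symm⟩⟩
  have hc2 : (l - 1) * cnt l P ≤ 21 := by
    have h1 := nbr_add_nonadj P h22
    have h2 : ∑ E ∈ (lines P).filter (fun E => (ln E).card = l), ((ln E).card - 1) ≤ ∑ E ∈ lines P, ((ln E).card - 1) :=
      Finset.sum_le_sum_of_subset (Finset.filter_subset _ _)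
    have h3 : ∑ E ∈ (lines P).filter (fun E => (ln E).card = l), ((ln E).card - 1) = (l - 1) * cnt l P := by
      rw [Finset.sum_congr rfl (g := fun _ => l - 1), Finset.sum_const, smul_eq_mul, mul_comm]
      · rfl
      · intro E hE
        rw [(Finset.mem_filter.mp hE).2]
    rw [← nbr_card] at h2
    omega
  have hdvd := double_count l P h22
  rw [← hl] at hj hle hge
  have hj1 : 1 ≤ j := by omega
  have hj7 : j ≤ 7 := by omega
  obtain ⟨c, hc⟩ : ∃ c, c = cnt l P := ⟨_, rfl⟩
  rw [← hc] at hc1 hc2 hdvd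
  rw [← hl]
  subst hj
  interval_cases j
  · left; rfl
  · exfalso
    have : c ≤ 3 := by omega
    interval_cases c <;> omega
  · exfalso
    have : c ≤ 2 := by omega
    interval_cases c <;> omega
  · exfalso
    have : c ≤ 1 := by omega
    interval_cases c <;> omega
  · exfalso
    have : c ≤ 1 := by omega
    interval_cases c <;> omega
  · exfalso
    have : c ≤ 1 := by omega
    interval_cases c <;> omega
  · right; rfl

/-- If no line is everything: four lines of size four through each point. -/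
theorem four_lines {P : Sylow 3 G} (h22 : Nat.card (Sylow 3 G) = 22) (hno : ∀ D ∈ lines P, (ln D).card ≠ 22) :
    (∀ D ∈ lines P, (ln D).card = 4) ∧ (lines P).card = 4 ∧ (nbr P).card = 12 := by
  have h4 : ∀ D ∈ lines P, (ln D).card = 4 := by
    intro D hD
    rcases line_size hD h22 with h | h
    · exact h
    · exact absurd h (hno D hD)
  have h1 : (nbr P).card = 3 * (lines P).card := by
    rw [nbr_card, Finset.sum_congr rfl (g := fun _ => 3), Finset.sum_const, smul_eq_mul, mul_comm]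
    intro D hD
    rw [h4 D hD]
  have h2 : cnt 4 P = (lines P).card := by
    unfold cnt
    rw [Finset.filter_true_of_mem h4]
  have h3 := double_count 4 P h22
  rw [h2] at h3
  have h5 := nbr_add_nonadj P h22
  obtain ⟨b, hb⟩ := nonadj_dvd P
  rw [hb, h1] at h5
  have h6 : 2 ∣ (lines P).card := by
    obtain ⟨k, hk⟩ := h3
    omega
  obtain ⟨c, hc⟩ := h6
  have hc4 : c = 2 := by omega
  refine ⟨h4, by omega, by omega⟩

/-- The configuration with four lines of size four through each point. -/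
def H4 (G : Type u) [Group G] [Finite G] [Fintype (Sylow 3 G)] [Fintype (Subgroup G)] : Prop :=
  ∀ P : Sylow 3 G, (∀ D ∈ lines P, (ln D).card = 4) ∧ (lines P).card = 4 ∧ (nbr P).card = 12

theorem moved_unique (H : H4 G) {g : G} {z y y' : Sylow 3 G} (hz : g • z ≠ z) (hy : Adj z y) (hy' : Adj z y')
    (hgy : g ∈ (y : Subgroup G)) (hgy' : g ∈ (y' : Subgroup G)) : y' = y := by
  have fy : g • y = y := (smul_fix_iff' y hgy y).mpr hgy
  have fy' : g • y' = y' := (smul_fix_iff' y' hgy' y').mpr hgy'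
  have key : ∀ {u : Sylow 3 G}, Adj z u → g ∈ (u : Subgroup G) → ∀ {R : Sylow 3 G},
      ((z : Subgroup G) ⊓ u ≤ R) → ((z : Subgroup G) ⊓ u ≤ ((g • R : Sylow 3 G) : Subgroup G)) := by
    intro u hu hgu R hR
    rw [coe_smul_sylow, ← hu.isLn.conj_eq inf_le_right hgu]
    exact (smul_le_smul_iff g).mpr hR
  -- the points
  have hg1 : g • z ≠ y := by
    intro he
    apply hy.1
    rw [← fy] at he
    exact smul_left_cancel g he
  have hg2 : g • g • z ≠ y := by
    intro he
    apply hg1
    rw [← fy] at he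
    exact smul_left_cancel g he
  have hg3 : g • g • z ≠ g • z := fun he => hz (smul_left_cancel g he)
  have hg4 : g • g • z ≠ z := by
    intro he
    apply hz
    have h1 : g ∈ zpowers (g ^ 2) := by
      apply Struct.mem_zpowers_pow_of_coprime
      obtain ⟨k, hk⟩ := IsPGroup.iff_orderOf.mp y.isPGroup' ⟨g, hgy⟩
      rw [Subgroup.orderOf_mk] at hk
      rw [hk]
      exact Nat.Coprime.pow_left k (by norm_num)
    have h2 : g ^ 2 ∈ stabilizer G z := by
      rw [mem_stabilizer_iff, pow_two, mul_smul]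
      exact he
    have h3 : zpowers (g ^ 2) ≤ stabilizer G z := by
      rw [Subgroup.zpowers_le]
      exact h2
    exact h3 h1
  obtain ⟨hl4, -, -⟩ := H z
  have hD : (z : Subgroup G) ⊓ y ∈ lines z := mem_lines.mpr ⟨hy.isLn, inf_le_left⟩
  have hD' : (z : Subgroup G) ⊓ y' ∈ lines z := mem_lines.mpr ⟨hy'.isLn, inf_le_left⟩
  have hz1 : (z : Subgroup G) ⊓ y ≤ z := inf_le_left
  have hz1' : (z : Subgroup G) ⊓ y' ≤ z := inf_le_left
  have hgz := key hy hgy hz1
  have hgz' := key hy' hgy' hz1'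
  have hggz := key hy hgy hgz
  have hset : ln ((z : Subgroup G) ⊓ y) = {y, z, g • z, g • g • z} := by
    symm
    apply Finset.eq_of_subset_of_card_le
    · intro x hx
      simp only [Finset.mem_insert, Finset.mem_singleton] at hx
      rcases hx with rfl | rfl | rfl | rfl
      · exact mem_ln.mpr inf_le_right
      · exact mem_ln.mpr inf_le_left
      · exact mem_ln.mpr hgz
      · exact mem_ln.mpr hggz
    · rw [hl4 _ hD, Finset.card_insert_of_notMem, Finset.card_insert_of_notMem, Finset.card_insert_of_notMem,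
        Finset.card_singleton]
      · simpa using hg3.symm
      · simp only [Finset.mem_insert, Finset.mem_singleton, not_or]
        exact ⟨hz.symm, hg4.symm⟩
      · simp only [Finset.mem_insert, Finset.mem_singleton, not_or]
        exact ⟨hy.1.symm, hg1.symm, hg2.symm⟩
  have heq : (z : Subgroup G) ⊓ y = (z : Subgroup G) ⊓ y' := by
    rw [← hy.isLn.inf_eq hz1 hgz hz.symm, hy'.isLn.inf_eq hz1' hgz' hz.symm]
  have hmem : y' ∈ ln ((z : Subgroup G) ⊓ y) := mem_ln.mpr (heq ▸ inf_le_right)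
  rw [hset] at hmem
  simp only [Finset.mem_insert, Finset.mem_singleton] at hmem
  rcases hmem with h | h | h | h
  · exact h
  · exact absurd h.symm hy'.1
  · exfalso
    rw [h] at fy'
    exact hg3 fy'
  · exfalso
    rw [h] at fy'
    exact hg3 (smul_left_cancel g fy')

theorem no_cross (H : H4 G) {α z w : Sylow 3 G} (hz : Adj α z) (hw : Adj α w)
    (hne : (α : Subgroup G) ⊓ z ≠ (α : Subgroup G) ⊓ w) : ¬ Adj z w := by
  intro hzw
  have hnle : ¬ (α : Subgroup G) ⊓ w ≤ (α : Subgroup G) ⊓ z := by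
    intro hle
    apply hne
    refine (Subgroup.eq_of_le_of_card_ge hle ?_).symm
    have h1 := hz.2
    have h2 := hw.2
    omega
  obtain ⟨g, hg, hg'⟩ := SetLike.not_le_iff_exists.mp hnle
  have hgα : g ∈ (α : Subgroup G) := hg.1
  have hgw : g ∈ (w : Subgroup G) := hg.2
  have hgz : g • z ≠ z := by
    intro he
    exact hg' ⟨hgα, (smul_fix_iff' α hgα z).mp he⟩
  have := moved_unique H hgz hz.symm hzw hgα hgw
  exact hw.1 this.symm

theorem no_four (H : H4 G) (h22 : Nat.card (Sylow 3 G) = 22) : False := by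
  obtain ⟨α⟩ : Nonempty (Sylow 3 G) := inferInstance
  obtain ⟨S, hS⟩ : ∃ S, S = Finset.univ.filter (fun R : Sylow 3 G => R ≠ α ∧ ¬ Adj α R) := ⟨_, rfl⟩
  have hSmem : ∀ R, R ∈ S ↔ R ≠ α ∧ ¬ Adj α R := by
    intro R
    rw [hS, Finset.mem_filter]
    simp
  have hScard : S.card = 9 := by
    have h1 := nbr_add_nonadj α h22
    rw [← hS, (H α).2.2] at h1
    omega
  -- points adjacent to `z`
  have hcover : ∀ z ∈ nbr α, ∀ w, Adj z w → w ∈ ((ln ((α : Subgroup G) ⊓ z)).erase z) ∪ S := by
    intro z hz w hw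
    rw [mem_nbr] at hz
    rw [Finset.mem_union, Finset.mem_erase, mem_ln]
    by_cases h1 : w = α
    · subst h1
      exact Or.inl ⟨hz.1, inf_le_left⟩
    · by_cases h2 : Adj α w
      · left
        refine ⟨hw.1.symm, ?_⟩
        by_cases h3 : (α : Subgroup G) ⊓ z = (α : Subgroup G) ⊓ w
        · rw [h3]
          exact inf_le_right
        · exact absurd hw (no_cross H hz h2 h3)
      · right
        exact (hSmem w).mpr ⟨h1, h2⟩
  have hlcard : ∀ z ∈ nbr α, ((ln ((α : Subgroup G) ⊓ z)).erase z).card = 3 := by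
    intro z hz
    rw [mem_nbr] at hz
    have h1 : (α : Subgroup G) ⊓ z ∈ lines z := mem_lines.mpr ⟨hz.isLn, inf_le_right⟩
    rw [Finset.card_erase_of_mem (mem_ln.mpr inf_le_right), (H z).1 _ h1]
  -- claim 1
  have hc1 : ∀ z ∈ nbr α, ∀ β ∈ S, Adj z β := by
    intro z hz β hβ
    by_contra hno
    have hsub : nbr z ⊆ ((ln ((α : Subgroup G) ⊓ z)).erase z) ∪ (S.erase β) := by
      intro w hw
      rw [mem_nbr] at hw
      have h1 := hcover z hz w hw
      rw [Finset.mem_union] at h1 ⊢
      rcases h1 with h1 | h1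
      · exact Or.inl h1
      · right
        rw [Finset.mem_erase]
        refine ⟨?_, h1⟩
        rintro rfl
        exact hno hw
    have h2 := Finset.card_le_card hsub
    have h3 := Finset.card_union_le ((ln ((α : Subgroup G) ⊓ z)).erase z) (S.erase β)
    rw [(H z).2.2] at h2
    rw [hlcard z hz, Finset.card_erase_of_mem hβ, hScard] at h3
    omega
  -- claim 2
  have hc2 : ∀ β ∈ S, nbr β = nbr α := by
    intro β hβ
    symm
    apply Finset.eq_of_subset_of_card_le
    · intro z hz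
      rw [mem_nbr]
      exact (hc1 z hz β hβ).symm
    · rw [(H β).2.2, (H α).2.2]
  have hc3 : ∀ β ∈ S, ∀ β' ∈ S, ¬ Adj β β' := by
    intro β hβ β' hβ' h
    have h1 : β' ∈ nbr α := by
      rw [← hc2 β hβ]
      exact mem_nbr.mpr h
    exact ((hSmem β').mp hβ').2 (mem_nbr.mp h1)
  -- the final step
  obtain ⟨z, hz⟩ : (nbr α).Nonempty := by
    apply Finset.card_pos.mp
    rw [(H α).2.2]
    norm_num
  have hz' := mem_nbr.mp hz
  have hD0 : (α : Subgroup G) ⊓ z ∈ lines z := mem_lines.mpr ⟨hz'.isLn, inf_le_right⟩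
  obtain ⟨D, hD, hDne⟩ := Finset.exists_mem_ne (by rw [(H z).2.1]; norm_num) ((α : Subgroup G) ⊓ z)
  obtain ⟨hDL, hDz⟩ := mem_lines.mp hD
  have hcard : 1 < ((ln D).erase z).card := by
    rw [Finset.card_erase_of_mem (mem_ln.mpr hDz), (H z).1 D hD]
    norm_num
  obtain ⟨w, hw, w', hw', hww⟩ := Finset.one_lt_card.mp hcard
  rw [Finset.mem_erase, mem_ln] at hw hw'
  have hpt : ∀ u : Sylow 3 G, u ≠ z → D ≤ (u : Subgroup G) → u ∈ S := by
    intro u hu hDu
    rw [hSmem]
    have hnot : ¬ (α : Subgroup G) ⊓ z ≤ u := by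
      intro hle
      apply hDne
      rw [← hDL.inf_eq hDz hDu hu.symm, ← hz'.isLn.inf_eq inf_le_right hle hu.symm]
    constructor
    · rintro rfl
      exact hnot inf_le_left
    · intro hau
      have hzu : Adj z u := hDL.adj hDz hDu hu.symm
      by_cases h3 : (α : Subgroup G) ⊓ z = (α : Subgroup G) ⊓ u
      · apply hnot
        rw [h3]
        exact inf_le_right
      · exact no_cross H hz' hau h3 hzu
  exact hc3 w (hpt w hw.1 hw.2) w' (hpt w' hw'.1 hw'.2) (hDL.adj hw.2 hw'.2 hww)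

end Count

/-- With twenty-two Sylow `3`-subgroups in a simple group, the Sylow `3`-subgroups have order three. -/
theorem card_three [IsSimpleGroup G] (h22 : Nat.card (Sylow 3 G) = 22) (P : Sylow 3 G) :
    Nat.card (P : Subgroup G) = 3 := by
  classical
  haveI := Fintype.ofFinite (Sylow 3 G)
  haveI := Fintype.ofFinite (Subgroup G)
  by_cases hex : ∃ Q : Sylow 3 G, ∃ D ∈ lines Q, (ln D).card = 22
  · obtain ⟨Q, D, hD, hc⟩ := hex
    obtain ⟨hL, -⟩ := mem_lines.mp hD
    have hu : ln D = Finset.univ := by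
      apply Finset.eq_univ_of_card
      rw [hc, ← Nat.card_eq_fintype_card, h22]
    have hall : ∀ R : Sylow 3 G, D ≤ (R : Subgroup G) := by
      intro R
      apply mem_ln.mp
      rw [hu]
      exact Finset.mem_univ R
    let O : Subgroup G := ⨅ R : Sylow 3 G, (R : Subgroup G)
    have hOn : O.Normal := by
      refine ⟨fun x hx g => ?_⟩
      rw [Subgroup.mem_iInf] at hx ⊢
      intro R
      have h1 := hx (g⁻¹ • R)
      rw [coe_smul_sylow, Struct.mem_conj_smul] at h1
      simpa using h1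
    rcases hOn.eq_bot_or_eq_top with h | h
    · have h1 : D ≤ O := le_iInf hall
      rw [h, le_bot_iff] at h1
      have h2 := hL.card P
      rw [h1] at h2
      simpa using h2.symm
    · exfalso
      have h1 : ∀ R : Sylow 3 G, (R : Subgroup G) = ⊤ := by
        intro R
        rw [eq_top_iff, ← h]
        exact iInf_le _ R
      have h2 : Subsingleton (Sylow 3 G) := ⟨fun a b => Sylow.ext ((h1 a).trans (h1 b).symm)⟩
      have h3 : Nat.card (Sylow 3 G) = 1 := Nat.card_of_subsingleton P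
      omega
  · exfalso
    push_neg at hex
    exact no_four (fun Q => four_lines h22 (hex Q)) h22

end Cfsg.Agent.Lib.Struct.N22
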