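import Mathlib
import Cfsg.Agent.Lib.Struct.N22Geo
import Cfsg.Agent.Lib.Struct.SylowTwoP
import Cfsg.Agent.Lib.SmallSimple.Basic

/-!
# General lemmas for the group with twenty-two Sylow 3-subgroups
-/

set_option autoImplicit false

namespace Cfsg.Agent.Lib.Struct.N22

open Subgroup MulAction

universe u v

section Sign

variable {G : Type u} [Group G] [IsSimpleGroup G]

theorem no_odd_involution (hna : ¬ IsMulCommutative G) {X : Type v} [Fintype X] [DecidableEq X] [MulAction G X]
    (g : G) (hg : g ^ 2 = 1) {k : ℕ} (hs : (Finset.univ.filter (fun x : X => g • x ≠ x)).card = 2 * k)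
    (hk : Odd k) : False := by
  let σ := MulAction.toPermHom G X
  let f : G →* ℤˣ := (Equiv.Perm.sign).comp σ
  have h1 : (σ g).support = Finset.univ.filter (fun x : X => g • x ≠ x) := by
    ext x
    rw [Equiv.Perm.mem_support, Finset.mem_filter]
    simp [σ]
  have h2 : f g = -1 := by
    show Equiv.Perm.sign (σ g) = -1
    apply Cfsg.Agent.Lib.Struct.SylowTwoP.sign_of_involution (σ g) _ (by rw [h1, hs]) hk
    rw [← map_pow, hg, map_one]
  have h3 := Cfsg.Agent.Lib.SmallSimple.ker_eq_top_of_comm hna f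
  have h4 : g ∈ f.ker := h3 ▸ Subgroup.mem_top g
  rw [MonoidHom.mem_ker, h2] at h4
  exact absurd h4 (by decide)

/-- The version with the number of fixed points. -/
theorem no_odd_involution' (hna : ¬ IsMulCommutative G) {X : Type v} [Fintype X] [DecidableEq X] [MulAction G X]
    (g : G) (hg : g ^ 2 = 1) {f k : ℕ} (hf : (Finset.univ.filter (fun x : X => g • x = x)).card = f)
    (hs : Fintype.card X = f + 2 * k) (hk : Odd k) : False := by
  refine no_odd_involution (X := X) hna g hg (k := k) ?_ hk
  have h := Finset.card_filter_add_card_filter_not (s := (Finset.univ : Finset X)) (fun x : X => g • x = x)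
  rw [hf, Finset.card_univ, hs] at h
  show (Finset.univ.filter (fun x : X => ¬ g • x = x)).card = 2 * k
  omega

theorem faithful_of_ne_top {X : Type v} [MulAction G X] (hne : ∃ (g : G) (x : X), g • x ≠ x) {g : G}
    (h : ∀ x : X, g • x = x) : g = 1 := by
  have hinj := Cfsg.Agent.Lib.SmallSimple.injective_of_ker_ne_top (MulAction.toPermHom G X) (by
    intro htop
    obtain ⟨a, x, hx⟩ := hne
    have h1 : a ∈ (MulAction.toPermHom G X).ker := htop ▸ Subgroup.mem_top a
    rw [MonoidHom.mem_ker] at h1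
    apply hx
    have := congrArg (fun e : Equiv.Perm X => e x) h1
    simpa using this)
  apply hinj
  rw [map_one]
  ext x
  simpa using h x

end Sign

section Norm

variable {X : Type u} [Group X] [Finite X]

theorem relIndex_dvd_totient (H : Subgroup X) (hc : IsCyclic H) :
    (centralizer (H : Set X)).relIndex (normalizer (H : Set X)) ∣ Nat.totient (Nat.card H) := by
  have key := card_dvd_of_injective _ (QuotientGroup.kerLift_injective H.normalizerMonoidHom)
  rw [normalizerMonoidHom_ker, ← index, ← relIndex, hc.card_mulAut] at key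
  exact key

theorem card_sylow_of_exact {l m : ℕ} [hl : Fact l.Prime] (hc : Nat.card X = l * m) (hm : ¬ l ∣ m) (S : Sylow l X) :
    Nat.card (S : Subgroup X) = l := by
  obtain ⟨k, hk⟩ := S.isPGroup'.exists_card_eq
  have h1 := S.1.card_mul_index
  have hni := S.not_dvd_index
  rcases k with _ | _ | k
  · exfalso
    rw [hk, pow_zero, one_mul, hc] at h1
    exact hni (h1 ▸ Dvd.intro _ rfl)
  · rw [hk, pow_one]
  · exfalso
    apply hm
    have h2 : l ^ (k + 2) ∣ l * m := by
      rw [← hc, ← h1, hk]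
      exact Dvd.intro _ rfl
    have h3 : l * l ∣ l * m := by
      refine dvd_trans ?_ h2
      rw [← pow_two]
      exact pow_dvd_pow l (by omega)
    exact (Nat.mul_dvd_mul_iff_left hl.out.pos).mp h3

theorem not_normalizer_le [IsSimpleGroup X] (hna : ¬ IsMulCommutative X) {l : ℕ} [hl : Fact l.Prime] (S : Sylow l X)
    (hcard : Nat.card (S : Subgroup X) = l) : ¬ normalizer (S : Set X) ≤ centralizer (S : Set X) := by
  intro hle
  have hc := MonoidHom.ker_transferSylow_isComplement' S hle
  obtain ⟨K, hK⟩ : ∃ K : Subgroup X, K = (MonoidHom.transferSylow S hle).ker := ⟨_, rfl⟩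
  have hKn : K.Normal := by rw [hK]; infer_instance
  rw [← hK] at hc
  have hi : K.index = l := by
    rw [hc.symm.index_eq_card, hcard]
  rcases hKn.eq_bot_or_eq_top with h | h
  · rw [h, Subgroup.index_bot] at hi
    haveI : Fact (Nat.card X).Prime := ⟨hi ▸ hl.out⟩
    haveI : IsCyclic X := isCyclic_of_prime_card (p := Nat.card X) rfl
    exact hna IsCyclic.isMulCommutative
  · rw [h, Subgroup.index_top] at hi
    exact hl.out.one_lt.ne hi

/-- An involution normalizing but not centralizing a cyclic group of odd prime order inverts it. -/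
theorem inverts_of_involution {l : ℕ} (hl : l.Prime) (hl2 : l ≠ 2) {y w : X} (hy : orderOf y = l) (hw : w ^ 2 = 1)
    (hn : w * y * w⁻¹ ∈ zpowers y) (hc : w * y * w⁻¹ ≠ y) : w * y * w⁻¹ = y⁻¹ := by
  obtain ⟨k, hk⟩ := mem_zpowers_iff.mp hn
  have h1 : y = y ^ (k * k) := by
    have h2 : w * (y ^ k) * w⁻¹ = y ^ (k * k) := by
      have h3 : w * y ^ k * w⁻¹ = (w * y * w⁻¹) ^ k := by
        rw [conj_zpow]
      rw [h3, ← hk, zpow_mul]
    have h4 : w * (w * y * w⁻¹) * w⁻¹ = y := by
      have hw' : w * w = 1 := by rw [← pow_two]; exact hw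
      have hwi : w⁻¹ = w := inv_eq_of_mul_eq_one_left hw'
      rw [hwi]
      calc w * (w * y * w) * w = (w * w) * y * (w * w) := by simp only [mul_assoc]
        _ = y := by rw [hw']; simp
    rw [← h2, hk]
    exact h4.symm
  have h5 : ((l : ℕ) : ℤ) ∣ k * k - 1 := by
    rw [← hy]
    apply orderOf_dvd_iff_zpow_eq_one.mpr
    rw [zpow_sub, ← h1, zpow_one, mul_inv_cancel]
  have h6 : k * k - 1 = (k - 1) * (k + 1) := by ring
  rw [h6] at h5
  have hp : Prime ((l : ℕ) : ℤ) := Nat.prime_iff_prime_int.mp hl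
  rcases hp.dvd_mul.mp h5 with h7 | h7
  · exfalso
    apply hc
    rw [← hk]
    obtain ⟨m, hm⟩ := h7
    have : k = 1 + l * m := by linarith
    rw [this, zpow_add, zpow_one, zpow_mul, ← hy, zpow_natCast, pow_orderOf_eq_one, one_zpow, mul_one]
  · rw [← hk]
    obtain ⟨m, hm⟩ := h7
    have : k = -1 + l * m := by linarith
    rw [this, zpow_add, zpow_neg_one, zpow_mul, ← hy, zpow_natCast, pow_orderOf_eq_one, one_zpow, mul_one]

end Norm

section Fixed

variable {α : Type*}

theorem fix_of_pow {η : Equiv.Perm α} {a : α} {n : ℕ} (h : (orderOf η).Coprime n) (ha : (η ^ n) a = a) : η a = a := by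
  have h1 : η ∈ zpowers (η ^ n) := Struct.mem_zpowers_pow_of_coprime h
  obtain ⟨k, hk⟩ := mem_zpowers_iff.mp h1
  have h3 : (η ^ n) ∈ MulAction.stabilizer (Equiv.Perm α) a := by
    rw [MulAction.mem_stabilizer_iff]
    exact ha
  have h4 := Subgroup.zpow_mem _ h3 k
  rw [MulAction.mem_stabilizer_iff, hk] at h4
  exact h4

theorem surj_of_orderOf [Finite α] {l : ℕ} (hl : l.Prime) (hcard : Nat.card α = l) (η : Equiv.Perm α)
    (hη : orderOf η = l) : ∀ a : α, η a ≠ a ∧ ∀ b, ∃ i < l, (η ^ i) a = b := by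
  classical
  have hpow : ∀ a : α, η a ≠ a → ∀ b, ∃ i < l, (η ^ i) a = b := by
    intro a ha
    let f : Fin l → α := fun i => (η ^ (i : ℕ)) a
    have hf : Function.Injective f := by
      intro i j hij
      by_contra hne
      have key : ∀ i j : Fin l, (i : ℕ) < j → f i = f j → False := by
        intro i j hlt he
        apply ha
        have h1 : (η ^ ((j : ℕ) - i)) a = a := by
          have h2 : (η ^ (i : ℕ)) ((η ^ ((j : ℕ) - i)) a) = (η ^ (i : ℕ)) a := by
            rw [← Equiv.Perm.mul_apply, ← pow_add, Nat.add_sub_cancel' hlt.le]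
            exact he.symm
          exact (η ^ (i : ℕ)).injective h2
        apply fix_of_pow _ h1
        rw [hη]
        apply (Nat.Prime.coprime_iff_not_dvd hl).mpr
        intro hd
        have h3 := Nat.le_of_dvd (by omega) hd
        have := j.2
        omega
      rcases lt_or_gt_of_ne (fun h => hne (Fin.ext h) : (i : ℕ) ≠ j) with h | h
      · exact key i j h hij
      · exact key j i h hij.symm
    haveI := Fintype.ofFinite α
    have hbij : Function.Bijective f := by
      rw [Fintype.bijective_iff_injective_and_card]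
      refine ⟨hf, ?_⟩
      rw [Fintype.card_fin, ← Nat.card_eq_fintype_card, hcard]
    intro b
    obtain ⟨i, hi⟩ := hbij.2 b
    exact ⟨i, i.2, hi⟩
  have hne1 : ∃ b, η b ≠ b := by
    by_contra hno
    push_neg at hno
    have : η = 1 := Equiv.ext hno
    rw [this, orderOf_one] at hη
    exact hl.one_lt.ne hη
  obtain ⟨b, hb⟩ := hne1
  intro a
  have ha : η a ≠ a := by
    intro hfix
    obtain ⟨i, -, hi⟩ := hpow b hb a
    apply hb
    have h1 : (η ^ i) (η b) = (η ^ i) b := by
      rw [← Equiv.Perm.mul_apply, ← pow_succ, pow_succ', Equiv.Perm.mul_apply, hi, hfix]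
    exact (η ^ i).injective h1
  exact ⟨ha, hpow a ha⟩

/-- An involution inverting a nontrivial permutation of prime order on a set of that size has a unique fixed point. -/
theorem inv_unique_fixed [Finite α] {l : ℕ} (hl : l.Prime) (hl2 : l ≠ 2) (hcard : Nat.card α = l)
    (η ν : Equiv.Perm α) (hη : orderOf η = l) (hν : ν ^ 2 = 1) (hinv : ν * η * ν⁻¹ = η⁻¹) :
    ∃ a, ν a = a ∧ ∀ b, ν b = b → b = a := by
  classical
  have hs := surj_of_orderOf hl hcard η hη
  have hodd : Odd l := hl.odd_of_ne_two hl2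
  -- the commutation
  have hconj : ∀ i : ℕ, ν * η ^ i = (η⁻¹) ^ i * ν := by
    intro i
    have h1 : ν * η = η⁻¹ * ν := by
      rw [← hinv]
      group
    induction i with
    | zero => simp
    | succ i ih =>
      rw [pow_succ, ← mul_assoc, ih, pow_succ, mul_assoc, h1, mul_assoc]
  have hconj' : ∀ (i : ℕ) (a : α), ν ((η ^ i) a) = ((η⁻¹) ^ i) (ν a) := by
    intro i a
    rw [← Equiv.Perm.mul_apply, hconj, Equiv.Perm.mul_apply]
  have hne : Nonempty α := by
    have : 0 < Nat.card α := by rw [hcard]; exact hl.pos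
    exact (Nat.card_pos_iff.mp this).1
  obtain ⟨a₀⟩ := hne
  obtain ⟨i, -, hi⟩ := (hs a₀).2 (ν a₀)
  obtain ⟨m, hm⟩ := hodd
  -- half of `i`
  let j := i * (m + 1)
  have hj : (η ^ (j + j)) a₀ = (η ^ i) a₀ := by
    have h1 : j + j = i + l * i := by
      rw [hm]
      simp only [j]
      ring
    have hη1 : η ^ l = 1 := by rw [← hη]; exact pow_orderOf_eq_one η
    rw [h1, pow_add, pow_mul, hη1, one_pow, mul_one]
  have hinvpow : ∀ (k : ℕ) (b : α), ((η⁻¹) ^ k) ((η ^ k) b) = b := by
    intro k b
    rw [inv_pow, ← Equiv.Perm.mul_apply, inv_mul_cancel]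
    rfl
  have hinvpow' : ∀ (k : ℕ) (b : α), (η ^ k) (((η⁻¹) ^ k) b) = b := by
    intro k b
    rw [inv_pow, ← Equiv.Perm.mul_apply, mul_inv_cancel]
    rfl
  refine ⟨(η ^ j) a₀, ?_, ?_⟩
  · rw [hconj', ← hi, ← hj, pow_add, Equiv.Perm.mul_apply, hinvpow]
  · intro b hb
    set a := (η ^ j) a₀ with ha
    have hfix : ν a = a := by
      rw [ha, hconj', ← hi, ← hj, pow_add, Equiv.Perm.mul_apply, hinvpow]
    obtain ⟨r, hr, hrb⟩ := (hs a).2 b
    rcases Nat.eq_zero_or_pos r with rfl | hrpos
    · simpa using hrb.symm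
    · exfalso
      have h1 : ν b = ((η⁻¹) ^ r) a := by
        rw [← hrb, hconj', hfix]
      have h2 : ((η⁻¹) ^ r) a = (η ^ r) a := by rw [← h1, hb, hrb]
      have h3 : (η ^ (r + r)) a = a := by
        rw [pow_add, Equiv.Perm.mul_apply, ← h2, hinvpow']
      apply (hs a).1
      apply fix_of_pow _ h3
      rw [hη]
      apply (Nat.Prime.coprime_iff_not_dvd hl).mpr
      intro hd
      have h4 : l ∣ 2 * r := by rw [two_mul]; exact hd
      rcases (Nat.Prime.dvd_mul hl).mp h4 with h5 | h5
      · have := Nat.le_of_dvd (by norm_num) h5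
        have := hl.two_le
        omega
      · have := Nat.le_of_dvd hrpos h5
        omega

end Fixed

end Cfsg.Agent.Lib.Struct.N22
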