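import Mathlib
import Cfsg.Agent.Lib.Struct.N22Gen

/-!
# Twenty-two Sylow 3-subgroups of order three in a simple group
-/

set_option autoImplicit false

namespace Cfsg.Agent.Lib.Struct.N22

open Subgroup MulAction

universe u

variable {G : Type u} [Group G] [Finite G]

/-- Points other than a given Sylow subgroup. -/
def XS {l : ℕ} (P : Sylow l G) : Type u := {R : Sylow l G // R ≠ P}

/-- A subgroup fixing `P` acts on the other Sylow subgroups. -/
def mkAct {l : ℕ} (P : Sylow l G) (A : Subgroup G) (hA : ∀ a ∈ A, a • P = P) : MulAction ↥A (XS P) where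
  smul a R := ⟨a.1 • R.1, fun h => R.2 (smul_left_cancel a.1 (h.trans (hA a.1 a.2).symm))⟩
  one_smul R := Subtype.ext (one_smul G R.1)
  mul_smul a b R := Subtype.ext (mul_smul a.1 b.1 R.1)

theorem fix_self {l : ℕ} (P : Sylow l G) (a : G) (ha : a ∈ (P : Subgroup G)) : a • P = P :=
  Sylow.smul_eq_iff_mem_normalizer.mpr (Subgroup.le_normalizer ha)

theorem fix_norm {l : ℕ} (P : Sylow l G) (a : G) (ha : a ∈ normalizer ((P : Subgroup G) : Set G)) : a • P = P :=
  Sylow.smul_eq_iff_mem_normalizer.mpr ha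

theorem fix_cent {l : ℕ} (P : Sylow l G) (a : G) (ha : a ∈ centralizer ((P : Subgroup G) : Set G)) : a • P = P :=
  fix_norm P a (Subgroup.centralizer_le_normalizer _ ha)

instance actSelf {l : ℕ} (P : Sylow l G) : MulAction ↥(P : Subgroup G) (XS P) :=
  mkAct P _ (fix_self P)

instance actCent {l : ℕ} (P : Sylow l G) : MulAction ↥(centralizer ((P : Subgroup G) : Set G)) (XS P) :=
  mkAct P _ (fix_cent P)

instance actNorm {l : ℕ} (P : Sylow l G) : MulAction ↥(normalizer ((P : Subgroup G) : Set G)) (XS P) :=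
  mkAct P _ (fix_norm P)

theorem actSelf_val {l : ℕ} (P : Sylow l G) (a : ↥(P : Subgroup G)) (R : XS P) : (a • R).1 = a.1 • R.1 := rfl

theorem actCent_val {l : ℕ} (P : Sylow l G) (a : ↥(centralizer ((P : Subgroup G) : Set G))) (R : XS P) : (a • R).1 = a.1 • R.1 := rfl

theorem actNorm_val {l : ℕ} (P : Sylow l G) (a : ↥(normalizer ((P : Subgroup G) : Set G))) (R : XS P) : (a • R).1 = a.1 • R.1 := rfl

instance {l : ℕ} (P : Sylow l G) [Finite (Sylow l G)] : Finite (XS P) := by
  unfold XS
  infer_instance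

theorem card_XS {l n : ℕ} (P : Sylow l G) [Finite (Sylow l G)] (h : Nat.card (Sylow l G) = n + 1) : Nat.card (XS P) = n := by
  classical
  haveI := Fintype.ofFinite (Sylow l G)
  unfold XS
  rw [Nat.card_eq_fintype_card, Fintype.card_subtype, Finset.filter_ne', Finset.card_erase_of_mem (Finset.mem_univ _),
    Finset.card_univ, ← Nat.card_eq_fintype_card, h]
  rfl

section Ord3

variable [IsSimpleGroup G]

theorem n22_noncomm (h22 : Nat.card (Sylow 3 G) = 22) : ¬ IsMulCommutative G := by
  intro hc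
  have hall : ∀ (g : G) (R : Sylow 3 G), g • R = R := by
    intro g R
    apply fix_norm
    rw [Subgroup.mem_normalizer_iff]
    intro h
    rw [hc.is_comm.comm g h, mul_inv_cancel_right]
  haveI : Subsingleton (Sylow 3 G) := by
    refine ⟨fun a b => ?_⟩
    obtain ⟨g, rfl⟩ := MulAction.exists_smul_eq G a b
    exact (hall g a).symm
  have : Nat.card (Sylow 3 G) = 1 := Nat.card_of_subsingleton (default : Sylow 3 G)
  omega

theorem n22_moves (h22 : Nat.card (Sylow 3 G) = 22) : ∃ (g : G) (x : Sylow 3 G), g • x ≠ x := by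
  obtain ⟨a⟩ : Nonempty (Sylow 3 G) := inferInstance
  have h1 : 1 < Nat.card (Sylow 3 G) := by omega
  haveI : Nontrivial (Sylow 3 G) := Finite.one_lt_card_iff_nontrivial.mp h1
  obtain ⟨b, hb⟩ := exists_ne a
  obtain ⟨g, rfl⟩ := MulAction.exists_smul_eq G a b
  exact ⟨g, a, hb⟩

theorem faithful3 (h22 : Nat.card (Sylow 3 G) = 22) {g : G} (h : ∀ R : Sylow 3 G, g • R = R) : g = 1 :=
  faithful_of_ne_top (n22_moves h22) h

theorem inf_bot3 (h3 : ∀ P : Sylow 3 G, Nat.card (P : Subgroup G) = 3) {P R : Sylow 3 G} (hne : P ≠ R) :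
    (P : Subgroup G) ⊓ R = ⊥ := by
  have h1 : Nat.card ↥((P : Subgroup G) ⊓ R) ∣ 3 := by
    have h0 : Nat.card ↥((P : Subgroup G) ⊓ R) ∣ Nat.card (P : Subgroup G) := Subgroup.card_dvd_of_le inf_le_left
    rwa [h3 P] at h0
  rcases (Nat.dvd_prime Nat.prime_three).mp h1 with h | h
  · exact Subgroup.card_eq_one.mp h
  · exfalso
    apply hne
    apply eq_of_le
    have h4 : (P : Subgroup G) ⊓ R = P := Subgroup.eq_of_le_of_card_ge inf_le_left (by rw [h, h3 P])
    exact inf_eq_left.mp h4

theorem comm3 (h3 : ∀ P : Sylow 3 G, Nat.card (P : Subgroup G) = 3) (P : Sylow 3 G) {a b : G}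
    (ha : a ∈ (P : Subgroup G)) (hb : b ∈ (P : Subgroup G)) : a * b = b * a := by
  haveI : Fact (Nat.card (P : Subgroup G)).Prime := ⟨by rw [h3 P]; exact Nat.prime_three⟩
  haveI : IsCyclic (P : Subgroup G) := isCyclic_of_prime_card (p := Nat.card (P : Subgroup G)) rfl
  have := (IsCyclic.isMulCommutative (α := (P : Subgroup G))).is_comm.comm ⟨a, ha⟩ ⟨b, hb⟩
  exact congrArg Subtype.val this

theorem le_cent3 (h3 : ∀ P : Sylow 3 G, Nat.card (P : Subgroup G) = 3) (P : Sylow 3 G) :
    (P : Subgroup G) ≤ centralizer ((P : Subgroup G) : Set G) := by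
  intro a ha
  rw [Subgroup.mem_centralizer_iff]
  intro b hb
  exact comm3 h3 P hb ha

/-- The arithmetic of `P`. -/
theorem order3 (h22 : Nat.card (Sylow 3 G) = 22) (h3 : ∀ P : Sylow 3 G, Nat.card (P : Subgroup G) = 3) (P : Sylow 3 G) :
    ∃ d, Nat.card (centralizer ((P : Subgroup G) : Set G)) = 3 * d ∧ Nat.card G = 132 * d ∧ ¬ 3 ∣ d ∧
      Nat.card (normalizer ((P : Subgroup G) : Set G)) = 6 * d := by
  have hna := n22_noncomm h22
  obtain ⟨d, hd⟩ : 3 ∣ Nat.card (centralizer ((P : Subgroup G) : Set G)) := by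
    have h0 : Nat.card (P : Subgroup G) ∣ Nat.card (centralizer ((P : Subgroup G) : Set G)) :=
      Subgroup.card_dvd_of_le (le_cent3 h3 P)
    rwa [h3 P] at h0
  have hcyc : IsCyclic (P : Subgroup G) := by
    haveI : Fact (Nat.card (P : Subgroup G)).Prime := ⟨by rw [h3 P]; exact Nat.prime_three⟩
    exact isCyclic_of_prime_card (p := Nat.card (P : Subgroup G)) rfl
  have h1 := relIndex_dvd_totient (P : Subgroup G) hcyc
  rw [h3 P, Nat.totient_prime Nat.prime_three] at h1
  have h2 : (centralizer ((P : Subgroup G) : Set G)).relIndex (normalizer ((P : Subgroup G) : Set G)) ≠ 1 := by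
    intro he
    exact not_normalizer_le hna P (h3 P) (Subgroup.relIndex_eq_one.mp he)
  have h4 : (centralizer ((P : Subgroup G) : Set G)).relIndex (normalizer ((P : Subgroup G) : Set G)) = 2 := by
    rcases (Nat.dvd_prime Nat.prime_two).mp h1 with h | h
    · exact absurd h h2
    · exact h
  have h5 := Struct.card_inf_mul_relIndex (centralizer ((P : Subgroup G) : Set G)) (normalizer ((P : Subgroup G) : Set G))
  rw [inf_of_le_left (Subgroup.centralizer_le_normalizer _), h4, hd] at h5
  have h6 := Subgroup.card_mul_index (normalizer ((P : Subgroup G) : Set G))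
  have h60 : (normalizer ((P : Subgroup G) : Set G)).index = 22 := by
    rw [← h22]
    exact (Sylow.card_eq_index_normalizer P).symm
  rw [h60, ← h5] at h6
  have h7 : Nat.card G = 132 * d := by omega
  refine ⟨d, hd, h7, ?_, by omega⟩
  intro h8
  apply P.not_dvd_index
  have h9 := P.1.card_mul_index
  rw [h3 P, h7] at h9
  have h10 : P.1.index = 44 * d := by omega
  rw [h10]
  exact Dvd.dvd.mul_left h8 _

/-! ### The action on the `P`-orbits -/

/-- The set of `P`-orbits other than `P` itself. -/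
abbrev YS (P : Sylow 3 G) : Type u := orbitRel.Quotient ↥(P : Subgroup G) (XS P)

/-- Elements centralizing `P` commute with its action. -/
theorem smul_comm_cent (P : Sylow 3 G) (c : ↥(centralizer ((P : Subgroup G) : Set G))) (a : ↥(P : Subgroup G)) (R : XS P) :
    c • (a • R) = a • (c • R) := by
  apply Subtype.ext
  show c.1 • a.1 • R.1 = a.1 • c.1 • R.1
  rw [← mul_smul, ← mul_smul]
  have := Subgroup.mem_centralizer_iff.mp c.2 a.1 a.2
  rw [← this]

/-- The action of the centralizer on `P`-orbits. -/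
instance actY (P : Sylow 3 G) : MulAction ↥(centralizer ((P : Subgroup G) : Set G)) (YS P) where
  smul c := Quotient.map (sa := orbitRel _ _) (sb := orbitRel _ _) (fun R => c • R) (by
    intro R S hRS
    obtain ⟨a, ha⟩ := hRS
    refine ⟨a, ?_⟩
    show a • c • S = c • R
    rw [← smul_comm_cent, ← show a • S = R from ha])
  one_smul y := by
    induction y using Quotient.inductionOn with
    | h R =>
      show Quotient.mk _ _ = _
      simp only [one_smul]
  mul_smul c c' y := by
    induction y using Quotient.inductionOn with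
    | h R =>
      show Quotient.mk _ _ = Quotient.mk _ _
      simp only [mul_smul]

theorem smul_mk (P : Sylow 3 G) (c : ↥(centralizer ((P : Subgroup G) : Set G))) (R : XS P) :
    c • (Quotient.mk (orbitRel _ _) R : YS P) = Quotient.mk (orbitRel _ _) (c • R) := rfl

theorem mk_eq_iff (P : Sylow 3 G) (R S : XS P) :
    (Quotient.mk (orbitRel _ _) R : YS P) = Quotient.mk (orbitRel _ _) S ↔ ∃ a : ↥(P : Subgroup G), a • S = R := by
  rw [Quotient.eq]
  rfl

theorem free3 (h3 : ∀ P : Sylow 3 G, Nat.card (P : Subgroup G) = 3) (P : Sylow 3 G) (R : XS P) :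
    stabilizer ↥(P : Subgroup G) R = ⊥ := by
  rw [eq_bot_iff]
  intro a ha
  rw [mem_stabilizer_iff] at ha
  have h1 : a.1 • R.1 = R.1 := congrArg Subtype.val ha
  have h2 : a.1 ∈ (R.1 : Subgroup G) := (smul_fix_iff' P a.2 R.1).mp h1
  have h3' : a.1 ∈ (P : Subgroup G) ⊓ R.1 := ⟨a.2, h2⟩
  rw [inf_bot3 h3 R.2.symm, Subgroup.mem_bot] at h3'
  rw [Subgroup.mem_bot]
  exact Subtype.ext h3'

theorem card_YS (h22 : Nat.card (Sylow 3 G) = 22) (h3 : ∀ P : Sylow 3 G, Nat.card (P : Subgroup G) = 3)
    (P : Sylow 3 G) : Nat.card (YS P) = 7 := by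
  have h1 := Nat.card_congr (MulAction.selfEquivOrbitsQuotientProd (G := ↥(P : Subgroup G)) (X := XS P) (free3 h3 P))
  rw [card_XS P (n := 21) h22, Nat.card_prod, h3 P] at h1
  have h2 : Nat.card (Quotient (orbitRel ↥(P : Subgroup G) (XS P))) = Nat.card (YS P) := rfl
  rw [h2] at h1
  omega

/-- An element of the centralizer fixing all `P`-orbits lies in `P`. -/
theorem mem_of_fix_YS (h22 : Nat.card (Sylow 3 G) = 22) (h3 : ∀ P : Sylow 3 G, Nat.card (P : Subgroup G) = 3)
    (P : Sylow 3 G) (c : ↥(centralizer ((P : Subgroup G) : Set G))) (h : ∀ y : YS P, c • y = y) :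
    c.1 ∈ (P : Subgroup G) := by
  have hpow : c.1 ^ 3 = 1 := by
    apply faithful3 h22
    intro R
    by_cases hR : R = P
    · subst hR
      rw [pow_succ, pow_succ, pow_one, mul_smul, mul_smul, fix_cent R c.1 c.2, fix_cent R c.1 c.2, fix_cent R c.1 c.2]
    · let R' : XS P := ⟨R, hR⟩
      have h1 := h (Quotient.mk (orbitRel _ _) R')
      rw [smul_mk, mk_eq_iff] at h1
      obtain ⟨a, ha⟩ := h1
      have ha3 : a ^ 3 = 1 := by
        have := pow_card_eq_one' (G := ↥(P : Subgroup G)) (x := a)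
        rwa [h3 P] at this
      have h2 : c • R' = a • R' := ha.symm
      have h4 : c • c • R' = a • a • R' := by
        rw [h2, smul_comm_cent, h2]
      have h5 : c • c • c • R' = a • a • a • R' := by
        rw [h4, smul_comm_cent, smul_comm_cent, h2]
      have h6 : a • a • a • R' = R' := by
        rw [← mul_smul, ← mul_smul, show a * a * a = a ^ 3 by rw [pow_succ, pow_two], ha3, one_smul]
      have h7 := congrArg Subtype.val (h5.trans h6)
      show (c.1 ^ 3) • R = R
      rw [pow_succ, pow_succ, pow_one, mul_smul, mul_smul]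
      exact h7
  have hp3 : IsPGroup 3 (zpowers c.1) := by
    rw [IsPGroup.iff_card, Nat.card_zpowers]
    have h1 : orderOf c.1 ∣ 3 ^ 1 := orderOf_dvd_of_pow_eq_one (by simpa using hpow)
    obtain ⟨k, -, hk⟩ := (Nat.dvd_prime_pow Nat.prime_three).mp h1
    exact ⟨k, hk⟩
  exact (smul_fix_iff hp3 (mem_zpowers c.1) P).mp (fix_cent P c.1 c.2)

/-- The quotient of the centralizer by `P` embeds in permutations of seven points. -/
theorem dvd_factorial3 (h22 : Nat.card (Sylow 3 G) = 22) (h3 : ∀ P : Sylow 3 G, Nat.card (P : Subgroup G) = 3)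
    (P : Sylow 3 G) {d : ℕ} (hd : Nat.card (centralizer ((P : Subgroup G) : Set G)) = 3 * d) (h3d : ¬ 3 ∣ d) :
    d ∣ 560 := by
  let ψ := MulAction.toPermHom ↥(centralizer ((P : Subgroup G) : Set G)) (YS P)
  have hker : ψ.ker = (P : Subgroup G).subgroupOf (centralizer ((P : Subgroup G) : Set G)) := by
    ext c
    rw [MonoidHom.mem_ker, Subgroup.mem_subgroupOf]
    constructor
    · intro h
      apply mem_of_fix_YS h22 h3
      intro y
      have := congrArg (fun e : Equiv.Perm (YS P) => e y) h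
      simpa [ψ] using this
    · intro hc
      ext y
      induction y using Quotient.inductionOn with
      | h R =>
        show c • (Quotient.mk (orbitRel _ _) R : YS P) = Quotient.mk (orbitRel _ _) R
        rw [smul_mk, mk_eq_iff]
        refine ⟨⟨c.1, hc⟩, ?_⟩
        rfl
  have hk3 : Nat.card ψ.ker = 3 := by
    rw [hker]
    exact (Nat.card_congr (Subgroup.subgroupOfEquivOfLe (le_cent3 h3 P)).toEquiv).trans (h3 P)
  have h1 := Subgroup.card_mul_index ψ.ker
  rw [Subgroup.index_ker, hk3, hd] at h1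
  have h2 : Nat.card ψ.range = d := by omega
  have h4 : Nat.card ψ.range ∣ Nat.card (Equiv.Perm (YS P)) := Subgroup.card_subgroup_dvd_card _
  rw [h2, Nat.card_perm, card_YS h22 h3 P] at h4
  have h5 : Nat.Coprime d 9 := by
    have : Nat.Coprime d (3 ^ 2) := Nat.Coprime.pow_right 2 ((Nat.coprime_comm.mp ((Nat.Prime.coprime_iff_not_dvd Nat.prime_three).mpr h3d)))
    simpa using this
  have h6 : (7 : ℕ).factorial = 9 * 560 := by decide
  rw [h6] at h4
  exact h5.dvd_of_dvd_mul_left h4

/-- The contradiction from an involution in the centralizer inverting an element of order seven. -/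
theorem inv_contra (h22 : Nat.card (Sylow 3 G) = 22) (h3 : ∀ P : Sylow 3 G, Nat.card (P : Subgroup G) = 3)
    (P : Sylow 3 G) (v y : ↥(centralizer ((P : Subgroup G) : Set G))) (hv : v ^ 2 = 1) (hy : orderOf y = 7)
    (hinv : v * y * v⁻¹ = y⁻¹) : False := by
  classical
  haveI : Fact (Nat.Prime 7) := ⟨by norm_num⟩
  haveI := Fintype.ofFinite (Sylow 3 G)
  haveI := Fintype.ofFinite ↥(P : Subgroup G)
  have hna := n22_noncomm h22
  let ψ := MulAction.toPermHom ↥(centralizer ((P : Subgroup G) : Set G)) (YS P)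
  have hη : orderOf (ψ y) = 7 := by
    apply orderOf_eq_prime
    · rw [← map_pow, ← hy, pow_orderOf_eq_one, map_one]
    · intro h1
      have h2 : y.1 ∈ (P : Subgroup G) := by
        apply mem_of_fix_YS h22 h3
        intro z
        have := congrArg (fun e : Equiv.Perm (YS P) => e z) h1
        simpa [ψ] using this
      have h4 : orderOf y.1 ∣ 3 := by
        have h5 := Subgroup.orderOf_dvd_natCard (P : Subgroup G) h2
        rwa [h3 P] at h5
      rw [Subgroup.orderOf_coe, hy] at h4
      norm_num at h4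
  have hν : (ψ v) ^ 2 = 1 := by rw [← map_pow, hv, map_one]
  have hinvp : ψ v * ψ y * (ψ v)⁻¹ = (ψ y)⁻¹ := by
    rw [← map_inv, ← map_mul, ← map_mul, hinv, map_inv]
  obtain ⟨pt, hpt, huniq⟩ := inv_unique_fixed (by norm_num) (by norm_num) (card_YS h22 h3 P) (ψ y) (ψ v) hη hν hinvp
  obtain ⟨R₀, hR₀⟩ := Quotient.exists_rep pt
  have hvv : ∀ R : XS P, v • v • R = R := by
    intro R
    rw [← mul_smul, ← pow_two, hv, one_smul]
  -- `v` fixes `R₀`
  have hfix0 : v • R₀ = R₀ := by
    have h1 : v • (Quotient.mk (orbitRel _ _) R₀ : YS P) = Quotient.mk (orbitRel _ _) R₀ := by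
      rw [hR₀]
      exact hpt
    rw [smul_mk, mk_eq_iff] at h1
    obtain ⟨b, hb⟩ := h1
    have hb3 : b ^ 3 = 1 := by
      have := pow_card_eq_one' (G := ↥(P : Subgroup G)) (x := b)
      rwa [h3 P] at this
    have h2 : (b * b) • R₀ = R₀ := by
      rw [mul_smul, hb, ← smul_comm_cent, hb, hvv]
    have h4 : b * b ∈ stabilizer ↥(P : Subgroup G) R₀ := h2
    rw [free3 h3 P R₀, Subgroup.mem_bot] at h4
    have h5 : b = 1 := by
      have h6 : b ^ 3 = b ^ 2 * b := pow_succ b 2
      rw [hb3, pow_two, h4, one_mul] at h6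
      exact h6.symm
    rw [← hb, h5, one_smul]
  have hfixa : ∀ a : ↥(P : Subgroup G), v • (a • R₀) = a • R₀ := by
    intro a
    rw [smul_comm_cent, hfix0]
  -- the fixed points
  let O : Finset (Sylow 3 G) := Finset.univ.image (fun a : ↥(P : Subgroup G) => (a • R₀).1)
  have hOcard : O.card = 3 := by
    rw [Finset.card_image_of_injective, Finset.card_univ, ← Nat.card_eq_fintype_card, h3 P]
    intro a b hab
    have h1 : a • R₀ = b • R₀ := Subtype.ext hab
    have h2 : (b⁻¹ * a) • R₀ = R₀ := by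
      rw [mul_smul, h1, inv_smul_smul]
    have h4 : b⁻¹ * a ∈ stabilizer ↥(P : Subgroup G) R₀ := h2
    rw [free3 h3 P R₀, Subgroup.mem_bot] at h4
    exact (inv_mul_eq_one.mp h4).symm
  have hPO : P ∉ O := by
    intro h
    obtain ⟨a, -, ha⟩ := Finset.mem_image.mp h
    exact (a • R₀).2 ha
  have hF : Finset.univ.filter (fun R : Sylow 3 G => v.1 • R = R) = insert P O := by
    ext R
    rw [Finset.mem_filter, Finset.mem_insert]
    constructor
    · rintro ⟨-, hR⟩
      by_cases hRP : R = P
      · exact Or.inl hRP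
      · right
        let R' : XS P := ⟨R, hRP⟩
        have h1 : v • R' = R' := Subtype.ext hR
        have h2 : (ψ v) (Quotient.mk (orbitRel _ _) R') = Quotient.mk (orbitRel _ _) R' := by
          show v • (Quotient.mk (orbitRel _ _) R' : YS P) = _
          rw [smul_mk, h1]
        have h4 := huniq _ h2
        rw [← hR₀, mk_eq_iff] at h4
        obtain ⟨a, ha⟩ := h4
        exact Finset.mem_image.mpr ⟨a, Finset.mem_univ _, congrArg Subtype.val ha⟩
    · rintro (rfl | hR)
      · exact ⟨Finset.mem_univ _, fix_cent _ _ v.2⟩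
      · obtain ⟨a, -, rfl⟩ := Finset.mem_image.mp hR
        exact ⟨Finset.mem_univ _, congrArg Subtype.val (hfixa a)⟩
  have hv' : v.1 ^ 2 = 1 := by
    have := congrArg Subtype.val hv
    simpa using this
  refine no_odd_involution' (X := Sylow 3 G) hna v.1 hv' (f := 4) (k := 9) ?_ ?_ (by decide)
  · rw [hF, Finset.card_insert_of_notMem hPO, hOcard]
  · rw [← Nat.card_eq_fintype_card, h22]

theorem aux_e (e : ℕ) (h : e ∣ 6 - 0) (h3 : ¬ 3 ∣ e) : e = 1 ∨ e = 2 := by
  have h6 : e ≤ 6 := Nat.le_of_dvd (by norm_num) h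
  interval_cases e <;> simp_all

set_option maxHeartbeats 2000000 in
/-- The number of Sylow `7`-subgroups of the centralizer. -/
theorem seven (h22 : Nat.card (Sylow 3 G) = 22) (h3 : ∀ P : Sylow 3 G, Nat.card (P : Subgroup G) = 3)
    (P : Sylow 3 G) {d : ℕ} (hd : Nat.card (centralizer ((P : Subgroup G) : Set G)) = 3 * d) (h3d : ¬ 3 ∣ d)
    (h560 : d ∣ 560) (h7 : 7 ∣ d) : ∃ n, d = 7 * n ∧ n % 7 = 1 := by
  classical
  haveI hf7 : Fact (Nat.Prime 7) := ⟨by norm_num⟩
  obtain ⟨d', rfl⟩ := h7
  have hd'80 : d' ∣ 80 := by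
    have : 7 * d' ∣ 7 * 80 := by simpa using h560
    exact (Nat.mul_dvd_mul_iff_left (by norm_num)).mp this
  have h7d' : ¬ 7 ∣ d' := by
    intro h
    have := h.trans hd'80
    norm_num at this
  obtain ⟨K, hK⟩ : ∃ K, K = centralizer ((P : Subgroup G) : Set G) := ⟨_, rfl⟩
  subst hK
  -- the Sylow subgroup
  let S : Sylow 7 ↥(centralizer ((P : Subgroup G) : Set G)) := default
  have hcardK : Nat.card ↥(centralizer ((P : Subgroup G) : Set G)) = 7 * (3 * d') := by rw [hd]; ring
  have hS7 : Nat.card (S : Subgroup ↥(centralizer ((P : Subgroup G) : Set G))) = 7 := by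
    apply card_sylow_of_exact hcardK
    intro h
    rcases (Nat.Prime.dvd_mul (by norm_num)).mp h with h | h
    · norm_num at h
    · exact h7d' h
  obtain ⟨y₀, hy₀⟩ := exists_prime_orderOf_dvd_card' (G := (S : Subgroup ↥(centralizer ((P : Subgroup G) : Set G)))) 7 (by rw [hS7])
  obtain ⟨y, hyS⟩ : ∃ y, y = (y₀ : ↥(centralizer ((P : Subgroup G) : Set G))) := ⟨_, rfl⟩
  have hy : orderOf y = 7 := by
    rw [hyS, Subgroup.orderOf_coe, hy₀]
  have hSz : (S : Subgroup ↥(centralizer ((P : Subgroup G) : Set G))) = zpowers y := by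
    symm
    apply Subgroup.eq_of_le_of_card_ge
    · rw [Subgroup.zpowers_le, hyS]
      exact y₀.2
    · rw [Nat.card_zpowers, hy, hS7]
  -- the centralizer of `S`
  let ψ := MulAction.toPermHom ↥(centralizer ((P : Subgroup G) : Set G)) (YS P)
  have hη : orderOf (ψ y) = 7 := by
    apply orderOf_eq_prime
    · rw [← map_pow, ← hy, pow_orderOf_eq_one, map_one]
    · intro h1
      have h2 : y.1 ∈ (P : Subgroup G) := by
        apply mem_of_fix_YS h22 h3
        intro z
        have := congrArg (fun e : Equiv.Perm (YS P) => e z) h1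
        simpa [ψ] using this
      have h4 : orderOf y.1 ∣ 3 := by
        have h5 := Subgroup.orderOf_dvd_natCard (P : Subgroup G) h2
        rwa [h3 P] at h5
      rw [Subgroup.orderOf_coe, hy] at h4
      norm_num at h4
  have hs := surj_of_orderOf (by norm_num) (card_YS h22 h3 P) (ψ y) hη
  have hPcentral : ∀ (a : ↥(centralizer ((P : Subgroup G) : Set G))), a.1 ∈ (P : Subgroup G) →
      ∀ c : ↥(centralizer ((P : Subgroup G) : Set G)), c * a = a * c := by
    intro a ha c
    apply Subtype.ext
    exact (Subgroup.mem_centralizer_iff.mp c.2 a.1 ha).symm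
  have hSc : ∀ s t : (S : Subgroup ↥(centralizer ((P : Subgroup G) : Set G))), s * t = t * s := by
    intro s t
    haveI : IsCyclic (S : Subgroup ↥(centralizer ((P : Subgroup G) : Set G))) := by
      haveI : Fact (Nat.card (S : Subgroup ↥(centralizer ((P : Subgroup G) : Set G)))).Prime := ⟨by rw [hS7]; norm_num⟩
      exact isCyclic_of_prime_card (p := Nat.card (S : Subgroup ↥(centralizer ((P : Subgroup G) : Set G)))) rfl
    exact (IsCyclic.isMulCommutative (α := (S : Subgroup ↥(centralizer ((P : Subgroup G) : Set G))))).is_comm.comm s t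
  obtain ⟨C₁, hC₁⟩ : ∃ C₁, C₁ = centralizer ((S : Subgroup ↥(centralizer ((P : Subgroup G) : Set G))) : Set ↥(centralizer ((P : Subgroup G) : Set G))) := ⟨_, rfl⟩
  have hSC₁ : (S : Subgroup ↥(centralizer ((P : Subgroup G) : Set G))) ≤ C₁ := by
    rw [hC₁]
    intro s hs'
    rw [Subgroup.mem_centralizer_iff]
    intro t ht
    exact congrArg Subtype.val (hSc ⟨t, ht⟩ ⟨s, hs'⟩)
  have hPC₁ : (P : Subgroup G).subgroupOf (centralizer ((P : Subgroup G) : Set G)) ≤ C₁ := by
    rw [hC₁]
    intro a ha
    rw [Subgroup.mem_centralizer_iff]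
    intro t _
    exact hPcentral a ha t
  have hP'card : Nat.card ↥((P : Subgroup G).subgroupOf (centralizer ((P : Subgroup G) : Set G))) = 3 :=
    (Nat.card_congr (Subgroup.subgroupOfEquivOfLe (le_cent3 h3 P)).toEquiv).trans (h3 P)
  have hC₁21 : Nat.card C₁ = 21 := by
    apply le_antisymm
    · -- at most `21`
      let f : ↥((P : Subgroup G).subgroupOf (centralizer ((P : Subgroup G) : Set G))) × (S : Subgroup ↥(centralizer ((P : Subgroup G) : Set G))) → C₁ :=
        fun u => ⟨u.1.1 * u.2.1, C₁.mul_mem (hPC₁ u.1.2) (hSC₁ u.2.2)⟩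
      have hf : Function.Surjective f := by
        rintro ⟨c, hc⟩
        have hcomm : c * y = y * c := by
          have hyS' : y ∈ (S : Subgroup ↥(centralizer ((P : Subgroup G) : Set G))) := by rw [hyS]; exact y₀.2
          rw [hC₁] at hc
          exact (Subgroup.mem_centralizer_iff.mp hc y hyS').symm
        have hψc : ψ c * ψ y = ψ y * ψ c := by rw [← map_mul, ← map_mul, hcomm]
        have hne : Nonempty (YS P) := by
          have : 0 < Nat.card (YS P) := by rw [card_YS h22 h3 P]; norm_num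
          exact (Nat.card_pos_iff.mp this).1
        obtain ⟨z₀⟩ := hne
        obtain ⟨i, -, hi⟩ := (hs z₀).2 ((ψ c) z₀)
        have hall : ψ c = (ψ y) ^ i := by
          ext z
          obtain ⟨j, -, hj⟩ := (hs z₀).2 z
          rw [← hj]
          have h1 : ∀ j : ℕ, ψ c * (ψ y) ^ j = (ψ y) ^ j * ψ c := by
            intro j
            exact (Commute.pow_right hψc j)
          rw [← Equiv.Perm.mul_apply, h1, Equiv.Perm.mul_apply, ← hi, ← Equiv.Perm.mul_apply, ← Equiv.Perm.mul_apply,
            ← pow_add, ← pow_add, add_comm]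
        have hmem : (c * (y ^ i)⁻¹).1 ∈ (P : Subgroup G) := by
          apply mem_of_fix_YS h22 h3
          intro z
          have h1 : ψ (c * (y ^ i)⁻¹) = 1 := by
            rw [map_mul, map_inv, map_pow, hall, mul_inv_cancel]
          have := congrArg (fun e : Equiv.Perm (YS P) => e z) h1
          simpa [ψ] using this
        refine ⟨(⟨c * (y ^ i)⁻¹, hmem⟩, ⟨y ^ i, ?_⟩), ?_⟩
        · rw [hSz]
          exact Subgroup.npow_mem_zpowers y i
        · apply Subtype.ext
          show c * (y ^ i)⁻¹ * y ^ i = c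
          group
      have h1 := Nat.card_le_card_of_surjective f hf
      rw [Nat.card_prod, hP'card, hS7] at h1
      exact h1
    · -- at least `21`
      have h1 : 3 ∣ Nat.card C₁ := by
        have h0 := Subgroup.card_dvd_of_le hPC₁
        rwa [hP'card] at h0
      have h2 : 7 ∣ Nat.card C₁ := by
        have h0 := Subgroup.card_dvd_of_le hSC₁
        rwa [hS7] at h0
      have h4 : 3 * 7 ∣ Nat.card C₁ := Nat.Coprime.mul_dvd_of_dvd_of_dvd (by norm_num) h1 h2
      exact Nat.le_of_dvd Nat.card_pos h4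
  -- the normalizer
  have hScyc : IsCyclic (S : Subgroup ↥(centralizer ((P : Subgroup G) : Set G))) := by
    rw [hSz]
    infer_instance
  have hrel := relIndex_dvd_totient (S : Subgroup ↥(centralizer ((P : Subgroup G) : Set G))) hScyc
  rw [hS7, Nat.totient_prime (by norm_num), ← hC₁] at hrel
  obtain ⟨N₁, hN₁⟩ : ∃ N₁, N₁ = normalizer ((S : Subgroup ↥(centralizer ((P : Subgroup G) : Set G))) : Set ↥(centralizer ((P : Subgroup G) : Set G))) := ⟨_, rfl⟩
  rw [← hN₁] at hrel
  have hC₁N₁ : C₁ ≤ N₁ := by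
    rw [hC₁, hN₁]
    exact Subgroup.centralizer_le_normalizer _
  have hcardN := Struct.card_inf_mul_relIndex C₁ N₁
  rw [inf_of_le_left hC₁N₁, hC₁21] at hcardN
  obtain ⟨e, he⟩ : ∃ e, e = C₁.relIndex N₁ := ⟨_, rfl⟩
  rw [← he] at hrel hcardN
  have hindex := Subgroup.card_mul_index N₁
  have hidx : N₁.index = Nat.card (Sylow 7 ↥(centralizer ((P : Subgroup G) : Set G))) := by
    rw [hN₁]
    exact (Sylow.card_eq_index_normalizer S).symm
  rw [hidx, ← hcardN, hd] at hindex
  obtain ⟨n, hn⟩ : ∃ n, n = Nat.card (Sylow 7 ↥(centralizer ((P : Subgroup G) : Set G))) := ⟨_, rfl⟩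
  rw [← hn] at hindex
  have hmod : n % 7 = 1 := by
    have := card_sylow_modEq_one 7 ↥(centralizer ((P : Subgroup G) : Set G))
    rw [← hn] at this
    exact this
  have hd'eq : e * n = d' :=
    Nat.eq_of_mul_eq_mul_left (by norm_num : 0 < 21) (by rw [← mul_assoc, hindex]; ring)
  have he3 : ¬ 3 ∣ e := by
    intro h
    apply h3d
    rw [← hd'eq]
    exact Dvd.dvd.mul_left (Dvd.dvd.mul_right h _) _
  have he12 : e = 1 ∨ e = 2 := aux_e e hrel he3
  rcases he12 with rfl | rfl
  · exact ⟨n, by rw [← hd'eq, one_mul], hmod⟩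
  · exfalso
    -- an involution
    have h2N : 2 ∣ Nat.card N₁ := by
      rw [← hcardN]
      exact Dvd.intro_left _ rfl
    obtain ⟨v₀, hv₀⟩ := exists_prime_orderOf_dvd_card' (G := N₁) 2 h2N
    obtain ⟨v, hv⟩ : ∃ v, v = (v₀ : ↥(centralizer ((P : Subgroup G) : Set G))) := ⟨_, rfl⟩
    have hvo : orderOf v = 2 := by
      rw [hv, Subgroup.orderOf_coe, hv₀]
    have hv2 : v ^ 2 = 1 := by rw [← hvo]; exact pow_orderOf_eq_one v
    have hvN : v ∈ N₁ := by rw [hv]; exact v₀.2
    have hvC : v ∉ C₁ := by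
      intro hvC
      have h1 : orderOf v ∣ 21 := by
        rw [← hC₁21]
        exact Subgroup.orderOf_dvd_natCard C₁ hvC
      rw [hvo] at h1
      norm_num at h1
    have hyS' : y ∈ (S : Subgroup ↥(centralizer ((P : Subgroup G) : Set G))) := by rw [hyS]; exact y₀.2
    have hn1 : v * y * v⁻¹ ∈ zpowers y := by
      rw [← hSz]
      rw [hN₁] at hvN
      exact (Subgroup.mem_normalizer_iff.mp hvN y).mp hyS'
    have hn2 : v * y * v⁻¹ ≠ y := by
      intro h
      apply hvC
      rw [hC₁, Subgroup.mem_centralizer_iff]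
      intro s hs'
      rw [hSz] at hs'
      obtain ⟨k, rfl⟩ := mem_zpowers_iff.mp hs'
      have h1 : Commute v y := by
        rw [commute_iff_eq]
        rw [mul_inv_eq_iff_eq_mul] at h
        exact h
      exact (h1.zpow_right k).eq.symm
    have hinv := inverts_of_involution (by norm_num) (by norm_num) hy hv2 hn1 hn2
    exact inv_contra h22 h3 P v y hv2 hy hinv

theorem numeric22 {d e n : ℕ} (h560 : d ∣ 560) (h7 : 7 ∣ d → ∃ m, d = 7 * m ∧ m % 7 = 1) (h10 : e ∣ 10) (he1 : e ≠ 1)
    (hn : n * e = 12 * d) (hmod : n % 11 = 1) : n = 12 ∧ e = d ∧ (d = 2 ∨ d = 5 ∨ d = 10) := by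
  have hd : d ∈ Nat.divisors 560 := Nat.mem_divisors.mpr ⟨h560, by norm_num⟩
  have he : e ∈ Nat.divisors 10 := Nat.mem_divisors.mpr ⟨h10, by norm_num⟩
  rw [show Nat.divisors 560 = {1, 2, 4, 5, 7, 8, 10, 14, 16, 20, 28, 35, 40, 56, 70, 80, 112, 140, 280, 560} by decide] at hd
  rw [show Nat.divisors 10 = {1, 2, 5, 10} by decide] at he
  simp only [Finset.mem_insert, Finset.mem_singleton] at hd he
  rcases he with rfl | rfl | rfl | rfl
  · exact absurd rfl he1
  all_goals
    rcases hd with rfl | rfl | rfl | rfl | rfl | rfl | rfl | rfl | rfl | rfl | rfl | rfl | rfl | rfl | rfl | rfl | rfl | rfl | rfl | rfl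
    all_goals first
      | omega
      | (obtain ⟨m, hm, hm'⟩ := h7 (by norm_num); omega)

section Eleven

variable (h22 : Nat.card (Sylow 3 G) = 22) (h3 : ∀ P : Sylow 3 G, Nat.card (P : Subgroup G) = 3)
  {d : ℕ} (hG : Nat.card G = 132 * d) (h560 : d ∣ 560)

include h22 hG h560 in
theorem noFix11 {t : G} (ht : orderOf t = 11) (R : Sylow 3 G) : t • R ≠ R := by
  intro hfix
  have h1 : t ∈ normalizer ((R : Subgroup G) : Set G) := Sylow.smul_eq_iff_mem_normalizer.mp hfix
  have h2 : 11 ∣ Nat.card (normalizer ((R : Subgroup G) : Set G)) := by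
    have := Subgroup.orderOf_dvd_natCard _ h1
    rwa [ht] at this
  have h4 := Subgroup.card_mul_index (normalizer ((R : Subgroup G) : Set G))
  have h5 : (normalizer ((R : Subgroup G) : Set G)).index = 22 := by
    rw [← h22]
    exact (Sylow.card_eq_index_normalizer R).symm
  rw [h5, hG] at h4
  obtain ⟨k, hk⟩ := h2
  rw [hk] at h4
  have h6 : 11 ∣ d := by omega
  have h7 := h6.trans h560
  norm_num at h7

include h22 in
theorem two_orbits {t : G} (hsize : ∀ R : Sylow 3 G, Nat.card (orbit (zpowers t) R) = 11) {R₀ R : Sylow 3 G}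
    (hR : R ∉ orbit (zpowers t) R₀) (R' : Sylow 3 G) : R' ∈ orbit (zpowers t) R₀ ∨ R' ∈ orbit (zpowers t) R := by
  classical
  have hdisj : Disjoint (orbit (zpowers t) R₀) (orbit (zpowers t) R) := by
    rw [Set.disjoint_left]
    intro x hx hx'
    apply hR
    have h1 : orbit (zpowers t) x = orbit (zpowers t) R₀ := orbit_eq_iff.mpr hx
    have h2 : orbit (zpowers t) x = orbit (zpowers t) R := orbit_eq_iff.mpr hx'
    rw [← h1, h2]
    exact mem_orbit_self R
  have hcard : (orbit (zpowers t) R₀ ∪ orbit (zpowers t) R).ncard = 22 := by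
    rw [Set.ncard_union_eq hdisj (Set.toFinite _) (Set.toFinite _), ← Nat.card_coe_set_eq, ← Nat.card_coe_set_eq,
      hsize, hsize]
  have huniv : orbit (zpowers t) R₀ ∪ orbit (zpowers t) R = Set.univ := by
    apply Set.eq_of_subset_of_ncard_le (Set.subset_univ _)
    rw [hcard, Set.ncard_univ, h22]
  have : R' ∈ orbit (zpowers t) R₀ ∪ orbit (zpowers t) R := huniv ▸ Set.mem_univ R'
  exact this

theorem orbit_prime_size {X : Type*} [MulAction G X] {t : G} {p : ℕ} (hp : p.Prime) (ht : orderOf t = p) {x : X}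
    (hne : t • x ≠ x) : Nat.card (orbit (zpowers t) x) = p := by
  have h1 : Nat.card (orbit (zpowers t) x) = (stabilizer (zpowers t) x).index := by
    rw [Nat.card_coe_set_eq, index_stabilizer]
  have h2 : (stabilizer (zpowers t) x).index ∣ p := by
    have := Subgroup.index_dvd_card (stabilizer (zpowers t) x)
    rwa [Nat.card_zpowers, ht] at this
  rw [h1]
  rcases (Nat.dvd_prime hp).mp h2 with h | h
  · exfalso
    apply hne
    have h3 := Subgroup.index_eq_one.mp h
    have h4 : (⟨t, mem_zpowers t⟩ : zpowers t) ∈ stabilizer (zpowers t) x := by rw [h3]; trivial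
    exact h4
  · exact h

include h22 hG h560 in
/-- An element of prime order other than `11` cannot commute with an element of order `11`. -/
theorem no_comm11 {t c : G} (ht : orderOf t = 11) {r : ℕ} (hr : r.Prime) (hr11 : r ≠ 11) (hc : orderOf c = r)
    (hcomm : ∀ a ∈ zpowers t, c * a = a * c) : False := by
  classical
  haveI := Fintype.ofFinite (Sylow 3 G)
  have hna := n22_noncomm h22
  have hsize : ∀ R : Sylow 3 G, Nat.card (orbit (zpowers t) R) = 11 := fun R =>
    orbit_prime_size (by norm_num) ht (noFix11 h22 hG h560 ht R)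
  have hcomm' : ∀ (a : zpowers t) (R : Sylow 3 G), c • a • R = a • c • R := by
    intro a R
    show c • a.1 • R = a.1 • c • R
    rw [← mul_smul, ← mul_smul, hcomm a.1 a.2]
  by_cases hfix : ∃ R₀ : Sylow 3 G, c • R₀ = R₀
  · obtain ⟨R₀, hR₀⟩ := hfix
    have h11 : c ^ 11 = 1 := by
      apply faithful3 h22
      intro R
      by_cases hR : R ∈ orbit (zpowers t) R₀
      · obtain ⟨a, rfl⟩ := hR
        have h1 : c • (fun a : zpowers t => a • R₀) a = (fun a : zpowers t => a • R₀) a := by
          show c • a • R₀ = a • R₀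
          rw [hcomm', hR₀]
        have h2 : ∀ n : ℕ, c ^ n • (a • R₀) = a • R₀ := by
          intro n
          induction n with
          | zero => simp
          | succ n ih => rw [pow_succ', mul_smul, ih]; exact h1
        exact h2 11
      · have h1 : c • R ∉ orbit (zpowers t) R₀ := by
          intro h
          obtain ⟨a, ha⟩ := h
          have h2 : c • (c • R) = c • R := by
            have h3 : a • R₀ = c • R := ha
            rw [← h3, hcomm', hR₀]
          have h3 : c • R = R := smul_left_cancel c h2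
          apply hR
          rw [← h3]
          exact ⟨a, ha⟩
        rcases two_orbits h22 hsize hR (c • R) with h2 | h2
        · exact absurd h2 h1
        · obtain ⟨a, ha⟩ := h2
          have ha' : a • R = c • R := ha
          have h3 : ∀ n : ℕ, c ^ n • R = a ^ n • R := by
            intro n
            induction n with
            | zero => simp
            | succ n ih =>
              rw [pow_succ', mul_smul, ih]
              have h4 : ∀ (m : ℕ), c • ((a ^ m) • R) = (a ^ m) • c • R := fun m => hcomm' (a ^ m) R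
              rw [h4, ← ha', ← mul_smul, pow_succ]
          rw [h3 11]
          have h5 : a ^ 11 = 1 := by
            have := pow_card_eq_one' (G := zpowers t) (x := a)
            rwa [Nat.card_zpowers, ht] at this
          rw [h5, one_smul]
    have h1 : r ∣ 11 := by
      rw [← hc]
      exact orderOf_dvd_of_pow_eq_one h11
    rcases (Nat.dvd_prime (by norm_num : Nat.Prime 11)).mp h1 with h | h
    · exact hr.one_lt.ne h.symm
    · exact hr11 h
  · push_neg at hfix
    -- `c` has no fixed points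
    have h1 : r ∣ Nat.card (Sylow 3 G) :=
      Cfsg.Agent.Lib.PGroups.dvd_card_of_forall_orbit (A := zpowers c) r
        (fun R => by rw [orbit_prime_size hr hc (hfix R)])
    rw [h22] at h1
    have h2 : r = 2 := by
      have h4 : r ∣ 2 * 11 := h1
      rcases (Nat.Prime.dvd_mul hr).mp h4 with h | h
      · exact (Nat.prime_dvd_prime_iff_eq hr Nat.prime_two).mp h
      · exact absurd ((Nat.prime_dvd_prime_iff_eq hr (by norm_num)).mp h) hr11
    subst h2
    have hc2 : c ^ 2 = 1 := by rw [← hc]; exact pow_orderOf_eq_one c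
    refine no_odd_involution' (X := Sylow 3 G) hna c hc2 (f := 0) (k := 11) ?_ ?_ (by decide)
    · rw [Finset.card_eq_zero, Finset.filter_eq_empty_iff]
      intro R _
      exact hfix R
    · rw [← Nat.card_eq_fintype_card, h22]

end Eleven

theorem moves_of_card {l : ℕ} [Fact l.Prime] (h : 1 < Nat.card (Sylow l G)) : ∃ (g : G) (x : Sylow l G), g • x ≠ x := by
  obtain ⟨a⟩ : Nonempty (Sylow l G) := inferInstance
  haveI : Nontrivial (Sylow l G) := Finite.one_lt_card_iff_nontrivial.mp h
  obtain ⟨b, hb⟩ := exists_ne a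
  obtain ⟨g, rfl⟩ := MulAction.exists_smul_eq G a b
  exact ⟨g, a, hb⟩

/-- The case of order three is impossible. -/
theorem false_of_ord3 (h22 : Nat.card (Sylow 3 G) = 22) (h3 : ∀ P : Sylow 3 G, Nat.card (P : Subgroup G) = 3) : False := by
  classical
  haveI f11 : Fact (Nat.Prime 11) := ⟨by norm_num⟩
  haveI f5 : Fact (Nat.Prime 5) := ⟨by norm_num⟩
  haveI := Fintype.ofFinite (Sylow 11 G)
  have hna := n22_noncomm h22
  obtain ⟨P⟩ : Nonempty (Sylow 3 G) := inferInstance
  obtain ⟨d, hd, hG, h3d, hN⟩ := order3 h22 h3 P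
  have h560 := dvd_factorial3 h22 h3 P hd h3d
  have h7 : 7 ∣ d → ∃ m, d = 7 * m ∧ m % 7 = 1 := seven h22 h3 P hd h3d h560
  have h11d : ¬ 11 ∣ d := by
    intro h
    have := h.trans h560
    norm_num at this
  have h11m : ¬ 11 ∣ 12 * d := by
    intro h
    rcases (Nat.Prime.dvd_mul (by norm_num)).mp h with h | h
    · norm_num at h
    · exact h11d h
  let T : Sylow 11 G := default
  have hG11 : Nat.card G = 11 * (12 * d) := by rw [hG]; ring
  have hT : Nat.card (T : Subgroup G) = 11 := card_sylow_of_exact hG11 h11m T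
  obtain ⟨t₀, ht₀⟩ := exists_prime_orderOf_dvd_card' (G := (T : Subgroup G)) 11 (by rw [hT])
  obtain ⟨t, hts⟩ : ∃ t, t = (t₀ : G) := ⟨_, rfl⟩
  have ht : orderOf t = 11 := by rw [hts, Subgroup.orderOf_coe, ht₀]
  have htT : t ∈ (T : Subgroup G) := by rw [hts]; exact t₀.2
  have hTz : (T : Subgroup G) = zpowers t := by
    symm
    apply Subgroup.eq_of_le_of_card_ge
    · rw [Subgroup.zpowers_le]
      exact htT
    · rw [Nat.card_zpowers, ht, hT]
  -- the centralizer of `T`
  obtain ⟨Cn, hCn⟩ : ∃ Cn, Cn = centralizer ((T : Subgroup G) : Set G) := ⟨_, rfl⟩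
  obtain ⟨Nn, hNn⟩ : ∃ Nn, Nn = normalizer ((T : Subgroup G) : Set G) := ⟨_, rfl⟩
  have hTcyc : IsCyclic (T : Subgroup G) := by
    rw [hTz]
    infer_instance
  have hTCn : (T : Subgroup G) ≤ Cn := by
    rw [hCn]
    intro a ha
    rw [Subgroup.mem_centralizer_iff]
    intro b hb
    exact congrArg Subtype.val ((IsCyclic.isMulCommutative (α := (T : Subgroup G))).is_comm.comm ⟨b, hb⟩ ⟨a, ha⟩)
  have hCnN : Cn ≤ Nn := by
    rw [hCn, hNn]
    exact Subgroup.centralizer_le_normalizer _
  have hprime : ∀ {r : ℕ}, r.Prime → r ∣ Nat.card Cn → r = 11 := by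
    intro r hr hdvd
    by_contra hne
    haveI : Fact r.Prime := ⟨hr⟩
    obtain ⟨c₀, hc₀⟩ := exists_prime_orderOf_dvd_card' (G := Cn) r hdvd
    refine no_comm11 h22 hG h560 ht hr hne (c := c₀.1) (by rw [Subgroup.orderOf_coe, hc₀]) ?_
    intro a ha
    rw [← hTz] at ha
    have hmem : ∀ c ∈ Cn, a * c = c * a := by
      rw [hCn]
      intro c hc
      exact Subgroup.mem_centralizer_iff.mp hc a ha
    exact (hmem c₀.1 c₀.2).symm
  have hCncard : Nat.card Cn = 11 := by
    have h1 := Nat.eq_prime_pow_of_unique_prime_dvd (Nat.card_pos (α := Cn)).ne' hprime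
    obtain ⟨k, hk⟩ : ∃ k, k = (Nat.card Cn).primeFactorsList.length := ⟨_, rfl⟩
    rw [← hk] at h1
    have h2 : Nat.card Cn ∣ Nat.card G := Subgroup.card_subgroup_dvd_card _
    have h4 : 11 ∣ Nat.card Cn := by
      have := Subgroup.card_dvd_of_le hTCn
      rwa [hT] at this
    rcases k with _ | _ | k
    · rw [h1] at h4
      norm_num at h4
    · simpa using h1
    · exfalso
      apply h11m
      have h5 : 11 * 11 ∣ 11 * (12 * d) := by
        rw [← hG11]
        refine dvd_trans ?_ h2
        rw [h1, ← pow_two]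
        exact pow_dvd_pow 11 (by omega)
      exact (Nat.mul_dvd_mul_iff_left (by norm_num)).mp h5
  have hrel := relIndex_dvd_totient (T : Subgroup G) hTcyc
  rw [hT, Nat.totient_prime (by norm_num), ← hCn, ← hNn] at hrel
  have hrel1 : Cn.relIndex Nn ≠ 1 := by
    intro he
    apply not_normalizer_le hna T hT
    have := Subgroup.relIndex_eq_one.mp he
    rw [hCn, hNn] at this
    exact this
  have hcardN := Struct.card_inf_mul_relIndex Cn Nn
  rw [inf_of_le_left hCnN, hCncard] at hcardN
  obtain ⟨e, he⟩ : ∃ e, e = Cn.relIndex Nn := ⟨_, rfl⟩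
  rw [← he] at hrel hrel1 hcardN
  have hindex := Subgroup.card_mul_index Nn
  have hidx : Nn.index = Nat.card (Sylow 11 G) := by
    rw [hNn]
    exact (Sylow.card_eq_index_normalizer T).symm
  rw [hidx, ← hcardN, hG] at hindex
  obtain ⟨n, hn⟩ : ∃ n, n = Nat.card (Sylow 11 G) := ⟨_, rfl⟩
  rw [← hn] at hindex
  have hmod : n % 11 = 1 := by
    have := card_sylow_modEq_one 11 G
    rw [← hn] at this
    exact this
  have hne : n * e = 12 * d :=
    Nat.eq_of_mul_eq_mul_left (by norm_num : 0 < 11)
      (by calc 11 * (n * e) = 11 * e * n := by ring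
            _ = 132 * d := hindex
            _ = 11 * (12 * d) := by ring)
  obtain ⟨hn12, hed, hd3⟩ := numeric22 h560 h7 hrel hrel1 hne hmod
  have hn12' : Nat.card (Sylow 11 G) = 12 := by rw [← hn, hn12]
  have hmoves : ∃ (g : G) (x : Sylow 11 G), g • x ≠ x := moves_of_card (l := 11) (by rw [hn12']; norm_num)
  rcases hd3 with hd2 | hd5 | hd10
  · -- `d = 2`: an involution inverting `t` has two fixed points
    subst hd2
    subst hed
    have h2N : 2 ∣ Nat.card Nn := by rw [← hcardN]; norm_num
    obtain ⟨w₀, hw₀⟩ := exists_prime_orderOf_dvd_card' (G := Nn) 2 h2N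
    have hw : orderOf w₀.1 = 2 := by rw [Subgroup.orderOf_coe, hw₀]
    have hw2 : w₀.1 ^ 2 = 1 := by rw [← hw]; exact pow_orderOf_eq_one _
    have hwC : w₀.1 ∉ Cn := by
      intro h
      have h1 : orderOf w₀.1 ∣ 11 := by
        rw [← hCncard]
        exact Subgroup.orderOf_dvd_natCard Cn h
      rw [hw] at h1
      norm_num at h1
    have hNmem : ∀ g ∈ Nn, g * t * g⁻¹ ∈ zpowers t := by
      intro g hg
      rw [hNn] at hg
      rw [← hTz]
      exact (Subgroup.mem_normalizer_iff.mp hg t).mp htT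
    have hn2 : w₀.1 * t * w₀.1⁻¹ ≠ t := by
      intro h
      apply hwC
      rw [hCn, Subgroup.mem_centralizer_iff]
      intro s hs
      rw [hTz] at hs
      obtain ⟨k, rfl⟩ := mem_zpowers_iff.mp hs
      have h1 : Commute w₀.1 t := by
        rw [commute_iff_eq]
        rw [mul_inv_eq_iff_eq_mul] at h
        exact h
      exact (h1.zpow_right k).eq.symm
    have hinv := inverts_of_involution (by norm_num) (by norm_num) ht hw2 (hNmem _ w₀.2) hn2
    -- the action on the other Sylow subgroups
    have htN : t ∈ normalizer ((T : Subgroup G) : Set G) := Subgroup.le_normalizer htT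
    have hwN : w₀.1 ∈ normalizer ((T : Subgroup G) : Set G) := hNn ▸ w₀.2
    let φ := MulAction.toPermHom ↥(normalizer ((T : Subgroup G) : Set G)) (XS T)
    let t' : ↥(normalizer ((T : Subgroup G) : Set G)) := ⟨t, htN⟩
    let w' : ↥(normalizer ((T : Subgroup G) : Set G)) := ⟨w₀.1, hwN⟩
    have hXcard : Nat.card (XS T) = 11 := card_XS T hn12'
    have hmoved : ∀ R : XS T, t • R.1 ≠ R.1 := by
      intro R hR
      apply R.2
      have h1 : t ∈ normalizer (((R.1 : Sylow 11 G) : Subgroup G) : Set G) := Sylow.smul_eq_iff_mem_normalizer.mp hR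
      have hzp : IsPGroup 11 (zpowers t) := by
        rw [IsPGroup.iff_card, Nat.card_zpowers, ht]
        exact ⟨1, by norm_num⟩
      have h2 : t ∈ zpowers t ⊓ normalizer (((R.1 : Sylow 11 G) : Subgroup G) : Set G) := ⟨mem_zpowers t, h1⟩
      have h2' : zpowers t ⊓ normalizer (((R.1 : Sylow 11 G) : Subgroup G) : Set G) = zpowers t ⊓ (R.1 : Subgroup G) :=
        hzp.inf_normalizer_sylow R.1
      rw [h2'] at h2
      have h3 : (T : Subgroup G) ≤ R.1 := by
        rw [hTz, Subgroup.zpowers_le]
        exact h2.2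
      exact (Sylow.ext (Subgroup.eq_of_le_of_card_ge h3 (Nat.card_congr (Sylow.equiv R.1 T).toEquiv).le)).symm
    have hη : orderOf (φ t') = 11 := by
      apply orderOf_eq_prime
      · rw [← map_pow]
        have : t' ^ 11 = 1 := by
          apply Subtype.ext
          show t ^ 11 = 1
          rw [← ht]
          exact pow_orderOf_eq_one t
        rw [this, map_one]
      · intro h1
        have hne' : Nonempty (XS T) := by
          have : 0 < Nat.card (XS T) := by rw [hXcard]; norm_num
          exact (Nat.card_pos_iff.mp this).1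
        obtain ⟨R⟩ := hne'
        have h2 := congrArg (fun e : Equiv.Perm (XS T) => e R) h1
        exact hmoved R (congrArg Subtype.val h2)
    have hν : (φ w') ^ 2 = 1 := by
      rw [← map_pow]
      have : w' ^ 2 = 1 := Subtype.ext hw2
      rw [this, map_one]
    have hinvp : φ w' * φ t' * (φ w')⁻¹ = (φ t')⁻¹ := by
      rw [← map_inv, ← map_mul, ← map_mul, ← map_inv]
      congr 1
      exact Subtype.ext hinv
    obtain ⟨a, ha, hu⟩ := inv_unique_fixed (by norm_num) (by norm_num) hXcard (φ t') (φ w') hη hν hinvp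
    have hF : Finset.univ.filter (fun R : Sylow 11 G => w₀.1 • R = R) = {T, a.1} := by
      ext R
      rw [Finset.mem_filter, Finset.mem_insert, Finset.mem_singleton]
      constructor
      · rintro ⟨-, hR⟩
        by_cases hRT : R = T
        · exact Or.inl hRT
        · right
          have h1 : (φ w') ⟨R, hRT⟩ = ⟨R, hRT⟩ := Subtype.ext hR
          exact congrArg Subtype.val (hu _ h1)
      · rintro (rfl | rfl)
        · exact ⟨Finset.mem_univ _, fix_norm _ _ hwN⟩
        · exact ⟨Finset.mem_univ _, congrArg Subtype.val ha⟩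
    refine no_odd_involution' (X := Sylow 11 G) hna w₀.1 hw2 (f := 2) (k := 5) ?_ ?_ (by decide)
    · rw [hF, Finset.card_pair (fun h => a.2 h.symm)]
    · rw [← Nat.card_eq_fintype_card, hn12']
  all_goals
    -- `5 ∣ d`: an element of order five in the centralizer of `P`
    have h5d : 5 ∣ d := by omega
    have h5C : 5 ∣ Nat.card (centralizer ((P : Subgroup G) : Set G)) := by
      rw [hd]
      exact Dvd.dvd.mul_left h5d _
    obtain ⟨w₀, hw₀⟩ := exists_prime_orderOf_dvd_card' (G := centralizer ((P : Subgroup G) : Set G)) 5 h5C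
    have hw : orderOf w₀.1 = 5 := by rw [Subgroup.orderOf_coe, hw₀]
    obtain ⟨x₀, hx₀⟩ := exists_prime_orderOf_dvd_card' (G := (P : Subgroup G)) 3 (by rw [h3 P])
    have hx : orderOf x₀.1 = 3 := by rw [Subgroup.orderOf_coe, hx₀]
    have hwx : Commute x₀.1 w₀.1 := Subgroup.mem_centralizer_iff.mp w₀.2 x₀.1 x₀.2
    have hp5 : IsPGroup 5 (zpowers w₀.1) := by
      rw [IsPGroup.iff_card, Nat.card_zpowers, hw]
      exact ⟨1, by norm_num⟩
    have hmodF := hp5.card_modEq_card_fixedPoints (Sylow 11 G)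
    rw [hn12'] at hmodF
    have hxz : ∀ z : Sylow 11 G, x₀.1 • z ≠ z := by
      intro z hz
      have h1 : x₀.1 ∈ normalizer (((z : Sylow 11 G) : Subgroup G) : Set G) := Sylow.smul_eq_iff_mem_normalizer.mp hz
      have h2 : 3 ∣ Nat.card (normalizer (((z : Sylow 11 G) : Subgroup G) : Set G)) := by
        have := Subgroup.orderOf_dvd_natCard _ h1
        rwa [hx] at this
      have h4 := Subgroup.card_mul_index (normalizer (((z : Sylow 11 G) : Subgroup G) : Set G))
      have h5 : (normalizer (((z : Sylow 11 G) : Subgroup G) : Set G)).index = 12 := by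
        rw [← hn12']
        exact (Sylow.card_eq_index_normalizer z).symm
      rw [h5, hG] at h4
      obtain ⟨k, hk⟩ := h2
      rw [hk] at h4
      omega
    have h3F : 3 ∣ Nat.card {z : Sylow 11 G // z ∈ fixedPoints (zpowers w₀.1) (Sylow 11 G)} := by
      apply Cfsg.Agent.Lib.PGroups.dvd_card_subtype_of_orbit (A := zpowers x₀.1)
      · rintro ⟨a, ha⟩ z hz ⟨u, hu⟩
        obtain ⟨i, rfl⟩ := mem_zpowers_iff.mp ha
        obtain ⟨j, rfl⟩ := mem_zpowers_iff.mp hu
        show w₀.1 ^ j • x₀.1 ^ i • z = x₀.1 ^ i • z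
        rw [← mul_smul, ((hwx.zpow_zpow i j).eq).symm, mul_smul]
        have h1 := hz ⟨w₀.1 ^ j, ⟨j, rfl⟩⟩
        have h2 : w₀.1 ^ j • z = z := h1
        rw [h2]
      · intro z _
        rw [orbit_prime_size Nat.prime_three hx (hxz z)]
    have hle : Nat.card {z : Sylow 11 G // z ∈ fixedPoints (zpowers w₀.1) (Sylow 11 G)} ≤ 12 := by
      rw [← hn12']
      exact Nat.card_le_card_of_injective _ Subtype.val_injective
    have hF12 : Nat.card {z : Sylow 11 G // z ∈ fixedPoints (zpowers w₀.1) (Sylow 11 G)} = 12 := by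
      have h1 : 12 % 5 = Nat.card (fixedPoints (zpowers w₀.1) (Sylow 11 G)) % 5 := hmodF
      have h2 : Nat.card (fixedPoints (zpowers w₀.1) (Sylow 11 G)) = Nat.card {z : Sylow 11 G // z ∈ fixedPoints (zpowers w₀.1) (Sylow 11 G)} := rfl
      omega
    have hall : ∀ z : Sylow 11 G, w₀.1 • z = z := by
      intro z
      have h1 : Function.Bijective (Subtype.val : {z : Sylow 11 G // z ∈ fixedPoints (zpowers w₀.1) (Sylow 11 G)} → Sylow 11 G) := by
        rw [Nat.bijective_iff_injective_and_card]
        exact ⟨Subtype.val_injective, by rw [hF12, hn12']⟩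
      obtain ⟨z', rfl⟩ := h1.2 z
      exact z'.2 ⟨w₀.1, mem_zpowers _⟩
    have h1 := faithful_of_ne_top hmoves hall
    rw [h1, orderOf_one] at hw
    omega

end Ord3

end Cfsg.Agent.Lib.Struct.N22
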