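import Mathlib
import Cfsg.Agent.Lib.Struct.N22Ord3
import Cfsg.Agent.Lib.Struct.MetaIndex
import Cfsg.Agent.Lib.Basic.Glauberman
import Cfsg.Agent.Lib.PGroups.Wielandt
import Cfsg.Agent.Lib.Struct.Basic

/-!
# No finite group has exactly twenty-two Sylow 3-subgroups
-/

set_option autoImplicit false

namespace Cfsg.Agent.Lib.Struct.N22

open Subgroup MulAction
open scoped Pointwise

universe u

section aux

variable {G : Type u} [Group G] [Finite G]

/-- A normal subgroup in all normalisers of Sylow 3-subgroups: passing to the quotient keeps their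
number. -/
theorem card_sylow_quotient (N : Subgroup G) [N.Normal]
    (hN : ∀ R : Sylow 3 G, N ≤ normalizer ((R : Subgroup G) : Set G)) :
    Nat.card (Sylow 3 (G ⧸ N)) = Nat.card (Sylow 3 G) := by
  have hf : Function.Surjective (QuotientGroup.mk' N) := QuotientGroup.mk'_surjective N
  symm
  refine Nat.card_congr (Equiv.ofBijective (Sylow.mapSurjective hf) ⟨?_, Sylow.mapSurjective_surjective hf 3⟩)
  intro P Q hPQ
  have h1 : (P : Subgroup G).map (QuotientGroup.mk' N) = (Q : Subgroup G).map (QuotientGroup.mk' N) := by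
    have := congrArg (fun S : Sylow 3 (G ⧸ N) => (S : Subgroup (G ⧸ N))) hPQ
    simpa using this
  have h2 : (P : Subgroup G) ≤ normalizer ((Q : Subgroup G) : Set G) := by
    intro x hx
    have hm : QuotientGroup.mk' N x ∈ (Q : Subgroup G).map (QuotientGroup.mk' N) :=
      h1 ▸ Subgroup.mem_map_of_mem _ hx
    obtain ⟨q, hq, hqx⟩ := hm
    have hk : q⁻¹ * x ∈ N := QuotientGroup.eq.mp hqx
    have : x = q * (q⁻¹ * x) := by group
    rw [this]
    exact (normalizer _).mul_mem (Subgroup.le_normalizer hq) (hN Q hk)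
  have h3 : (P : Subgroup G) ≤ Q := by
    have h4 : (P : Subgroup G) ⊓ normalizer ((Q : Subgroup G) : Set G) = (P : Subgroup G) ⊓ Q :=
      P.isPGroup'.inf_normalizer_sylow Q
    intro x hx
    have h5 : x ∈ (P : Subgroup G) ⊓ normalizer ((Q : Subgroup G) : Set G) := ⟨hx, h2 hx⟩
    rw [h4] at h5
    exact h5.2
  exact eq_of_le h3

/-- The orbit of a Sylow 3-subgroup `P` under a subgroup normalised by `P` has size `1 mod 3`. -/
theorem orbit_mod3 (H : Subgroup G) (P : Sylow 3 G)
    (hP : (P : Subgroup G) ≤ normalizer ((H : Subgroup G) : Set G)) :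
    Nat.card (orbit H P) % 3 = 1 := by
  classical
  have hd : 3 ∣ Nat.card {R : Sylow 3 G // R ∈ orbit H P ∧ R ≠ P} := by
    apply PGroups.dvd_card_subtype_of_orbit (A := (P : Subgroup G)) (fun R : Sylow 3 G => R ∈ orbit H P ∧ R ≠ P)
    · rintro ⟨a, ha⟩ R ⟨⟨h, rfl⟩, hne⟩
      have hfix : ∀ b ∈ (P : Subgroup G), b • P = P := fun b hb => (smul_fix_iff' P hb P).2 hb
      refine ⟨?_, ?_⟩
      · have hmem : a * (h : G) * a⁻¹ ∈ H := by
          have := (mem_normalizer_iff.1 (hP ha) (h : G)).1 h.2
          exact this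
        refine ⟨⟨_, hmem⟩, ?_⟩
        show (a * (h : G) * a⁻¹) • P = a • (h : G) • P
        rw [mul_smul, mul_smul]
        congr 2
        rw [inv_smul_eq_iff]
        exact (hfix a ha).symm
      · intro he
        apply hne
        have he' : a • ((h : G) • P) = P := he
        have h2 : (h : G) • P = a⁻¹ • P := by
          rw [← he', inv_smul_smul, he']
        show (h : G) • P = P
        rw [h2]
        exact hfix a⁻¹ (inv_mem ha)
    · rintro R ⟨-, hne⟩
      obtain ⟨k, hk⟩ := IsPGroup.card_orbit P.isPGroup' R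
      rw [hk]
      rcases k with _ | k
      · exfalso
        apply hne
        have h1 := orbit_card_mul P R
        rw [hk, pow_zero, one_mul] at h1
        have h2 : (P : Subgroup G) ⊓ R = P :=
          Subgroup.eq_of_le_of_card_ge inf_le_left h1.ge
        have h3 : (P : Subgroup G) ≤ R := inf_eq_left.1 h2
        exact (eq_of_le h3).symm
      · exact Dvd.intro_left _ (by rw [pow_succ])
  have h1 : (orbit H P \ {P}).ncard + 1 = (orbit H P).ncard :=
    Set.ncard_diff_singleton_add_one (mem_orbit_self P)
  have h2 : Nat.card {R : Sylow 3 G // R ∈ orbit H P ∧ R ≠ P} = (orbit H P \ {P}).ncard := by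
    rw [← Nat.card_coe_set_eq]
    rfl
  rw [h2] at hd
  rw [Nat.card_coe_set_eq, ← h1]
  omega

end aux

section main

variable {G : Type u} [Group G] [Finite G]

/-- No proper nontrivial normal subgroup in the minimal counterexample. -/
theorem no_proper (h22 : Nat.card (Sylow 3 G) = 22)
    (hK : ∀ (N : Subgroup G) [N.Normal], N ≠ ⊥ → ¬ ∀ R : Sylow 3 G, N ≤ normalizer ((R : Subgroup G) : Set G))
    (N : Subgroup G) [hNn : N.Normal] (hbot : N ≠ ⊥) (hih : Nat.card (Sylow 3 N) ≠ 22) : False := by
  classical
  haveI f11 : Fact (Nat.Prime 11) := ⟨by norm_num⟩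
  obtain ⟨P₀⟩ : Nonempty (Sylow 3 N) := inferInstance
  obtain ⟨P, hP⟩ := Sylow.exists_comap_subtype_eq P₀
  have hidx : (normalizer ((P : Subgroup G) : Set G)).index = 22 := by
    have := Sylow.card_eq_index_normalizer P
    rw [h22] at this
    exact this.symm
  -- the number of Sylow 3-subgroups of N
  have hn3 : Nat.card (Sylow 3 N) ∣ 22 := by
    have h1 : Nat.card (Sylow 3 N) = (normalizer ((P₀ : Subgroup N) : Set N)).index :=
      Sylow.card_eq_index_normalizer P₀
    have hle : (normalizer ((P : Subgroup G) : Set G)).subgroupOf N ≤ normalizer ((P₀ : Subgroup N) : Set N) := by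
      intro a ha
      rw [Subgroup.mem_subgroupOf] at ha
      rw [mem_normalizer_iff]
      intro x
      have hP' : ∀ y : N, y ∈ (P₀ : Subgroup N) ↔ (y : G) ∈ (P : Subgroup G) := by
        intro y
        rw [← hP]
        rfl
      show x ∈ (P₀ : Subgroup N) ↔ a * x * a⁻¹ ∈ (P₀ : Subgroup N)
      rw [hP', hP']
      exact mem_normalizer_iff.1 ha (x : G)
    rw [h1]
    have h2 := Subgroup.index_dvd_of_le hle
    have h3 := Struct.MetaIndex.relIndex_dvd_index_of_normal' (normalizer ((P : Subgroup G) : Set G)) N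
    rw [hidx] at h3
    exact h2.trans h3
  have hmod : Nat.card (Sylow 3 N) % 3 = 1 := by
    have := card_sylow_modEq_one 3 N
    exact this
  have hcases : Nat.card (Sylow 3 N) = 1 := by
    have hle : Nat.card (Sylow 3 N) ≤ 22 := Nat.le_of_dvd (by norm_num) hn3
    interval_cases h : Nat.card (Sylow 3 N) <;> omega
  -- so P₀ is normal and characteristic
  have hnotdvd : ¬ 3 ∣ Nat.card N := by
    have hsub : Subsingleton (Sylow 3 N) := (Nat.card_eq_one_iff_unique.1 hcases).1
    have hnP₀ : (P₀ : Subgroup N).Normal := by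
      have h1 : (normalizer ((P₀ : Subgroup N) : Set N)).index = 1 := by
        have h2 := Sylow.card_eq_index_normalizer P₀
        rw [hcases] at h2
        exact h2.symm
      rw [Subgroup.index_eq_one] at h1
      exact Subgroup.normalizer_eq_top_iff.1 h1
    haveI := hnP₀
    haveI hch : (P₀ : Subgroup N).Characteristic := Sylow.characteristic_of_normal P₀ hnP₀
    haveI hnT : ((P₀ : Subgroup N).map N.subtype).Normal := inferInstance
    have hpT : IsPGroup 3 ((P₀ : Subgroup N).map N.subtype) := P₀.isPGroup'.map N.subtype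
    have hT : (P₀ : Subgroup N).map N.subtype = ⊥ := by
      by_contra hne
      apply hK _ hne
      intro R
      exact (hpT.le_sylow_of_normal R).trans (Subgroup.le_normalizer)
    have hP₀ : (P₀ : Subgroup N) = ⊥ := by
      rwa [Subgroup.map_eq_bot_iff_of_injective _ N.subtype_injective] at hT
    have h1 := P₀.not_dvd_index
    rw [hP₀, Subgroup.index_bot] at h1
    exact h1
  -- P is coprime to N
  have hPN : (P : Subgroup G) ≤ normalizer (N : Set G) := by
    rw [Subgroup.normalizer_eq_top_iff.2 hNn]
    exact le_top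
  obtain ⟨k, hk⟩ := IsPGroup.iff_card.1 P.isPGroup'
  have hcop : (Nat.card (P : Subgroup G)).Coprime (Nat.card N) := by
    rw [hk]
    exact Nat.Coprime.pow_left k ((Nat.Prime.coprime_iff_not_dvd Nat.prime_three).2 hnotdvd)
  -- the orbit of P under N
  have hs1 := orbit_mod3 N P hPN
  have hstab : stabilizer N P = (normalizer ((P : Subgroup G) : Set G)).subgroupOf N := by
    ext a
    rw [mem_stabilizer_iff, Subgroup.mem_subgroupOf]
    show (a : G) • P = P ↔ _
    rw [Sylow.smul_eq_iff_mem_normalizer]
    rfl
  have hs2 : Nat.card (orbit N P) = ((normalizer ((P : Subgroup G) : Set G)).subgroupOf N).index := by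
    rw [← hstab, index_stabilizer, Nat.card_coe_set_eq]
  have hs3 : Nat.card (orbit N P) ∣ 22 := by
    rw [hs2, ← hidx]
    exact Struct.MetaIndex.relIndex_dvd_index_of_normal' _ N
  have hs4 : Nat.card (orbit N P) = 1 ∨ Nat.card (orbit N P) = 22 := by
    have hle : Nat.card (orbit N P) ≤ 22 := Nat.le_of_dvd (by norm_num) hs3
    generalize Nat.card (orbit N P) = s at *
    interval_cases s <;> omega
  rcases hs4 with hs | hs
  · -- N normalises P, hence every conjugate
    apply hK N hbot
    intro R
    obtain ⟨g, rfl⟩ := MulAction.exists_smul_eq G P R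
    have hN1 : N ≤ normalizer ((P : Subgroup G) : Set G) := by
      intro x hx
      have h1 : ((normalizer ((P : Subgroup G) : Set G)).subgroupOf N).index = 1 := by
        rw [← hs2, hs]
      rw [Subgroup.index_eq_one] at h1
      have h2 : (⟨x, hx⟩ : N) ∈ (normalizer ((P : Subgroup G) : Set G)).subgroupOf N := by
        rw [h1]; trivial
      exact Subgroup.mem_subgroupOf.1 h2
    intro x hx
    have hx' : g⁻¹ * x * g ∈ N := by
      have := hNn.conj_mem x hx g⁻¹
      simpa using this
    have hm := hN1 hx'
    have hm' : (g⁻¹ * x * g) • P = P := Sylow.smul_eq_iff_mem_normalizer.2 hm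
    have : x • g • P = g • (g⁻¹ * x * g) • P := by
      rw [← mul_smul, ← mul_smul]
      congr 1
      group
    have hres : x • g • P = g • P := by
      rw [this, hm']
    exact Sylow.smul_eq_iff_mem_normalizer.1 hres
  · -- eleven
    have h11 : 11 ∣ Nat.card N := by
      have h1 : 22 ∣ Nat.card N := by
        rw [← hs, hs2]
        exact Subgroup.index_dvd_card _
      exact dvd_trans (by norm_num) h1
    have hsolv : Group.IsSolvable (P : Subgroup G) := by
      haveI := P.isPGroup'.isNilpotent
      infer_instance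
    obtain ⟨T₀, hT₀⟩ := Basic.exists_invariant_sylow hPN hcop (Or.inl hsolv) 11
    have hm := orbit_mod3 ((T₀ : Subgroup N).map N.subtype) P hT₀
    have hpT : IsPGroup 11 ((T₀ : Subgroup N).map N.subtype) := T₀.isPGroup'.map N.subtype
    obtain ⟨j, hj⟩ := IsPGroup.card_orbit hpT P
    have hle : Nat.card (orbit ((T₀ : Subgroup N).map N.subtype) P) ≤ 22 := by
      rw [Nat.card_coe_set_eq, ← h22]
      exact Set.ncard_le_card _
    have hone : Nat.card (orbit ((T₀ : Subgroup N).map N.subtype) P) = 1 := by
      rw [hj] at hle hm ⊢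
      rcases j with _ | _ | j
      · simp
      · norm_num at hm
      · exfalso
        have h2 : 121 ≤ 11 ^ (j + 2) := by
          calc 121 = 11 ^ 2 := by norm_num
            _ ≤ 11 ^ (j + 2) := Nat.pow_le_pow_right (by norm_num) (by omega)
        omega
    have hfix : ∀ x ∈ (T₀ : Subgroup N).map N.subtype, x • P = P := by
      intro x hx
      have h1 : Nat.card (orbit ((T₀ : Subgroup N).map N.subtype) P) = 1 := hone
      rw [Nat.card_coe_set_eq] at h1
      have hx' : (⟨x, hx⟩ : ((T₀ : Subgroup N).map N.subtype)) • P ∈ orbit ((T₀ : Subgroup N).map N.subtype) P :=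
        mem_orbit _ _
      obtain ⟨a, ha⟩ := Set.ncard_eq_one.1 h1
      rw [ha] at hx'
      have hself : P ∈ orbit ((T₀ : Subgroup N).map N.subtype) P := mem_orbit_self P
      rw [ha] at hself
      have h3 : x • P = a := hx'
      rw [h3]
      exact hself.symm
    have hle2 : (T₀ : Subgroup N) ≤ (normalizer ((P : Subgroup G) : Set G)).subgroupOf N := by
      intro a ha
      exact Subgroup.mem_subgroupOf.2 (Sylow.smul_eq_iff_mem_normalizer.1 (hfix _ (Subgroup.mem_map_of_mem _ ha)))
    have hnd := Struct.not_dvd_index_of_sylow_le T₀ hle2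
    apply hnd
    rw [← hs2, hs]
    norm_num

theorem main_aux : ∀ (n : ℕ) (G : Type u) [Group G] [Finite G], Nat.card G = n →
    Nat.card (Sylow 3 G) ≠ 22 := by
  intro n
  induction n using Nat.strong_induction_on with
  | _ n ih =>
  intro G _ _ hcard h22
  have hK : ∀ (N : Subgroup G) [N.Normal], N ≠ ⊥ → ¬ ∀ R : Sylow 3 G, N ≤ normalizer ((R : Subgroup G) : Set G) := by
    intro N _ hne hN
    have h := card_sylow_quotient N hN
    have hlt : Nat.card (G ⧸ N) < n := by
      rw [← hcard]
      have h1 := Subgroup.card_eq_card_quotient_mul_card_subgroup N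
      have h2 : 1 < Nat.card N := by
        rw [Finite.one_lt_card_iff_nontrivial]
        exact (Subgroup.nontrivial_iff_ne_bot N).2 hne
      have h3 : 0 < Nat.card (G ⧸ N) := Nat.card_pos
      rw [h1]
      nlinarith
    exact ih _ hlt (G ⧸ N) rfl (h.trans h22)
  have hnt : Nontrivial G := by
    by_contra hnt
    rw [not_nontrivial_iff_subsingleton] at hnt
    have h1 : Nat.card (Sylow 3 G) = 1 := by
      have h2 : Nat.card (Sylow 3 G) % 3 = 1 := card_sylow_modEq_one 3 G
      have h3 : Nat.card (Sylow 3 G) ≤ 1 := by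
        haveI : Subsingleton (Sylow 3 G) := ⟨fun P Q => Sylow.ext (Subsingleton.elim _ _)⟩
        exact Finite.card_le_one_iff_subsingleton.2 this
      omega
    omega
  haveI hsimple : IsSimpleGroup G := by
    refine ⟨fun N hN => ?_⟩
    by_contra hcon
    push_neg at hcon
    obtain ⟨hb, ht⟩ := hcon
    haveI := hN
    refine no_proper h22 hK N hb ?_
    refine ih _ ?_ N rfl
    rw [← hcard]
    have h1 := Subgroup.index_mul_card N
    have h2 : N.index ≠ 1 := fun h => ht (Subgroup.index_eq_one.1 h)
    have h3 : N.index ≠ 0 := Subgroup.index_ne_zero_of_finite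
    have h4 : 0 < Nat.card N := Nat.card_pos
    have h5 : 2 ≤ N.index := by omega
    rw [← h1]
    nlinarith
  exact false_of_ord3 h22 (card_three h22)

end main

end Cfsg.Agent.Lib.Struct.N22
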