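import Mathlib

set_option autoImplicit false

namespace Cfsg.Agent.Lib.Struct.Off

open Polynomial

section LA

variable {p : ℕ} [hp : Fact p.Prime]
variable {M : Type*} [AddCommGroup M] [Module (ZMod p) M] [Module.Finite (ZMod p) M]

theorem sub_one_pow_char (σ : Module.End (ZMod p) M) (j : ℕ) :
    (σ - 1) ^ (p ^ j) = σ ^ (p ^ j) - 1 := by
  have h : ((X - 1 : (ZMod p)[X])) ^ (p ^ j) = X ^ (p ^ j) - 1 := by
    rw [sub_pow_char_pow, one_pow]
  have := congrArg (fun f : (ZMod p)[X] => aeval σ f) h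
  simpa using this

theorem range_strict (n : Module.End (ZMod p) M) (hn : IsNilpotent n) (j : ℕ) (h : n ^ j ≠ 0) :
    Module.finrank (ZMod p) (LinearMap.range (n ^ (j + 1))) <
      Module.finrank (ZMod p) (LinearMap.range (n ^ j)) := by
  have hle : LinearMap.range (n ^ (j + 1)) ≤ LinearMap.range (n ^ j) := by
    rw [pow_succ]
    exact LinearMap.range_comp_le_range _ _
  by_contra hc
  push_neg at hc
  have heq : LinearMap.range (n ^ (j + 1)) = LinearMap.range (n ^ j) :=
    Submodule.eq_of_le_of_finrank_le hle hc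
  have hall : ∀ i : ℕ, LinearMap.range (n ^ (j + i)) = LinearMap.range (n ^ j) := by
    intro i
    induction i with
    | zero => rfl
    | succ i ih =>
      have h1 : n ^ (j + (i + 1)) = n * n ^ (j + i) := by
        rw [← add_assoc, pow_succ']
      have h2 : n ^ (j + 1) = n * n ^ j := pow_succ' n j
      have h3 : LinearMap.range (n ^ (j + (i + 1))) = (LinearMap.range (n ^ (j + i))).map n := by
        rw [h1]
        exact LinearMap.range_comp _ _
      have h4 : LinearMap.range (n ^ (j + 1)) = (LinearMap.range (n ^ j)).map n := by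
        rw [h2]
        exact LinearMap.range_comp _ _
      rw [h3, ih, ← h4, heq]
  obtain ⟨m, hm⟩ := hn
  have h5 := hall m
  rw [pow_add, hm, mul_zero, LinearMap.range_zero] at h5
  apply h
  exact LinearMap.range_eq_bot.mp h5.symm

theorem rank_pow_le (n : Module.End (ZMod p) M) (hn : IsNilpotent n) (j : ℕ) (hj : 1 ≤ j)
    (h : n ^ j ≠ 0) :
    Module.finrank (ZMod p) (LinearMap.range (n ^ j)) + j ≤
      Module.finrank (ZMod p) (LinearMap.range n) + 1 := by
  induction j, hj using Nat.le_induction with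
  | base => rw [pow_one]
  | succ j hj ih =>
    have h1 : n ^ j ≠ 0 := by
      intro hc
      apply h
      rw [pow_succ, hc, zero_mul]
    have h2 := range_strict n hn j h1
    have h3 := ih h1
    omega

theorem sq_zero_of_rank_one (ν : Module.End (ZMod p) M) (hν : IsNilpotent ν)
    (h : Module.finrank (ZMod p) (LinearMap.range ν) = 1) : ν * ν = 0 := by
  by_contra hc
  have h1 : ν ^ 1 ≠ 0 := by
    rw [pow_one]
    intro h0
    rw [h0, mul_zero] at hc
    exact hc rfl
  have h2 := range_strict ν hν 1 h1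
  rw [pow_one, h] at h2
  have h3 : Module.finrank (ZMod p) (LinearMap.range (ν ^ (1 + 1))) = 0 := by omega
  have h4 : LinearMap.range (ν ^ (1 + 1)) = ⊥ := Submodule.finrank_eq_zero.mp h3
  apply hc
  have h5 := LinearMap.range_eq_bot.mp h4
  rwa [pow_two] at h5

end LA

section Orbit

variable {p : ℕ} [hp : Fact p.Prime]
variable {M : Type*} [AddCommGroup M] [Module (ZMod p) M] [Finite M]

/-- Orbit count for two transvections. -/
theorem orbit_count {G' : Type*} [Group G'] [Finite G'] (ρ' : Representation (ZMod p) G' M)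
    (t t' : G') (ν ν' : Module.End (ZMod p) M) (ht : ρ' t = 1 + ν) (ht' : ρ' t' = 1 + ν')
    (hν : ν * ν = 0) (hν' : ν' * ν' = 0) (c c' : M) (hc0 : c ≠ 0) (hνc : ν c = 0) (hνc' : ν' c' = 0)
    (α β : ZMod p) (hα : α ≠ 0) (hβ : β ≠ 0) (h1 : ν c' = α • c) (h2 : ν' c = β • c') :
    p * p - 1 ∣ Nat.card (Subgroup.closure ({t, t'} : Set G')) := by
  classical
  set Y := Subgroup.closure ({t, t'} : Set G') with hY
  have htY : t ∈ Y := Subgroup.subset_closure (by simp)
  have ht'Y : t' ∈ Y := Subgroup.subset_closure (by simp)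
  have hrmul : ∀ (x y : G') (v : M), ρ' (x * y) v = ρ' x (ρ' y v) := by
    intro x y v; rw [map_mul]; rfl
  have hrone : ∀ v : M, ρ' 1 v = v := by
    intro v; rw [map_one]; rfl
  letI : MulAction ↥Y M :=
    { smul := fun g m => ρ' g m
      one_smul := fun m => hrone m
      mul_smul := fun a b m => hrmul a b m }
  have hsm : ∀ (g : ↥Y) (m : M), g • m = ρ' g m := fun _ _ => rfl
  let f : ZMod p × ZMod p → M := fun x => x.1 • c + x.2 • c'
  have hf : ∀ i j : ZMod p, f (i, j) = i • c + j • c' := fun _ _ => rfl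
  -- action on coordinates
  have hν_f : ∀ i j : ZMod p, ν (f (i, j)) = (j * α) • c := by
    intro i j
    rw [hf, map_add, map_smul, map_smul, hνc, h1, smul_zero, zero_add, mul_smul]
  have hν'_f : ∀ i j : ZMod p, ν' (f (i, j)) = (i * β) • c' := by
    intro i j
    rw [hf, map_add, map_smul, map_smul, hνc', h2, smul_zero, add_zero, mul_smul]
  have htf : ∀ i j : ZMod p, ρ' t (f (i, j)) = f (i + j * α, j) := by
    intro i j
    rw [ht, LinearMap.add_apply, Module.End.one_apply, hν_f, hf, hf, add_smul]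
    abel
  have ht'f : ∀ i j : ZMod p, ρ' t' (f (i, j)) = f (i, j + i * β) := by
    intro i j
    rw [ht', LinearMap.add_apply, Module.End.one_apply, hν'_f, hf, hf, add_smul]
    abel
  have hinv : ∀ i j : ZMod p, ρ' t⁻¹ (f (i, j)) = f (i - j * α, j) := by
    intro i j
    have h3 : ρ' t (f (i - j * α, j)) = f (i, j) := by
      rw [htf]; congr 2; ring
    rw [← h3, ← hrmul, inv_mul_cancel, hrone]
  have hinv' : ∀ i j : ZMod p, ρ' t'⁻¹ (f (i, j)) = f (i, j - i * β) := by
    intro i j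
    have h3 : ρ' t' (f (i, j - i * β)) = f (i, j) := by
      rw [ht'f]; congr 2; ring
    rw [← h3, ← hrmul, inv_mul_cancel, hrone]
  have hfinj : Function.Injective f := by
    have h0 : ∀ x : ZMod p × ZMod p, f x = 0 → x = 0 := by
      rintro ⟨i, j⟩ hx
      have h3 : ν (f (i, j)) = 0 := by rw [hx, map_zero]
      rw [hν_f] at h3
      have h4 : j * α = 0 := by
        by_contra h5
        exact hc0 ((smul_eq_zero.mp h3).resolve_left h5)
      have h5 : j = 0 := (mul_eq_zero.mp h4).resolve_right hα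
      subst h5
      rw [hf, zero_smul, add_zero] at hx
      have h6 : i = 0 := (smul_eq_zero.mp hx).resolve_right hc0
      subst h6
      rfl
    intro x y hxy
    have h3 : f (x - y) = 0 := by
      show (x - y).1 • c + (x - y).2 • c' = 0
      have h4 : f x = f y := hxy
      simp only [f] at h4
      simp only [Prod.fst_sub, Prod.snd_sub, sub_smul]
      have : x.1 • c - y.1 • c + (x.2 • c' - y.2 • c') = (x.1 • c + x.2 • c') - (y.1 • c + y.2 • c') := by
        abel
      rw [this, h4, sub_self]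
    exact sub_eq_zero.mp (h0 _ h3)
  -- the stabilising subgroup
  let St : Subgroup G' :=
    { carrier := {g | (∀ x : ZMod p × ZMod p, x ≠ 0 → ∃ y : ZMod p × ZMod p, y ≠ 0 ∧ ρ' g (f x) = f y) ∧
        (∀ x : ZMod p × ZMod p, x ≠ 0 → ∃ y : ZMod p × ZMod p, y ≠ 0 ∧ ρ' g⁻¹ (f x) = f y)}
      mul_mem' := by
        rintro a b ⟨ha, ha'⟩ ⟨hb, hb'⟩
        constructor
        · intro x hx
          obtain ⟨y, hy, hy'⟩ := hb x hx
          obtain ⟨z, hz, hz'⟩ := ha y hy
          exact ⟨z, hz, by rw [hrmul, hy', hz']⟩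
        · intro x hx
          obtain ⟨y, hy, hy'⟩ := ha' x hx
          obtain ⟨z, hz, hz'⟩ := hb' y hy
          exact ⟨z, hz, by rw [mul_inv_rev, hrmul, hy', hz']⟩
      one_mem' := by
        constructor
        · intro x hx
          exact ⟨x, hx, hrone _⟩
        · intro x hx
          exact ⟨x, hx, by rw [inv_one, hrone]⟩
      inv_mem' := by
        rintro a ⟨ha, ha'⟩
        refine ⟨ha', fun x hx => ?_⟩
        rw [inv_inv]
        exact ha x hx }
  have hne1 : ∀ i j a : ZMod p, (i, j) ≠ (0 : ZMod p × ZMod p) → (i + j * a, j) ≠ (0 : ZMod p × ZMod p) := by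
    intro i j a hx hc
    apply hx
    have h3 : j = 0 := congrArg Prod.snd hc
    have h4 : i + j * a = 0 := congrArg Prod.fst hc
    subst h3
    rw [zero_mul, add_zero] at h4
    subst h4
    rfl
  have hne2 : ∀ i j a : ZMod p, (i, j) ≠ (0 : ZMod p × ZMod p) → (i, j + i * a) ≠ (0 : ZMod p × ZMod p) := by
    intro i j a hx hc
    apply hx
    have h3 : i = 0 := congrArg Prod.fst hc
    have h4 : j + i * a = 0 := congrArg Prod.snd hc
    subst h3
    rw [zero_mul, add_zero] at h4
    subst h4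
    rfl
  have htSt : t ∈ St := by
    constructor
    · rintro ⟨i, j⟩ hx
      exact ⟨(i + j * α, j), hne1 i j α hx, htf i j⟩
    · rintro ⟨i, j⟩ hx
      refine ⟨(i - j * α, j), ?_, hinv i j⟩
      have := hne1 i j (-α) hx
      rwa [mul_neg, ← sub_eq_add_neg] at this
  have ht'St : t' ∈ St := by
    constructor
    · rintro ⟨i, j⟩ hx
      exact ⟨(i, j + i * β), hne2 i j β hx, ht'f i j⟩
    · rintro ⟨i, j⟩ hx
      refine ⟨(i, j - i * β), ?_, hinv' i j⟩
      have := hne2 i j (-β) hx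
      rwa [mul_neg, ← sub_eq_add_neg] at this
  have hYSt : Y ≤ St := by
    rw [hY, Subgroup.closure_le]
    intro g hg
    simp only [Set.mem_insert_iff, Set.mem_singleton_iff] at hg
    rcases hg with rfl | rfl
    · exact htSt
    · exact ht'St
  have hcf : c = f (1, 0) := by rw [hf, one_smul, zero_smul, add_zero]
  -- powers
  have hpow : ∀ (s : ℕ) (i j : ZMod p), ρ' (t ^ s) (f (i, j)) = f (i + (s : ZMod p) * (j * α), j) := by
    intro s i j
    induction s with
    | zero => simp [hrone]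
    | succ s ih =>
      rw [pow_succ', hrmul, ih, htf]
      congr 2
      push_cast
      ring
  have hpow' : ∀ (s : ℕ) (i j : ZMod p), ρ' (t' ^ s) (f (i, j)) = f (i, j + (s : ZMod p) * (i * β)) := by
    intro s i j
    induction s with
    | zero => simp [hrone]
    | succ s ih =>
      rw [pow_succ', hrmul, ih, ht'f]
      congr 2
      push_cast
      ring
  -- the orbit
  have horb : MulAction.orbit ↥Y c = f '' {x | x ≠ 0} := by
    ext m
    constructor
    · rintro ⟨g, rfl⟩
      have h3 : (1, 0) ≠ (0 : ZMod p × ZMod p) := by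
        intro hc
        exact one_ne_zero (congrArg Prod.fst hc)
      obtain ⟨y, hy, hy'⟩ := (hYSt g.2).1 (1, 0) h3
      refine ⟨y, hy, ?_⟩
      show f y = ρ' g c
      rw [hcf, hy']
    · rintro ⟨⟨i, j⟩, hx, rfl⟩
      have hjne : ∀ i j : ZMod p, j ≠ 0 → ∃ g ∈ Y, ρ' g c = f (i, j) := by
        intro i j hj
        -- use t'^u then t^s
        obtain ⟨u, hu⟩ : ∃ u : ℕ, (u : ZMod p) * β = j := by
          refine ⟨(j / β).val, ?_⟩
          rw [ZMod.natCast_zmod_val]
          field_simp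
        obtain ⟨s, hs⟩ : ∃ s : ℕ, 1 + (s : ZMod p) * (j * α) = i := by
          refine ⟨((i - 1) / (j * α)).val, ?_⟩
          rw [ZMod.natCast_zmod_val]
          have : j * α ≠ 0 := mul_ne_zero hj hα
          field_simp
          ring
        refine ⟨t ^ s * t' ^ u, Y.mul_mem (Y.pow_mem htY s) (Y.pow_mem ht'Y u), ?_⟩
        rw [hrmul, hcf, hpow', hpow]
        have e1 : (0 : ZMod p) + (u : ZMod p) * (1 * β) = j := by rw [zero_add, one_mul]; exact hu
        rw [e1, hs]
      by_cases hj : j = 0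
      · subst hj
        have hi : i ≠ 0 := by
          intro hi
          subst hi
          exact hx rfl
        obtain ⟨g, hg, hg'⟩ := hjne i 1 one_ne_zero
        obtain ⟨u, hu⟩ : ∃ u : ℕ, 1 + (u : ZMod p) * (i * β) = 0 := by
          refine ⟨(-1 / (i * β)).val, ?_⟩
          rw [ZMod.natCast_zmod_val]
          have : i * β ≠ 0 := mul_ne_zero hi hβ
          field_simp
          ring
        refine ⟨⟨t' ^ u * g, Y.mul_mem (Y.pow_mem ht'Y u) hg⟩, ?_⟩
        show ρ' (t' ^ u * g) c = _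
        rw [hrmul, hg', hpow', hu]
      · obtain ⟨g, hg, hg'⟩ := hjne i j hj
        exact ⟨⟨g, hg⟩, hg'⟩
  have hcardorb : (MulAction.orbit ↥Y c).ncard = p * p - 1 := by
    rw [horb, Set.ncard_image_of_injective _ hfinj]
    have h6 : ({0} : Set (ZMod p × ZMod p)).ncard + ({0} : Set (ZMod p × ZMod p))ᶜ.ncard =
        Nat.card (ZMod p × ZMod p) := Set.ncard_add_ncard_compl _
    have h7 : {x : ZMod p × ZMod p | x ≠ 0} = ({0} : Set (ZMod p × ZMod p))ᶜ := by
      ext x; simp
    rw [h7]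
    rw [Set.ncard_singleton, Nat.card_prod, Nat.card_zmod] at h6
    omega
  have h5 := Subgroup.card_mul_index (MulAction.stabilizer ↥Y c)
  rw [MulAction.index_stabilizer, hcardorb] at h5
  exact ⟨_, by rw [← h5, mul_comm]⟩

theorem arith_pq (p q f : ℕ) (hp : p.Prime) (hq : q.Prime) (h : p * p - 1 = q ^ f) :
    (p = 2 ∧ q = 3) ∨ (p = 3 ∧ q = 2) := by
  have h2 := hp.two_le
  by_cases hp2 : p = 2
  · left
    subst hp2
    refine ⟨rfl, ?_⟩
    have h3 : q ^ f = 3 := by rw [← h]
    have h4 : f ≠ 0 := by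
      rintro rfl
      rw [pow_zero] at h3
      omega
    have h5 : q ∣ 3 := by
      rw [← h3]
      exact dvd_pow_self q h4
    exact (Nat.prime_dvd_prime_iff_eq hq Nat.prime_three).mp h5
  · right
    have hodd : Odd p := hp.odd_of_ne_two hp2
    obtain ⟨r, rfl⟩ : ∃ r, p = r + 3 := ⟨p - 3, by
      have : p ≠ 2 := hp2
      omega⟩
    have hfac : (r + 2) * (r + 4) = q ^ f := by
      rw [← h]
      have : (r + 3) * (r + 3) = (r + 2) * (r + 4) + 1 := by ring
      omega
    obtain ⟨a, -, ha⟩ := (Nat.dvd_prime_pow hq).mp (Dvd.intro _ hfac)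
    obtain ⟨b, -, hb⟩ := (Nat.dvd_prime_pow hq).mp (Dvd.intro_left _ hfac)
    have ha0 : a ≠ 0 := by
      rintro rfl
      rw [pow_zero] at ha
      omega
    have hab : a < b := by
      by_contra hc
      push_neg at hc
      have h3 : q ^ b ≤ q ^ a := Nat.pow_le_pow_right hq.pos hc
      omega
    have hqd1 : q ∣ r + 2 := by rw [ha]; exact dvd_pow_self q ha0
    have hqd2 : q ∣ r + 4 := by rw [hb]; exact dvd_pow_self q (by omega)
    have hq2' : q ∣ 2 := by
      have := (Nat.dvd_sub hqd2 hqd1)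
      have h5 : r + 4 - (r + 2) = 2 := by omega
      rwa [h5] at this
    have hq2 : q = 2 := (Nat.prime_dvd_prime_iff_eq hq Nat.prime_two).mp hq2'
    subst hq2
    refine ⟨?_, rfl⟩
    -- now r + 2 = 2 ^ a, r + 4 = 2 ^ b
    have ha1 : a = 1 := by
      by_contra hne
      have ha2 : 2 ≤ a := by omega
      have h4a : 4 ∣ 2 ^ a := by
        have : (2 : ℕ) ^ 2 ∣ 2 ^ a := pow_dvd_pow 2 ha2
        simpa using this
      have h4b : 4 ∣ 2 ^ b := by
        have : (2 : ℕ) ^ 2 ∣ 2 ^ b := pow_dvd_pow 2 (by omega)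
        simpa using this
      rw [← ha] at h4a
      rw [← hb] at h4b
      omega
    subst ha1
    rw [pow_one] at ha
    omega

theorem transv_dichotomy {G' : Type*} [Group G'] [Finite G'] (ρ' : Representation (ZMod p) G' M)
    (D : Subgroup G') (q : ℕ) (hq : q.Prime) (hpq : p ≠ q) (hD : IsPGroup q D) (τ d : G')
    (hτ1 : ∀ x ∈ D, τ * x * τ⁻¹ ∈ D) (hτ2 : ∀ x ∈ D, τ⁻¹ * x * τ ∈ D) (hd : d ∈ D)
    (m : ℕ) (hτp : τ ^ (p ^ m) = 1) (ν : Module.End (ZMod p) M) (hν : ρ' τ = 1 + ν)
    (hνn : ν * ν = 0) (hrk : Module.finrank (ZMod p) (LinearMap.range ν) = 1) :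
    ρ' (τ⁻¹ * (d * τ * d⁻¹)) = 1 ∨ ((p = 2 ∧ q = 3) ∨ (p = 3 ∧ q = 2)) := by
  classical
  haveI : Fact q.Prime := ⟨hq⟩
  have hpp : p.Prime := hp.out
  haveI : Module.Finite (ZMod p) M := Module.Finite.of_finite
  have hrmul : ∀ (x y : G') (v : M), ρ' (x * y) v = ρ' x (ρ' y v) := by
    intro x y v; rw [map_mul]; rfl
  have hrone : ∀ v : M, ρ' 1 v = v := by
    intro v; rw [map_one]; rfl
  set t' := d * τ * d⁻¹ with ht'def
  set δ := ρ' d with hδdef
  set δ' := ρ' d⁻¹ with hδ'def
  have hδ1 : δ * δ' = 1 := by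
    rw [hδdef, hδ'def, ← map_mul, mul_inv_cancel, map_one]
  have hδ2 : δ' * δ = 1 := by
    rw [hδdef, hδ'def, ← map_mul, inv_mul_cancel, map_one]
  set ν' := δ * ν * δ' with hν'def
  have ht' : ρ' t' = 1 + ν' := by
    rw [ht'def, map_mul, map_mul, hν, mul_add, add_mul, mul_one, hδ1]
  have hν'n : ν' * ν' = 0 := by
    calc ν' * ν' = δ * ν * (δ' * δ) * ν * δ' := by rw [hν'def]; noncomm_ring
      _ = δ * (ν * ν) * δ' := by rw [hδ2, mul_one]; noncomm_ring
      _ = 0 := by rw [hνn, mul_zero, zero_mul]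
  have hτinv : ρ' τ⁻¹ = 1 - ν := by
    have h1 : ρ' τ⁻¹ * (1 + ν) = 1 := by
      rw [← hν, ← map_mul, inv_mul_cancel, map_one]
    have h2 : (1 + ν) * (1 - ν) = 1 := by
      rw [mul_sub, mul_one, add_mul, one_mul, hνn, add_zero]; abel
    calc ρ' τ⁻¹ = ρ' τ⁻¹ * ((1 + ν) * (1 - ν)) := by rw [h2, mul_one]
      _ = (ρ' τ⁻¹ * (1 + ν)) * (1 - ν) := by rw [mul_assoc]
      _ = 1 - ν := by rw [h1, one_mul]
  have hx : ρ' (τ⁻¹ * t') = (1 - ν) * (1 + ν') := by
    rw [map_mul, hτinv, ht']
  have hnorm : τ ∈ Subgroup.normalizer (D : Set G') := by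
    rw [Subgroup.mem_normalizer_iff]
    intro h
    constructor
    · exact hτ1 h
    · intro h1
      have := hτ2 _ h1
      have h3 : τ⁻¹ * (τ * h * τ⁻¹) * τ = h := by group
      rwa [h3] at this
  have hxD : τ⁻¹ * t' ∈ D := by
    have h1 := D.mul_mem (hτ2 d hd) (D.inv_mem hd)
    have h2 : τ⁻¹ * d * τ * d⁻¹ = τ⁻¹ * t' := by rw [ht'def]; group
    rwa [h2] at h1
  obtain ⟨e, he⟩ := IsPGroup.iff_card.mp hD
  have hxq : (τ⁻¹ * t') ^ (q ^ e) = 1 := by
    have := pow_card_eq_one' (x := (⟨τ⁻¹ * t', hxD⟩ : ↥D))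
    rw [he] at this
    simpa using congrArg (fun z : ↥D => (z : G')) this
  by_cases hc : ν * ν' = 0 ∨ ν' * ν = 0
  · left
    set σ := ρ' (τ⁻¹ * t') with hσdef
    have hs : (σ - 1) ^ 3 = 0 := by
      have hs0 : σ - 1 = ν' - ν - ν * ν' := by
        rw [hx]
        noncomm_ring
      rw [hs0]
      have h1 : ∀ y, ν * (ν * y) = 0 := fun y => by rw [← mul_assoc, hνn, zero_mul]
      have h2 : ∀ y, ν' * (ν' * y) = 0 := fun y => by rw [← mul_assoc, hν'n, zero_mul]
      rcases hc with hc | hc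
      · have h3 : ∀ y, ν * (ν' * y) = 0 := fun y => by rw [← mul_assoc, hc, zero_mul]
        simp only [pow_succ, pow_zero, one_mul, hc, sub_zero, sub_mul, mul_sub, mul_assoc, h1, h2, h3,
          hνn, hν'n, mul_zero, zero_mul, sub_self, zero_sub, neg_sub, neg_zero, neg_mul, mul_neg, neg_neg,
          sub_neg_eq_add, add_zero, zero_add]
      · have h3 : ∀ y, ν' * (ν * y) = 0 := fun y => by rw [← mul_assoc, hc, zero_mul]
        simp only [pow_succ, pow_zero, one_mul, hc, sub_zero, sub_mul, mul_sub, mul_assoc, h1, h2, h3,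
          hνn, hν'n, mul_zero, zero_mul, sub_self, zero_sub, neg_sub, neg_zero, neg_mul, mul_neg, neg_neg,
          sub_neg_eq_add, add_zero, zero_add]
    have hp2 : 3 ≤ p ^ 2 := by
      have := hpp.two_le
      nlinarith
    have h1 := sub_one_pow_char σ 2
    rw [pow_eq_zero_of_le hp2 hs] at h1
    have h2 : σ ^ (p ^ 2) = 1 := (sub_eq_zero.mp h1.symm)
    have h3 : σ ^ (q ^ e) = 1 := by
      rw [hσdef, ← map_pow, hxq, map_one]
    have h4 := (pow_gcd_eq_one).mpr ⟨h2, h3⟩
    have hcop : Nat.gcd (p ^ 2) (q ^ e) = 1 :=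
      Nat.Coprime.pow _ _ ((Nat.coprime_primes hpp hq).mpr hpq)
    rw [hcop, pow_one] at h4
    exact h4
  · push_neg at hc
    obtain ⟨hc1, hc2⟩ := hc
    right
    obtain ⟨⟨c, hcr⟩, hc0', hgen⟩ := finrank_eq_one_iff'.mp hrk
    have hc0 : c ≠ 0 := fun h0 => hc0' (Subtype.ext h0)
    have hνw : ∀ w, ∃ l : ZMod p, ν w = l • c := by
      intro w
      obtain ⟨l, hl⟩ := hgen ⟨ν w, w, rfl⟩
      exact ⟨l, (congrArg Subtype.val hl).symm⟩
    set c' := δ c with hc'def
    have hν'w : ∀ w, ∃ l : ZMod p, ν' w = l • c' := by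
      intro w
      obtain ⟨l, hl⟩ := hνw (δ' w)
      refine ⟨l, ?_⟩
      show δ (ν (δ' w)) = l • δ c
      rw [hl, map_smul]
    have hνc : ν c = 0 := by
      obtain ⟨w₀, hw₀⟩ := hcr
      rw [← hw₀]
      show (ν * ν) w₀ = 0
      rw [hνn]; rfl
    have hδδ : ∀ w, δ' (δ w) = w := by
      intro w
      show (δ' * δ) w = w
      rw [hδ2]; rfl
    have hνc' : ν' c' = 0 := by
      show δ (ν (δ' (δ c))) = 0
      rw [hδδ, hνc, map_zero]
    obtain ⟨α, hα⟩ := hνw c'
    obtain ⟨β, hβ⟩ := hν'w c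
    have hα0 : α ≠ 0 := by
      rintro rfl
      apply hc1
      apply LinearMap.ext
      intro w
      obtain ⟨l, hl⟩ := hν'w w
      show ν (ν' w) = 0
      rw [hl, map_smul, hα, zero_smul, smul_zero]
    have hβ0 : β ≠ 0 := by
      rintro rfl
      apply hc2
      apply LinearMap.ext
      intro w
      obtain ⟨l, hl⟩ := hνw w
      show ν' (ν w) = 0
      rw [hl, map_smul, hβ, zero_smul, smul_zero]
    have hdiv := orbit_count ρ' τ t' ν ν' hν ht' hνn hν'n c c' hc0 hνc hνc' α β hα0 hβ0 hα hβ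
    set Y := Subgroup.closure ({τ, t'} : Set G') with hY
    -- structure of the elements of Y
    have hzn : ∀ (i : ℤ), ∀ x ∈ D, τ ^ i * x * τ ^ (-i) ∈ D := by
      intro i x hx
      have h1 := (Subgroup.normalizer (D : Set G')).zpow_mem hnorm i
      have h2 := (Subgroup.mem_normalizer_iff.mp h1 x).mp hx
      rwa [← zpow_neg] at h2
    have hstr : ∀ g ∈ Y, ∃ e' ∈ D, ∃ i : ℤ, g = e' * τ ^ i := by
      intro g hg
      induction hg using Subgroup.closure_induction with
      | mem x hx =>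
        simp only [Set.mem_insert_iff, Set.mem_singleton_iff] at hx
        rcases hx with rfl | rfl
        · exact ⟨1, D.one_mem, 1, by simp⟩
        · refine ⟨d * (τ * d⁻¹ * τ⁻¹), D.mul_mem hd (hτ1 _ (D.inv_mem hd)), 1, ?_⟩
          rw [ht'def]; group
      | one => exact ⟨1, D.one_mem, 0, by simp⟩
      | mul x y _ _ hx hy =>
        obtain ⟨e₁, he₁, i, rfl⟩ := hx
        obtain ⟨e₂, he₂, j, rfl⟩ := hy
        refine ⟨e₁ * (τ ^ i * e₂ * τ ^ (-i)), D.mul_mem he₁ (hzn i e₂ he₂), i + j, ?_⟩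
        rw [zpow_add, zpow_neg]
        group
      | inv x _ hx =>
        obtain ⟨e₁, he₁, i, rfl⟩ := hx
        refine ⟨τ ^ (-i) * e₁⁻¹ * τ ^ (- -i), hzn (-i) _ (D.inv_mem he₁), -i, ?_⟩
        rw [neg_neg, zpow_neg]
        group
    have hprime : ∀ {r : ℕ}, r.Prime → r ∣ p * p - 1 → r = q := by
      intro r hr hrd
      have hrne : r ≠ p := by
        rintro rfl
        have h1 : r ∣ r * r := Dvd.intro _ rfl
        have h2 : r * r - (r * r - 1) = 1 := by
          have := hpp.two_le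
          have : 1 ≤ r * r := by nlinarith
          omega
        have h3 := Nat.dvd_sub h1 hrd
        rw [h2] at h3
        exact hr.one_lt.ne' (Nat.dvd_one.mp h3)
      haveI : Fact r.Prime := ⟨hr⟩
      obtain ⟨g, hg⟩ := exists_prime_orderOf_dvd_card' (G := ↥Y) r (hrd.trans hdiv)
      have hg1 : (g : G') ^ r = 1 := by
        rw [← Subgroup.orderOf_coe] at hg
        rw [← hg]
        exact pow_orderOf_eq_one _
      have hgord : orderOf (g : G') = r := by rw [Subgroup.orderOf_coe]; exact hg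
      obtain ⟨e', he', i, hgi⟩ := hstr g g.2
      have hpw : ∀ n : ℕ, ∃ e₂ ∈ D, (g : G') ^ n = e₂ * τ ^ (i * n) := by
        intro n
        induction n with
        | zero => exact ⟨1, D.one_mem, by simp⟩
        | succ n ih =>
          obtain ⟨e₂, he₂, h2⟩ := ih
          refine ⟨e₂ * (τ ^ (i * n) * e' * τ ^ (-(i * n))), D.mul_mem he₂ (hzn _ e' he'), ?_⟩
          rw [pow_succ, h2, hgi]
          have h3 : τ ^ (i * ((n + 1 : ℕ) : ℤ)) = τ ^ (i * n) * τ ^ i := by
            rw [← zpow_add]; congr 1; push_cast; ring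
          rw [h3, zpow_neg]
          group
      obtain ⟨e₂, he₂, h2⟩ := hpw r
      rw [hg1] at h2
      have hz : τ ^ (i * r) ∈ D := by
        have h3 : τ ^ (i * (r : ℤ)) = e₂⁻¹ := eq_inv_of_mul_eq_one_right h2.symm
        rw [h3]
        exact D.inv_mem he₂
      have hz1 : (τ ^ (i * (r : ℤ))) ^ (p ^ m) = 1 := by
        rw [← zpow_natCast, ← zpow_mul]
        have h4 : i * (r : ℤ) * ((p ^ m : ℕ) : ℤ) = ((p ^ m : ℕ) : ℤ) * (i * r) := by ring
        rw [h4, zpow_mul, zpow_natCast, hτp, one_zpow]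
      have hz2 : (τ ^ (i * (r : ℤ))) ^ (q ^ e) = 1 := by
        have := pow_card_eq_one' (x := (⟨_, hz⟩ : ↥D))
        rw [he] at this
        simpa using congrArg (fun z : ↥D => (z : G')) this
      have hz3 : τ ^ (i * (r : ℤ)) = 1 := by
        have h4 := (pow_gcd_eq_one).mpr ⟨hz1, hz2⟩
        have hcop : Nat.gcd (p ^ m) (q ^ e) = 1 :=
          Nat.Coprime.pow _ _ ((Nat.coprime_primes hpp hq).mpr hpq)
        rwa [hcop, pow_one] at h4
      have hτi1 : (τ ^ i) ^ r = 1 := by
        rw [← zpow_natCast, ← zpow_mul]; exact hz3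
      have hτi2 : (τ ^ i) ^ (p ^ m) = 1 := by
        rw [← zpow_natCast, ← zpow_mul, mul_comm, zpow_mul, zpow_natCast, hτp, one_zpow]
      have hτi : τ ^ i = 1 := by
        have h4 := (pow_gcd_eq_one).mpr ⟨hτi1, hτi2⟩
        have hcop : Nat.gcd r (p ^ m) = 1 :=
          Nat.Coprime.pow_right _ ((Nat.coprime_primes hr hpp).mpr hrne)
        rwa [hcop, pow_one] at h4
      have hgD : (g : G') ∈ D := by
        rw [hgi, hτi, mul_one]
        exact he'
      have hgq : (g : G') ^ (q ^ e) = 1 := by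
        have := pow_card_eq_one' (x := (⟨_, hgD⟩ : ↥D))
        rw [he] at this
        simpa using congrArg (fun z : ↥D => (z : G')) this
      have h5 : r ∣ q ^ e := by
        rw [← hgord]
        exact orderOf_dvd_of_pow_eq_one hgq
      exact (Nat.prime_dvd_prime_iff_eq hr hq).mp (hr.dvd_of_dvd_pow h5)
    have hne : p * p - 1 ≠ 0 := by
      have := hpp.two_le
      have : 4 ≤ p * p := by nlinarith
      omega
    exact arith_pq p q _ hpp hq (Nat.eq_prime_pow_of_unique_prime_dvd hne hprime)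

end Orbit

end Cfsg.Agent.Lib.Struct.Off
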