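import Cfsg.Agent.Lib.Struct.OffA
import Cfsg.Agent.S0058

set_option autoImplicit false

namespace Cfsg.Agent.Lib.Struct.Off

section Cyc

variable {Γ : Type*} [Group Γ]

/-- Conjugation action of a subgroup on a subgroup it normalises. -/
def conjOn (A D : Subgroup Γ) (hAD : ∀ a ∈ A, ∀ d ∈ D, a * d * a⁻¹ ∈ D) : ↥A →* MulAut ↥D where
  toFun a :=
    { toFun := fun d => ⟨(a : Γ) * d * (a : Γ)⁻¹, hAD a a.2 d d.2⟩
      invFun := fun d => ⟨(a : Γ)⁻¹ * d * (a : Γ), by
        have := hAD _ (A.inv_mem a.2) d d.2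
        simpa using this⟩
      left_inv := fun d => by
        apply Subtype.ext
        show (a : Γ)⁻¹ * ((a : Γ) * d * (a : Γ)⁻¹) * (a : Γ) = d
        group
      right_inv := fun d => by
        apply Subtype.ext
        show (a : Γ) * ((a : Γ)⁻¹ * d * (a : Γ)) * (a : Γ)⁻¹ = d
        group
      map_mul' := fun x y => by
        apply Subtype.ext
        show (a : Γ) * ((x : Γ) * y) * (a : Γ)⁻¹ =
          ((a : Γ) * x * (a : Γ)⁻¹) * ((a : Γ) * y * (a : Γ)⁻¹)
        group }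
  map_one' := by
    apply MulEquiv.ext
    intro d
    apply Subtype.ext
    show (1 : Γ) * d * (1 : Γ)⁻¹ = d
    group
  map_mul' := fun a b => by
    apply MulEquiv.ext
    intro d
    apply Subtype.ext
    show ((a : Γ) * b) * d * ((a : Γ) * b)⁻¹ = (a : Γ) * ((b : Γ) * d * (b : Γ)⁻¹) * (a : Γ)⁻¹
    group

theorem conjOn_apply (A D : Subgroup Γ) (hAD : ∀ a ∈ A, ∀ d ∈ D, a * d * a⁻¹ ∈ D) (a : ↥A) (d : ↥D) :
    ((conjOn A D hAD a d : ↥D) : Γ) = (a : Γ) * d * (a : Γ)⁻¹ := rfl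

theorem conjOn_eq_one_iff (A D : Subgroup Γ) (hAD : ∀ a ∈ A, ∀ d ∈ D, a * d * a⁻¹ ∈ D) (a : ↥A) :
    conjOn A D hAD a = 1 ↔ ∀ d ∈ D, (a : Γ) * d = d * a := by
  constructor
  · intro h d hd
    have h1 := congrArg (fun f : MulAut ↥D => ((f ⟨d, hd⟩ : ↥D) : Γ)) h
    have h2 : (a : Γ) * d * (a : Γ)⁻¹ = d := h1
    calc (a : Γ) * d = (a : Γ) * d * (a : Γ)⁻¹ * a := by group
      _ = d * a := by rw [h2]
  · intro h
    apply MulEquiv.ext
    intro d
    apply Subtype.ext
    show (a : Γ) * d * (a : Γ)⁻¹ = d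
    rw [h d d.2]
    group

theorem range_cyclic [Finite Γ] {p q : ℕ} [Fact p.Prime] [Fact q.Prime] (hpq : p ≠ q)
    (A D : Subgroup Γ) (hAab : ∀ x ∈ A, ∀ y ∈ A, x * y = y * x) (hAp : IsPGroup p A) (hDq : IsPGroup q D)
    (hAD : ∀ a ∈ A, ∀ d ∈ D, a * d * a⁻¹ ∈ D)
    (hmin : ∀ a ∈ A, (¬ ∀ d ∈ D, a * d = d * a) → ∀ d ∈ D, a * d = d * a → ∀ x ∈ A, x * d = d * x)
    (hnot : ¬ ∀ a ∈ A, ∀ d ∈ D, a * d = d * a) :
    IsCyclic ↥(conjOn A D hAD).range := by
  classical
  by_contra hnc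
  set R := (conjOn A D hAD).range with hR
  let φ : ↥R →* MulAut ↥D := R.subtype
  let X := SemidirectProduct ↥D ↥R φ
  haveI hXfin : Finite X := Finite.of_equiv _ (SemidirectProduct.equivProd (N := ↥D) (G := ↥R) (φ := φ)).symm
  let A' : Subgroup X := (SemidirectProduct.inr : ↥R →* X).range
  let K : Subgroup X := (SemidirectProduct.inl : ↥D →* X).range
  haveI hRcomm : ∀ x y : ↥R, x * y = y * x := by
    rintro ⟨x, a, rfl⟩ ⟨y, b, rfl⟩
    apply Subtype.ext
    show conjOn A D hAD a * conjOn A D hAD b = conjOn A D hAD b * conjOn A D hAD a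
    rw [← map_mul, ← map_mul]
    congr 1
    exact Subtype.ext (hAab a a.2 b b.2)
  haveI : IsMulCommutative ↥A' := by
    refine ⟨⟨?_⟩⟩
    rintro ⟨x, r, rfl⟩ ⟨y, s, rfl⟩
    apply Subtype.ext
    show SemidirectProduct.inr r * SemidirectProduct.inr s = SemidirectProduct.inr s * SemidirectProduct.inr r
    rw [← map_mul, ← map_mul, hRcomm]
  have hAc : ¬ IsCyclic ↥A' := by
    intro hc
    apply hnc
    have hinj : Function.Injective (SemidirectProduct.inr : ↥R →* X) := SemidirectProduct.inr_injective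
    let e : ↥R ≃* ↥A' := MonoidHom.ofInjective hinj
    exact isCyclic_of_surjective e.symm e.symm.surjective
  have hKn : K.Normal := by
    have : K = (SemidirectProduct.rightHom : X →* ↥R).ker := SemidirectProduct.range_inl_eq_ker_rightHom
    rw [this]
    infer_instance
  have hAK : A' ≤ Subgroup.normalizer (K : Set X) := by
    rw [Subgroup.normalizer_eq_top_iff.mpr hKn]
    exact le_top
  have hRp : IsPGroup p ↥R := IsPGroup.of_surjective hAp (conjOn A D hAD).rangeRestrict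
    (MonoidHom.rangeRestrict_surjective _)
  have hA'p : IsPGroup p ↥A' := IsPGroup.of_surjective hRp (SemidirectProduct.inr : ↥R →* X).rangeRestrict
    (MonoidHom.rangeRestrict_surjective _)
  have hKq : IsPGroup q ↥K := IsPGroup.of_surjective hDq (SemidirectProduct.inl : ↥D →* X).rangeRestrict
    (MonoidHom.rangeRestrict_surjective _)
  have hcop : (Nat.card A').Coprime (Nat.card K) := by
    obtain ⟨m₁, hm₁⟩ := IsPGroup.iff_card.mp hA'p
    obtain ⟨m₂, hm₂⟩ := IsPGroup.iff_card.mp hKq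
    rw [hm₁, hm₂]
    exact Nat.Coprime.pow _ _ ((Nat.coprime_primes (Fact.out) (Fact.out)).mpr hpq)
  have hgen := Cfsg.Agent.S0058.result A' K hAc hAK hcop
  -- the fixed subgroup
  let Fx : Subgroup X :=
    { carrier := {y | ∃ d : ↥D, SemidirectProduct.inl d = y ∧ ∀ x ∈ A, x * (d : Γ) = d * x}
      one_mem' := ⟨1, map_one _, fun x _ => by simp⟩
      mul_mem' := by
        rintro _ _ ⟨d, rfl, hd⟩ ⟨e, rfl, he⟩
        refine ⟨d * e, map_mul _ _ _, fun x hx => ?_⟩
        show x * ((d : Γ) * e) = ((d : Γ) * e) * x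
        rw [← mul_assoc, hd x hx, mul_assoc, he x hx, mul_assoc]
      inv_mem' := by
        rintro _ ⟨d, rfl, hd⟩
        refine ⟨d⁻¹, map_inv _ _, fun x hx => ?_⟩
        show x * (d : Γ)⁻¹ = (d : Γ)⁻¹ * x
        have := hd x hx
        rw [eq_inv_mul_iff_mul_eq, ← mul_assoc, ← this]
        group }
  have hle : K ≤ Fx := by
    rw [← hgen]
    refine iSup₂_le ?_
    rintro _ ⟨⟨r, rfl⟩, hr1⟩ y ⟨⟨d, rfl⟩, hy⟩
    refine ⟨d, rfl, ?_⟩
    obtain ⟨⟨a₀, ha₀⟩, hr⟩ := r.2
    have hr1' : (r : MulAut ↥D) ≠ 1 := by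
      intro h
      apply hr1
      have : r = 1 := Subtype.ext h
      rw [this, map_one]
    have hcommy : (SemidirectProduct.inr r : X) * SemidirectProduct.inl d = SemidirectProduct.inl d * SemidirectProduct.inr r := by
      have h2 := Subgroup.mem_centralizer_iff.mp hy
      exact h2 _ (Set.mem_singleton _)
    have hfix : (r : MulAut ↥D) d = d := by
      have h3 : (SemidirectProduct.inr r : X) * SemidirectProduct.inl d * SemidirectProduct.inr r⁻¹ = SemidirectProduct.inl (φ r d) :=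
        (SemidirectProduct.inl_aut (φ := φ) r d).symm
      rw [hcommy, mul_assoc, ← map_mul, mul_inv_cancel, map_one, mul_one] at h3
      have h4 := SemidirectProduct.inl_injective h3
      exact h4.symm
    have hdc : a₀ * (d : Γ) = d * a₀ := by
      have h5 : (((r : MulAut ↥D) d : ↥D) : Γ) = a₀ * d * a₀⁻¹ := by
        rw [← hr]
        rfl
      rw [hfix] at h5
      calc a₀ * (d : Γ) = a₀ * d * a₀⁻¹ * a₀ := by group
        _ = d * a₀ := by rw [← h5]
    have hn : ¬ ∀ e ∈ D, a₀ * e = e * a₀ := by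
      intro hall
      apply hr1'
      rw [← hr]
      exact (conjOn_eq_one_iff A D hAD ⟨a₀, ha₀⟩).mpr hall
    exact hmin a₀ ha₀ hn d d.2 hdc
  apply hnot
  intro a ha d hd
  obtain ⟨e, he, hfx⟩ := hle ⟨⟨d, hd⟩, rfl⟩
  have := SemidirectProduct.inl_injective he
  rw [this] at hfx
  exact hfx a ha

end Cyc

end Cfsg.Agent.Lib.Struct.Off
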