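import Cfsg.Agent.Lib.Struct.OffB

set_option autoImplicit false

namespace Cfsg.Agent.Lib.Struct.Off

theorem comm_of_commutator {G : Type*} [Group G] (τ d x : G) (a b : ℕ) (hab : Nat.Coprime a b)
    (hτ : τ ^ a = 1) (hx : x ^ b = 1) (hxd : τ⁻¹ * (d * τ * d⁻¹) = x) (hc : τ * x = x * τ) :
    τ * d = d * τ := by
  have h1 : τ⁻¹ * d * τ = x * d := by rw [← hxd]; group
  have hcj : ∀ j : ℕ, τ⁻¹ * x ^ j * τ = x ^ j := by
    intro j
    have h2 : τ * x ^ j = x ^ j * τ := (Commute.pow_right hc j)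
    calc τ⁻¹ * x ^ j * τ = τ⁻¹ * (x ^ j * τ) := by group
      _ = τ⁻¹ * (τ * x ^ j) := by rw [h2]
      _ = x ^ j := by group
  have h2 : ∀ j : ℕ, (τ ^ j)⁻¹ * d * τ ^ j = x ^ j * d := by
    intro j
    induction j with
    | zero => simp
    | succ j ih =>
      calc (τ ^ (j + 1))⁻¹ * d * τ ^ (j + 1) = τ⁻¹ * ((τ ^ j)⁻¹ * d * τ ^ j) * τ := by
            rw [pow_succ]; group
        _ = τ⁻¹ * (x ^ j * d) * τ := by rw [ih]
        _ = (τ⁻¹ * x ^ j * τ) * (τ⁻¹ * d * τ) := by group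
        _ = x ^ j * (x * d) := by rw [hcj, h1]
        _ = x ^ (j + 1) * d := by rw [pow_succ]; group
  have h3 := h2 a
  rw [hτ] at h3
  simp only [inv_one, one_mul, mul_one] at h3
  have h4 : x ^ a = 1 := by
    have h5 : x ^ a * d * d⁻¹ = d * d⁻¹ := by rw [← h3]
    simpa using h5
  have h5 : x = 1 := by
    have h6 := (pow_gcd_eq_one).mpr ⟨h4, hx⟩
    rwa [hab, pow_one] at h6
  rw [h5, one_mul] at h1
  calc τ * d = τ * (τ⁻¹ * d * τ) := by rw [h1]
    _ = d * τ := by group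

section Star

variable {p : ℕ} [hp : Fact p.Prime] {Γ : Type*} [Group Γ] [Finite Γ]
variable {W : Type*} [AddCommGroup W] [Module (ZMod p) W] [Finite W]

/-- Fixed vectors of a subgroup. -/
def fixSub (ρ : Representation (ZMod p) Γ W) (X : Subgroup Γ) : Submodule (ZMod p) W where
  carrier := {v | ∀ b ∈ X, ρ b v = v}
  add_mem' := by
    intro a b ha hb y hy
    rw [map_add, ha y hy, hb y hy]
  zero_mem' := fun y _ => map_zero _
  smul_mem' := by
    intro c a ha y hy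
    rw [map_smul, ha y hy]

/-- Stabiliser of a submodule. -/
def stabSub (ρ : Representation (ZMod p) Γ W) (W₁ : Submodule (ZMod p) W) : Subgroup Γ where
  carrier := {g | (∀ v ∈ W₁, ρ g v ∈ W₁) ∧ (∀ v ∈ W₁, ρ g⁻¹ v ∈ W₁)}
  one_mem' := by
    constructor
    · intro v hv
      rw [map_one]; exact hv
    · intro v hv
      rw [inv_one, map_one]; exact hv
  mul_mem' := by
    rintro a b ⟨ha, ha'⟩ ⟨hb, hb'⟩
    constructor
    · intro v hv
      rw [map_mul]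
      exact ha _ (hb _ hv)
    · intro v hv
      rw [mul_inv_rev, map_mul]
      exact hb' _ (ha' _ hv)
  inv_mem' := by
    rintro a ⟨ha, ha'⟩
    constructor
    · exact ha'
    · intro v hv
      rw [inv_inv]; exact ha v hv

/-- Restricted representation. -/
def restrRep (ρ : Representation (ZMod p) Γ W) (W₁ : Submodule (ZMod p) W) :
    Representation (ZMod p) ↥(stabSub ρ W₁) ↥W₁ where
  toFun g := (ρ g).restrict g.2.1
  map_one' := by
    apply LinearMap.ext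
    intro v
    apply Subtype.ext
    show ρ 1 (v : W) = v
    rw [map_one]; rfl
  map_mul' := by
    intro a b
    apply LinearMap.ext
    intro v
    apply Subtype.ext
    show ρ ((a : Γ) * b) (v : W) = ρ a (ρ b v)
    rw [map_mul]; rfl

theorem restrRep_apply (ρ : Representation (ZMod p) Γ W) (W₁ : Submodule (ZMod p) W)
    (g : ↥(stabSub ρ W₁)) (v : ↥W₁) : ((restrRep ρ W₁ g v : ↥W₁) : W) = ρ g v := rfl

theorem star (ρ : Representation (ZMod p) Γ W) (hf : ∀ g, ρ g = 1 → g = 1)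
    (q : ℕ) (hq : q.Prime) (hpq : p ≠ q) (h23 : ¬ ((p = 2 ∧ q = 3) ∨ (p = 3 ∧ q = 2)))
    (A : Subgroup Γ) (hAab : ∀ x ∈ A, ∀ y ∈ A, x * y = y * x) (hAp : IsPGroup p A)
    (hI : ∀ W₀ : Submodule (ZMod p) W, (∀ a ∈ A, ∀ v ∈ W₀, ρ a v ∈ W₀) → ∀ B₀ : Subgroup Γ, B₀ ≤ A →
      (∀ b ∈ B₀, ∀ v ∈ W₀, ρ b v = v) →
      Nat.card W₀ ≤ Nat.card {v : W // v ∈ W₀ ∧ ∀ a ∈ A, ρ a v = v} * B₀.relIndex A) :
    ∀ n, ∀ D : Subgroup Γ, Nat.card D = n → IsPGroup q D → (∀ a ∈ A, ∀ d ∈ D, a * d * a⁻¹ ∈ D) →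
      ∀ a ∈ A, ∀ d ∈ D, a * d = d * a := by
  classical
  haveI : Fact q.Prime := ⟨hq⟩
  have hpp : p.Prime := hp.out
  intro n
  induction n using Nat.strong_induction_on with
  | _ n ih =>
  intro D hDn hDq hAD
  by_contra hnot
  have hrmul : ∀ (x y : Γ) (v : W), ρ (x * y) v = ρ x (ρ y v) := by
    intro x y v; rw [map_mul]; rfl
  have hrone : ∀ v : W, ρ 1 v = v := by
    intro v; rw [map_one]; rfl
  have hrinv : ∀ (x : Γ) (v : W), ρ x (ρ x⁻¹ v) = v := by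
    intro x v; rw [← hrmul, mul_inv_cancel, hrone]
  have hrinv' : ∀ (x : Γ) (v : W), ρ x⁻¹ (ρ x v) = v := by
    intro x v; rw [← hrmul, inv_mul_cancel, hrone]
  have hprop : ∀ D₂ : Subgroup Γ, D₂ ≤ D → D₂ ≠ D → (∀ a ∈ A, ∀ d ∈ D₂, a * d * a⁻¹ ∈ D₂) →
      ∀ a ∈ A, ∀ d ∈ D₂, a * d = d * a := by
    intro D₂ hle hne hinv
    have hlt : Nat.card D₂ < n := by
      rw [← hDn]
      exact lt_of_le_of_ne (Subgroup.card_le_of_le hle)
        (fun h => hne (Subgroup.eq_of_le_of_card_ge hle h.ge))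
    exact ih _ hlt D₂ rfl (hDq.to_le hle) hinv
  have hmc : ∀ a d : Γ, d ∈ Subgroup.centralizer ({a} : Set Γ) ↔ a * d = d * a := fun a d => by
    rw [Subgroup.mem_centralizer_iff]; simp
  have hmin : ∀ a ∈ A, (¬ ∀ d ∈ D, a * d = d * a) → ∀ d ∈ D, a * d = d * a →
      ∀ x ∈ A, x * d = d * x := by
    intro a ha hna d hd hc x hx
    refine hprop (D ⊓ Subgroup.centralizer ({a} : Set Γ)) inf_le_left ?_ ?_ x hx d ⟨hd, (hmc a d).mpr hc⟩
    · intro h
      apply hna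
      intro e he
      rw [← h] at he
      exact (hmc a e).mp he.2
    · intro y hy e he
      refine ⟨hAD y hy e he.1, (hmc a _).mpr ?_⟩
      have h1 := (hmc a e).mp he.2
      have h2 := hAab a ha y hy
      have h3 : a * y⁻¹ = y⁻¹ * a := by
        rw [eq_inv_mul_iff_mul_eq, ← mul_assoc, h2.symm, mul_assoc, mul_inv_cancel, mul_one]
      calc a * (y * e * y⁻¹) = (a * y) * e * y⁻¹ := by group
        _ = y * (a * e) * y⁻¹ := by rw [h2]; group
        _ = y * e * (a * y⁻¹) := by rw [h1]; group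
        _ = y * e * y⁻¹ * a := by rw [h3]; group
  have hcyc := range_cyclic hpq A D hAab hAp hDq hAD hmin hnot
  set φ₀ := conjOn A D hAD with hφ₀
  have hRp : IsPGroup p ↥φ₀.range := IsPGroup.of_surjective hAp φ₀.rangeRestrict
    (MonoidHom.rangeRestrict_surjective _)
  obtain ⟨g, hgen⟩ := hcyc.exists_generator
  obtain ⟨a₁, ha₁⟩ := g.2
  have ha := a₁.2
  set a : Γ := (a₁ : Γ) with hadef
  have hord : orderOf g = Nat.card ↥φ₀.range := orderOf_eq_card_of_forall_mem_zpowers hgen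
  obtain ⟨k, hk⟩ := IsPGroup.iff_card.mp hRp
  have hk0 : k ≠ 0 := by
    rintro rfl
    rw [pow_zero] at hk
    apply hnot
    intro x hx d hd
    have h1 : φ₀ ⟨x, hx⟩ = 1 := by
      have h2 : (⟨φ₀ ⟨x, hx⟩, ⟨x, hx⟩, rfl⟩ : ↥φ₀.range) = 1 := by
        haveI := (Nat.card_eq_one_iff_unique.mp hk).1
        exact Subsingleton.elim _ _
      exact congrArg Subtype.val h2
    exact (conjOn_eq_one_iff A D hAD ⟨x, hx⟩).mp h1 d hd
  obtain ⟨j, rfl⟩ := Nat.exists_eq_succ_of_ne_zero hk0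
  rw [Nat.succ_eq_add_one] at hk
  set τ : Γ := a ^ (p ^ j) with hτdef
  have hτA : τ ∈ A := A.pow_mem ha _
  have hτnc : ¬ ∀ d ∈ D, τ * d = d * τ := by
    intro hall
    have h1 : φ₀ ⟨τ, hτA⟩ = 1 := (conjOn_eq_one_iff A D hAD ⟨τ, hτA⟩).mpr hall
    have h2 : (⟨τ, hτA⟩ : ↥A) = a₁ ^ (p ^ j) := rfl
    rw [h2, map_pow, ha₁] at h1
    have h3 : g ^ (p ^ j) = 1 := Subtype.ext h1
    have hlt : p ^ j < orderOf g := by
      rw [hord, hk, pow_succ]
      exact lt_mul_of_one_lt_right (pow_pos hpp.pos _) hpp.one_lt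
    exact pow_ne_one_of_lt_orderOf (pow_pos hpp.pos _).ne' hlt h3
  set B : Subgroup Γ := A ⊓ Subgroup.centralizer (D : Set Γ) with hBdef
  have hBrel : B.relIndex A = p ^ (j + 1) := by
    have h1 : B.subgroupOf A = φ₀.ker := by
      ext x
      rw [Subgroup.mem_subgroupOf, MonoidHom.mem_ker, conjOn_eq_one_iff]
      constructor
      · intro h d hd
        exact (Subgroup.mem_centralizer_iff.mp h.2 d hd).symm
      · intro h
        exact ⟨x.2, Subgroup.mem_centralizer_iff.mpr fun d hd => (h d hd).symm⟩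
    rw [Subgroup.relIndex, h1, Subgroup.index_ker, hk]
  have hBp : IsPGroup p ↥B := hAp.to_le inf_le_left
  obtain ⟨e, he⟩ := IsPGroup.iff_card.mp hDq
  have hcoppq : Nat.Coprime p q := (Nat.coprime_primes hpp hq).mpr hpq
  haveI : Fintype ↥D := Fintype.ofFinite _
  -- the averaging map
  let T : Module.End (ZMod p) W := ∑ d : ↥D, ρ (d : Γ)
  have hTapp : ∀ v, T v = ∑ d : ↥D, ρ (d : Γ) v := fun v => LinearMap.sum_apply _ _ _
  have hTd : ∀ d₀ ∈ D, ∀ v, T (ρ d₀ v) = T v := by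
    intro d₀ hd₀ v
    rw [hTapp, hTapp, ← Equiv.sum_comp (Equiv.mulRight (⟨d₀, hd₀⟩ : ↥D)) (fun d : ↥D => ρ (d : Γ) v)]
    refine Finset.sum_congr rfl fun d _ => ?_
    show ρ (d : Γ) (ρ d₀ v) = ρ ((d : Γ) * d₀) v
    rw [hrmul]
  have hTfix : ∀ d₀ ∈ D, ∀ u, ρ d₀ (T u) = T u := by
    intro d₀ hd₀ u
    rw [hTapp, map_sum, ← Equiv.sum_comp (Equiv.mulLeft (⟨d₀, hd₀⟩ : ↥D)) (fun d : ↥D => ρ (d : Γ) u)]
    refine Finset.sum_congr rfl fun d _ => ?_
    show ρ d₀ (ρ (d : Γ) u) = ρ (d₀ * (d : Γ)) u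
    rw [hrmul]
  have hTa : ∀ x ∈ A, ∀ v, T (ρ x v) = ρ x (T v) := by
    intro x hx v
    rw [hTapp, hTapp, map_sum, ← Equiv.sum_comp ((conjOn A D hAD ⟨x, hx⟩).toEquiv)
      (fun d : ↥D => ρ (d : Γ) (ρ x v))]
    refine Finset.sum_congr rfl fun d _ => ?_
    show ρ (x * (d : Γ) * x⁻¹) (ρ x v) = ρ x (ρ (d : Γ) v)
    rw [hrmul, hrinv', hrmul]
  have hW'ne : ∃ v : W, v ≠ 0 ∧ T v = 0 := by
    by_contra h
    push_neg at h
    have hinj : Function.Injective T := by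
      rw [injective_iff_map_eq_zero]
      intro v hv
      by_contra h0
      exact h v h0 hv
    have hsurj : Function.Surjective T := Finite.injective_iff_surjective.mp hinj
    apply hnot
    intro x _ d hd
    have h1 : ρ d = 1 := by
      apply LinearMap.ext
      intro w
      obtain ⟨u, rfl⟩ := hsurj w
      exact hTfix d hd u
    rw [hf d h1]
    simp
  have hCW' : ∀ v : W, T v = 0 → (∀ d ∈ D, ρ d v = v) → v = 0 := by
    intro v hv hfx
    rw [hTapp] at hv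
    have h1 : ∑ d : ↥D, ρ (d : Γ) v = Nat.card ↥D • v := by
      rw [Finset.sum_congr rfl (fun (d : ↥D) _ => hfx (d : Γ) d.2), Finset.sum_const, Finset.card_univ,
        Nat.card_eq_fintype_card]
    rw [h1, he, ← Nat.cast_smul_eq_nsmul (ZMod p)] at hv
    rcases smul_eq_zero.mp hv with h2 | h2
    · exfalso
      have h3 := (ZMod.natCast_eq_zero_iff _ _).mp h2
      have h4 := hpp.dvd_of_dvd_pow h3
      exact hpq ((Nat.prime_dvd_prime_iff_eq hpp hq).mp h4)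
    · exact h2
  -- the working subspace
  let W₁ : Submodule (ZMod p) W := LinearMap.ker T ⊓ fixSub ρ B
  have hmemW₁ : ∀ v, v ∈ W₁ ↔ T v = 0 ∧ ∀ b ∈ B, ρ b v = v := fun v => Iff.rfl
  have hW₁A : ∀ x ∈ A, ∀ v ∈ W₁, ρ x v ∈ W₁ := by
    intro x hx v hv
    rw [hmemW₁] at hv ⊢
    refine ⟨by rw [hTa x hx, hv.1, map_zero], fun b hb => ?_⟩
    rw [← hrmul, hAab b hb.1 x hx, hrmul, hv.2 b hb]
  have hW₁D : ∀ d ∈ D, ∀ v ∈ W₁, ρ d v ∈ W₁ := by
    intro d hd v hv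
    rw [hmemW₁] at hv ⊢
    refine ⟨by rw [hTd d hd, hv.1], fun b hb => ?_⟩
    rw [← hrmul, (Subgroup.mem_centralizer_iff.mp hb.2 d hd).symm, hrmul, hv.2 b hb]
  -- a nonzero vector
  have hW₁ne : ∃ v₀ : W, v₀ ≠ 0 ∧ v₀ ∈ W₁ := by
    let W' : Submodule (ZMod p) W := LinearMap.ker T
    have hbW' : ∀ b : ↥B, ∀ v ∈ W', ρ b v ∈ W' := by
      intro b v hv
      have hv' : T v = 0 := hv
      show T (ρ b v) = 0
      rw [hTa _ b.2.1, hv', map_zero]
    letI act : MulAction ↥B ↥W' :=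
      { smul := fun b v => ⟨ρ b v, hbW' b v v.2⟩
        one_smul := fun v => Subtype.ext (hrone v)
        mul_smul := fun x y v => Subtype.ext (hrmul x y v) }
    obtain ⟨w, hw0, hwT⟩ := hW'ne
    have hpd : p ∣ Nat.card ↥W' := by
      have h1 : addOrderOf (⟨w, hwT⟩ : ↥W') = p := by
        apply addOrderOf_eq_prime
        · exact ZModModule.char_nsmul_eq_zero p _
        · intro h
          exact hw0 (congrArg Subtype.val h)
      have h2 := addOrderOf_dvd_natCard (⟨w, hwT⟩ : ↥W')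
      rwa [h1] at h2
    have h0fix : (0 : ↥W') ∈ MulAction.fixedPoints ↥B ↥W' := by
      intro b
      apply Subtype.ext
      show ρ b (0 : W) = 0
      exact map_zero _
    obtain ⟨v, hvf, hv0⟩ := hBp.exists_fixed_point_of_prime_dvd_card_of_fixed_point ↥W' hpd h0fix
    refine ⟨v, fun h => hv0 (Subtype.ext h.symm), ?_⟩
    rw [hmemW₁]
    refine ⟨v.2, fun b hb => ?_⟩
    have := hvf ⟨b, hb⟩
    exact congrArg Subtype.val this
  obtain ⟨v₀, hv₀0, hv₀W⟩ := hW₁ne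
  -- the trivial part of D
  let E : Subgroup Γ :=
    { carrier := {g | g ∈ D ∧ ∀ v ∈ W₁, ρ g v = v}
      one_mem' := ⟨D.one_mem, fun v _ => hrone v⟩
      mul_mem' := by
        rintro x y ⟨hx, hx'⟩ ⟨hy, hy'⟩
        refine ⟨D.mul_mem hx hy, fun v hv => ?_⟩
        rw [hrmul, hy' v hv, hx' v hv]
      inv_mem' := by
        rintro x ⟨hx, hx'⟩
        refine ⟨D.inv_mem hx, fun v hv => ?_⟩
        have := hrinv' x v
        rwa [hx' v hv] at this }
  have hEinv : ∀ x ∈ A, ∀ g ∈ E, x * g * x⁻¹ ∈ E := by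
    rintro x hx g ⟨hg, hg'⟩
    refine ⟨hAD x hx g hg, fun v hv => ?_⟩
    rw [hrmul, hrmul, hg' _ (hW₁A _ (A.inv_mem hx) v hv), hrinv]
  have hEne : E ≠ D := by
    intro h
    apply hv₀0
    refine hCW' v₀ hv₀W.1 fun d hd => ?_
    have : d ∈ E := by rw [h]; exact hd
    exact this.2 v₀ hv₀W
  have hEc := hprop E (fun g hg => hg.1) hEne hEinv
  obtain ⟨m, hm⟩ := hAp ⟨a, ha⟩
  have hm' : a ^ (p ^ m) = 1 := congrArg Subtype.val hm
  have hτm : τ ^ (p ^ m) = 1 := by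
    rw [hτdef, ← pow_mul, mul_comm, pow_mul, hm', one_pow]
  have hcopp : Nat.Coprime (p ^ m) (q ^ e) := Nat.Coprime.pow _ _ hcoppq
  have hDinvτ : ∀ d ∈ D, τ⁻¹ * (d * τ * d⁻¹) ∈ D := by
    intro d hd
    have h1 := D.mul_mem (hAD _ (A.inv_mem hτA) d hd) (D.inv_mem hd)
    rw [inv_inv] at h1
    have h2 : τ⁻¹ * (d * τ * d⁻¹) = τ⁻¹ * d * τ * d⁻¹ := by group
    rwa [h2]
  have hex : ∃ d ∈ D, τ⁻¹ * (d * τ * d⁻¹) ∉ E := by
    by_contra hall
    push_neg at hall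
    apply hτnc
    intro d hd
    have hxE := hall d hd
    have hxq : (τ⁻¹ * (d * τ * d⁻¹)) ^ (q ^ e) = 1 := by
      have := pow_card_eq_one' (x := (⟨_, hDinvτ d hd⟩ : ↥D))
      rw [he] at this
      simpa using congrArg (fun z : ↥D => (z : Γ)) this
    exact comm_of_commutator τ d _ (p ^ m) (q ^ e) hcopp hτm hxq rfl (hEc τ hτA _ hxE)
  obtain ⟨d, hd, hdE⟩ := hex
  have hdnt : ¬ ∀ v ∈ W₁, ρ (τ⁻¹ * (d * τ * d⁻¹)) v = v := fun h => hdE ⟨hDinvτ d hd, h⟩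
  -- pass to the stabiliser
  have hstA : ∀ x ∈ A, x ∈ stabSub ρ W₁ := fun x hx =>
    ⟨hW₁A x hx, hW₁A _ (A.inv_mem hx)⟩
  have hstD : ∀ x ∈ D, x ∈ stabSub ρ W₁ := fun x hx =>
    ⟨hW₁D x hx, hW₁D _ (D.inv_mem hx)⟩
  let ρ₁ := restrRep ρ W₁
  let a' : ↥(stabSub ρ W₁) := ⟨a, hstA a ha⟩
  let τ' : ↥(stabSub ρ W₁) := a' ^ (p ^ j)
  have hτ'coe : (τ' : Γ) = τ := rfl
  let d' : ↥(stabSub ρ W₁) := ⟨d, hstD d hd⟩
  let n₀ : Module.End (ZMod p) ↥W₁ := ρ₁ a' - 1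
  let ν : Module.End (ZMod p) ↥W₁ := ρ₁ τ' - 1
  haveI : Module.Finite (ZMod p) ↥W₁ := Module.Finite.of_finite
  have hνeq : n₀ ^ (p ^ j) = ν := by
    show (ρ₁ a' - 1) ^ (p ^ j) = ρ₁ τ' - 1
    rw [sub_one_pow_char, ← map_pow]
  have ha'm : a' ^ (p ^ m) = 1 := Subtype.ext hm'
  have hτ'm : τ' ^ (p ^ m) = 1 := Subtype.ext hτm
  have hn₀nil : IsNilpotent n₀ := by
    refine ⟨p ^ m, ?_⟩
    show (ρ₁ a' - 1) ^ (p ^ m) = 0
    rw [sub_one_pow_char, ← map_pow, ha'm, map_one, sub_self]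
  have hνnil : IsNilpotent ν := by
    refine ⟨p ^ m, ?_⟩
    show (ρ₁ τ' - 1) ^ (p ^ m) = 0
    rw [sub_one_pow_char, ← map_pow, hτ'm, map_one, sub_self]
  have hρ₁ne : ρ₁ (τ'⁻¹ * (d' * τ' * d'⁻¹)) ≠ 1 := by
    intro h
    apply hdnt
    intro v hv
    have h1 := congrArg (fun f : Module.End (ZMod p) ↥W₁ => ((f ⟨v, hv⟩ : ↥W₁) : W)) h
    exact h1
  have hνne : ν ≠ 0 := by
    intro h0
    apply hρ₁ne
    have h1 : ρ₁ τ' = 1 := sub_eq_zero.mp h0
    have h2 : ρ₁ τ'⁻¹ = 1 := by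
      calc ρ₁ τ'⁻¹ = ρ₁ τ'⁻¹ * ρ₁ τ' := by rw [h1, mul_one]
        _ = 1 := by rw [← map_mul, inv_mul_cancel, map_one]
    rw [map_mul, map_mul, map_mul, h1, h2, one_mul, mul_one, ← map_mul, mul_inv_cancel, map_one]
  -- the rank bound
  have hrk0 : Module.finrank (ZMod p) (LinearMap.range n₀) ≤ j + 1 := by
    have h1 := hI W₁ hW₁A B inf_le_left (fun b hb v hv => hv.2 b hb)
    rw [hBrel] at h1
    have hinj : Nat.card {v : W // v ∈ W₁ ∧ ∀ a ∈ A, ρ a v = v} ≤ Nat.card ↥(LinearMap.ker n₀) := by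
      refine Nat.card_le_card_of_injective
        (fun v => ⟨⟨v.1, v.2.1⟩, ?_⟩) ?_
      · rw [LinearMap.mem_ker]
        apply Subtype.ext
        show ρ a v.1 - v.1 = 0
        rw [v.2.2 a ha, sub_self]
      · intro x y hxy
        have := congrArg (fun z : ↥(LinearMap.ker n₀) => ((z : ↥W₁) : W)) hxy
        exact Subtype.ext this
    have h2 : Nat.card ↥W₁ ≤ Nat.card ↥(LinearMap.ker n₀) * p ^ (j + 1) :=
      h1.trans (Nat.mul_le_mul_right _ hinj)
    have hcard : ∀ (S : Type _) [AddCommGroup S] [Module (ZMod p) S] [Module.Finite (ZMod p) S],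
        Nat.card S = p ^ Module.finrank (ZMod p) S := by
      intro S _ _ _
      rw [Module.natCard_eq_pow_finrank (K := ZMod p) (V := S), Nat.card_zmod]
    have h3 := LinearMap.finrank_range_add_finrank_ker n₀
    rw [hcard ↥W₁, hcard ↥(LinearMap.ker n₀), ← pow_add] at h2
    have h4 := (Nat.pow_le_pow_iff_right hpp.one_lt).mp h2
    omega
  have hpj : j + 1 ≤ p ^ j := by
    have h1 : j < 2 ^ j := Nat.lt_two_pow_self
    have h2 : 2 ^ j ≤ p ^ j := Nat.pow_le_pow_left hpp.two_le j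
    omega
  have hrk : Module.finrank (ZMod p) (LinearMap.range ν) = 1 := by
    have h1 := rank_pow_le n₀ hn₀nil (p ^ j) (pow_pos hpp.pos _) (by rw [hνeq]; exact hνne)
    rw [hνeq] at h1
    have h2 : Module.finrank (ZMod p) (LinearMap.range ν) ≠ 0 := by
      intro h0
      apply hνne
      have h3 := Submodule.finrank_eq_zero.mp h0
      exact LinearMap.range_eq_bot.mp h3
    omega
  have hνn := sq_zero_of_rank_one ν hνnil hrk
  have hD' : IsPGroup q ↥(D.subgroupOf (stabSub ρ W₁)) :=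
    hDq.comap_of_injective (stabSub ρ W₁).subtype (Subgroup.subtype_injective _)
  have hres := transv_dichotomy ρ₁ (D.subgroupOf (stabSub ρ W₁)) q hq hpq hD' τ' d'
    (fun x hx => hAD _ hτA _ hx)
    (fun x hx => by
      have := hAD _ (A.inv_mem hτA) _ hx
      rw [inv_inv] at this
      exact this)
    hd m hτ'm ν (by show ρ₁ τ' = 1 + (ρ₁ τ' - 1); abel) hνn hrk
  rcases hres with h | h
  · exact hρ₁ne h
  · exact h23 h

end Star

end Cfsg.Agent.Lib.Struct.Off
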