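import Cfsg.Agent.Lib.Struct.OffC
import Cfsg.Agent.Lib.Coprime.PSolvable

set_option autoImplicit false

namespace Cfsg.Agent.Lib.Struct.Off

section Basic

variable {G : Type*} [Group G] [Finite G]

theorem q_part {q : ℕ} (hq : q.Prime) (S : Subgroup G) {x : G} (hx : x ∉ S) (k : ℕ)
    (h : x ^ (q ^ k) ∈ S) : ∃ y, y ∈ Subgroup.zpowers x ∧ y ∉ S ∧ ∃ a, y ^ (q ^ a) = 1 := by
  have ho : orderOf x ≠ 0 := (orderOf_pos x).ne'
  obtain ⟨a, b, hb, hab⟩ := Nat.exists_eq_pow_mul_and_not_dvd ho q hq.ne_one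
  refine ⟨x ^ b, Subgroup.npow_mem_zpowers x b, ?_, a, ?_⟩
  · intro hm
    apply hx
    have hcop : Nat.Coprime b (q ^ k) := Nat.Coprime.pow_right _ (((Nat.Prime.coprime_iff_not_dvd hq).mpr hb).symm)
    have hb1 : x ^ (Nat.gcd b (q ^ k)) ∈ S := by
      have h1 := Nat.gcd_eq_gcd_ab b (q ^ k)
      have h2 : x ^ ((Nat.gcd b (q ^ k) : ℕ) : ℤ) =
          (x ^ b) ^ (Nat.gcdA b (q ^ k)) * (x ^ (q ^ k)) ^ (Nat.gcdB b (q ^ k)) := by
        rw [h1, zpow_add, zpow_mul, zpow_mul, zpow_natCast, zpow_natCast]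
      rw [zpow_natCast] at h2
      rw [h2]
      exact S.mul_mem (S.zpow_mem hm _) (S.zpow_mem h _)
    rwa [hcop, pow_one] at hb1
  · rw [← pow_mul, mul_comm, ← hab]
    exact pow_orderOf_eq_one x

theorem lift_mul (L : Subgroup G) (l n : G) (hl : l ∈ L) (hn : ∀ x ∈ L, n * x * n⁻¹ ∈ L) (j : ℕ) :
    (l * n) ^ j * (n ^ j)⁻¹ ∈ L := by
  have hnj : ∀ i : ℕ, ∀ x ∈ L, n ^ i * x * (n ^ i)⁻¹ ∈ L := by
    intro i
    induction i with
    | zero => intro x hx; simpa using hx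
    | succ i ih =>
      intro x hx
      have h1 := ih _ (hn x hx)
      have h2 : n ^ (i + 1) * x * (n ^ (i + 1))⁻¹ = n ^ i * (n * x * n⁻¹) * (n ^ i)⁻¹ := by
        rw [pow_succ]; group
      rw [h2]; exact h1
  induction j with
  | zero => simpa using L.one_mem
  | succ j ih =>
    have h1 : (l * n) ^ (j + 1) * (n ^ (j + 1))⁻¹ = ((l * n) ^ j * (n ^ j)⁻¹) * (n ^ j * l * (n ^ j)⁻¹) := by
      rw [pow_succ, pow_succ]; group
    rw [h1]
    exact L.mul_mem ih (hnj j l hl)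

theorem mem_normalizer_of_conj (P : Subgroup G) (g : G) (h : ∀ x ∈ P, g * x * g⁻¹ ∈ P) :
    g ∈ Subgroup.normalizer (P : Set G) := by
  classical
  rw [Subgroup.mem_normalizer_iff]
  intro x
  refine ⟨h x, fun hx => ?_⟩
  have hinj : Function.Injective (fun z : ↥P => (⟨g * z * g⁻¹, h z z.2⟩ : ↥P)) := by
    intro a b hab
    have h1 : g * (a : G) * g⁻¹ = g * b * g⁻¹ := congrArg Subtype.val hab
    exact Subtype.ext (by simpa using h1)
  have hsurj := Finite.injective_iff_surjective.mp hinj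
  obtain ⟨z, hz⟩ := hsurj ⟨g * x * g⁻¹, hx⟩
  have h1 : g * (z : G) * g⁻¹ = g * x * g⁻¹ := congrArg Subtype.val hz
  have h2 : (z : G) = x := by simpa using h1
  rw [← h2]
  exact z.2

theorem card_mul_relIndex' {H K : Subgroup G} (h : H ≤ K) : Nat.card H * H.relIndex K = Nat.card K := by
  have h1 := Subgroup.card_mul_index (H.subgroupOf K)
  have h2 : Nat.card ↥(H.subgroupOf K) = Nat.card H :=
    Nat.card_congr (Subgroup.subgroupOfEquivOfLe h).toEquiv
  rw [h2] at h1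
  exact h1

theorem frat {p : ℕ} [Fact p.Prime] (M P : Subgroup G) (y : G) (hPM : P ≤ M) (hPp : IsPGroup p P)
    (hPi : ¬ p ∣ P.relIndex M) (hy : ∀ x ∈ M, y * x * y⁻¹ ∈ M) :
    ∃ m ∈ M, m⁻¹ * y ∈ Subgroup.normalizer (P : Set G) := by
  classical
  let P₂ : Subgroup G := P.map (MulAut.conj y).toMonoidHom
  have hP₂M : P₂ ≤ M := by
    rintro _ ⟨x, hx, rfl⟩
    exact hy x (hPM hx)
  have hcard : Nat.card P₂ = Nat.card P :=
    Nat.card_congr (Subgroup.equivMapOfInjective P _ (MulAut.conj y).injective).toEquiv.symm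
  have hP₂p : IsPGroup p P₂ := by
    apply IsPGroup.iff_card.mpr
    rw [hcard]
    exact IsPGroup.iff_card.mp hPp
  have hi : P₂.relIndex M = P.relIndex M := by
    have h1 := card_mul_relIndex' hPM
    have h2 := card_mul_relIndex' hP₂M
    rw [hcard, ← h1] at h2
    exact Nat.eq_of_mul_eq_mul_left Nat.card_pos h2
  have hp1 : IsPGroup p ↥(P.subgroupOf M) := hPp.comap_of_injective M.subtype (Subgroup.subtype_injective _)
  have hp2 : IsPGroup p ↥(P₂.subgroupOf M) := hP₂p.comap_of_injective M.subtype (Subgroup.subtype_injective _)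
  let S₁ : Sylow p ↥M := hp1.toSylow hPi
  let S₂ : Sylow p ↥M := hp2.toSylow (by
    show ¬ p ∣ P₂.relIndex M
    rw [hi]; exact hPi)
  obtain ⟨m, hm⟩ := MulAction.exists_smul_eq ↥M S₁ S₂
  have h1 : ∀ x ∈ P, (m : G) * x * (m : G)⁻¹ ∈ P₂ := by
    intro x hx
    have hx' : (⟨x, hPM hx⟩ : ↥M) ∈ (S₁ : Subgroup ↥M) := hx
    have h2 : m * (⟨x, hPM hx⟩ : ↥M) * m⁻¹ ∈ (S₂ : Subgroup ↥M) := by
      rw [← hm, Sylow.smul_def, Sylow.pointwise_smul_def]
      exact Subgroup.smul_mem_pointwise_smul _ _ _ hx'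
    exact h2
  have h2 : ∀ x ∈ P, (y⁻¹ * m) * x * (y⁻¹ * m)⁻¹ ∈ P := by
    intro x hx
    obtain ⟨z, hz, hzx⟩ := h1 x hx
    have hzx' : y * z * y⁻¹ = (m : G) * x * (m : G)⁻¹ := hzx
    have h3 : (y⁻¹ * m) * x * (y⁻¹ * m)⁻¹ = z := by
      have : (y⁻¹ * m) * x * (y⁻¹ * m)⁻¹ = y⁻¹ * ((m : G) * x * (m : G)⁻¹) * y := by group
      rw [this, ← hzx']
      group
    rw [h3]
    exact hz
  refine ⟨m, m.2, ?_⟩
  have h3 := mem_normalizer_of_conj P _ h2
  have h4 := (Subgroup.normalizer (P : Set G)).inv_mem h3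
  have h5 : (y⁻¹ * (m : G))⁻¹ = (m : G)⁻¹ * y := by group
  rwa [h5] at h4

theorem card_sup_inf (P L : Subgroup G) [L.Normal] :
    Nat.card ↥(P ⊔ L) * Nat.card ↥(L ⊓ P) = Nat.card P * Nat.card L := by
  have h1 : L.relIndex (P ⊔ L) = L.relIndex P := Subgroup.relIndex_sup_right P L
  have h2 := card_mul_relIndex' (le_sup_right : L ≤ P ⊔ L)
  have h3 := card_mul_relIndex' (inf_le_right : L ⊓ P ≤ P)
  rw [Subgroup.inf_relIndex_right] at h3
  rw [← h2, ← h3, h1]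
  ring

/-- The relative index of a Sylow subgroup in a normal subgroup has no factor `p`. -/
theorem sylow_relIndex {p : ℕ} [Fact p.Prime] (T : Sylow p G) (K : Subgroup G) [K.Normal] :
    ¬ p ∣ (T : Subgroup G).relIndex K := by
  intro hd
  apply T.not_dvd_index
  have h0 := card_sup_inf (T : Subgroup G) K
  have h1 := card_mul_relIndex' (le_sup_left : (T : Subgroup G) ≤ (T : Subgroup G) ⊔ K)
  have h2 := card_mul_relIndex' (inf_le_left : K ⊓ (T : Subgroup G) ≤ K)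
  rw [Subgroup.inf_relIndex_left] at h2
  have h3 : (T : Subgroup G).relIndex K = (T : Subgroup G).relIndex ((T : Subgroup G) ⊔ K) := by
    rw [← h1, ← h2] at h0
    have h4 : Nat.card ↥(T : Subgroup G) * Nat.card ↥(K ⊓ (T : Subgroup G)) ≠ 0 :=
      (Nat.mul_pos Nat.card_pos Nat.card_pos).ne'
    apply Nat.eq_of_mul_eq_mul_left (Nat.pos_of_ne_zero h4)
    rw [mul_comm _ ((T : Subgroup G).relIndex K)] at *
    nlinarith [h0]
  rw [h3] at hd
  rw [← Subgroup.relIndex_mul_index (le_sup_left : (T : Subgroup G) ≤ (T : Subgroup G) ⊔ K)]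
  exact hd.mul_right _

/-- Abelian subgroups of largest order. -/
def IsMaxAb (T A : Subgroup G) : Prop :=
  A ≤ T ∧ (∀ x ∈ A, ∀ y ∈ A, x * y = y * x) ∧
    ∀ B : Subgroup G, B ≤ T → (∀ x ∈ B, ∀ y ∈ B, x * y = y * x) → Nat.card B ≤ Nat.card A

/-- The Thompson subgroup. -/
def Jof (T : Subgroup G) : Subgroup G := sSup {A | IsMaxAb T A}

theorem le_Jof {T A : Subgroup G} (h : IsMaxAb T A) : A ≤ Jof T := le_sSup h

theorem Jof_le_of {T K : Subgroup G} (h : ∀ A, IsMaxAb T A → A ≤ K) : Jof T ≤ K := sSup_le h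

theorem Jof_le (T : Subgroup G) : Jof T ≤ T := Jof_le_of fun _ h => h.1

theorem exists_maxAb (T : Subgroup G) : ∃ A, IsMaxAb T A := by
  classical
  let 𝒜 : Set (Subgroup G) := {A | A ≤ T ∧ ∀ x ∈ A, ∀ y ∈ A, x * y = y * x}
  have hne : 𝒜.Nonempty := ⟨⊥, bot_le, by
    intro x hx y hy
    rw [Subgroup.mem_bot] at hx hy
    rw [hx, hy]⟩
  obtain ⟨A, hA, hmax⟩ := Set.exists_max_image 𝒜 (fun A => Nat.card A) (Set.toFinite _) hne
  exact ⟨A, hA.1, hA.2, fun B hB hc => hmax B ⟨hB, hc⟩⟩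

/-- Two commuting abelian subgroups generate an abelian subgroup. -/
theorem sup_abelian {A B : Subgroup G} (hA : ∀ x ∈ A, ∀ y ∈ A, x * y = y * x)
    (hB : ∀ x ∈ B, ∀ y ∈ B, x * y = y * x) (hAB : ∀ x ∈ A, ∀ y ∈ B, x * y = y * x) :
    ∀ x ∈ A ⊔ B, ∀ y ∈ A ⊔ B, x * y = y * x := by
  have hmc : ∀ a d : G, d ∈ Subgroup.centralizer ({a} : Set G) ↔ a * d = d * a := fun a d => by
    rw [Subgroup.mem_centralizer_iff]; simp
  have h1 : ∀ v ∈ B, ∀ y ∈ A ⊔ B, v * y = y * v := by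
    intro v hv y hy
    have : A ⊔ B ≤ Subgroup.centralizer ({v} : Set G) := sup_le
      (fun a ha => (hmc v a).mpr (hAB a ha v hv).symm) (fun b hb => (hmc v b).mpr (hB v hv b hb))
    exact (hmc v y).mp (this hy)
  have h2 : ∀ a ∈ A, ∀ y ∈ A ⊔ B, a * y = y * a := by
    intro a ha y hy
    have : A ⊔ B ≤ Subgroup.centralizer ({a} : Set G) := sup_le
      (fun b hb => (hmc a b).mpr (hA a ha b hb)) (fun b hb => (hmc a b).mpr (hAB a ha b hb))
    exact (hmc a y).mp (this hy)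
  intro x hx y hy
  have : A ⊔ B ≤ Subgroup.centralizer ({y} : Set G) := sup_le
    (fun a ha => (hmc y a).mpr (h2 a ha y hy).symm) (fun b hb => (hmc y b).mpr (h1 b hb y hy).symm)
  exact ((hmc y x).mp (this hx)).symm

theorem mem_of_comm_maxAb {T A : Subgroup G} (hA : IsMaxAb T A) {v : G} (hvT : v ∈ T)
    (hv : ∀ a ∈ A, v * a = a * v) : v ∈ A := by
  have hab : ∀ x ∈ A ⊔ Subgroup.zpowers v, ∀ y ∈ A ⊔ Subgroup.zpowers v, x * y = y * x := by
    apply sup_abelian hA.2.1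
    · rintro _ ⟨i, rfl⟩ _ ⟨j, rfl⟩
      exact (Commute.refl v).zpow_zpow _ _
    · rintro x hx _ ⟨j, rfl⟩
      have h1 : Commute x v := (hv x hx).symm
      exact (h1.zpow_right j)
  have hle : A ⊔ Subgroup.zpowers v ≤ T := sup_le hA.1 (Subgroup.zpowers_le.mpr hvT)
  have h1 := hA.2.2 _ hle hab
  have h2 : A ⊔ Subgroup.zpowers v = A := (Subgroup.eq_of_le_of_card_ge le_sup_left h1).symm
  have h3 : Subgroup.zpowers v ≤ A := by
    rw [← h2]; exact le_sup_right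
  exact h3 (Subgroup.mem_zpowers v)

/-- An element normalising a subgroup between `J(T)` and `T` normalises `J(T)`. -/
theorem norm_J {T P₀ : Subgroup G} (hJ : Jof T ≤ P₀) (hP₀ : P₀ ≤ T) {n : G}
    (hn : n ∈ Subgroup.normalizer (P₀ : Set G)) : n ∈ Subgroup.normalizer ((Jof T : Subgroup G) : Set G) := by
  apply mem_normalizer_of_conj
  have hle : Jof T ≤ (Jof T).comap (MulAut.conj n).toMonoidHom := by
    apply Jof_le_of
    intro A hA
    intro a ha
    show n * a * n⁻¹ ∈ Jof T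
    let A' : Subgroup G := A.map (MulAut.conj n).toMonoidHom
    have hcard : Nat.card A' = Nat.card A :=
      Nat.card_congr (Subgroup.equivMapOfInjective A _ (MulAut.conj n).injective).toEquiv.symm
    have hA' : IsMaxAb T A' := by
      refine ⟨?_, ?_, ?_⟩
      · rintro _ ⟨x, hx, rfl⟩
        exact hP₀ ((Subgroup.mem_normalizer_iff.mp hn x).mp (hJ (le_Jof hA hx)))
      · rintro _ ⟨x, hx, rfl⟩ _ ⟨y, hy, rfl⟩
        show n * x * n⁻¹ * (n * y * n⁻¹) = n * y * n⁻¹ * (n * x * n⁻¹)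
        have := hA.2.1 x hx y hy
        calc n * x * n⁻¹ * (n * y * n⁻¹) = n * (x * y) * n⁻¹ := by group
          _ = n * (y * x) * n⁻¹ := by rw [this]
          _ = _ := by group
      · intro B hB hc
        rw [hcard]
        exact hA.2.2 B hB hc
    exact le_Jof hA' ⟨a, ha, rfl⟩
  exact fun x hx => hle hx

end Basic

section FP

variable {p : ℕ} [hp : Fact p.Prime] {Γ : Type*} [Group Γ] [Finite Γ]
variable {W : Type*} [AddCommGroup W] [Module (ZMod p) W] [Finite W]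

/-- Coprime fixed point lemma of Thompson-type. -/
theorem fixedpoint_coprime (ρ : Representation (ZMod p) Γ W) (q : ℕ) (hq : q.Prime) (hpq : p ≠ q)
    (D P : Subgroup Γ) (hD : IsPGroup q D) (hP : IsPGroup p P)
    (hc : ∀ x ∈ D, ∀ y ∈ P, x * y = y * x)
    (hfix : ∀ v : W, (∀ y ∈ P, ρ y v = v) → ∀ d ∈ D, ρ d v = v) :
    ∀ d ∈ D, ∀ v : W, ρ d v = v := by
  classical
  have hpp : p.Prime := hp.out
  haveI : Fact q.Prime := ⟨hq⟩
  have hrmul : ∀ (x y : Γ) (v : W), ρ (x * y) v = ρ x (ρ y v) := by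
    intro x y v; rw [map_mul]; rfl
  have hrone : ∀ v : W, ρ 1 v = v := by
    intro v; rw [map_one]; rfl
  haveI : Fintype ↥D := Fintype.ofFinite _
  let T : Module.End (ZMod p) W := ∑ d : ↥D, ρ (d : Γ)
  have hTapp : ∀ v, T v = ∑ d : ↥D, ρ (d : Γ) v := fun v => LinearMap.sum_apply _ _ _
  have hTfix : ∀ d₀ ∈ D, ∀ u, ρ d₀ (T u) = T u := by
    intro d₀ hd₀ u
    rw [hTapp, map_sum, ← Equiv.sum_comp (Equiv.mulLeft (⟨d₀, hd₀⟩ : ↥D)) (fun d : ↥D => ρ (d : Γ) u)]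
    refine Finset.sum_congr rfl fun d _ => ?_
    show ρ d₀ (ρ (d : Γ) u) = ρ (d₀ * (d : Γ)) u
    rw [hrmul]
  have hTP : ∀ y ∈ P, ∀ v, T (ρ y v) = ρ y (T v) := by
    intro y hy v
    rw [hTapp, hTapp, map_sum]
    refine Finset.sum_congr rfl fun d _ => ?_
    rw [← hrmul, ← hrmul, hc d d.2 y hy]
  obtain ⟨e, he⟩ := IsPGroup.iff_card.mp hD
  have hCW : ∀ v : W, T v = 0 → (∀ d ∈ D, ρ d v = v) → v = 0 := by
    intro v hv hfx
    rw [hTapp] at hv
    have h1 : ∑ d : ↥D, ρ (d : Γ) v = Nat.card ↥D • v := by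
      rw [Finset.sum_congr rfl (fun (d : ↥D) _ => hfx (d : Γ) d.2), Finset.sum_const, Finset.card_univ,
        Nat.card_eq_fintype_card]
    rw [h1, he, ← Nat.cast_smul_eq_nsmul (ZMod p)] at hv
    rcases smul_eq_zero.mp hv with h2 | h2
    · exfalso
      have h3 := (ZMod.natCast_eq_zero_iff _ _).mp h2
      have h4 := hpp.dvd_of_dvd_pow h3
      exact hpq ((Nat.prime_dvd_prime_iff_eq hpp hq).mp h4)
    · exact h2
  by_cases hne : ∃ v : W, v ≠ 0 ∧ T v = 0
  · exfalso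
    obtain ⟨w, hw0, hwT⟩ := hne
    let W' : Submodule (ZMod p) W := LinearMap.ker T
    have hbW' : ∀ b : ↥P, ∀ v ∈ W', ρ b v ∈ W' := by
      intro b v hv
      have hv' : T v = 0 := hv
      show T (ρ b v) = 0
      rw [hTP _ b.2, hv', map_zero]
    letI act : MulAction ↥P ↥W' :=
      { smul := fun b v => ⟨ρ b v, hbW' b v v.2⟩
        one_smul := fun v => Subtype.ext (hrone v)
        mul_smul := fun x y v => Subtype.ext (hrmul x y v) }
    have hpd : p ∣ Nat.card ↥W' := by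
      have h1 : addOrderOf (⟨w, hwT⟩ : ↥W') = p := by
        apply addOrderOf_eq_prime
        · exact ZModModule.char_nsmul_eq_zero p _
        · intro h
          exact hw0 (congrArg Subtype.val h)
      have h2 := addOrderOf_dvd_natCard (⟨w, hwT⟩ : ↥W')
      rwa [h1] at h2
    have h0fix : (0 : ↥W') ∈ MulAction.fixedPoints ↥P ↥W' := by
      intro b
      apply Subtype.ext
      show ρ b (0 : W) = 0
      exact map_zero _
    obtain ⟨v, hvf, hv0⟩ := hP.exists_fixed_point_of_prime_dvd_card_of_fixed_point ↥W' hpd h0fix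
    have hvfix : ∀ y ∈ P, ρ y (v : W) = v := fun y hy => congrArg Subtype.val (hvf ⟨y, hy⟩)
    exact hv0 (Subtype.ext (hCW v v.2 (hfix v hvfix)).symm)
  · push_neg at hne
    have hinj : Function.Injective T := by
      rw [injective_iff_map_eq_zero]
      intro v hv
      by_contra h0
      exact hne v h0 hv
    have hsurj : Function.Surjective T := Finite.injective_iff_surjective.mp hinj
    intro d hd v
    obtain ⟨u, rfl⟩ := hsurj v
    exact hTfix d hd u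

end FP

section Inv

/-- A `p`-group normalising a `p'`-group normalises a Sylow `q`-subgroup of it. -/
theorem exists_invariant_sylow {Γ : Type*} [Group Γ] [Finite Γ] {p q : ℕ} [hp : Fact p.Prime] [hq : Fact q.Prime]
    (U T : Subgroup Γ) (hTU : ∀ t ∈ T, ∀ u ∈ U, t * u * t⁻¹ ∈ U) (hT : IsPGroup p T)
    (hcop : (Nat.card U).Coprime p) (hdvd : q ∣ Nat.card U) :
    ∃ Q : Subgroup Γ, Q ≤ U ∧ IsPGroup q Q ∧ Q ≠ ⊥ ∧ ∀ t ∈ T, ∀ d ∈ Q, t * d * t⁻¹ ∈ Q := by
  classical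
  let φ := conjOn T U hTU
  letI act : MulAction ↥T (Sylow q ↥U) := MulAction.compHom _ φ
  have hnd : ¬ p ∣ Nat.card (Sylow q ↥U) := by
    intro h
    obtain ⟨P₀⟩ : Nonempty (Sylow q ↥U) := inferInstance
    have h1 : Nat.card (Sylow q ↥U) ∣ Nat.card ↥U := by
      have h2 := Sylow.card_dvd_index P₀
      have h3 := Subgroup.index_dvd_card (P₀ : Subgroup ↥U)
      exact h2.trans h3
    have h2 := h.trans h1
    have h3 : p ∣ Nat.gcd (Nat.card ↥U) p := Nat.dvd_gcd h2 dvd_rfl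
    rw [hcop] at h3
    exact hp.out.one_lt.ne' (Nat.dvd_one.mp h3)
  obtain ⟨P, hP⟩ := hT.nonempty_fixed_point_of_prime_not_dvd_card (Sylow q ↥U) hnd
  refine ⟨(P : Subgroup ↥U).map U.subtype, ?_, ?_, ?_, ?_⟩
  · rintro _ ⟨x, _, rfl⟩
    exact x.2
  · exact P.isPGroup'.map _
  · intro h
    have h1 := (Subgroup.map_eq_bot_iff_of_injective _ (Subgroup.subtype_injective _)).mp h
    exact P.ne_bot_of_dvd_card hdvd h1
  · rintro t ht _ ⟨x, hx, rfl⟩
    have hfix := hP ⟨t, ht⟩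
    have h1 : φ ⟨t, ht⟩ • P = P := hfix
    have h2 : φ ⟨t, ht⟩ x ∈ (P : Subgroup ↥U) := by
      rw [← h1, Sylow.pointwise_smul_def]
      exact Subgroup.smul_mem_pointwise_smul _ _ _ hx
    exact ⟨_, h2, rfl⟩

end Inv

end Cfsg.Agent.Lib.Struct.Off
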