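import Cfsg.Agent.Lib.Struct.OffD

set_option autoImplicit false

open scoped Pointwise

namespace Cfsg.Agent.Lib.Struct.Off

section Core

variable {X : Type*} [Group X] [Finite X] {p q : ℕ} [hp : Fact p.Prime] [hq : Fact q.Prime]

omit hq in
theorem offender (T V A : Subgroup X) (hVT : V ≤ T) (hVab : ∀ x ∈ V, ∀ y ∈ V, x * y = y * x)
    (hA : IsMaxAb T A)
    {W : Type*} [AddCommGroup W] [Module (ZMod p) W] [Finite W] (ι : W ≃ ↥V)
    (hιadd : ∀ a b, ι (a + b) = ι a * ι b) (ρ₀ : Representation (ZMod p) X W)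
    (hρ : ∀ x v, ((ι (ρ₀ x v) : ↥V) : X) = x * ι v * x⁻¹)
    {Γ : Type*} [Group Γ] (π : X →* Γ) (ρ : Representation (ZMod p) Γ W)
    (hρπ : ∀ x v, ρ (π x) v = ρ₀ x v) (W₀ : Submodule (ZMod p) W) (B₀ : Subgroup Γ)
    (htr : ∀ b ∈ B₀, ∀ v ∈ W₀, ρ b v = v) :
    Nat.card W₀ ≤ Nat.card {v : W // v ∈ W₀ ∧ ∀ a ∈ A.map π, ρ a v = v} * B₀.relIndex (A.map π) := by
  classical
  have hι0 : ι 0 = 1 := by
    have : ι 0 * 1 = ι 0 * ι 0 := by rw [mul_one, ← hιadd, add_zero]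
    exact (mul_left_cancel this).symm
  have hιneg : ∀ a, ι (-a) = (ι a)⁻¹ := by
    intro a
    apply eq_inv_of_mul_eq_one_left
    rw [← hιadd, neg_add_cancel, hι0]
  let V₀ : Subgroup X :=
    { carrier := {x | ∃ w ∈ W₀, ((ι w : ↥V) : X) = x}
      one_mem' := ⟨0, W₀.zero_mem, by rw [hι0]; rfl⟩
      mul_mem' := by
        rintro _ _ ⟨a, ha, rfl⟩ ⟨b, hb, rfl⟩
        exact ⟨a + b, W₀.add_mem ha hb, by rw [hιadd]; rfl⟩
      inv_mem' := by
        rintro _ ⟨a, ha, rfl⟩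
        exact ⟨-a, W₀.neg_mem ha, by rw [hιneg]; rfl⟩ }
  have hV₀V : V₀ ≤ V := by
    rintro _ ⟨w, _, rfl⟩
    exact (ι w).2
  have hV₀card : Nat.card V₀ = Nat.card W₀ := by
    refine (Nat.card_congr (Equiv.ofBijective (fun w : ↥W₀ => (⟨((ι w : ↥V) : X), ⟨w, w.2, rfl⟩⟩ : ↥V₀)) ⟨?_, ?_⟩)).symm
    · intro a b hab
      have h1 : ((ι a : ↥V) : X) = ((ι b : ↥V) : X) := congrArg (fun z : ↥V₀ => (z : X)) hab
      exact Subtype.ext (ι.injective (Subtype.ext h1))
    · rintro ⟨_, w, hw, rfl⟩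
      exact ⟨⟨w, hw⟩, rfl⟩
  let A₁ : Subgroup X := A ⊓ B₀.comap π
  have hA₁V₀ : ∀ x ∈ A₁, ∀ y ∈ V₀, x * y = y * x := by
    rintro x hx _ ⟨w, hw, rfl⟩
    have h1 : ρ₀ x w = w := by
      rw [← hρπ]
      exact htr _ hx.2 w hw
    have h2 := hρ x w
    rw [h1] at h2
    calc x * ((ι w : ↥V) : X) = x * ((ι w : ↥V) : X) * x⁻¹ * x := by group
      _ = _ := by rw [← h2]
  have hA₂ab := sup_abelian (A := A₁) (B := V₀) (fun x hx y hy => hA.2.1 x hx.1 y hy.1)
    (fun x hx y hy => hVab x (hV₀V hx) y (hV₀V hy)) hA₁V₀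
  have hA₂T : A₁ ⊔ V₀ ≤ T := sup_le (inf_le_left.trans hA.1) (hV₀V.trans hVT)
  have h1 := hA.2.2 _ hA₂T hA₂ab
  have h3 := card_mul_relIndex' (le_sup_left : A₁ ≤ A₁ ⊔ V₀)
  have h4 := card_mul_relIndex' (inf_le_left : A₁ ≤ A)
  have h2 : A₁.relIndex (A₁ ⊔ V₀) ≤ A₁.relIndex A := by
    rw [← h3, ← h4] at h1
    exact Nat.le_of_mul_le_mul_left h1 Nat.card_pos
  have h5 : A₁.relIndex V₀ ≤ A₁.relIndex (A₁ ⊔ V₀) := by
    apply Subgroup.relIndex_le_of_le_right le_sup_right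
    intro h0
    rw [h0, mul_zero] at h3
    exact (Nat.card_pos (α := ↥(A₁ ⊔ V₀))).ne h3
  have h6 : Nat.card V₀ = Nat.card ↥(A₁ ⊓ V₀) * A₁.relIndex V₀ := by
    have := card_mul_relIndex' (inf_le_right : A₁ ⊓ V₀ ≤ V₀)
    rw [Subgroup.inf_relIndex_right] at this
    exact this.symm
  have h7 : A₁.relIndex A = B₀.relIndex (A.map π) := by
    show (A ⊓ B₀.comap π).relIndex A = _
    rw [Subgroup.inf_relIndex_left]
    exact Subgroup.relIndex_comap _ _ _
  have h8 : Nat.card ↥(A₁ ⊓ V₀) ≤ Nat.card {v : W // v ∈ W₀ ∧ ∀ a ∈ A.map π, ρ a v = v} := by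
    have hmem : ∀ x : ↥(A₁ ⊓ V₀), ι.symm ⟨x, hV₀V x.2.2⟩ ∈ W₀ := by
      intro x
      obtain ⟨w, hw, hwx⟩ := x.2.2
      have : ι.symm ⟨x, hV₀V x.2.2⟩ = w := by
        rw [Equiv.symm_apply_eq]
        exact Subtype.ext hwx.symm
      rw [this]
      exact hw
    have hfx : ∀ x : ↥(A₁ ⊓ V₀), ∀ a ∈ A.map π, ρ a (ι.symm ⟨x, hV₀V x.2.2⟩) = ι.symm ⟨x, hV₀V x.2.2⟩ := by
      rintro x _ ⟨a, ha, rfl⟩
      rw [hρπ]
      apply ι.injective
      apply Subtype.ext
      rw [hρ, Equiv.apply_symm_apply]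
      show a * (x : X) * a⁻¹ = x
      have h9 : a * (x : X) = x * a := hA.2.1 a ha x x.2.1.1
      rw [h9]
      group
    refine Nat.card_le_card_of_injective
      (fun x => ⟨ι.symm ⟨x, hV₀V x.2.2⟩, hmem x, hfx x⟩) ?_
    intro x y hxy
    have h10 := congrArg Subtype.val hxy
    have h11 := ι.symm.injective h10
    exact Subtype.ext (congrArg (fun z : ↥V => (z : X)) h11)
  calc Nat.card W₀ = Nat.card V₀ := hV₀card.symm
    _ = Nat.card ↥(A₁ ⊓ V₀) * A₁.relIndex V₀ := h6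
    _ ≤ _ := by
      rw [← h7]
      exact Nat.mul_le_mul h8 (h5.trans h2)

theorem core_W (hpq : p ≠ q) (h23 : ¬ ((p = 2 ∧ q = 3) ∨ (p = 3 ∧ q = 2)))
    (T : Sylow p X) (H V C₀ : Subgroup X) [hHn : H.Normal] [hC₀n : C₀.Normal]
    (hHp : IsPGroup p H) (hVH : V ≤ H) (hVZ : ∀ x ∈ V, ∀ h ∈ H, x * h = h * x)
    (hVab : ∀ x ∈ V, ∀ y ∈ V, x * y = y * x)
    (hC₀ : C₀ ≤ Subgroup.centralizer (V : Set X)) (hsol : Cfsg.IsPSolvable p (X ⧸ C₀))
    {W : Type*} [AddCommGroup W] [Module (ZMod p) W] [Finite W] (ι : W ≃ ↥V)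
    (hιadd : ∀ a b, ι (a + b) = ι a * ι b) (ρ₀ : Representation (ZMod p) X W)
    (hρ : ∀ x v, ((ι (ρ₀ x v) : ↥V) : X) = x * ι v * x⁻¹)
    (hF : ∀ Y : Subgroup X, Y ≤ T → (T : Subgroup X) ≤ Subgroup.normalizer (Y : Set X) → H ≤ Y →
      (∃ n ∈ Subgroup.normalizer (Y : Set X), n ∉ Subgroup.centralizer (Y : Set X) ∧ ∃ k, n ^ (q ^ k) = 1) → Y = H)
    (hG : ∀ n ∈ Subgroup.normalizer ((Jof (T : Subgroup X) : Subgroup X) : Set X), (∃ k, n ^ (q ^ k) = 1) →
      n ∈ Subgroup.centralizer ((Jof (T : Subgroup X) : Subgroup X) : Set X)) :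
    ∀ y : X, (∃ k, y ^ (q ^ k) = 1) → y ∈ Subgroup.centralizer (V : Set X) := by
  classical
  rintro y ⟨k, hyk⟩
  by_contra hyL
  have hpp : p.Prime := hp.out
  have hqq : q.Prime := hq.out
  have hcoppq : Nat.Coprime p q := (Nat.coprime_primes hpp hqq).mpr hpq
  have hrone : ∀ v : W, ρ₀ 1 v = v := by
    intro v; rw [map_one]; rfl
  let L : Subgroup X := ρ₀.ker
  haveI hLn : L.Normal := MonoidHom.normal_ker ρ₀
  have hmemL : ∀ x, x ∈ L ↔ x ∈ Subgroup.centralizer (V : Set X) := by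
    intro x
    rw [MonoidHom.mem_ker, Subgroup.mem_centralizer_iff]
    constructor
    · intro h w hw
      obtain ⟨v, hv⟩ := ι.surjective ⟨w, hw⟩
      have h1 : ρ₀ x v = v := by rw [h]; rfl
      have h2 := hρ x v
      rw [h1, hv] at h2
      have h3 : w = x * w * x⁻¹ := h2
      calc w * x = x * w * x⁻¹ * x := by rw [← h3]
        _ = x * w := by group
    · intro h
      apply LinearMap.ext
      intro v
      apply ι.injective
      apply Subtype.ext
      rw [hρ]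
      show x * ((ι v : ↥V) : X) * x⁻¹ = ((ι v : ↥V) : X)
      rw [← h _ (ι v).2]
      group
  have hyL' : y ∉ L := fun h => hyL ((hmemL y).mp h)
  have hC₀L : C₀ ≤ L := fun x hx => (hmemL x).mpr (hC₀ hx)
  have hHL : H ≤ L := fun x hx => (hmemL x).mpr
    (Subgroup.mem_centralizer_iff.mpr fun w hw => hVZ w hw x hx)
  have hHT : H ≤ (T : Subgroup X) :=
    sup_eq_right.mp (T.is_maximal' (hHp.to_sup_of_normal_left T.isPGroup') le_sup_right)
  have hVT : V ≤ (T : Subgroup X) := hVH.trans hHT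
  let π : X →* X ⧸ L := QuotientGroup.mk' L
  have hπs : Function.Surjective π := QuotientGroup.mk'_surjective L
  have hπker : ∀ x, π x = 1 ↔ x ∈ L := fun x => QuotientGroup.eq_one_iff x
  let ρ : Representation (ZMod p) (X ⧸ L) W := QuotientGroup.lift L ρ₀ (fun _ hx => hx)
  have hρπ : ∀ x v, ρ (π x) v = ρ₀ x v := fun _ _ => rfl
  have hf : ∀ g, ρ g = 1 → g = 1 := by
    intro g hg
    obtain ⟨x, rfl⟩ := hπs g
    exact (hπker x).mpr hg
  -- the p'-layer
  let 𝒰 : Set (Subgroup X) := {U | U.Normal ∧ L ≤ U ∧ (L.relIndex U).Coprime p}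
  have h𝒰ne : 𝒰.Nonempty := ⟨L, hLn, le_rfl, by
    rw [Subgroup.relIndex_self]; exact Nat.coprime_one_left _⟩
  obtain ⟨U, ⟨hUn, hLU, hUc⟩, hUmax⟩ := Set.exists_max_image 𝒰 (fun U => Nat.card U) (Set.toFinite _) h𝒰ne
  haveI := hUn
  have hUm : ∀ U' : Subgroup X, U'.Normal → U ≤ U' → (U.relIndex U').Coprime p → U' = U := by
    intro U' hn hle hc
    have h1 : (L.relIndex U').Coprime p := by
      rw [← Subgroup.relIndex_mul_relIndex L U U' hLU hle]
      exact Nat.Coprime.mul_left hUc hc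
    have h2 := hUmax U' ⟨hn, hLU.trans hle, h1⟩
    exact (Subgroup.eq_of_le_of_card_ge hle h2).symm
  have hyU : y ∈ U := by
    by_contra hyU
    let f := QuotientGroup.mk' U
    have hfs : Function.Surjective f := QuotientGroup.mk'_surjective U
    have hsolU : Cfsg.IsPSolvable p (X ⧸ U) := by
      refine Cfsg.Agent.Lib.Coprime.isPSolvable_map (QuotientGroup.map C₀ U (MonoidHom.id X) ?_) ?_ hsol
      · intro x hx
        exact hLU (hC₀L hx)
      · intro z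
        obtain ⟨x, rfl⟩ := QuotientGroup.mk_surjective z
        exact ⟨QuotientGroup.mk x, rfl⟩
    haveI : Nontrivial (X ⧸ U) := ⟨⟨f y, 1, fun h => hyU ((QuotientGroup.eq_one_iff y).mp h)⟩⟩
    obtain ⟨M, hMn, hM1, hMc⟩ := Cfsg.Agent.Lib.Coprime.IsPSolvable_exists_normal hsolU
    let K : Subgroup X := M.comap f
    haveI hKn : K.Normal := hMn.comap f
    have hUK : U ≤ K := fun x hx => by
      show f x ∈ M
      have : f x = 1 := (QuotientGroup.eq_one_iff x).mpr hx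
      rw [this]
      exact M.one_mem
    have hrel : U.relIndex K = Nat.card M := by
      have h1 : (⊥ : Subgroup (X ⧸ U)).comap f = U := by
        rw [MonoidHom.comap_bot, QuotientGroup.ker_mk']
      have h2 : K.map f = M := Subgroup.map_comap_eq_self_of_surjective hfs M
      calc U.relIndex K = ((⊥ : Subgroup (X ⧸ U)).comap f).relIndex K := by rw [h1]
        _ = (⊥ : Subgroup (X ⧸ U)).relIndex (K.map f) := Subgroup.relIndex_comap _ _ _
        _ = Nat.card M := by rw [h2, Subgroup.relIndex_bot_left]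
    have hM1' : 1 < Nat.card M := (Subgroup.one_lt_card_iff_ne_bot M).mpr hM1
    have hKU : ¬ K ≤ U := by
      intro h
      have h1 := Subgroup.relIndex_eq_one.mpr h
      rw [hrel] at h1
      omega
    have hMp : IsPGroup p M := by
      rcases hMc with h | h
      · exact h
      · exfalso
        have h1 := hUm K hKn hUK (by rw [hrel]; exact h)
        exact hKU h1.le
    obtain ⟨a, ha⟩ := IsPGroup.iff_card.mp hMp
    let T₂ : Subgroup X := (T : Subgroup X) ⊓ K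
    have hT₂i : ¬ p ∣ T₂.relIndex K := by
      show ¬ p ∣ ((T : Subgroup X) ⊓ K).relIndex K
      rw [Subgroup.inf_relIndex_right]
      exact sylow_relIndex T K
    have hT₂p : IsPGroup p T₂ := T.isPGroup'.to_le inf_le_left
    have hKU₂ : K ≤ U ⊔ T₂ := by
      apply Subgroup.relIndex_eq_one.mp
      have h1 : (U ⊔ T₂).relIndex K ∣ U.relIndex K := Subgroup.relIndex_dvd_of_le_left K le_sup_left
      have h2 : (U ⊔ T₂).relIndex K ∣ T₂.relIndex K := Subgroup.relIndex_dvd_of_le_left K le_sup_right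
      rw [hrel, ha] at h1
      obtain ⟨i, -, hi⟩ := (Nat.dvd_prime_pow hpp).mp h1
      rw [hi] at h2 ⊢
      cases i with
      | zero => rfl
      | succ i =>
        exfalso
        apply hT₂i
        exact (dvd_pow_self p (Nat.succ_ne_zero i)).trans h2
    obtain ⟨m, hmK, hmN⟩ := frat K T₂ y inf_le_right hT₂p hT₂i (fun x hx => hKn.conj_mem x hx y)
    have hm' : m ∈ ((U : Set X) * (T₂ : Set X)) := by
      rw [← Subgroup.normal_mul U T₂]
      exact hKU₂ hmK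
    obtain ⟨u, hu, t, ht, hut⟩ := Set.mem_mul.mp hm'
    have hn'N : t * (m⁻¹ * y) ∈ Subgroup.normalizer (T₂ : Set X) := by
      refine Subgroup.mul_mem _ ?_ hmN
      exact Subgroup.le_normalizer ht
    set n' := t * (m⁻¹ * y) with hn'def
    have hyeq : y = u * n' := by
      rw [hn'def, ← mul_assoc, hut]
      group
    have hn'U : n' ∉ U := by
      intro h
      apply hyU
      rw [hyeq]
      exact U.mul_mem hu h
    have hn'pow : n' ^ (q ^ k) ∈ U := by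
      have h1 := lift_mul U u n' hu (fun x hx => hUn.conj_mem x hx n') (q ^ k)
      rw [← hyeq, hyk, one_mul] at h1
      exact U.inv_mem_iff.mp h1
    obtain ⟨n₀, hn₀z, hn₀U, a₀, hn₀q⟩ := q_part hqq U hn'U k hn'pow
    have hn₀N : n₀ ∈ Subgroup.normalizer (T₂ : Set X) := (Subgroup.zpowers_le.mpr hn'N) hn₀z
    have hHT₂ : H ≤ T₂ := le_inf hHT (hHL.trans (hLU.trans hUK))
    have hn₀C : n₀ ∉ Subgroup.centralizer (T₂ : Set X) := by
      intro hc
      apply hn₀U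
      apply hLU
      rw [hmemL]
      exact Subgroup.mem_centralizer_iff.mpr fun w hw =>
        Subgroup.mem_centralizer_iff.mp hc w (hHT₂ (hVH hw))
    have hTN : (T : Subgroup X) ≤ Subgroup.normalizer (T₂ : Set X) := by
      intro t₀ ht₀
      apply mem_normalizer_of_conj
      intro x hx
      exact ⟨(T : Subgroup X).mul_mem ((T : Subgroup X).mul_mem ht₀ hx.1) ((T : Subgroup X).inv_mem ht₀),
        hKn.conj_mem x hx.2 t₀⟩
    have hT₂H := hF T₂ inf_le_left hTN hHT₂ ⟨n₀, hn₀N, hn₀C, a₀, hn₀q⟩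
    apply hKU
    refine hKU₂.trans (sup_le le_rfl ?_)
    rw [hT₂H]
    exact hHL.trans hLU
  -- the invariant q-subgroup
  have hUcard : Nat.card ↥(U.map π) = L.relIndex U := by
    have h1 : (⊥ : Subgroup (X ⧸ L)).comap π = L := by
      rw [MonoidHom.comap_bot, QuotientGroup.ker_mk']
    calc Nat.card ↥(U.map π) = (⊥ : Subgroup (X ⧸ L)).relIndex (U.map π) := by
          rw [Subgroup.relIndex_bot_left]
      _ = ((⊥ : Subgroup (X ⧸ L)).comap π).relIndex U := (Subgroup.relIndex_comap _ _ _).symm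
      _ = L.relIndex U := by rw [h1]
  have hqd : q ∣ Nat.card ↥(U.map π) := by
    have h1 : (⟨π y, Subgroup.mem_map_of_mem π hyU⟩ : ↥(U.map π)) ^ (q ^ k) = 1 := by
      apply Subtype.ext
      show π y ^ (q ^ k) = 1
      rw [← map_pow, hyk, map_one]
    have h2 := orderOf_dvd_of_pow_eq_one h1
    obtain ⟨i, -, hi⟩ := (Nat.dvd_prime_pow hqq).mp h2
    have h3 : i ≠ 0 := by
      rintro rfl
      rw [pow_zero, orderOf_eq_one_iff] at hi
      apply hyL'
      apply (hπker y).mp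
      exact congrArg Subtype.val hi
    have h4 := orderOf_dvd_natCard (⟨π y, Subgroup.mem_map_of_mem π hyU⟩ : ↥(U.map π))
    rw [hi] at h4
    exact (dvd_pow_self q h3).trans h4
  haveI hUhatn : (U.map π).Normal := Subgroup.Normal.map hUn π hπs
  obtain ⟨Q, hQU, hQq, hQne, hQinv⟩ := exists_invariant_sylow (p := p) (q := q) (U.map π) ((T : Subgroup X).map π)
    (fun t _ u hu => hUhatn.conj_mem u hu t) (T.isPGroup'.map π) (by rw [hUcard]; exact hUc) hqd
  obtain ⟨d, hdQ, hd1⟩ := (Subgroup.bot_or_exists_ne_one Q).resolve_left hQne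
  have hstar : ∀ A, IsMaxAb (T : Subgroup X) A → ∀ a ∈ A, π a * d = d * π a := by
    intro A hA a ha
    refine star ρ hf q hqq hpq h23 (A.map π) ?_ ?_ ?_ _ Q rfl hQq ?_ (π a) (Subgroup.mem_map_of_mem π ha) d hdQ
    · rintro _ ⟨x, hx, rfl⟩ _ ⟨y', hy', rfl⟩
      rw [← map_mul, ← map_mul, hA.2.1 x hx y' hy']
    · exact (T.isPGroup'.to_le hA.1).map π
    · intro W₀ _ B₀ _ htr
      exact offender (T : Subgroup X) V A hVT hVab hA ι hιadd ρ₀ hρ π ρ hρπ W₀ B₀ htr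
    · intro x hx e he
      exact hQinv x (Subgroup.map_mono hA.1 hx) e he
  set J : Subgroup X := Jof (T : Subgroup X) with hJdef
  have hJc : ∀ j ∈ J, π j * d = d * π j := by
    have hle : J ≤ (Subgroup.centralizer ({d} : Set (X ⧸ L))).comap π := by
      apply Jof_le_of
      intro A hA a ha
      show π a ∈ Subgroup.centralizer ({d} : Set (X ⧸ L))
      rw [Subgroup.mem_centralizer_iff]
      intro h hh
      rw [Set.mem_singleton_iff] at hh
      rw [hh]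
      exact (hstar A hA a ha).symm
    intro j hj
    have h1 := hle hj
    have h2 : π j ∈ Subgroup.centralizer ({d} : Set (X ⧸ L)) := h1
    rw [Subgroup.mem_centralizer_iff] at h2
    exact (h2 d (Set.mem_singleton d)).symm
  obtain ⟨y₂, hy₂⟩ := hπs d
  let M₀ : Subgroup X := (J.map π).comap π
  have hJM₀ : J ≤ M₀ := Subgroup.le_comap_map π J
  have hLM₀ : L ≤ M₀ := by
    intro x hx
    show π x ∈ J.map π
    rw [(hπker x).mpr hx]
    exact (J.map π).one_mem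
  let P₀ : Subgroup X := (T : Subgroup X) ⊓ M₀
  have hJP₀ : J ≤ P₀ := le_inf (Jof_le _) hJM₀
  have hP₀M₀ : P₀ ≤ M₀ := inf_le_right
  have hP₀p : IsPGroup p P₀ := T.isPGroup'.to_le inf_le_left
  have hsupP : P₀ ⊔ L = M₀ := by
    apply le_antisymm (sup_le inf_le_right hLM₀)
    intro x hx
    obtain ⟨j, hj, hjx⟩ := hx
    have h1 : j⁻¹ * x ∈ L := by
      apply (hπker _).mp
      rw [map_mul, map_inv, hjx, inv_mul_cancel]
    have h2 := Subgroup.mul_mem_sup (hJP₀ hj) h1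
    have h3 : j * (j⁻¹ * x) = x := by group
    rwa [h3] at h2
  have hinfL : L ⊓ P₀ = L ⊓ (T : Subgroup X) := by
    apply le_antisymm
    · exact fun x hx => ⟨hx.1, hx.2.1⟩
    · exact fun x hx => ⟨hx.1, hx.2, hLM₀ hx.1⟩
  have hP₀i : ¬ p ∣ P₀.relIndex M₀ := by
    have c1 := card_sup_inf P₀ L
    have c2 := card_sup_inf (T : Subgroup X) L
    have c3 := card_mul_relIndex' hP₀M₀
    have c4 := card_mul_relIndex' (le_sup_left : (T : Subgroup X) ≤ (T : Subgroup X) ⊔ L)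
    rw [hsupP, hinfL, ← c3] at c1
    rw [← c4] at c2
    have hr : P₀.relIndex M₀ * Nat.card ↥(L ⊓ (T : Subgroup X)) = Nat.card L := by
      apply Nat.eq_of_mul_eq_mul_left (Nat.card_pos (α := ↥P₀))
      rw [← c1]; ring
    have ht : (T : Subgroup X).relIndex ((T : Subgroup X) ⊔ L) * Nat.card ↥(L ⊓ (T : Subgroup X)) = Nat.card L := by
      apply Nat.eq_of_mul_eq_mul_left (Nat.card_pos (α := ↥(T : Subgroup X)))
      rw [← c2]; ring
    have hrt : P₀.relIndex M₀ = (T : Subgroup X).relIndex ((T : Subgroup X) ⊔ L) :=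
      Nat.eq_of_mul_eq_mul_right Nat.card_pos (hr.trans ht.symm)
    rw [hrt]
    intro hd'
    apply T.not_dvd_index
    rw [← Subgroup.relIndex_mul_index (le_sup_left : (T : Subgroup X) ≤ (T : Subgroup X) ⊔ L)]
    exact hd'.mul_right _
  have hy₂M : ∀ x ∈ M₀, y₂ * x * y₂⁻¹ ∈ M₀ := by
    rintro x ⟨j, hj, hjx⟩
    refine ⟨j, hj, ?_⟩
    rw [map_mul, map_mul, map_inv, ← hjx, hy₂, ← hJc j hj]
    group
  obtain ⟨m, hmM₀, hnN⟩ := frat M₀ P₀ y₂ hP₀M₀ hP₀p hP₀i hy₂M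
  obtain ⟨j, hj, hjm⟩ := hmM₀
  set n := m⁻¹ * y₂ with hndef
  have hπn : π n = (π j)⁻¹ * d := by
    rw [hndef, map_mul, map_inv, ← hjm, hy₂]
  have hnJ : n ∈ Subgroup.normalizer ((J : Subgroup X) : Set X) := norm_J hJP₀ inf_le_left hnN
  obtain ⟨e, he⟩ := T.isPGroup' ⟨j, Jof_le _ hj⟩
  have he' : j ^ (p ^ e) = 1 := congrArg Subtype.val he
  obtain ⟨k', hk'⟩ := hQq ⟨d, hdQ⟩
  have hk'' : d ^ (q ^ k') = 1 := congrArg Subtype.val hk'
  have hcomm : Commute (π j)⁻¹ d := by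
    have h1 : Commute (π j) d := hJc j hj
    exact h1.inv_left
  have hπn₁ : π (n ^ (p ^ e)) = d ^ (p ^ e) := by
    rw [map_pow, hπn, hcomm.mul_pow, inv_pow, ← map_pow, he', map_one, inv_one, one_mul]
  have hde : d ^ (p ^ e) ≠ 1 := by
    intro h
    apply hd1
    have h1 := (pow_gcd_eq_one).mpr ⟨h, hk''⟩
    have hcop : Nat.gcd (p ^ e) (q ^ k') = 1 := Nat.Coprime.pow _ _ hcoppq
    rwa [hcop, pow_one] at h1
  have hn₁L : n ^ (p ^ e) ∉ L := by
    intro h
    apply hde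
    rw [← hπn₁]
    exact (hπker _).mpr h
  have hn₁pow : (n ^ (p ^ e)) ^ (q ^ k') ∈ L := by
    apply (hπker _).mp
    rw [map_pow, hπn₁, ← pow_mul, mul_comm, pow_mul, hk'', one_pow]
  obtain ⟨n₀, hn₀z, hn₀L, a₀, hn₀q⟩ := q_part hqq L hn₁L k' hn₁pow
  have hn₀N : n₀ ∈ Subgroup.normalizer ((J : Subgroup X) : Set X) :=
    (Subgroup.zpowers_le.mpr (Subgroup.pow_mem _ hnJ _)) hn₀z
  have hn₀C := hG n₀ hn₀N ⟨a₀, hn₀q⟩
  have hzq : IsPGroup q (Subgroup.zpowers n₀) := by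
    rintro ⟨_, i, rfl⟩
    refine ⟨a₀, Subtype.ext ?_⟩
    show (n₀ ^ i) ^ (q ^ a₀) = 1
    rw [← zpow_natCast, ← zpow_mul, mul_comm, zpow_mul, zpow_natCast, hn₀q, one_zpow]
  have hn₀comm : ∀ j' ∈ J, n₀ * j' = j' * n₀ := fun j' hj' =>
    (Subgroup.mem_centralizer_iff.mp hn₀C j' hj').symm
  have hres := fixedpoint_coprime ρ₀ q hqq hpq (Subgroup.zpowers n₀) J hzq
    (T.isPGroup'.to_le (Jof_le _))
    (by
      rintro _ ⟨i, rfl⟩ y' hy'
      have h1 : Commute n₀ y' := hn₀comm y' hy'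
      exact h1.zpow_left i)
    (by
      intro v hv
      have hw : ∀ y' ∈ J, ((ι v : ↥V) : X) * y' = y' * ((ι v : ↥V) : X) := by
        intro y' hy'
        have h1 := hρ y' v
        rw [hv y' hy'] at h1
        calc ((ι v : ↥V) : X) * y' = y' * ((ι v : ↥V) : X) * y'⁻¹ * y' := by rw [← h1]
          _ = _ := by group
      obtain ⟨A, hA⟩ := exists_maxAb (T : Subgroup X)
      have hwA := mem_of_comm_maxAb hA (hVT (ι v).2) (fun a ha => hw a (le_Jof hA ha))
      have hwJ : ((ι v : ↥V) : X) ∈ J := le_Jof hA hwA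
      rintro _ ⟨i, rfl⟩
      apply ι.injective
      apply Subtype.ext
      rw [hρ]
      have h1 : Commute n₀ ((ι v : ↥V) : X) := hn₀comm _ hwJ
      have h2 := (h1.zpow_left i).eq
      show n₀ ^ i * ((ι v : ↥V) : X) * (n₀ ^ i)⁻¹ = ((ι v : ↥V) : X)
      rw [h2]
      group)
  apply hn₀L
  show ρ₀ n₀ = 1
  apply LinearMap.ext
  intro v
  exact hres n₀ (Subgroup.mem_zpowers n₀) v

end Core

end Cfsg.Agent.Lib.Struct.Off
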