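import Cfsg.Agent.Lib.Struct.OffE

set_option autoImplicit false

open scoped Pointwise

namespace Cfsg.Agent.Lib.Struct.Off

section Wrap

variable {X : Type*} [Group X] [Finite X] {p q : ℕ} [hp : Fact p.Prime] [hq : Fact q.Prime]

/-- Elements of order dividing `p` in the centre of `H`. -/
def omegaZ (p : ℕ) (H : Subgroup X) : Subgroup X where
  carrier := {z | z ∈ H ∧ (∀ h ∈ H, z * h = h * z) ∧ z ^ p = 1}
  one_mem' := ⟨H.one_mem, fun h _ => by simp, one_pow _⟩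
  mul_mem' := by
    rintro a b ⟨ha, ha', ha''⟩ ⟨hb, hb', hb''⟩
    refine ⟨H.mul_mem ha hb, fun h hh => ?_, ?_⟩
    · rw [mul_assoc, hb' h hh, ← mul_assoc, ha' h hh, mul_assoc]
    · have : Commute a b := ha' b hb
      rw [this.mul_pow, ha'', hb'', one_mul]
  inv_mem' := by
    rintro a ⟨ha, ha', ha''⟩
    refine ⟨H.inv_mem ha, fun h hh => ?_, by rw [inv_pow, ha'', inv_one]⟩
    have h1 := ha' h hh
    calc a⁻¹ * h = a⁻¹ * (h * a) * a⁻¹ := by group
      _ = a⁻¹ * (a * h) * a⁻¹ := by rw [h1]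
      _ = h * a⁻¹ := by group

theorem omegaZ_conj (H : Subgroup X) [hH : H.Normal] (g z : X) (hz : z ∈ omegaZ p H) :
    g * z * g⁻¹ ∈ omegaZ p H := by
  obtain ⟨h1, h2, h3⟩ := hz
  refine ⟨hH.conj_mem z h1 g, fun h hh => ?_, ?_⟩
  · have h4 := h2 _ (hH.conj_mem h hh g⁻¹)
    rw [inv_inv] at h4
    calc g * z * g⁻¹ * h = g * (z * (g⁻¹ * h * g)) * g⁻¹ := by group
      _ = g * (g⁻¹ * h * g * z) * g⁻¹ := by rw [h4]
      _ = h * (g * z * g⁻¹) := by group
  · rw [conj_pow, h3]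
    group

theorem core_aux (hpq : p ≠ q) (h23 : ¬ ((p = 2 ∧ q = 3) ∨ (p = 3 ∧ q = 2)))
    (T : Sylow p X) (H V C₀ : Subgroup X) [hHn : H.Normal] [hC₀n : C₀.Normal]
    (hHp : IsPGroup p H) (hVH : V ≤ H) (hVZ : ∀ x ∈ V, ∀ h ∈ H, x * h = h * x)
    (hVab : ∀ x ∈ V, ∀ y ∈ V, x * y = y * x) (hVn : ∀ g z, z ∈ V → g * z * g⁻¹ ∈ V)
    (hC₀ : C₀ ≤ Subgroup.centralizer (V : Set X)) (hsol : Cfsg.IsPSolvable p (X ⧸ C₀))
    {W : Type*} [AddCommGroup W] [Module (ZMod p) W] [Finite W] (ι : W ≃ ↥V)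
    (hιadd : ∀ a b, ι (a + b) = ι a * ι b)
    (hF : ∀ Y : Subgroup X, Y ≤ T → (T : Subgroup X) ≤ Subgroup.normalizer (Y : Set X) → H ≤ Y →
      (∃ n ∈ Subgroup.normalizer (Y : Set X), n ∉ Subgroup.centralizer (Y : Set X) ∧ ∃ k, n ^ (q ^ k) = 1) → Y = H)
    (hG : ∀ n ∈ Subgroup.normalizer ((Jof (T : Subgroup X) : Subgroup X) : Set X), (∃ k, n ^ (q ^ k) = 1) →
      n ∈ Subgroup.centralizer ((Jof (T : Subgroup X) : Subgroup X) : Set X)) :
    ∀ y : X, (∃ k, y ^ (q ^ k) = 1) → y ∈ Subgroup.centralizer (V : Set X) := by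
  classical
  let f : X → (W →+ W) := fun x =>
    AddMonoidHom.mk' (fun v => ι.symm (⟨x * ((ι v : ↥V) : X) * x⁻¹, hVn x _ (ι v).2⟩ : ↥V))
      (fun a b => by
        rw [Equiv.symm_apply_eq, hιadd (ι.symm _) (ι.symm _), Equiv.apply_symm_apply, Equiv.apply_symm_apply]
        apply Subtype.ext
        show x * ((ι (a + b) : ↥V) : X) * x⁻¹ = (x * ((ι a : ↥V) : X) * x⁻¹) * (x * ((ι b : ↥V) : X) * x⁻¹)
        rw [hιadd]
        show x * (((ι a : ↥V) : X) * ((ι b : ↥V) : X)) * x⁻¹ = _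
        group)
  have hfapp : ∀ x v, ((ι (f x v) : ↥V) : X) = x * ((ι v : ↥V) : X) * x⁻¹ := by
    intro x v
    show ((ι (ι.symm _) : ↥V) : X) = _
    rw [Equiv.apply_symm_apply]
  let ρ₀ : Representation (ZMod p) X W :=
    { toFun := fun x => (f x).toZModLinearMap p
      map_one' := by
        apply LinearMap.ext
        intro v
        apply ι.injective
        apply Subtype.ext
        show ((ι (f 1 v) : ↥V) : X) = _
        rw [hfapp]
        show (1 : X) * ((ι v : ↥V) : X) * (1 : X)⁻¹ = ((ι v : ↥V) : X)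
        group
      map_mul' := by
        intro a b
        apply LinearMap.ext
        intro v
        apply ι.injective
        apply Subtype.ext
        show ((ι (f (a * b) v) : ↥V) : X) = ((ι (f a (f b v)) : ↥V) : X)
        rw [hfapp, hfapp, hfapp]
        group }
  exact core_W hpq h23 T H V C₀ hHp hVH hVZ hVab hC₀ hsol ι hιadd ρ₀ hfapp hF hG

theorem core (hpq : p ≠ q) (h23 : ¬ ((p = 2 ∧ q = 3) ∨ (p = 3 ∧ q = 2)))
    (T : Sylow p X) (H C₀ : Subgroup X) [hHn : H.Normal] [hC₀n : C₀.Normal]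
    (hHp : IsPGroup p H) (hC₀ : C₀ ≤ Subgroup.centralizer (H : Set X)) (hsol : Cfsg.IsPSolvable p (X ⧸ C₀))
    (hF : ∀ Y : Subgroup X, Y ≤ T → (T : Subgroup X) ≤ Subgroup.normalizer (Y : Set X) → H ≤ Y →
      (∃ n ∈ Subgroup.normalizer (Y : Set X), n ∉ Subgroup.centralizer (Y : Set X) ∧ ∃ k, n ^ (q ^ k) = 1) → Y = H)
    (hG : ∀ n ∈ Subgroup.normalizer ((Jof (T : Subgroup X) : Subgroup X) : Set X), (∃ k, n ^ (q ^ k) = 1) →
      n ∈ Subgroup.centralizer ((Jof (T : Subgroup X) : Subgroup X) : Set X)) :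
    ∀ y : X, (∃ k, y ^ (q ^ k) = 1) → y ∈ Subgroup.centralizer ((omegaZ p H : Subgroup X) : Set X) := by
  classical
  have hVab : ∀ x ∈ omegaZ p H, ∀ y ∈ omegaZ p H, x * y = y * x := fun x hx y hy => hx.2.1 y hy.1
  letI cg : CommGroup ↥(omegaZ p H) :=
    { (inferInstance : Group ↥(omegaZ p H)) with
      mul_comm := fun a b => Subtype.ext (hVab a a.2 b b.2) }
  letI ac : AddCommGroup (Additive ↥(omegaZ p H)) := Additive.addCommGroup
  have hpz : ∀ v : Additive ↥(omegaZ p H), p • v = 0 := by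
    intro v
    apply Additive.toMul.injective
    apply Subtype.ext
    show (v.toMul : X) ^ p = 1
    exact v.toMul.2.2.2
  letI md : Module (ZMod p) (Additive ↥(omegaZ p H)) := AddCommGroup.zmodModule hpz
  refine core_aux hpq h23 T H (omegaZ p H) C₀ hHp (fun x hx => hx.1) (fun x hx => hx.2.1) hVab
    (fun g z hz => omegaZ_conj H g z hz) ?_ hsol
    (W := Additive ↥(omegaZ p H)) Additive.toMul (fun _ _ => rfl) hF hG
  intro c hc
  rw [Subgroup.mem_centralizer_iff]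
  intro w hw
  exact Subgroup.mem_centralizer_iff.mp (hC₀ hc) w hw.1

theorem cent_le (T : Sylow p X) (H : Subgroup X) [hHn : H.Normal] (hHp : IsPGroup p H)
    (hF : ∀ Y : Subgroup X, Y ≤ T → (T : Subgroup X) ≤ Subgroup.normalizer (Y : Set X) → H ≤ Y →
      (∃ n ∈ Subgroup.normalizer (Y : Set X), n ∉ Subgroup.centralizer (Y : Set X) ∧ ∃ k, n ^ (q ^ k) = 1) → Y = H)
    (y : X) (hyC : y ∉ Subgroup.centralizer (H : Set X)) (k : ℕ) (hyk : y ^ (q ^ k) = 1) :
    (T : Subgroup X) ⊓ Subgroup.centralizer (H : Set X) ≤ H := by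
  classical
  have hqq : q.Prime := hq.out
  set C : Subgroup X := Subgroup.centralizer (H : Set X) with hCdef
  have hcmem : ∀ c, c ∈ C ↔ ∀ h ∈ H, h * c = c * h := fun c => Subgroup.mem_centralizer_iff
  haveI hCn : C.Normal := ⟨fun c hc g => by
    rw [hcmem] at hc ⊢
    intro h hh
    have h4 := hc _ (hHn.conj_mem h hh g⁻¹)
    rw [inv_inv] at h4
    calc h * (g * c * g⁻¹) = g * (g⁻¹ * h * g * c) * g⁻¹ := by group
      _ = g * (c * (g⁻¹ * h * g)) * g⁻¹ := by rw [h4]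
      _ = g * c * g⁻¹ * h := by group⟩
  have hHT : H ≤ (T : Subgroup X) :=
    sup_eq_right.mp (T.is_maximal' (hHp.to_sup_of_normal_left T.isPGroup') le_sup_right)
  set M : Subgroup X := H ⊔ C with hMdef
  haveI hMn : M.Normal := Subgroup.sup_normal H C
  let P : Subgroup X := (T : Subgroup X) ⊓ M
  have hPp : IsPGroup p P := T.isPGroup'.to_le inf_le_left
  have hPi : ¬ p ∣ P.relIndex M := by
    show ¬ p ∣ ((T : Subgroup X) ⊓ M).relIndex M
    rw [Subgroup.inf_relIndex_right]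
    exact sylow_relIndex T M
  obtain ⟨m, hmM, hmN⟩ := frat M P y inf_le_right hPp hPi (fun x hx => hMn.conj_mem x hx y)
  have hm' : m ∈ ((H : Set X) * (C : Set X)) := by
    rw [← Subgroup.mul_normal H C]
    exact hmM
  obtain ⟨h, hh, c, hc, hhc⟩ := Set.mem_mul.mp hm'
  have hHP : H ≤ P := le_inf hHT le_sup_left
  have hn'N : h * (m⁻¹ * y) ∈ Subgroup.normalizer (P : Set X) :=
    Subgroup.mul_mem _ (Subgroup.le_normalizer (hHP hh)) hmN
  set n' := h * (m⁻¹ * y) with hn'def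
  have hc' : h * c * h⁻¹ ∈ C := hCn.conj_mem c hc h
  have hyeq : y = (h * c * h⁻¹) * n' := by
    rw [hn'def]
    have : (h * c * h⁻¹) * (h * (m⁻¹ * y)) = (h * c) * (m⁻¹ * y) := by group
    rw [this, hhc]
    group
  have hn'C : n' ∉ C := by
    intro h1
    apply hyC
    rw [hyeq]
    exact C.mul_mem hc' h1
  have hn'pow : n' ^ (q ^ k) ∈ C := by
    have h1 := lift_mul C _ n' hc' (fun x hx => hCn.conj_mem x hx n') (q ^ k)
    rw [← hyeq, hyk, one_mul] at h1
    exact C.inv_mem_iff.mp h1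
  obtain ⟨n₀, hn₀z, hn₀C, a₀, hn₀q⟩ := q_part hqq C hn'C k hn'pow
  have hn₀N : n₀ ∈ Subgroup.normalizer (P : Set X) := (Subgroup.zpowers_le.mpr hn'N) hn₀z
  have hn₀C' : n₀ ∉ Subgroup.centralizer (P : Set X) := by
    intro hc₁
    apply hn₀C
    exact Subgroup.mem_centralizer_iff.mpr fun w hw =>
      Subgroup.mem_centralizer_iff.mp hc₁ w (hHP hw)
  have hTN : (T : Subgroup X) ≤ Subgroup.normalizer (P : Set X) := by
    intro t ht
    apply mem_normalizer_of_conj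
    intro x hx
    exact ⟨(T : Subgroup X).mul_mem ((T : Subgroup X).mul_mem ht hx.1) ((T : Subgroup X).inv_mem ht),
      hMn.conj_mem x hx.2 t⟩
  have hPH := hF P inf_le_left hTN hHP ⟨n₀, hn₀N, hn₀C', a₀, hn₀q⟩
  rw [← hPH]
  intro x hx
  exact ⟨hx.1, (le_sup_right : C ≤ M) hx.2⟩

end Wrap

section JMap

variable {X G : Type*} [Group X] [Group G] [Finite G]

theorem Jof_map (f : X →* G) (hf : Function.Injective f) (T : Subgroup X) :
    (Jof T).map f = Jof (T.map f) := by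
  haveI : Finite X := Finite.of_injective f hf
  have hcard : ∀ B : Subgroup X, Nat.card (B.map f) = Nat.card B := fun B =>
    Nat.card_congr (Subgroup.equivMapOfInjective B f hf).toEquiv.symm
  have hab : ∀ B : Subgroup X, (∀ x ∈ B, ∀ y ∈ B, x * y = y * x) → ∀ x ∈ B.map f, ∀ y ∈ B.map f, x * y = y * x := by
    rintro B hB _ ⟨x, hx, rfl⟩ _ ⟨y, hy, rfl⟩
    rw [← map_mul, ← map_mul, hB x hx y hy]
  have hab' : ∀ B : Subgroup G, (∀ x ∈ B, ∀ y ∈ B, x * y = y * x) → ∀ x ∈ B.comap f, ∀ y ∈ B.comap f, x * y = y * x := by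
    intro B hB x hx y hy
    apply hf
    rw [map_mul, map_mul]
    exact hB _ hx _ hy
  have hmapcomap : ∀ B : Subgroup G, B ≤ T.map f → (B.comap f).map f = B := by
    intro B hB
    apply le_antisymm (Subgroup.map_comap_le _ _)
    intro x hx
    obtain ⟨t, _, rfl⟩ := hB hx
    exact ⟨t, hx, rfl⟩
  apply le_antisymm
  · rw [Subgroup.map_le_iff_le_comap]
    apply Jof_le_of
    intro A hA
    rw [← Subgroup.map_le_iff_le_comap]
    apply le_Jof
    refine ⟨Subgroup.map_mono hA.1, hab A hA.2.1, ?_⟩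
    intro B hB hc
    rw [hcard, ← hmapcomap B hB, hcard]
    apply hA.2.2 _ _ (hab' B hc)
    intro x hx
    obtain ⟨t, ht, hfx⟩ := hB hx
    have : t = x := hf hfx
    rwa [← this]
  · apply Jof_le_of
    intro A hA
    rw [← hmapcomap A hA.1]
    apply Subgroup.map_mono
    apply le_Jof
    refine ⟨?_, hab' A hA.2.1, ?_⟩
    · intro x hx
      obtain ⟨t, ht, hfx⟩ := hA.1 hx
      have : t = x := hf hfx
      rwa [← this]
    · intro B hB hc
      rw [← hcard B, ← hcard (A.comap f), hmapcomap A hA.1]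
      exact hA.2.2 _ (Subgroup.map_mono hB) (hab B hc)

end JMap

section Adm

/-- Admissibility: `X` is a `p`-subgroup moved by a `q`-element of its normaliser. -/
def Adm (p q : ℕ) {G : Type*} [Group G] (X : Subgroup G) : Prop :=
  IsPGroup p X ∧ ∃ y ∈ Subgroup.normalizer (X : Set G), y ∉ Subgroup.centralizer (X : Set G) ∧ ∃ k, y ^ (q ^ k) = 1

variable {G : Type*} [Group G] [Finite G] {p q : ℕ} [hp : Fact p.Prime] [hq : Fact q.Prime]

theorem adm_conj (X : Subgroup G) (h : Adm p q X) (g : G) :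
    Adm p q (X.map (MulAut.conj g).toMonoidHom) := by
  obtain ⟨hX, y, hyN, hyC, k, hk⟩ := h
  refine ⟨hX.map _, g * y * g⁻¹, ?_, ?_, k, ?_⟩
  · apply mem_normalizer_of_conj
    rintro _ ⟨x, hx, rfl⟩
    refine ⟨y * x * y⁻¹, (Subgroup.mem_normalizer_iff.mp hyN x).mp hx, ?_⟩
    show g * (y * x * y⁻¹) * g⁻¹ = (g * y * g⁻¹) * (g * x * g⁻¹) * (g * y * g⁻¹)⁻¹
    group
  · intro hc
    apply hyC
    rw [Subgroup.mem_centralizer_iff] at hc ⊢
    intro x hx
    have h1 := hc (g * x * g⁻¹) ⟨x, hx, rfl⟩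
    have h2 : g * (x * y) * g⁻¹ = g * (y * x) * g⁻¹ := by
      calc g * (x * y) * g⁻¹ = g * x * g⁻¹ * (g * y * g⁻¹) := by group
        _ = g * y * g⁻¹ * (g * x * g⁻¹) := h1
        _ = g * (y * x) * g⁻¹ := by group
    simpa using h2
  · rw [conj_pow, hk]
    group

/-- Subgroups of a subgroup of `G`, admissible inside it, are admissible in `G`. -/
theorem adm_map (N : Subgroup G) (Y : Subgroup ↥N) (hY : IsPGroup p Y) (n : ↥N)
    (hnN : n ∈ Subgroup.normalizer (Y : Set ↥N)) (hnC : n ∉ Subgroup.centralizer (Y : Set ↥N))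
    (k : ℕ) (hk : n ^ (q ^ k) = 1) : Adm p q (Y.map N.subtype) := by
  refine ⟨hY.map _, n, ?_, ?_, k, congrArg Subtype.val hk⟩
  · apply mem_normalizer_of_conj
    rintro _ ⟨x, hx, rfl⟩
    exact ⟨n * x * n⁻¹, (Subgroup.mem_normalizer_iff.mp hnN x).mp hx, rfl⟩
  · intro hc
    apply hnC
    rw [Subgroup.mem_centralizer_iff] at hc ⊢
    intro x hx
    exact Subtype.ext (hc x ⟨x, hx, rfl⟩)

end Adm

end Cfsg.Agent.Lib.Struct.Off
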