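import Cfsg.Agent.Lib.Struct.OffF
import Cfsg.Agent.Lib.Char.RelIto

set_option autoImplicit false

open scoped Pointwise

namespace Cfsg.Agent.Lib.Struct.Off

universe u

section Sect

theorem psolv_section {A Q : Type*} [Group A] [Finite A] [Group Q] {p : ℕ} [hp : Fact p.Prime]
    (K D : Subgroup A) [K.Normal] (hsol : Cfsg.IsPSolvable p (A ⧸ K)) (φ : ↥D →* Q)
    (hφ : Function.Surjective φ) (hk : ∀ x : ↥D, (x : A) ∈ K → φ x = 1) : Cfsg.IsPSolvable p Q := by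
  let ψ : ↥D →* A ⧸ K := (QuotientGroup.mk' K).comp D.subtype
  have hr : Cfsg.IsPSolvable p ψ.range := Cfsg.Agent.Lib.Char.isPSolvable_subgroup hsol ψ.range
  have hq : Cfsg.IsPSolvable p (↥D ⧸ ψ.ker) :=
    Cfsg.Agent.Lib.Coprime.isPSolvable_map (QuotientGroup.quotientKerEquivRange ψ).symm.toMonoidHom
      (QuotientGroup.quotientKerEquivRange ψ).symm.surjective hr
  refine Cfsg.Agent.Lib.Coprime.isPSolvable_map (QuotientGroup.lift ψ.ker φ ?_) ?_ hq
  · intro x hx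
    exact hk x ((QuotientGroup.eq_one_iff (x : A)).mp hx)
  · intro z
    obtain ⟨x, rfl⟩ := hφ z
    exact ⟨QuotientGroup.mk x, rfl⟩

/-- The standing hypothesis on automisers. -/
def HS (p : ℕ) (G : Type*) [Group G] : Prop :=
  ∀ H : Subgroup G, IsPGroup p H → Cfsg.IsPSolvable p
    (↥(Subgroup.normalizer (H : Set G)) ⧸
      (Subgroup.centralizer (H : Set G)).subgroupOf (Subgroup.normalizer (H : Set G)))

variable {G : Type*} [Group G] [Finite G] {p q : ℕ} [hp : Fact p.Prime]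

theorem hs_quot (C₁ : Subgroup G) (Z₁ : Subgroup ↥C₁) [Z₁.Normal] (hZ : IsPGroup p Z₁) (hs : HS p G) :
    HS p (↥C₁ ⧸ Z₁) := by
  classical
  intro P' hP'
  let mk : ↥C₁ →* ↥C₁ ⧸ Z₁ := QuotientGroup.mk' Z₁
  have hmks : Function.Surjective mk := QuotientGroup.mk'_surjective Z₁
  let P₁ : Subgroup ↥C₁ := P'.comap mk
  have hP₁ : IsPGroup p P₁ := hP'.comap_of_ker_isPGroup mk (by
    rw [QuotientGroup.ker_mk']; exact hZ)
  let P₂ : Subgroup G := P₁.map C₁.subtype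
  have hP₂ : IsPGroup p P₂ := hP₁.map C₁.subtype
  have hA := hs P₂ hP₂
  let A : Subgroup G := Subgroup.normalizer (P₂ : Set G)
  let D : Subgroup ↥A := C₁.subgroupOf A
  have hmP : ∀ w : ↥C₁, mk w ∈ P' ↔ (w : G) ∈ P₂ := by
    intro w
    constructor
    · intro h
      exact ⟨w, h, rfl⟩
    · rintro ⟨w', h, hw⟩
      have : w' = w := Subtype.ext hw
      rwa [← this]
  have hcoN : ∀ x : ↥D, mk ⟨((x : ↥A) : G), x.2⟩ ∈ Subgroup.normalizer (P' : Set (↥C₁ ⧸ Z₁)) := by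
    intro x
    apply mem_normalizer_of_conj
    intro w' hw'
    obtain ⟨w, rfl⟩ := hmks w'
    rw [← map_inv, ← map_mul, ← map_mul, hmP]
    exact (Subgroup.mem_normalizer_iff.mp x.1.2 _).mp ((hmP w).mp hw')
  let φ₁ : ↥D →* ↥(Subgroup.normalizer (P' : Set (↥C₁ ⧸ Z₁))) :=
    { toFun := fun x => ⟨mk ⟨((x : ↥A) : G), x.2⟩, hcoN x⟩
      map_one' := by
        apply Subtype.ext
        show mk 1 = 1
        exact map_one mk
      map_mul' := by
        intro a b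
        apply Subtype.ext
        exact map_mul mk (⟨((a : ↥A) : G), a.2⟩ : ↥C₁) ⟨((b : ↥A) : G), b.2⟩ }
  let φ := (QuotientGroup.mk' ((Subgroup.centralizer (P' : Set (↥C₁ ⧸ Z₁))).subgroupOf
    (Subgroup.normalizer (P' : Set (↥C₁ ⧸ Z₁))))).comp φ₁
  refine psolv_section ((Subgroup.centralizer (P₂ : Set G)).subgroupOf A) D hA φ ?_ ?_
  · intro z
    obtain ⟨w', rfl⟩ := QuotientGroup.mk_surjective z
    obtain ⟨g, hg⟩ := hmks (w' : ↥C₁ ⧸ Z₁)
    have hgN : (g : G) ∈ A := by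
      apply mem_normalizer_of_conj
      rintro _ ⟨w, hw, rfl⟩
      show (g : G) * (w : G) * (g : G)⁻¹ ∈ P₂
      have h1 : mk (g * w * g⁻¹) ∈ P' := by
        rw [map_mul, map_mul, map_inv, hg]
        exact (Subgroup.mem_normalizer_iff.mp w'.2 _).mp hw
      exact (hmP _).mp h1
    refine ⟨⟨⟨(g : G), hgN⟩, g.2⟩, ?_⟩
    show QuotientGroup.mk (φ₁ _) = _
    congr 1
    exact Subtype.ext hg
  · intro x hx
    apply (QuotientGroup.eq_one_iff _).mpr
    show mk ⟨((x : ↥A) : G), x.2⟩ ∈ Subgroup.centralizer (P' : Set (↥C₁ ⧸ Z₁))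
    rw [Subgroup.mem_centralizer_iff]
    intro w' hw'
    obtain ⟨w, rfl⟩ := hmks w'
    rw [← map_mul, ← map_mul]
    congr 1
    apply Subtype.ext
    exact Subgroup.mem_centralizer_iff.mp hx _ ((hmP w).mp hw')

variable [hq : Fact q.Prime]

theorem adm_lift (C₁ : Subgroup G) (Z₁ : Subgroup ↥C₁) [Z₁.Normal] (hZ : IsPGroup p Z₁)
    (K' : Subgroup (↥C₁ ⧸ Z₁)) (h : Adm p q K') :
    Adm p q ((K'.comap (QuotientGroup.mk' Z₁)).map C₁.subtype) := by
  classical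
  obtain ⟨hK, y', hN, hC, k, hk⟩ := h
  let mk : ↥C₁ →* ↥C₁ ⧸ Z₁ := QuotientGroup.mk' Z₁
  have hmks : Function.Surjective mk := QuotientGroup.mk'_surjective Z₁
  obtain ⟨y₁, rfl⟩ := hmks y'
  let S₀ : Subgroup ↥C₁ := (Subgroup.centralizer (K' : Set (↥C₁ ⧸ Z₁))).comap mk
  have hy₁ : y₁ ∉ S₀ := hC
  have hpow : y₁ ^ (q ^ k) ∈ S₀ := by
    show mk (y₁ ^ (q ^ k)) ∈ Subgroup.centralizer (K' : Set (↥C₁ ⧸ Z₁))
    rw [map_pow, hk]
    exact Subgroup.one_mem _
  obtain ⟨y₀, hy₀z, hy₀S, a, hy₀q⟩ := q_part hq.out S₀ hy₁ k hpow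
  have hNc : y₁ ∈ (Subgroup.normalizer (K' : Set (↥C₁ ⧸ Z₁))).comap mk := hN
  have hy₀N : mk y₀ ∈ Subgroup.normalizer (K' : Set (↥C₁ ⧸ Z₁)) :=
    (Subgroup.zpowers_le.mpr hNc) hy₀z
  refine ⟨(hK.comap_of_ker_isPGroup mk (by rw [QuotientGroup.ker_mk']; exact hZ)).map _,
    (y₀ : G), ?_, ?_, a, congrArg Subtype.val hy₀q⟩
  · apply mem_normalizer_of_conj
    rintro _ ⟨w, hw, rfl⟩
    refine ⟨y₀ * w * y₀⁻¹, ?_, rfl⟩
    show mk (y₀ * w * y₀⁻¹) ∈ K'
    rw [map_mul, map_mul, map_inv]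
    exact (Subgroup.mem_normalizer_iff.mp hy₀N _).mp hw
  · intro hc
    apply hy₀S
    show mk y₀ ∈ Subgroup.centralizer (K' : Set (↥C₁ ⧸ Z₁))
    rw [Subgroup.mem_centralizer_iff]
    intro w' hw'
    obtain ⟨w, rfl⟩ := hmks w'
    rw [← map_mul, ← map_mul]
    congr 1
    apply Subtype.ext
    exact Subgroup.mem_centralizer_iff.mp hc _ ⟨w, hw', rfl⟩

end Sect

theorem main_ind {p q : ℕ} [hp : Fact p.Prime] [hq : Fact q.Prime] (hpq : p ≠ q)
    (h23 : ¬ ((p = 2 ∧ q = 3) ∨ (p = 3 ∧ q = 2))) :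
    ∀ (n : ℕ) (G : Type u) [Group G] [Finite G], Nat.card G = n → HS p G → ∀ S : Sylow p G,
      ∀ H₀ : Subgroup G, H₀ ≤ S → Adm p q H₀ →
      ∃ K : Subgroup G, K ≤ S ∧ (S : Subgroup G) ≤ Subgroup.normalizer (K : Set G) ∧ Adm p q K := by
  intro n
  induction n using Nat.strong_induction_on with
  | _ n ih =>
  intro G _ _ hn hs S H₀ hH₀S hH₀
  classical
  by_contra hno
  have hno' : ∀ K : Subgroup G, K ≤ S → (S : Subgroup G) ≤ Subgroup.normalizer (K : Set G) →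
      ¬ Adm p q K := fun K h1 h2 h3 => hno ⟨K, h1, h2, h3⟩
  have hpp : p.Prime := hp.out
  have hqq : q.Prime := hq.out
  have hcoppq : Nat.Coprime p q := (Nat.coprime_primes hpp hqq).mpr hpq
  let μ : Subgroup G → ℕ := fun H =>
    Nat.card ↥((S : Subgroup G) ⊓ Subgroup.normalizer (H : Set G)) * (Nat.card G + 1) + Nat.card H
  let 𝓗 : Set (Subgroup G) := {H | H ≤ S ∧ Adm p q H}
  obtain ⟨H, ⟨hHS, hHadm⟩, hmax⟩ := Set.exists_max_image 𝓗 μ (Set.toFinite _) ⟨H₀, hH₀S, hH₀⟩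
  set N : Subgroup G := Subgroup.normalizer (H : Set G) with hNdef
  set T₀ : Subgroup G := (S : Subgroup G) ⊓ N with hT₀def
  have hHcardle : Nat.card H ≤ Nat.card G := Subgroup.card_le_card_group H
  have hi : ∀ H' : Subgroup G, H' ≤ S → Adm p q H' →
      Nat.card ↥((S : Subgroup G) ⊓ Subgroup.normalizer (H' : Set G)) ≤ Nat.card T₀ := by
    intro H' h1 h2
    have h3 : μ H' ≤ μ H := hmax H' ⟨h1, h2⟩
    by_contra h4
    push_neg at h4
    have h5 : (Nat.card T₀ + 1) * (Nat.card G + 1) ≤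
        Nat.card ↥((S : Subgroup G) ⊓ Subgroup.normalizer (H' : Set G)) * (Nat.card G + 1) :=
      Nat.mul_le_mul_right _ h4
    have h6 : μ H' = Nat.card ↥((S : Subgroup G) ⊓ Subgroup.normalizer (H' : Set G)) * (Nat.card G + 1) + Nat.card H' := rfl
    have h7 : μ H = Nat.card T₀ * (Nat.card G + 1) + Nat.card H := rfl
    rw [add_mul, one_mul] at h5
    rw [h6, h7] at h3
    have h8 : 0 ≤ Nat.card H' := Nat.zero_le _
    linarith
  have hii : ∀ H' : Subgroup G, H' ≤ S → Adm p q H' →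
      Nat.card ↥((S : Subgroup G) ⊓ Subgroup.normalizer (H' : Set G)) = Nat.card T₀ →
      Nat.card H' ≤ Nat.card H := by
    intro H' h1 h2 h4
    have h3 : μ H' ≤ μ H := hmax H' ⟨h1, h2⟩
    have h6 : μ H' = Nat.card ↥((S : Subgroup G) ⊓ Subgroup.normalizer (H' : Set G)) * (Nat.card G + 1) + Nat.card H' := rfl
    have h7 : μ H = Nat.card T₀ * (Nat.card G + 1) + Nat.card H := rfl
    rw [h6, h7, h4] at h3
    linarith
  have hT₀N : T₀ ≤ N := inf_le_right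
  have hHN : H ≤ N := Subgroup.le_normalizer
  have hHT₀ : H ≤ T₀ := le_inf hHS hHN
  have hT₀p : IsPGroup p T₀ := S.isPGroup'.to_le inf_le_left
  have hT₀S : T₀ ≠ S := by
    intro h
    apply hno' H hHS _ hHadm
    intro s hs'
    rw [← h] at hs'
    exact hs'.2
  have hTmax : ∀ T' : Subgroup G, IsPGroup p T' → T₀ ≤ T' → T' ≤ N → T' = T₀ := by
    intro T' hT'p hle hT'N
    obtain ⟨S', hS'⟩ := hT'p.exists_le_sylow
    obtain ⟨g, hg⟩ := MulAction.exists_smul_eq G S' S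
    have hconjS : ∀ x ∈ (S' : Subgroup G), g * x * g⁻¹ ∈ (S : Subgroup G) := by
      intro x hx
      rw [← hg, Sylow.smul_def, Sylow.pointwise_smul_def]
      exact Subgroup.smul_mem_pointwise_smul _ _ _ hx
    let cg := (MulAut.conj g).toMonoidHom
    have hH'S : H.map cg ≤ S := by
      rintro _ ⟨x, hx, rfl⟩
      exact hconjS x (hS' (hle (hHT₀ hx)))
    have hAdmH' := adm_conj H hHadm g
    have hT''le : T'.map cg ≤ (S : Subgroup G) ⊓ Subgroup.normalizer ((H.map cg : Subgroup G) : Set G) := by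
      rintro _ ⟨x, hx, rfl⟩
      refine ⟨hconjS x (hS' hx), ?_⟩
      apply mem_normalizer_of_conj
      rintro _ ⟨h, hh, rfl⟩
      refine ⟨x * h * x⁻¹, (Subgroup.mem_normalizer_iff.mp (hT'N hx) h).mp hh, ?_⟩
      show g * (x * h * x⁻¹) * g⁻¹ = (g * x * g⁻¹) * (g * h * g⁻¹) * (g * x * g⁻¹)⁻¹
      group
    have hcard : Nat.card (T'.map cg) = Nat.card T' :=
      Nat.card_congr (Subgroup.equivMapOfInjective T' _ (MulAut.conj g).injective).toEquiv.symm
    have h1 : Nat.card T' ≤ Nat.card T₀ := by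
      rw [← hcard]
      exact (Subgroup.card_le_of_le hT''le).trans (hi _ hH'S hAdmH')
    exact (Subgroup.eq_of_le_of_card_ge hle h1).symm
  let T : Sylow p ↥N :=
    { toSubgroup := T₀.subgroupOf N
      isPGroup' := hT₀p.comap_of_injective N.subtype (Subgroup.subtype_injective _)
      is_maximal' := by
        intro Q hQ hle
        have h1 := hTmax (Q.map N.subtype) (hQ.map _)
          (fun x hx => ⟨⟨x, hT₀N hx⟩, hle hx, rfl⟩) (by
            rintro _ ⟨w, _, rfl⟩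
            exact w.2)
        ext w
        rw [Subgroup.mem_subgroupOf, ← h1]
        constructor
        · intro h
          exact ⟨w, h, rfl⟩
        · rintro ⟨w', h, hw⟩
          have : w' = w := Subtype.ext hw
          rwa [← this] }
  have hTcoe : (T : Subgroup ↥N) = T₀.subgroupOf N := rfl
  haveI hHXn : (H.subgroupOf N).Normal := Subgroup.normal_in_normalizer
  have hF : ∀ Y : Subgroup ↥N, Y ≤ T → (T : Subgroup ↥N) ≤ Subgroup.normalizer (Y : Set ↥N) → H.subgroupOf N ≤ Y →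
      (∃ n ∈ Subgroup.normalizer (Y : Set ↥N), n ∉ Subgroup.centralizer (Y : Set ↥N) ∧ ∃ k, n ^ (q ^ k) = 1) →
      Y = H.subgroupOf N := by
    rintro Y hYT hTN hHY ⟨n', hn'N, hn'C, k, hk⟩
    have hYp : IsPGroup p Y := T.isPGroup'.to_le hYT
    have hadm := adm_map N Y hYp n' hn'N hn'C k hk
    have hYT₀ : Y.map N.subtype ≤ T₀ := by
      rintro _ ⟨w, hw, rfl⟩
      exact hYT hw
    have hT₀NY : T₀ ≤ Subgroup.normalizer ((Y.map N.subtype : Subgroup G) : Set G) := by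
      intro t ht
      apply mem_normalizer_of_conj
      rintro _ ⟨w, hw, rfl⟩
      have hmem : (⟨t, hT₀N ht⟩ : ↥N) ∈ (T : Subgroup ↥N) := ht
      exact ⟨(⟨t, hT₀N ht⟩ : ↥N) * w * (⟨t, hT₀N ht⟩ : ↥N)⁻¹,
        (Subgroup.mem_normalizer_iff.mp (hTN hmem) w).mp hw, rfl⟩
    have hle₁ := hYT₀.trans (inf_le_left : T₀ ≤ S)
    have h1 : Nat.card T₀ ≤ Nat.card ↥((S : Subgroup G) ⊓ Subgroup.normalizer ((Y.map N.subtype : Subgroup G) : Set G)) :=
      Subgroup.card_le_of_le (le_inf inf_le_left hT₀NY)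
    have h2 := hi _ hle₁ hadm
    have h3 := hii _ hle₁ hadm (le_antisymm h2 h1)
    have hHY' : H ≤ Y.map N.subtype := fun x hx =>
      ⟨⟨x, hHN hx⟩, hHY (Subgroup.mem_subgroupOf.mpr hx), rfl⟩
    have h4 := Subgroup.eq_of_le_of_card_ge hHY' h3
    ext w
    rw [Subgroup.mem_subgroupOf, h4]
    constructor
    · intro h
      exact ⟨w, h, rfl⟩
    · rintro ⟨w', h, hw⟩
      have : w' = w := Subtype.ext hw
      rwa [← this]
  -- a normaliser element outside T₀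
  obtain ⟨g, hgS, hgT, hgN⟩ : ∃ g : G, g ∈ (S : Subgroup G) ∧ g ∉ T₀ ∧ g ∈ Subgroup.normalizer (T₀ : Set G) := by
    let H₁ : Subgroup ↥(S : Subgroup G) := T₀.subgroupOf S
    haveI : Group.IsNilpotent ↥(S : Subgroup G) := S.isPGroup'.isNilpotent
    have hcond := normalizerCondition_of_isNilpotent (G := ↥(S : Subgroup G))
    have hlt : H₁ < ⊤ := by
      rw [lt_top_iff_ne_top]
      intro h
      apply hT₀S
      apply le_antisymm inf_le_left
      intro x hx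
      have : (⟨x, hx⟩ : ↥(S : Subgroup G)) ∈ H₁ := by rw [h]; trivial
      exact this
    have h2 := hcond H₁ hlt
    obtain ⟨g₁, hg₁N, hg₁⟩ := SetLike.exists_of_lt h2
    refine ⟨g₁, g₁.2, hg₁, ?_⟩
    apply mem_normalizer_of_conj
    intro x hx
    have hx' : (⟨x, hx.1⟩ : ↥(S : Subgroup G)) ∈ H₁ := hx
    exact (Subgroup.mem_normalizer_iff.mp hg₁N _).mp hx'
  have hG : ∀ n' ∈ Subgroup.normalizer ((Jof (T : Subgroup ↥N) : Subgroup ↥N) : Set ↥N), (∃ k, n' ^ (q ^ k) = 1) →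
      n' ∈ Subgroup.centralizer ((Jof (T : Subgroup ↥N) : Subgroup ↥N) : Set ↥N) := by
    rintro n' hn'N ⟨k, hk⟩
    by_contra hn'C
    have hadm := adm_map N (Jof (T : Subgroup ↥N)) (T.isPGroup'.to_le (Jof_le _)) n' hn'N hn'C k hk
    have hJmap : (Jof (T : Subgroup ↥N)).map N.subtype = Jof T₀ := by
      rw [Jof_map N.subtype (Subgroup.subtype_injective _), hTcoe, Subgroup.map_subgroupOf_eq_of_le hT₀N]
    rw [hJmap] at hadm
    have hJS : Jof T₀ ≤ S := (Jof_le T₀).trans inf_le_left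
    have h1 := hi _ hJS hadm
    have hle : T₀ ≤ (S : Subgroup G) ⊓ Subgroup.normalizer ((Jof T₀ : Subgroup G) : Set G) :=
      le_inf inf_le_left fun t ht => norm_J (Jof_le _) le_rfl (Subgroup.le_normalizer ht)
    have h2 := Subgroup.eq_of_le_of_card_ge hle h1
    apply hgT
    rw [h2]
    exact ⟨hgS, norm_J (Jof_le _) le_rfl hgN⟩
  obtain ⟨hHp, y, hyN, hyC, k, hk⟩ := hHadm
  let yX : ↥N := ⟨y, hyN⟩
  have hyXk : yX ^ (q ^ k) = 1 := Subtype.ext hk
  have hHXp : IsPGroup p ↥(H.subgroupOf N) := hHp.comap_of_injective N.subtype (Subgroup.subtype_injective _)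
  have hyXC : yX ∉ Subgroup.centralizer ((H.subgroupOf N : Subgroup ↥N) : Set ↥N) := by
    intro hc
    apply hyC
    rw [Subgroup.mem_centralizer_iff] at hc ⊢
    intro h hh
    exact congrArg Subtype.val (hc ⟨h, hHN hh⟩ (Subgroup.mem_subgroupOf.mpr hh))
  have hCT : T₀ ⊓ Subgroup.centralizer (H : Set G) ≤ H := by
    have h1 := cent_le T (H.subgroupOf N) hHXp hF yX hyXC k hyXk
    intro x hx
    have hxN : x ∈ N := hT₀N hx.1
    have h2 : (⟨x, hxN⟩ : ↥N) ∈ (T : Subgroup ↥N) ⊓ Subgroup.centralizer ((H.subgroupOf N : Subgroup ↥N) : Set ↥N) := by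
      refine ⟨hx.1, Subgroup.mem_centralizer_iff.mpr ?_⟩
      intro w hw
      exact Subtype.ext (Subgroup.mem_centralizer_iff.mp hx.2 _ hw)
    exact h1 h2
  have hcore := core hpq h23 T (H.subgroupOf N) ((Subgroup.centralizer (H : Set G)).subgroupOf N) hHXp
    (by
      intro c hc
      rw [Subgroup.mem_centralizer_iff]
      intro w hw
      exact Subtype.ext (Subgroup.mem_centralizer_iff.mp hc _ hw))
    (hs H hHp) hF hG
  -- a central element of order p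
  have hHne : H ≠ ⊥ := by
    rintro rfl
    apply hyC
    rw [Subgroup.mem_centralizer_iff]
    intro h hh
    have : h = 1 := hh
    rw [this]
    simp
  obtain ⟨z, hzS, hz1, hzp, hzc⟩ : ∃ z ∈ (S : Subgroup G), z ≠ 1 ∧ z ^ p = 1 ∧ ∀ s ∈ (S : Subgroup G), z * s = s * z := by
    have hSne : (S : Subgroup G) ≠ ⊥ := by
      intro h
      apply hHne
      rw [eq_bot_iff, ← h]
      exact hHS
    haveI : Nontrivial ↥(S : Subgroup G) := (Subgroup.nontrivial_iff_ne_bot _).mpr hSne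
    haveI hcn := S.isPGroup'.center_nontrivial
    have hZp : IsPGroup p ↥(Subgroup.center ↥(S : Subgroup G)) := S.isPGroup'.to_subgroup _
    obtain ⟨e, he⟩ := IsPGroup.iff_card.mp hZp
    have he0 : e ≠ 0 := by
      rintro rfl
      rw [pow_zero] at he
      have h1 := (Nat.card_eq_one_iff_unique.mp he).1
      exact not_subsingleton _ h1
    have hd : p ∣ Nat.card ↥(Subgroup.center ↥(S : Subgroup G)) := by
      rw [he]; exact dvd_pow_self p he0
    obtain ⟨c, hc⟩ := exists_prime_orderOf_dvd_card' p hd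
    refine ⟨((c : ↥(S : Subgroup G)) : G), (c : ↥(S : Subgroup G)).2, ?_, ?_, ?_⟩
    · intro h
      have h1 : c = 1 := Subtype.ext (Subtype.ext h)
      rw [h1, orderOf_one] at hc
      exact hpp.one_lt.ne hc
    · have h1 : c ^ p = 1 := by
        have h0 := pow_orderOf_eq_one c
        rwa [hc] at h0
      have h2 := congrArg (fun u : ↥(Subgroup.center ↥(S : Subgroup G)) => ((u : ↥(S : Subgroup G)) : G)) h1
      simpa using h2
    · intro s hs'
      have h1 := (Subgroup.mem_center_iff.mp c.2) ⟨s, hs'⟩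
      exact (congrArg Subtype.val h1).symm
  have hzN : z ∈ N := by
    apply mem_normalizer_of_conj
    intro h hh
    rw [hzc h (hHS hh)]
    simpa using hh
  have hzC : z ∈ Subgroup.centralizer (H : Set G) := by
    rw [Subgroup.mem_centralizer_iff]
    intro h hh
    exact (hzc h (hHS hh)).symm
  have hzH : z ∈ H := hCT ⟨⟨hzS, hzN⟩, hzC⟩
  have hyz : z * y = y * z := by
    have h1 := hcore yX ⟨k, hyXk⟩
    have h2 : (⟨z, hzN⟩ : ↥N) ∈ omegaZ p (H.subgroupOf N) := by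
      refine ⟨Subgroup.mem_subgroupOf.mpr hzH, ?_, Subtype.ext hzp⟩
      intro h hh
      apply Subtype.ext
      exact hzc h (hHS (Subgroup.mem_subgroupOf.mp hh))
    have h3 := Subgroup.mem_centralizer_iff.mp h1 _ h2
    exact congrArg Subtype.val h3
  -- the quotient
  let C₁ : Subgroup G := Subgroup.centralizer ({z} : Set G)
  have hmemC₁ : ∀ x, x ∈ C₁ ↔ z * x = x * z := fun x => by
    show x ∈ Subgroup.centralizer ({z} : Set G) ↔ _
    rw [Subgroup.mem_centralizer_iff]; simp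
  let c₁ : ↥C₁ := ⟨z, (hmemC₁ z).mpr rfl⟩
  have hc₁c : ∀ g : ↥C₁, g * c₁ = c₁ * g := fun g =>
    Subtype.ext ((hmemC₁ _).mp g.2).symm
  let Z₁ : Subgroup ↥C₁ := Subgroup.zpowers c₁
  haveI hZn : Z₁.Normal := ⟨by
    rintro _ ⟨i, rfl⟩ g
    have h1 : Commute g c₁ := hc₁c g
    refine ⟨i, ?_⟩
    show c₁ ^ i = g * c₁ ^ i * g⁻¹
    rw [(h1.zpow_right i).eq]
    group⟩
  have hc₁p : c₁ ^ p = 1 := Subtype.ext hzp
  have hZp : IsPGroup p Z₁ := by
    rintro ⟨_, i, rfl⟩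
    refine ⟨1, Subtype.ext ?_⟩
    show (c₁ ^ i) ^ (p ^ 1) = 1
    rw [pow_one, ← zpow_natCast, ← zpow_mul, mul_comm, zpow_mul, zpow_natCast, hc₁p, one_zpow]
  have hlt : Nat.card (↥C₁ ⧸ Z₁) < n := by
    have h1 := Subgroup.card_mul_index Z₁
    have h2 : 1 < Nat.card Z₁ := by
      rw [Subgroup.one_lt_card_iff_ne_bot]
      intro h
      have : c₁ ∈ Z₁ := Subgroup.mem_zpowers c₁
      rw [h, Subgroup.mem_bot] at this
      exact hz1 (congrArg Subtype.val this)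
    have h3 : Nat.card ↥C₁ ≤ n := by
      rw [← hn]
      exact Subgroup.card_le_card_group C₁
    rw [← Subgroup.index_eq_card]
    have h4 : 0 < Z₁.index := Nat.pos_of_ne_zero Subgroup.FiniteIndex.index_ne_zero
    nlinarith
  have hSC₁ : (S : Subgroup G) ≤ C₁ := fun s hs' => (hmemC₁ s).mpr (hzc s hs')
  let mk : ↥C₁ →* ↥C₁ ⧸ Z₁ := QuotientGroup.mk' Z₁
  have hmks : Function.Surjective mk := QuotientGroup.mk'_surjective Z₁
  have hsQ := hs_quot C₁ Z₁ hZp hs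
  have hSbar : IsPGroup p (((S : Subgroup G).subgroupOf C₁).map mk) :=
    (S.isPGroup'.comap_of_injective C₁.subtype (Subgroup.subtype_injective _)).map mk
  obtain ⟨S', hS'⟩ := hSbar.exists_le_sylow
  have hyC₁ : y ∈ C₁ := (hmemC₁ y).mpr hyz
  let y₁ : ↥C₁ := ⟨y, hyC₁⟩
  have hHC₁ : H ≤ C₁ := hHS.trans hSC₁
  have hHbarle : (H.subgroupOf C₁).map mk ≤ S' := by
    refine le_trans (Subgroup.map_mono ?_) hS'
    intro x hx
    exact hHS hx
  have hAdmbar : Adm p q ((H.subgroupOf C₁).map mk) := by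
    refine ⟨(hHp.comap_of_injective C₁.subtype (Subgroup.subtype_injective _)).map mk, mk y₁, ?_, ?_, k, ?_⟩
    · apply mem_normalizer_of_conj
      rintro _ ⟨h, hh, rfl⟩
      rw [← map_inv, ← map_mul, ← map_mul]
      refine ⟨y₁ * h * y₁⁻¹, ?_, rfl⟩
      exact (Subgroup.mem_normalizer_iff.mp hyN _).mp hh
    · intro hc
      apply hyC
      rw [Subgroup.mem_centralizer_iff]
      intro h hh
      have hhC₁ := hHC₁ hh
      let h₁ : ↥C₁ := ⟨h, hhC₁⟩
      have h1 := Subgroup.mem_centralizer_iff.mp hc (mk h₁) ⟨h₁, hh, rfl⟩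
      rw [← map_mul, ← map_mul] at h1
      have h2 : y₁⁻¹ * (h₁ * y₁ * h₁⁻¹) ∈ Z₁ := by
        apply (QuotientGroup.eq_one_iff _).mp
        show mk (y₁⁻¹ * (h₁ * y₁ * h₁⁻¹)) = 1
        have h3 : y₁⁻¹ * (h₁ * y₁ * h₁⁻¹) = y₁⁻¹ * (h₁ * y₁) * h₁⁻¹ := by group
        rw [h3, map_mul, map_mul, map_inv, map_inv, h1, map_mul]
        group
      obtain ⟨i, hi⟩ := h2
      have hxp : (y₁⁻¹ * (h₁ * y₁ * h₁⁻¹)) ^ p = 1 := by
        rw [← hi]
        show (c₁ ^ i) ^ p = 1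
        rw [← zpow_natCast, ← zpow_mul, mul_comm, zpow_mul, zpow_natCast, hc₁p, one_zpow]
      have hcomm : y₁ * (y₁⁻¹ * (h₁ * y₁ * h₁⁻¹)) = (y₁⁻¹ * (h₁ * y₁ * h₁⁻¹)) * y₁ := by
        rw [← hi]
        have h4 : Commute y₁ c₁ := hc₁c y₁
        exact (h4.zpow_right i).eq
      have h5 := comm_of_commutator y₁ h₁ _ (q ^ k) p (Nat.Coprime.pow_left _ hcoppq.symm)
        (Subtype.ext hk) hxp rfl hcomm
      exact (congrArg Subtype.val h5).symm
    · rw [← map_pow]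
      have : y₁ ^ (q ^ k) = 1 := Subtype.ext hk
      rw [this, map_one]
  obtain ⟨K', hK'S', hS'N, hK'adm⟩ := ih _ hlt (↥C₁ ⧸ Z₁) rfl hsQ S' _ hHbarle hAdmbar
  have hKadm := adm_lift C₁ Z₁ hZp K' hK'adm
  have hS'tilde : (((S' : Subgroup (↥C₁ ⧸ Z₁)).comap (QuotientGroup.mk' Z₁)).map C₁.subtype) = S := by
    apply S.is_maximal'
    · exact (S'.isPGroup'.comap_of_ker_isPGroup _ (by rw [QuotientGroup.ker_mk']; exact hZp)).map _
    · intro s hs'
      exact ⟨⟨s, hSC₁ hs'⟩, hS' ⟨⟨s, hSC₁ hs'⟩, hs', rfl⟩, rfl⟩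
  refine hno' _ ?_ ?_ hKadm
  · rw [← hS'tilde]
    exact Subgroup.map_mono (Subgroup.comap_mono hK'S')
  · intro s hs'
    apply mem_normalizer_of_conj
    rintro _ ⟨w, hw, rfl⟩
    let s₁ : ↥C₁ := ⟨s, hSC₁ hs'⟩
    have hs₁ : mk s₁ ∈ (S' : Subgroup (↥C₁ ⧸ Z₁)) := hS' ⟨s₁, hs', rfl⟩
    have h1 := (Subgroup.mem_normalizer_iff.mp (hS'N hs₁) (mk w)).mp hw
    rw [← map_inv, ← map_mul, ← map_mul] at h1
    exact ⟨s₁ * w * s₁⁻¹, h1, rfl⟩

end Cfsg.Agent.Lib.Struct.Off
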