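import Mathlib
import Cfsg.Prelude.Def_Transfer
import Cfsg.Agent.Lib.Basic.ExtraIso
import Cfsg.Agent.Lib.Transfer.Extra
import Cfsg.Agent.Lib.OddLocal.HallHigman
import Cfsg.Agent.Lib.Char.Burnside
import Cfsg.Agent.Lib.Struct.SylowCount
import Cfsg.Agent.Lib.Struct.Sec4
import Cfsg.Agent.Lib.Struct.Sec4b
import Cfsg.Agent.Lib.Struct.Eigen

/-!
# Groups of order 320 with Fitting subgroup extraspecial of order 32 (minus type)
-/

set_option autoImplicit false
set_option linter.unusedSectionVars false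
set_option linter.style.haveILetI false

namespace Cfsg.Agent.Lib.Struct.Ord320

open Cfsg Subgroup
open scoped commutatorElement

/-- The subgroup of elements of `H` fixed modulo `Z` by conjugation with `g`. -/
theorem exists_fix {G : Type*} [Group G] (H Z : Subgroup G) [hH : H.Normal]
    (hZc : Z ≤ center G) (g : G) :
    ∃ F : Subgroup G, ∀ x, x ∈ F ↔ x ∈ H ∧ g * x * g⁻¹ * x⁻¹ ∈ Z := by
  refine ⟨{ carrier := {x | x ∈ H ∧ g * x * g⁻¹ * x⁻¹ ∈ Z}
            one_mem' := ⟨H.one_mem, by simp [Z.one_mem]⟩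
            mul_mem' := ?_
            inv_mem' := ?_ }, fun x => Iff.rfl⟩
  · rintro a b ⟨ha, ha'⟩ ⟨hb, hb'⟩
    refine ⟨H.mul_mem ha hb, ?_⟩
    have hc := mem_center_iff.1 (hZc hb') a⁻¹
    have : g * (a * b) * g⁻¹ * (a * b)⁻¹ = (g * a * g⁻¹ * a⁻¹) * (a * (g * b * g⁻¹ * b⁻¹) * a⁻¹) := by
      group
    rw [this]
    refine Z.mul_mem ha' ?_
    have : a * (g * b * g⁻¹ * b⁻¹) * a⁻¹ = g * b * g⁻¹ * b⁻¹ := by
      rw [mul_assoc, ← hc, mul_assoc]
      simp
    rw [this]; exact hb'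
  · rintro a ⟨ha, ha'⟩
    refine ⟨H.inv_mem ha, ?_⟩
    have hc := mem_center_iff.1 (hZc ha') a⁻¹
    have : g * a⁻¹ * g⁻¹ * a⁻¹⁻¹ = a⁻¹ * (g * a * g⁻¹ * a⁻¹)⁻¹ * a := by group
    rw [this]
    have hc' := mem_center_iff.1 (hZc (Z.inv_mem ha')) a⁻¹
    rw [hc']
    simpa using Z.inv_mem ha'

/-- Conjugation action of an involution on a cyclic subgroup of index two. -/
theorem conj_cases_quot {Q : Type*} [Group Q] [Finite Q] (hQ : Nat.card Q = 10) (a t : Q)
    (ha : orderOf a = 5) (ht : t ^ 2 = 1) : t * a * t⁻¹ = a ∨ t * a * t⁻¹ = a⁻¹ := by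
  have hcard : Nat.card (zpowers a) = 5 := by rw [Nat.card_zpowers, ha]
  have hidx : (zpowers a).index = 2 := by
    have := (zpowers a).card_mul_index
    rw [hcard, hQ] at this
    omega
  have hn : (zpowers a).Normal := normal_of_index_eq_two hidx
  obtain ⟨k, hk⟩ := mem_zpowers_iff.1 (hn.conj_mem a (mem_zpowers a) t)
  have ht' : t * t = 1 := by rw [← pow_two]; exact ht
  have hti : t⁻¹ = t := by rw [inv_eq_iff_mul_eq_one]; exact ht'
  have h1 : a ^ (k * k) = a := by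
    have : t * (t * a * t⁻¹) * t⁻¹ = a := by
      rw [hti]
      calc t * (t * a * t) * t = (t * t) * a * (t * t) := by group
        _ = a := by rw [ht']; group
    rw [← hk] at this
    have h2 : t * a ^ k * t⁻¹ = (t * a * t⁻¹) ^ k := by rw [conj_zpow]
    rw [h2, ← hk, ← zpow_mul] at this
    exact this
  have h5 : (orderOf a : ℤ) ∣ k * k - 1 := by
    rw [orderOf_dvd_iff_zpow_eq_one, zpow_sub, zpow_one, h1, mul_inv_cancel]
  rw [ha] at h5
  have hk5 : a ^ k = a ^ (k % 5) := by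
    have := zpow_mod_orderOf a k
    rw [ha] at this
    exact this.symm
  have hcases : k % 5 = 1 ∨ k % 5 = 4 := by
    push_cast at h5
    have h51 : (k * k - 1) % 5 = 0 := Int.emod_eq_zero_of_dvd h5
    have : k % 5 = 0 ∨ k % 5 = 1 ∨ k % 5 = 2 ∨ k % 5 = 3 ∨ k % 5 = 4 := by omega
    rcases this with h | h | h | h | h
    · rw [Int.sub_emod, Int.mul_emod, h] at h51; norm_num at h51
    · exact Or.inl h
    · rw [Int.sub_emod, Int.mul_emod, h] at h51; norm_num at h51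
    · rw [Int.sub_emod, Int.mul_emod, h] at h51; norm_num at h51
    · exact Or.inr h
  rcases hcases with h | h
  · left
    rw [← hk, hk5, h, zpow_one]
  · right
    rw [← hk, hk5, h]
    have : a ^ (5 : ℕ) = 1 := by rw [← ha]; exact pow_orderOf_eq_one a
    rw [eq_inv_iff_mul_eq_one]
    calc a ^ (4 : ℤ) * a = a ^ (5 : ℕ) := by
            rw [show (4 : ℤ) = ((4 : ℕ) : ℤ) by norm_num, zpow_natCast, ← pow_succ]
      _ = 1 := this

theorem card_cases {n : ℕ} (h : n ∣ 32) (h5 : n ≡ 2 [MOD 5]) : n = 2 ∨ n = 32 := by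
  have h0 : n ≤ 32 := Nat.le_of_dvd (by norm_num) h
  unfold Nat.ModEq at h5
  interval_cases n <;> first | omega | (exfalso; revert h; decide)

/-- Lemma A: an involutive automorphism `τ` of an extraspecial-type group of order 32 whose
fixed points modulo the centre form a subgroup of order 8 inverts that subgroup. -/
theorem lemmaA {E : Type*} [Group E] [Finite E] (hE : Basic.ExtClass 2 E) (h32 : Nat.card E = 32)
    (τ : E →* E) (hτ : ∀ x, τ (τ x) = x) (F : Subgroup E)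
    (hF : ∀ x, x ∈ F ↔ τ x * x⁻¹ ∈ center E) (h8 : Nat.card F = 8) :
    ∀ f ∈ F, τ f = f⁻¹ := by
  classical
  set Z := center E with hZ
  have hZ2 : Nat.card Z = 2 := hE.card_center
  have hcomm : ∀ a b : (E ⧸ Z), a * b = b * a := by
    intro a b
    induction a using QuotientGroup.induction_on with | _ a => ?_
    induction b using QuotientGroup.induction_on with | _ b => ?_
    rw [← QuotientGroup.mk_mul, ← QuotientGroup.mk_mul, QuotientGroup.eq]
    have := hE.comm_mem b⁻¹ a⁻¹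
    have e : (a * b)⁻¹ * (b * a) = ⁅b⁻¹, a⁻¹⁆ := by
      rw [commutatorElement_def]; group
    rw [e]; exact this
  -- `τ` fixes the centre pointwise
  have hτsurj : Function.Surjective τ := fun x => ⟨τ x, hτ x⟩
  have hτZ : ∀ z ∈ Z, τ z ∈ Z := by
    intro z hz
    rw [hZ, mem_center_iff] at hz ⊢
    intro g
    obtain ⟨g', rfl⟩ := hτsurj g
    rw [← map_mul, ← map_mul, hz]
  have hτinj : Function.Injective τ := fun a b h => by
    have := congrArg τ h
    rwa [hτ, hτ] at this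
  have hZfix : ∀ z ∈ Z, τ z = z := by
    intro z hz
    by_cases h1 : z = 1
    · rw [h1, map_one]
    · obtain ⟨w, -, hw⟩ := (Nat.card_eq_two_iff' (1 : Z)).1 hZ2
      have h2 : (⟨z, hz⟩ : Z) = w := hw _ (fun h => h1 (congrArg Subtype.val h))
      have h3 : (⟨τ z, hτZ z hz⟩ : Z) = w := hw _ (fun h => h1 (by
        have h' : τ z = 1 := congrArg Subtype.val h
        apply hτinj
        rw [h', map_one]))
      exact congrArg Subtype.val (h3.trans h2.symm)
  have hZsq : ∀ z ∈ Z, z * z = 1 := by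
    intro z hz
    have : (⟨z, hz⟩ : Z) ^ 2 = 1 := by
      rw [← hZ2]; exact pow_card_eq_one'
    have h := congrArg Subtype.val this
    simpa [pow_two] using h
  -- the map `h ↦ h⁻¹ τ(h)` modulo the centre
  let φ : E →* (E ⧸ Z) :=
    { toFun := fun h => ((h⁻¹ * τ h : E) : E ⧸ Z)
      map_one' := by simp
      map_mul' := by
        intro a b
        have e : (a * b)⁻¹ * τ (a * b) = b⁻¹ * (a⁻¹ * τ a) * τ b := by
          rw [map_mul]; group
        rw [e, QuotientGroup.mk_mul, QuotientGroup.mk_mul, hcomm ((b⁻¹ : E) : E ⧸ Z), mul_assoc]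
        rfl }
  have hφ : ∀ h, φ h = ((h⁻¹ * τ h : E) : E ⧸ Z) := fun _ => rfl
  have hker : φ.ker = F := by
    ext x
    rw [MonoidHom.mem_ker, hφ, QuotientGroup.eq_one_iff, hF]
    constructor
    · intro h
      have := (inferInstance : Z.Normal).conj_mem _ h x
      have e : x * (x⁻¹ * τ x) * x⁻¹ = τ x * x⁻¹ := by group
      rwa [e] at this
    · intro h
      have := (inferInstance : Z.Normal).conj_mem _ h x⁻¹
      have e : x⁻¹ * (τ x * x⁻¹) * x⁻¹⁻¹ = x⁻¹ * τ x := by group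
      rwa [e] at this
  have hidxF : F.index = 4 := by
    have := F.card_mul_index
    rw [h8, h32] at this
    omega
  have hrange : Nat.card φ.range = 4 := by
    rw [← Subgroup.index_ker, hker, hidxF]
  have hw : ∀ h, τ (h⁻¹ * τ h) = (h⁻¹ * τ h)⁻¹ := by
    intro h
    rw [map_mul, map_inv, hτ]; group
  have hZF : Z ≤ F := by
    intro z hz
    rw [hF, hZfix z hz, mul_inv_cancel]
    exact Z.one_mem
  have hkermk : (QuotientGroup.mk' Z).ker = Z := QuotientGroup.ker_mk' Z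
  have hle : φ.range ≤ F.map (QuotientGroup.mk' Z) := by
    rintro _ ⟨h, rfl⟩
    refine ⟨h⁻¹ * τ h, ?_, rfl⟩
    rw [SetLike.mem_coe, hF, hw]
    have := hE.pow_mem (h⁻¹ * τ h)⁻¹
    rwa [pow_two] at this
  have hcardQ : Nat.card (E ⧸ Z) = 16 := by
    have := Z.card_eq_card_quotient_mul_card_subgroup
    rw [h32, hZ2] at this
    omega
  have hidxmap : (F.map (QuotientGroup.mk' Z)).index = 4 := by
    rw [Subgroup.index_map, hkermk, sup_eq_left.2 hZF, hidxF,
      MonoidHom.range_eq_top.2 (QuotientGroup.mk'_surjective Z), Subgroup.index_top, mul_one]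
  have hcardmap : Nat.card (F.map (QuotientGroup.mk' Z)) = 4 := by
    have := (F.map (QuotientGroup.mk' Z)).card_mul_index
    rw [hidxmap, hcardQ] at this
    omega
  have heq : φ.range = F.map (QuotientGroup.mk' Z) :=
    Subgroup.eq_of_le_of_card_ge hle (by rw [hrange, hcardmap])
  intro f hf
  have hmem : (QuotientGroup.mk' Z f) ∈ φ.range := by
    rw [heq]; exact ⟨f, hf, rfl⟩
  obtain ⟨h, hh⟩ := hmem
  rw [hφ] at hh
  have hτw : τ (h⁻¹ * τ h) = (h⁻¹ * τ h)⁻¹ := hw h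
  generalize h⁻¹ * τ h = w at hh hτw
  have hε : w⁻¹ * f ∈ Z := QuotientGroup.eq.1 hh
  obtain ⟨ε, hεdef⟩ : ∃ ε, ε = w⁻¹ * f := ⟨_, rfl⟩
  rw [← hεdef] at hε
  have hf' : f = w * ε := by rw [hεdef]; group
  have hcε := mem_center_iff.1 hε
  have hεi : ε⁻¹ = ε := by rw [inv_eq_iff_mul_eq_one]; exact hZsq ε hε
  rw [hf', map_mul, hτw, hZfix ε hε, mul_inv_rev, hεi, hcε]

/-- In case `T` centralizes `y` modulo `H`, `y` normalizes the fixed points modulo `Z` of `T`. -/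
theorem caseA_norm {G : Type*} [Group G] [Finite G] (H Z F : Subgroup G) [hH : H.Normal]
    (hZc : Z ≤ center G) (hc : ∀ a ∈ H, ∀ b ∈ H, a * b * a⁻¹ * b⁻¹ ∈ Z) (T y : G)
    (hF : ∀ x, x ∈ F ↔ x ∈ H ∧ T * x * T⁻¹ * x⁻¹ ∈ Z) (hTy : T * y * T⁻¹ * y⁻¹ ∈ H) :
    y ∈ normalizer (F : Set G) := by
  refine Cfsg.Agent.Lib.Struct.Eigen.mem_normalizer_of_conj_mem F y ?_
  intro x hx
  obtain ⟨hxH, hxZ⟩ := (hF x).1 hx
  refine (hF _).2 ⟨hH.conj_mem x hxH y, ?_⟩
  obtain ⟨h, hh⟩ : ∃ h, h = T * y * T⁻¹ * y⁻¹ := ⟨_, rfl⟩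
  rw [← hh] at hTy
  obtain ⟨ζ, hζ⟩ : ∃ ζ, ζ = T * x * T⁻¹ * x⁻¹ := ⟨_, rfl⟩
  rw [← hζ] at hxZ
  have hcζ := mem_center_iff.1 (hZc hxZ)
  have e1 : T * y * T⁻¹ = h * y := by rw [hh]; group
  have e3 : T * x * T⁻¹ = ζ * x := by rw [hζ]; group
  have e2 : T * (y * x * y⁻¹) * T⁻¹ = (T * y * T⁻¹) * (T * x * T⁻¹) * (T * y * T⁻¹)⁻¹ := by group
  rw [e1, e3] at e2
  have hx' : y * x * y⁻¹ ∈ H := hH.conj_mem x hxH y
  obtain ⟨x', hx'd⟩ : ∃ x', x' = y * x * y⁻¹ := ⟨_, rfl⟩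
  rw [← hx'd] at hx' e2 ⊢
  have e4 : h * y * (ζ * x) * (h * y)⁻¹ = ζ * (h * x' * h⁻¹) := by
    rw [hx'd]
    calc h * y * (ζ * x) * (h * y)⁻¹ = (h * y * ζ) * x * (h * y)⁻¹ := by group
      _ = (ζ * (h * y)) * x * (h * y)⁻¹ := by rw [hcζ]
      _ = ζ * (h * (y * x * y⁻¹) * h⁻¹) := by group
  rw [e2, e4]
  have e5 : ζ * (h * x' * h⁻¹) * x'⁻¹ = ζ * (h * x' * h⁻¹ * x'⁻¹) := by group
  rw [e5]
  exact Z.mul_mem hxZ (hc _ hTy _ hx')

/-- In case `T` inverts `y` modulo `H`. -/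
theorem caseB_inf {G : Type*} [Group G] [Finite G] (H Z F : Subgroup G) [hH : H.Normal]
    (hZc : Z ≤ center G) (hc : ∀ a ∈ H, ∀ b ∈ H, a * b * a⁻¹ * b⁻¹ ∈ Z) (T y : G)
    (hF : ∀ x, x ∈ F ↔ x ∈ H ∧ T * x * T⁻¹ * x⁻¹ ∈ Z) (hTy : T * y * T⁻¹ * y ∈ H)
    (hy2 : ∀ x ∈ H, (y * y) * x * (y * y)⁻¹ * x⁻¹ ∈ Z → x ∈ Z)
    (x : G) (hx : x ∈ F) (hx' : y⁻¹ * x * y ∈ F) : x ∈ Z := by
  obtain ⟨hxH, hxZ⟩ := (hF x).1 hx
  obtain ⟨hf0H, hf0Z⟩ := (hF _).1 hx'
  obtain ⟨h, hh⟩ : ∃ h, h = T * y * T⁻¹ * y := ⟨_, rfl⟩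
  rw [← hh] at hTy
  obtain ⟨ζ, hζ⟩ : ∃ ζ, ζ = T * x * T⁻¹ * x⁻¹ := ⟨_, rfl⟩
  rw [← hζ] at hxZ
  have hcζ := mem_center_iff.1 (hZc hxZ)
  obtain ⟨f₀, hf0⟩ : ∃ f₀, f₀ = y⁻¹ * x * y := ⟨_, rfl⟩
  rw [← hf0] at hf0H hf0Z
  obtain ⟨ζ₀, hζ₀⟩ : ∃ ζ, ζ = T * f₀ * T⁻¹ * f₀⁻¹ := ⟨_, rfl⟩
  rw [← hζ₀] at hf0Z
  have hcζ₀ := mem_center_iff.1 (hZc hf0Z)
  obtain ⟨ζ', hζ'⟩ : ∃ ζ, ζ = h⁻¹ * x * h * x⁻¹ := ⟨_, rfl⟩
  have hζ'Z : ζ' ∈ Z := by
    rw [hζ']
    have := hc _ (H.inv_mem hTy) _ hxH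
    simpa using this
  have hcζ' := mem_center_iff.1 (hZc hζ'Z)
  have e1 : T * y * T⁻¹ = h * y⁻¹ := by rw [hh]; group
  have e3 : T * x * T⁻¹ = ζ * x := by rw [hζ]; group
  have e2 : T * f₀ * T⁻¹ = (T * y * T⁻¹)⁻¹ * (T * x * T⁻¹) * (T * y * T⁻¹) := by rw [hf0]; group
  rw [e1, e3] at e2
  have e4 : (h * y⁻¹)⁻¹ * (ζ * x) * (h * y⁻¹) = ζ * ζ' * (y * x * y⁻¹) := by
    have e5 : h⁻¹ * x * h = ζ' * x := by rw [hζ']; group
    calc (h * y⁻¹)⁻¹ * (ζ * x) * (h * y⁻¹) = ((h * y⁻¹)⁻¹ * ζ) * x * (h * y⁻¹) := by group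
      _ = (ζ * (h * y⁻¹)⁻¹) * x * (h * y⁻¹) := by rw [hcζ]
      _ = ζ * (y * (h⁻¹ * x * h) * y⁻¹) := by group
      _ = ζ * ((y * ζ') * x * y⁻¹) := by rw [e5]; group
      _ = ζ * ((ζ' * y) * x * y⁻¹) := by rw [hcζ']
      _ = ζ * ζ' * (y * x * y⁻¹) := by group
  rw [e4] at e2
  have e6 : T * f₀ * T⁻¹ = ζ₀ * f₀ := by rw [hζ₀]; group
  have e7 : y * x * y⁻¹ = (y * y) * f₀ * (y * y)⁻¹ := by rw [hf0]; group
  rw [e6, e7] at e2
  have hZ2 : (y * y) * f₀ * (y * y)⁻¹ * f₀⁻¹ ∈ Z := by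
    have e8 : (y * y) * f₀ * (y * y)⁻¹ = (ζ * ζ')⁻¹ * (ζ₀ * f₀) := by
      rw [e2]; group
    rw [e8]
    have e9 : (ζ * ζ')⁻¹ * (ζ₀ * f₀) * f₀⁻¹ = (ζ * ζ')⁻¹ * ζ₀ := by group
    rw [e9]
    exact Z.mul_mem (Z.inv_mem (Z.mul_mem hxZ hζ'Z)) hf0Z
  have hf0Z' : f₀ ∈ Z := hy2 f₀ hf0H hZ2
  have hxe : x = y * f₀ * y⁻¹ := by rw [hf0]; group
  have hcf := mem_center_iff.1 (hZc hf0Z')
  have : x = f₀ := by
    rw [hxe, hcf y]; group
  rw [this]; exact hf0Z'

/-- Final contradiction when `F` is centralized by `T`, `F` of order 8. -/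
theorem final_contra {G : Type*} [Group G] [Finite G] (H Z F : Subgroup G) [hH : H.Normal]
    (hZH : Z = (center ↥H).map H.subtype) (hZc : Z ≤ center G)
    (hext : Basic.ExtClass 2 ↥H) (h32 : Nat.card H = 32) (T : G) (hT2 : T * T = 1)
    (hFH : F ≤ H)
    (hF : ∀ x, x ∈ F ↔ x ∈ H ∧ T * x * T⁻¹ * x⁻¹ ∈ Z) (h8 : Nat.card F = 8) :
    ∀ f ∈ F, T * f * T⁻¹ = f⁻¹ := by
  let τ : ↥H →* ↥H := (MulAut.conjNormal T : ↥H ≃* ↥H).toMonoidHom
  have hτ : ∀ x : ↥H, ((τ x : ↥H) : G) = T * x * T⁻¹ := fun x => MulAut.conjNormal_apply T x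
  have hτ2 : ∀ x, τ (τ x) = x := by
    intro x
    apply Subtype.ext
    rw [hτ, hτ]
    have : T⁻¹ = T := by rw [inv_eq_iff_mul_eq_one]; exact hT2
    rw [this]
    calc T * (T * x * T) * T = (T * T) * x * (T * T) := by group
      _ = x := by rw [hT2]; group
  have hmem : ∀ x : ↥H, x ∈ F.subgroupOf H ↔ τ x * x⁻¹ ∈ center ↥H := by
    intro x
    rw [mem_subgroupOf, hF]
    constructor
    · rintro ⟨-, h⟩
      rw [hZH] at h
      obtain ⟨w, hw, hwe⟩ := h
      have : τ x * x⁻¹ = w := by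
        apply Subtype.ext
        show ((τ x : ↥H) : G) * (x : G)⁻¹ = w
        rw [hτ]
        exact hwe.symm
      rw [this]; exact hw
    · intro h
      refine ⟨x.2, ?_⟩
      rw [hZH]
      refine ⟨_, h, ?_⟩
      show ((τ x : ↥H) : G) * (x : G)⁻¹ = _
      rw [hτ]
  have hcard : Nat.card (F.subgroupOf H) = 8 := by
    rw [Nat.card_congr (Subgroup.subgroupOfEquivOfLe hFH).toEquiv, h8]
  have hA := lemmaA hext h32 τ hτ2 (F.subgroupOf H) hmem hcard
  intro f hf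
  have hfH := hFH hf
  have := hA ⟨f, hfH⟩ (by rw [mem_subgroupOf]; exact hf)
  have h2 := congrArg Subtype.val this
  rw [hτ] at h2
  exact h2

/-- The main theorem in terms of a normal subgroup `H`. -/
theorem core {G : Type*} [Group G] [Finite G] (H : Subgroup G) [hH : H.Normal]
    (hG : Nat.card G = 320) (h32 : Nat.card H = 32) (hext : Basic.ExtClass 2 ↥H)
    (hcent : centralizer (H : Set G) ≤ H)
    (hminus : ∀ A : Subgroup G, A ≤ H → Cfsg.IsElementaryAbelian 2 A → Nat.card ↥A ≤ 4)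
    (T : G) (hT : orderOf T = 2) (hTH : T ∉ H)
    (V : Subgroup G) (hV : V ≤ H ⊓ Subgroup.centralizer ({T} : Set G)) (hV4 : Nat.card ↥V = 4)
    (hVe : Cfsg.IsElementaryAbelian 2 V) :
    Nat.card ↥(H ⊓ Subgroup.centralizer ({T} : Set G)) = 4 ∧
      Cfsg.IsElementaryAbelian 2 (H ⊓ Subgroup.centralizer ({T} : Set G)) := by
  classical
  have hZcard : Nat.card (center ↥H) = 2 := hext.card_center
  obtain ⟨Z, hZdef⟩ : ∃ Z, Z = centerIn H := ⟨_, rfl⟩
  have hZ2 : Nat.card Z = 2 := by rw [hZdef, card_centerIn, hZcard]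
  have hZc : Z ≤ center G := by rw [hZdef]; exact centerIn_le_center H hZcard
  have hZH : Z ≤ H := by
    rw [hZdef]; intro z hz; exact (mem_centerIn.1 hz).1
  have hc : ∀ a ∈ H, ∀ b ∈ H, a * b * a⁻¹ * b⁻¹ ∈ Z := by
    intro a ha b hb
    rw [hZdef]
    have := hext.comm_mem ⟨a, ha⟩ ⟨b, hb⟩
    exact ⟨_, this, rfl⟩
  have hsq : ∀ a ∈ H, a * a ∈ Z := by
    intro a ha
    rw [hZdef]
    have := hext.pow_mem ⟨a, ha⟩
    refine ⟨_, this, ?_⟩
    simp [pow_two]
  have hT2 : T * T = 1 := by rw [← pow_two, ← hT]; exact pow_orderOf_eq_one T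
  -- the element of order 5
  haveI hFact5 : Fact (Nat.Prime 5) := ⟨by norm_num⟩
  obtain ⟨y, hy⟩ := exists_prime_orderOf_dvd_card' (G := G) 5
    (by rw [hG]; norm_num)
  have hy5 : y ^ 5 = 1 := by rw [← hy]; exact pow_orderOf_eq_one y
  have hyH : y ∉ H := by
    intro h
    have h1 : orderOf (⟨y, h⟩ : H) ∣ Nat.card H := orderOf_dvd_natCard _
    rw [Subgroup.orderOf_mk, hy, h32] at h1
    norm_num at h1
  have hPy : IsPGroup 5 (zpowers y) := IsPGroup.of_card (n := 1) (by rw [Nat.card_zpowers, hy, pow_one])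
  have hcenty : ∀ x, x ∈ centralizer (zpowers y : Set G) ↔ y * x = x * y := by
    intro x
    rw [mem_centralizer_iff]
    constructor
    · intro h; exact h y (mem_zpowers y)
    · intro h w hw
      obtain ⟨k, rfl⟩ := mem_zpowers_iff.1 hw
      have hcomm : Commute y x := h
      exact (hcomm.zpow_left k).eq
  have hZcy : Z ≤ centralizer (zpowers y : Set G) := by
    intro z hz
    rw [hcenty]
    exact mem_center_iff.1 (hZc hz) y
  -- centralizer of `y` in `H`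
  have hCy : ∀ x ∈ H, y * x = x * y → x ∈ Z := by
    have hCyle : H ⊓ centralizer (zpowers y : Set G) ≤ H := inf_le_left
    have h1 := card_modEq_inf_centralizer (p := 5) hPy
      (Q := H) (by rw [normalizer_eq_top]; exact le_top)
    rw [h32] at h1
    have h2 : Nat.card ↥(H ⊓ centralizer (zpowers y : Set G)) ∣ 32 := by
      rw [← h32]; exact Subgroup.card_dvd_of_le hCyle
    have h3 := card_cases h2 h1.symm
    rcases h3 with h3 | h3
    · have hle : Z ≤ H ⊓ centralizer (zpowers y : Set G) := le_inf hZH hZcy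
      have heq : Z = H ⊓ centralizer (zpowers y : Set G) :=
        Subgroup.eq_of_le_of_card_ge hle (by rw [h3, hZ2])
      intro x hx hxy
      rw [heq]
      exact ⟨hx, (hcenty x).2 hxy⟩
    · exfalso
      have heq : H ⊓ centralizer (zpowers y : Set G) = H :=
        Subgroup.eq_of_le_of_card_ge hCyle (by rw [h3, h32])
      have hle : H ≤ centralizer (zpowers y : Set G) := by
        rw [← heq]; exact inf_le_right
      apply hyH
      apply hcent
      rw [mem_centralizer_iff]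
      intro h hh
      exact ((hcenty h).1 (hle hh)).symm
  -- `y ^ 2` has no fixed points modulo `Z` outside `Z`
  have hy2 : ∀ x ∈ H, (y * y) * x * (y * y)⁻¹ * x⁻¹ ∈ Z → x ∈ Z := by
    intro x hx hz
    apply hCy x hx
    obtain ⟨ζ, hζ⟩ : ∃ ζ, ζ = (y * y) * x * (y * y)⁻¹ * x⁻¹ := ⟨_, rfl⟩
    rw [← hζ] at hz
    have hcζ := mem_center_iff.1 (hZc hz)
    have hζ2 : ζ * ζ = 1 := by
      have : (⟨ζ, hz⟩ : Z) ^ 2 = 1 := by rw [← hZ2]; exact pow_card_eq_one'
      have h := congrArg Subtype.val this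
      simpa [pow_two] using h
    have e1 : (y * y) * x * (y * y)⁻¹ = ζ * x := by rw [hζ]; group
    have e2 : (y * y * (y * y)) * x * (y * y * (y * y))⁻¹ = x := by
      calc (y * y * (y * y)) * x * (y * y * (y * y))⁻¹
          = (y * y) * ((y * y) * x * (y * y)⁻¹) * (y * y)⁻¹ := by group
        _ = (y * y) * (ζ * x) * (y * y)⁻¹ := by rw [e1]
        _ = ((y * y) * ζ) * x * (y * y)⁻¹ := by group
        _ = (ζ * (y * y)) * x * (y * y)⁻¹ := by rw [hcζ]
        _ = ζ * ((y * y) * x * (y * y)⁻¹) := by group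
        _ = ζ * (ζ * x) := by rw [e1]
        _ = x := by rw [← mul_assoc, hζ2, one_mul]
    have e3 : y * (y * y * (y * y)) = 1 := by
      rw [← hy5]; simp only [pow_succ, pow_zero, one_mul, mul_assoc]
    have e4 : y * y * (y * y) = y⁻¹ := by
      rw [eq_inv_iff_mul_eq_one, mul_assoc, mul_assoc]
      rw [← hy5]; simp only [pow_succ, pow_zero, one_mul, mul_assoc]
    rw [e4] at e2
    rw [inv_inv] at e2
    calc y * x = y * (y⁻¹ * x * y) := by rw [e2]
      _ = x * y := by group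
  -- the fixed points modulo `Z`
  obtain ⟨F, hF⟩ := exists_fix H Z hZc T
  have hFH : F ≤ H := fun x hx => ((hF x).1 hx).1
  have hZF : Z ≤ F := by
    intro z hz
    refine (hF z).2 ⟨hZH hz, ?_⟩
    have hcz := mem_center_iff.1 (hZc hz) T
    have : T * z * T⁻¹ * z⁻¹ = 1 := by rw [hcz]; group
    rw [this]; exact Z.one_mem
  have hVF : V ≤ F := by
    intro v hv
    obtain ⟨hvH, hvT⟩ := hV hv
    have hvT' : T * v = v * T := mem_centralizer_iff.1 hvT T rfl
    refine (hF v).2 ⟨hvH, ?_⟩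
    have : T * v * T⁻¹ * v⁻¹ = 1 := by rw [hvT']; group
    rw [this]; exact Z.one_mem
  -- the quotient
  have hcardQ : Nat.card (G ⧸ H) = 10 := by
    have := H.card_eq_card_quotient_mul_card_subgroup
    rw [hG, h32] at this
    omega
  have hya : orderOf ((y : G ⧸ H)) = 5 := by
    have h1 : ((y : G ⧸ H)) ≠ 1 := by
      rw [Ne, QuotientGroup.eq_one_iff]; exact hyH
    rw [orderOf_eq_prime_iff]
    refine ⟨?_, h1⟩
    rw [← QuotientGroup.mk_pow, hy5]; rfl
  have hta : ((T : G ⧸ H)) ^ 2 = 1 := by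
    rw [← QuotientGroup.mk_pow, pow_two, hT2]; rfl
  have hcases := conj_cases_quot hcardQ _ _ hya hta
  have hcases' : T * y * T⁻¹ * y⁻¹ ∈ H ∨ T * y * T⁻¹ * y ∈ H := by
    rcases hcases with h | h
    · left
      rw [← QuotientGroup.eq_one_iff]
      rw [QuotientGroup.mk_mul, QuotientGroup.mk_mul, QuotientGroup.mk_mul, QuotientGroup.mk_inv,
        QuotientGroup.mk_inv, h, mul_inv_cancel]
    · right
      rw [← QuotientGroup.eq_one_iff]
      rw [QuotientGroup.mk_mul, QuotientGroup.mk_mul, QuotientGroup.mk_mul, QuotientGroup.mk_inv,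
        h, inv_mul_cancel]
  -- the bound on `F`
  have hF8 : Nat.card F ≤ 8 := by
    rcases hcases' with hk | hk
    · -- `T` centralizes `y` modulo `H`: contradiction
      exfalso
      have hyN := caseA_norm H Z F hZc hc T y hF hk
      have hzN : zpowers y ≤ normalizer (F : Set G) := zpowers_le.2 hyN
      have h1 := card_modEq_inf_centralizer (p := 5) hPy (Q := F) hzN
      have h2 : F ⊓ centralizer (zpowers y : Set G) = Z := by
        apply le_antisymm
        · rintro x ⟨hx, hxc⟩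
          exact hCy x (hFH hx) ((hcenty x).1 hxc)
        · exact le_inf hZF hZcy
      rw [h2, hZ2] at h1
      have h3 : Nat.card F ∣ 32 := by rw [← h32]; exact Subgroup.card_dvd_of_le hFH
      have h4 : (4 : ℕ) ∣ Nat.card F := by rw [← hV4]; exact Subgroup.card_dvd_of_le hVF
      have h5 : Nat.card F = 32 := by
        rcases card_cases h3 h1 with h | h
        · omega
        · exact h
      have hFeq : F = H := Subgroup.eq_of_le_of_card_ge hFH (by rw [h5, h32])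
      -- `T` induces an inner automorphism
      have hmemF : ∀ x : ↥H, T * (x : G) * T⁻¹ * (x : G)⁻¹ ∈ Z := fun x =>
        ((hF x).1 (hFeq ▸ x.2)).2
      have hmemF' : ∀ x : ↥H, T * (x : G) * T⁻¹ * (x : G)⁻¹ ∈ H := fun x => hZH (hmemF x)
      let χ : ↥H → ↥H := fun x => ⟨T * (x : G) * T⁻¹ * (x : G)⁻¹, hmemF' x⟩
      have hχ1 : ∀ u v, χ (u * v) = χ u * χ v := by
        intro u v
        apply Subtype.ext
        show T * ((u : G) * v) * T⁻¹ * ((u : G) * v)⁻¹ =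
          (T * (u : G) * T⁻¹ * (u : G)⁻¹) * (T * (v : G) * T⁻¹ * (v : G)⁻¹)
        have hcv := mem_center_iff.1 (hZc (hmemF v))
        obtain ⟨ζ, hζ⟩ : ∃ ζ, ζ = T * (v : G) * T⁻¹ * (v : G)⁻¹ := ⟨_, rfl⟩
        rw [← hζ] at hcv ⊢
        have e : T * ((u : G) * v) * T⁻¹ * ((u : G) * v)⁻¹ =
            (T * (u : G) * T⁻¹) * ζ * (u : G)⁻¹ := by rw [hζ]; group
        rw [e, mul_assoc (T * (u : G) * T⁻¹) ζ, ← hcv (u : G)⁻¹]; group
      have hχ2 : ∀ w, χ w ∈ center ↥H := by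
        intro w
        have := hmemF w
        rw [hZdef] at this
        obtain ⟨c, hc1, hc2⟩ := this
        have : χ w = c := Subtype.ext hc2.symm
        rw [this]; exact hc1
      have hχ3 : ∀ z ∈ center ↥H, χ z = 1 := by
        intro z hz
        apply Subtype.ext
        show T * (z : G) * T⁻¹ * (z : G)⁻¹ = 1
        have hz' : (z : G) ∈ Z := by rw [hZdef]; exact ⟨z, hz, rfl⟩
        have hcz := mem_center_iff.1 (hZc hz') T
        rw [hcz]; group
      have hc' : ∀ a b : ↥H, a * b * a⁻¹ * b⁻¹ ∈ center ↥H := fun a b => hext.comm_mem a b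
      obtain ⟨e, he⟩ := Cfsg.Agent.Lib.Transfer.inner_of_class_two_center_prime hZcard hc' χ hχ1 hχ2 hχ3
      apply hTH
      have hmem : (e : G)⁻¹ * T ∈ H := by
        apply hcent
        rw [mem_centralizer_iff]
        intro w hw
        have h6 := congrArg Subtype.val (he ⟨w, hw⟩)
        have h7 : T * w * T⁻¹ * w⁻¹ = (e : G) * w * (e : G)⁻¹ * w⁻¹ := h6
        have h8 : T * w * T⁻¹ = (e : G) * w * (e : G)⁻¹ := mul_right_cancel h7
        calc w * ((e : G)⁻¹ * T) = (e : G)⁻¹ * ((e : G) * w * (e : G)⁻¹) * T := by group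
          _ = (e : G)⁻¹ * (T * w * T⁻¹) * T := by rw [h8]
          _ = (e : G)⁻¹ * T * w := by group
      have : T = e * ((e : G)⁻¹ * T) := by group
      rw [this]
      exact H.mul_mem e.2 hmem
    · -- `T` inverts `y` modulo `H`
      let F' : Subgroup G := F.map (MulAut.conj y).toMonoidHom
      have hF'mem : ∀ x ∈ F', y⁻¹ * x * y ∈ F := by
        rintro _ ⟨f, hf, rfl⟩
        have : y⁻¹ * ((MulAut.conj y).toMonoidHom f) * y = f := by
          show y⁻¹ * (y * f * y⁻¹) * y = f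
          group
        rw [this]; exact hf
      have hF'card : Nat.card F' = Nat.card F :=
        Subgroup.card_map_of_injective (MulAut.conj y).injective
      have hF'H : F' ≤ H := by
        rintro _ ⟨f, hf, rfl⟩
        exact hH.conj_mem f (hFH hf) y
      have hHN : H ≤ normalizer (F : Set G) := by
        intro a ha
        apply Cfsg.Agent.Lib.Struct.Eigen.mem_normalizer_of_conj_mem
        intro x hx
        have e : a * x * a⁻¹ = (a * x * a⁻¹ * x⁻¹) * x := by group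
        rw [e]
        exact F.mul_mem (hZF (hc a ha x (hFH hx))) hx
      have h1 := card_sup_mul_inf F F' (hF'H.trans hHN)
      have h2 : F ⊓ F' ≤ Z := by
        rintro x ⟨hx, hx'⟩
        exact caseB_inf H Z F hZc hc T y hF hk hy2 x hx (hF'mem x hx')
      have h3 : Nat.card ↥(F ⊓ F') ≤ 2 := by
        rw [← hZ2]; exact Nat.card_mono (Set.toFinite _) h2
      have h4 : Nat.card ↥(F ⊔ F') ≤ 32 := by
        rw [← h32]; exact Nat.card_mono (Set.toFinite _) (sup_le hFH hF'H)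
      rw [hF'card] at h1
      have h5 : Nat.card F * Nat.card F ≤ 64 := by
        rw [← h1]
        exact Nat.mul_le_mul h4 h3
      nlinarith
  -- conclusion
  set C := H ⊓ centralizer ({T} : Set G) with hCdef
  have hCH : C ≤ H := inf_le_left
  have hCF : C ≤ F := by
    rintro x ⟨hx, hxT⟩
    have hxT' : T * x = x * T := mem_centralizer_iff.1 hxT T rfl
    refine (hF x).2 ⟨hx, ?_⟩
    have : T * x * T⁻¹ * x⁻¹ = 1 := by rw [hxT']; group
    rw [this]; exact Z.one_mem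
  have hC32 : Nat.card C ∣ 32 := by rw [← h32]; exact Subgroup.card_dvd_of_le hCH
  have hC4 : (4 : ℕ) ∣ Nat.card C := by rw [← hV4]; exact Subgroup.card_dvd_of_le hV
  have hC : Nat.card C = 4 := by
    by_contra hne
    have hC8 : 8 ≤ Nat.card C := by
      have hle : Nat.card C ≤ 32 := Nat.le_of_dvd (by norm_num) hC32
      have hpos : 0 < Nat.card C := Nat.card_pos
      obtain ⟨k, hk⟩ := hC4
      omega
    have hcle : Nat.card C ≤ Nat.card F := Nat.card_mono (Set.toFinite _) hCF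
    have hF8' : Nat.card F = 8 := le_antisymm hF8 (hC8.trans hcle)
    have hCeq : C = F := Subgroup.eq_of_le_of_card_ge hCF (by rw [hF8']; exact hC8)
    have hinv := final_contra H Z F (by rw [hZdef]) hZc hext h32 T hT2 hFH hF hF8'
    have hsq1 : ∀ x ∈ C, x ^ 2 = 1 := by
      intro x hx
      have hxT := hx.2
      have hxT' : T * x = x * T := mem_centralizer_iff.1 hxT T rfl
      have h1 := hinv x (hCF hx)
      have h2 : T * x * T⁻¹ = x := by rw [hxT']; group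
      rw [h2] at h1
      rw [pow_two]
      nth_rewrite 1 [h1]
      group
    have hEA : IsElementaryAbelian 2 C := by
      refine ⟨⟨⟨fun a b => ?_⟩⟩, hsq1⟩
      apply Subtype.ext
      exact comm_of_sq (X := C) (fun z => Subtype.ext (by
        simpa using hsq1 z z.2)) a b ▸ rfl
    have := hminus C hCH hEA
    omega
  have hVC : V = C := Subgroup.eq_of_le_of_card_ge hV (by omega)
  refine ⟨hC, ?_⟩
  rw [← hVC]
  exact hVe

end Cfsg.Agent.Lib.Struct.Ord320
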