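import Mathlib
import Cfsg.Agent.Lib.Struct.PF2
import Cfsg.Agent.Lib.Struct.QuatKernel
import Cfsg.Agent.S0042

/-!
From Frobenius complements to modules over `ZMod ℓ`.
-/

set_option autoImplicit false
set_option linter.unusedSectionVars false

namespace Cfsg.Agent.Lib.Struct.PF

open Subgroup Cfsg

/-- The elements of order dividing `p` in the center of `N`. -/
def omegaZ {L : Type} [Group L] (N : Subgroup L) (p : ℕ) : Subgroup L where
  carrier := {x | x ∈ N ∧ (∀ y ∈ N, x * y = y * x) ∧ x ^ p = 1}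
  mul_mem' := by
    rintro a b ⟨ha, ha', ha''⟩ ⟨hb, hb', hb''⟩
    refine ⟨N.mul_mem ha hb, fun y hy => ?_, ?_⟩
    · rw [mul_assoc, hb' y hy, ← mul_assoc, ha' y hy, mul_assoc]
    · have : Commute a b := ha' b hb
      rw [this.mul_pow, ha'', hb'', one_mul]
  one_mem' := ⟨N.one_mem, by simp, by simp⟩
  inv_mem' := by
    rintro a ⟨ha, ha', ha''⟩
    refine ⟨N.inv_mem ha, fun y hy => ?_, by rw [inv_pow, ha'', inv_one]⟩
    have := ha' y hy
    calc a⁻¹ * y = a⁻¹ * (y * a) * a⁻¹ := by group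
      _ = a⁻¹ * (a * y) * a⁻¹ := by rw [this]
      _ = y * a⁻¹ := by group

lemma omegaZ_normal {L : Type} [Group L] (N : Subgroup L) [hN : N.Normal] (p : ℕ) :
    (omegaZ N p).Normal := by
  refine ⟨fun x hx g => ?_⟩
  obtain ⟨h1, h2, h3⟩ := hx
  refine ⟨hN.conj_mem x h1 g, fun y hy => ?_, ?_⟩
  · have h4 : g⁻¹ * y * g ∈ N := by
      have := hN.conj_mem y hy g⁻¹
      simpa using this
    have h5 := h2 _ h4
    calc g * x * g⁻¹ * y = g * (x * (g⁻¹ * y * g)) * g⁻¹ := by group
      _ = g * ((g⁻¹ * y * g) * x) * g⁻¹ := by rw [h5]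
      _ = y * (g * x * g⁻¹) := by group
  · rw [conj_pow, h3]
    simp

/-- A module over `ZMod p` with a fixed point free family of additive maps. -/
theorem pf_data_add (Q : Type) [Group Q] [Finite Q] (V : Type) [AddCommGroup V] (p : ℕ)
    [Module (ZMod p) V] (t : Q → (V →+ V)) (h1 : ∀ v, t 1 v = v)
    (hm : ∀ a b v, t (a * b) v = t a (t b v)) (hfix : ∀ q : Q, q ≠ 1 → ∀ v, t q v = v → v = 0) :
    ∃ ρ : Q →* Module.End (ZMod p) V,
      ∀ c : Q, (orderOf c).Prime →
        MonoidAlgebra.lift (ZMod p) (Module.End (ZMod p) V) Q ρ (sig (ZMod p) c) = 0 := by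
  classical
  let ρ : Q →* Module.End (ZMod p) V :=
    { toFun := fun q => (t q).toZModLinearMap p
      map_one' := LinearMap.ext fun v => by
        rw [AddMonoidHom.coe_toZModLinearMap, Module.End.one_apply]
        exact h1 v
      map_mul' := fun a b => LinearMap.ext fun v => by
        rw [Module.End.mul_apply, AddMonoidHom.coe_toZModLinearMap,
          AddMonoidHom.coe_toZModLinearMap, AddMonoidHom.coe_toZModLinearMap]
        exact hm a b v }
  have hρ : ∀ (q : Q) (v : V), ρ q v = t q v := fun _ _ => rfl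
  refine ⟨ρ, ?_⟩
  intro c hc
  have hc1 : c ≠ 1 := by
    rintro rfl
    rw [orderOf_one] at hc
    exact Nat.not_prime_one hc
  set Λ := MonoidAlgebra.lift (ZMod p) (Module.End (ZMod p) V) Q ρ with hΛ
  have h2 : ρ c * Λ (sig (ZMod p) c) = Λ (sig (ZMod p) c) := by
    have h3 := of_mul_sig (R := ZMod p) c
    have h4 := congrArg Λ h3
    rw [map_mul, hΛ, MonoidAlgebra.lift_of] at h4
    exact h4
  ext v
  rw [LinearMap.zero_apply]
  have h4 := LinearMap.congr_fun h2 v
  rw [Module.End.mul_apply, hρ] at h4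
  exact hfix c hc1 _ h4

/-- A module over `ZMod p` from an elementary abelian group with a fixed point free action. -/
theorem pf_data (Q : Type) [Group Q] (V₀ : Type) [CommGroup V₀] [Nontrivial V₀] (p : ℕ)
    [Fact p.Prime] (hexp : ∀ v : V₀, v ^ p = 1) (φ : Q →* MulAut V₀)
    (hfpf : ∀ q : Q, q ≠ 1 → ∀ v, φ q v = v → v = 1) [Finite Q] :
    ∃ (V : Type) (_ : AddCommGroup V) (_ : Module (ZMod p) V) (_ : Nontrivial V)
      (ρ : Q →* Module.End (ZMod p) V),
      ∀ c : Q, (orderOf c).Prime →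
        MonoidAlgebra.lift (ZMod p) (Module.End (ZMod p) V) Q ρ (sig (ZMod p) c) = 0 := by
  classical
  letI hmod : Module (ZMod p) (Additive V₀) := AddCommGroup.zmodModule (n := p) (fun x => by
    show Additive.ofMul (x.toMul ^ p) = 0
    rw [hexp]
    rfl)
  let t : Q → (Additive V₀ →+ Additive V₀) := fun q =>
    MonoidHom.toAdditive ((φ q : V₀ ≃* V₀) : V₀ →* V₀)
  have ht : ∀ q v, t q v = Additive.ofMul (φ q v.toMul) := fun _ _ => rfl
  obtain ⟨ρ, hρ⟩ := pf_data_add Q (Additive V₀) p t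
    (fun v => by rw [ht, map_one]; rfl)
    (fun a b v => by rw [ht, ht, ht, map_mul]; rfl)
    (fun q hq v hv => by
      rw [ht] at hv
      exact congrArg Additive.ofMul (hfpf q hq v.toMul (Additive.ofMul.injective hv)))
  exact ⟨Additive V₀, inferInstance, hmod, inferInstance, ρ, hρ⟩

/-- The norm ideal of `ℤ[H]` contains no nonzero integer, for a Frobenius complement `H`. -/
theorem pf_nat_of_complement {L : Type} [Group L] [Finite L] (H : Subgroup L)
    (hF : IsFrobeniusComplement H) :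
    ∀ n : ℕ, n ≠ 0 → ((n : MonoidAlgebra ℤ H)) ∉ normIdeal ℤ H := by
  classical
  obtain ⟨N, hN, hNn, hnil⟩ := Cfsg.Agent.S0042.result H hF
  obtain ⟨N', hN', hNn', hc'⟩ := Cfsg.Agent.S0035.result H hF
  have hNN : N' = N := SetLike.coe_injective (hN'.trans hN.symm)
  subst hNN
  obtain ⟨hne, hfpf⟩ := Cfsg.Agent.Lib.Struct.QuatKernel.kernel_fpf H hF hc'
  haveI : Nontrivial N' := (Subgroup.nontrivial_iff_ne_bot N').mpr hne
  haveI : Group.IsNilpotent N' := hnil
  have hcenter := Group.IsNilpotent.center_ne_bot (G := N')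
  haveI : Nontrivial (center N') := (Subgroup.nontrivial_iff_ne_bot _).mpr hcenter
  have hcard : Nat.card (center N') ≠ 1 := (Finite.one_lt_card_iff_nontrivial.mpr inferInstance).ne'
  obtain ⟨p, hp, hpd⟩ := Nat.exists_prime_and_dvd hcard
  haveI : Fact p.Prime := ⟨hp⟩
  obtain ⟨z, hz⟩ := exists_prime_orderOf_dvd_card' (G := center N') p hpd
  haveI := omegaZ_normal N' p
  -- the elementary abelian group
  letI hcomm : CommGroup (omegaZ N' p) :=
    { (inferInstance : Group (omegaZ N' p)) with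
      mul_comm := fun a b => Subtype.ext (a.2.2.1 b.1 b.2.1) }
  have hz1 : ((z : N') : L) ∈ omegaZ N' p := by
    refine ⟨(z : N').2, fun y hy => ?_, ?_⟩
    · have := (Subgroup.mem_center_iff.mp z.2) ⟨y, hy⟩
      exact (congrArg Subtype.val this).symm
    · have : z ^ p = 1 := by rw [← hz]; exact pow_orderOf_eq_one z
      have h2 := congrArg (fun w : center N' => ((w : N') : L)) this
      simpa using h2
  haveI : Nontrivial (omegaZ N' p) := by
    refine ⟨⟨⟨_, hz1⟩, 1, fun h => ?_⟩⟩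
    have h2 : ((z : N') : L) = 1 := congrArg Subtype.val h
    have h3 : z = 1 := Subtype.ext (Subtype.ext h2)
    rw [h3, orderOf_one] at hz
    exact hp.one_lt.ne hz
  let φ : H →* MulAut (omegaZ N' p) := (MulAut.conjNormal (H := omegaZ N' p)).comp H.subtype
  have hφ : ∀ (q : H) (v : omegaZ N' p), ((φ q v : omegaZ N' p) : L) = (q : L) * v * (q : L)⁻¹ :=
    fun q v => MulAut.conjNormal_apply _ _
  have hφfpf : ∀ q : H, q ≠ 1 → ∀ v, φ q v = v → v = 1 := by
    intro q hq v hv
    have h1 := hφ q v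
    rw [hv] at h1
    have h2 : (v : L) ∈ N' ⊓ centralizer {(q : L)} := by
      refine mem_inf.mpr ⟨v.2.1, ?_⟩
      rw [mem_centralizer_singleton_iff]
      calc (v : L) * q = (q : L) * v * (q : L)⁻¹ * q := by rw [← h1]
        _ = q * v := by group
    rw [hfpf q q.2 (fun h => hq (Subtype.ext h))] at h2
    exact Subtype.ext (mem_bot.mp h2)
  have hexp : ∀ v : omegaZ N' p, v ^ p = 1 := fun v => Subtype.ext (by simpa using v.2.2.2)
  -- p does not divide the order of H
  have hpH : ¬ p ∣ Nat.card H := by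
    intro hd
    obtain ⟨y, hy⟩ := exists_prime_orderOf_dvd_card' (G := H) p hd
    have hy1 : (y : L) ^ p = 1 := by
      have : y ^ p = 1 := by rw [← hy]; exact pow_orderOf_eq_one y
      simpa using congrArg Subtype.val this
    have hy2 : y ≠ 1 := by
      rintro rfl
      rw [orderOf_one] at hy
      exact hp.one_lt.ne hy
    have h3 := Cfsg.Agent.Lib.OddLocal.coprime_of_fpf_prime (K := N') (p := p) hy1 (by
      intro k hk hky
      have h4 : k ∈ N' ⊓ centralizer {(y : L)} :=
        mem_inf.mpr ⟨hk, by rw [mem_centralizer_singleton_iff]; exact hky⟩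
      rw [hfpf y y.2 (fun h => hy2 (Subtype.ext h))] at h4
      exact mem_bot.mp h4)
    have h5 : p ∣ Nat.card N' := hpd.trans (Subgroup.card_subgroup_dvd_card _)
    exact hp.one_lt.ne' (Nat.dvd_one.mp (h3 ▸ Nat.dvd_gcd (dvd_refl p) h5))
  obtain ⟨V, i1, i2, i3, ρ, hρ⟩ := pf_data H (omegaZ N' p) p hexp φ hφfpf
  obtain ⟨e, he0, he1, he2⟩ := pf_idem hpH ρ hρ
  exact pf_nat_notMem hpH e he0 he1 he2

/-- The main module construction. -/
theorem pf_exists_module {L : Type} [Group L] [Finite L] (H : Subgroup L)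
    (hF : IsFrobeniusComplement H) (ℓ : ℕ) [Fact ℓ.Prime] :
    ∃ (M : Type) (_ : AddCommGroup M) (_ : Module (ZMod ℓ) M) (_ : Finite M) (_ : Nontrivial M)
      (ρ : H →* Module.End (ZMod ℓ) M),
      ∀ c : H, (orderOf c).Prime → ∑ k ∈ Finset.range (orderOf c), (ρ c) ^ k = 0 :=
  pf_module ℓ (pf_one_notMem (pf_nat_of_complement H hF) ℓ)

end Cfsg.Agent.Lib.Struct.PF
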