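import Mathlib
import Cfsg.Agent.Lib.Struct.PF3

/-!
Frobenius complements and fixed point free irreducible representations in characteristic zero.
-/

set_option autoImplicit false
set_option linter.unusedSectionVars false

namespace Cfsg.Agent.Lib.Struct.PF

open MonoidAlgebra Module

variable {Q : Type} [Group Q]

lemma rat_den (a : MonoidAlgebra ℚ Q) :
    ∃ (d : ℕ) (b : MonoidAlgebra ℤ Q), d ≠ 0 ∧
      mapRingHom Q (Int.castRingHom ℚ) b = (d : ℚ) • a := by
  induction a using MonoidAlgebra.induction_linear with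
  | zero => exact ⟨1, 0, one_ne_zero, by simp⟩
  | add x y hx hy =>
    obtain ⟨d₁, b₁, h₁, hb₁⟩ := hx
    obtain ⟨d₂, b₂, h₂, hb₂⟩ := hy
    refine ⟨d₁ * d₂, (d₂ : ℤ) • b₁ + (d₁ : ℤ) • b₂, mul_ne_zero h₁ h₂, ?_⟩
    rw [map_add, smul_add]
    have e1 : ∀ (t : ℕ) (b : MonoidAlgebra ℤ Q), mapRingHom Q (Int.castRingHom ℚ) ((t : ℤ) • b) =
        (t : ℚ) • mapRingHom Q (Int.castRingHom ℚ) b := by
      intro t b
      ext g
      rw [coeff_mapRingHom, coeff_smul_apply, coeff_smul_apply, coeff_mapRingHom]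
      simp
    rw [e1, e1, hb₁, hb₂, smul_smul, smul_smul]
    push_cast
    congr 2
    ring
  | single g q =>
    refine ⟨q.den, single g q.num, q.den_ne_zero, ?_⟩
    rw [mapRingHom_single]
    simp [Rat.den_mul_eq_num]

lemma map_int_rat_inj (x : MonoidAlgebra ℤ Q) (h : mapRingHom Q (Int.castRingHom ℚ) x = 0) :
    x = 0 := by
  ext g
  have := congrArg (fun z => MonoidAlgebra.coeff z g) h
  simpa using this

/-- From `ℤ` to `ℚ`. -/
theorem rat_one_notMem (hN : ∀ n : ℕ, n ≠ 0 → ((n : MonoidAlgebra ℤ Q)) ∉ normIdeal ℤ Q) :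
    (1 : MonoidAlgebra ℚ Q) ∉ normIdeal ℚ Q := by
  classical
  intro h1
  set ψ := mapRingHom Q (Int.castRingHom ℚ) with hψ
  have hlift : ∀ z ∈ normIdeal ℚ Q, ∃ (n : ℕ) (y : MonoidAlgebra ℤ Q), n ≠ 0 ∧ y ∈ normIdeal ℤ Q ∧
      ψ y = (n : ℚ) • z := by
    intro z hz
    induction hz using Submodule.span_induction with
    | mem z hz =>
      obtain ⟨c, hc, b, rfl⟩ := hz
      refine ⟨1, sig ℤ c * MonoidAlgebra.of ℤ Q b, one_ne_zero,
        Submodule.subset_span ⟨c, hc, b, rfl⟩, ?_⟩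
      rw [map_mul, hψ, map_sig, map_of]
      simp
    | zero => exact ⟨1, 0, one_ne_zero, Submodule.zero_mem _, by simp⟩
    | add a b _ _ ha hb =>
      obtain ⟨n₁, y₁, h₁, hy₁, e₁⟩ := ha
      obtain ⟨n₂, y₂, h₂, hy₂, e₂⟩ := hb
      refine ⟨n₁ * n₂, (n₂ : MonoidAlgebra ℤ Q) * y₁ + (n₁ : MonoidAlgebra ℤ Q) * y₂,
        mul_ne_zero h₁ h₂, ?_, ?_⟩
      · exact Submodule.add_mem _ (Submodule.smul_mem _ _ hy₁) (Submodule.smul_mem _ _ hy₂)
      · rw [map_add, map_mul, map_mul, map_natCast, map_natCast, e₁, e₂, smul_add]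
        have e3 : ∀ (t : ℕ) (b : MonoidAlgebra ℚ Q), (t : MonoidAlgebra ℚ Q) * b = (t : ℚ) • b := by
          intro t b
          rw [← nsmul_eq_mul, Nat.cast_smul_eq_nsmul]
        rw [e3, e3, smul_smul, smul_smul]
        push_cast
        congr 2
        ring
    | smul r z _ hz =>
      obtain ⟨n, y, hn, hy, e⟩ := hz
      obtain ⟨d, b, hd, hb⟩ := rat_den r
      refine ⟨d * n, b * y, mul_ne_zero hd hn, Submodule.smul_mem _ b hy, ?_⟩
      rw [map_mul, e, hψ, hb, smul_mul_smul_comm, smul_eq_mul]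
      push_cast
      rfl
  obtain ⟨n, y, hn, hy, e⟩ := hlift 1 h1
  apply hN n hn
  have h2 : y = (n : MonoidAlgebra ℤ Q) := by
    rw [← sub_eq_zero]
    apply map_int_rat_inj
    rw [map_sub, ← hψ, e, map_natCast]
    have e3 : (n : MonoidAlgebra ℚ Q) = (n : ℚ) • 1 := by
      rw [Nat.cast_smul_eq_nsmul, nsmul_eq_mul, mul_one]
    rw [e3, sub_self]
  rw [← h2]
  exact hy

/-- The norm ideal quotient, with the relations. -/
lemma rhoOf_quot_sum (F : Type) [CommRing F] (c : Q) (hc : (orderOf c).Prime) :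
    ∑ k ∈ Finset.range (orderOf c), (rhoOf F (MonoidAlgebra F Q ⧸ normIdeal F Q) c) ^ k = 0 := by
  apply rhoOf_sum
  intro m
  obtain ⟨x, rfl⟩ := Submodule.Quotient.mk_surjective _ m
  rw [← Submodule.Quotient.mk_smul]
  apply (Submodule.Quotient.mk_eq_zero _).mpr
  rw [smul_eq_mul]
  induction x using MonoidAlgebra.induction_linear with
  | zero => simp
  | add a b ha hb =>
    rw [mul_add]
    exact Submodule.add_mem _ ha hb
  | single g r =>
    have : (single g r : MonoidAlgebra F Q) = r • MonoidAlgebra.of F Q g := by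
      simp [MonoidAlgebra.of]
    rw [this, mul_smul_comm]
    exact Submodule.smul_of_tower_mem _ r (Submodule.subset_span ⟨c, hc, g, rfl⟩)

/-- A finite dimensional fixed point free module yields an irreducible matrix representation. -/
theorem pf_irred [Finite Q] {K : Type} [Field K] [CharZero K] {M : Type} [AddCommGroup M]
    [Module K M] [FiniteDimensional K M] [Nontrivial M] (ρ : Q →* Module.End K M)
    (hσ : ∀ c : Q, (orderOf c).Prime → ∑ k ∈ Finset.range (orderOf c), (ρ c) ^ k = 0) :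
    ∃ (n : ℕ) (ρ' : Q →* GL (Fin n) K), 0 < n ∧ Function.Injective ρ' ∧
      (∀ W : Submodule K (Fin n → K),
        (∀ g : Q, ∀ w ∈ W, ((ρ' g : GL (Fin n) K) : Matrix (Fin n) (Fin n) K).mulVec w ∈ W) →
          W = ⊥ ∨ W = ⊤) ∧
      ∀ g : Q, g ≠ 1 → ∀ v : Fin n → K,
        ((ρ' g : GL (Fin n) K) : Matrix (Fin n) (Fin n) K).mulVec v = v → v = 0 := by
  classical
  -- a minimal invariant subspace
  let S : Set (Submodule K M) := {W | W ≠ ⊥ ∧ ∀ g : Q, ∀ x ∈ W, ρ g x ∈ W}
  have htop : (⊤ : Submodule K M) ∈ S := ⟨top_ne_bot, fun _ _ _ => trivial⟩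
  obtain ⟨W₀, hW₀, hmin⟩ := (InvImage.wf (fun W : Submodule K M => finrank K W)
    Nat.lt_wfRel.wf).has_min S ⟨⊤, htop⟩
  have hmin' : ∀ W ∈ S, finrank K W₀ ≤ finrank K W := fun W hW => not_lt.mp (hmin W hW)
  obtain ⟨hne, hinv⟩ := hW₀
  have hpos : 0 < finrank K W₀ := by
    rw [Module.finrank_pos_iff]
    exact Submodule.nontrivial_iff_ne_bot.mpr hne
  set n := finrank K W₀ with hn
  let b : Basis (Fin n) K W₀ := Module.finBasis K W₀
  let τ : Q → (W₀ →ₗ[K] W₀) := fun g => (ρ g).restrict (hinv g)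
  have hτ : ∀ (g : Q) (x : W₀), ((τ g x : W₀) : M) = ρ g x := fun _ _ => rfl
  have hτ1 : τ 1 = LinearMap.id := by
    ext x
    rw [hτ, map_one]
    rfl
  have hτm : ∀ g h, τ (g * h) = (τ g).comp (τ h) := by
    intro g h
    ext x
    rw [hτ, map_mul]
    rfl
  let μ : Q →* Matrix (Fin n) (Fin n) K :=
    { toFun := fun g => LinearMap.toMatrix b b (τ g)
      map_one' := by rw [hτ1, LinearMap.toMatrix_id]
      map_mul' := fun g h => by rw [hτm, LinearMap.toMatrix_comp b b b] }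
  let ρ' : Q →* GL (Fin n) K := μ.toHomUnits
  have hmv : ∀ (g : Q) (x : W₀),
      ((ρ' g : GL (Fin n) K) : Matrix (Fin n) (Fin n) K).mulVec (b.equivFun x) = b.equivFun (τ g x) := by
    intro g x
    have : ((ρ' g : GL (Fin n) K) : Matrix (Fin n) (Fin n) K) = LinearMap.toMatrix b b (τ g) := rfl
    rw [this]
    simp only [Basis.equivFun_apply]
    exact LinearMap.toMatrix_mulVec_repr b b (τ g) x
  -- fixed points
  have hfix : ∀ g : Q, g ≠ 1 → ∀ v : Fin n → K,
      ((ρ' g : GL (Fin n) K) : Matrix (Fin n) (Fin n) K).mulVec v = v → v = 0 := by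
    intro g hg v hv
    set x : W₀ := b.equivFun.symm v with hx
    have hvx : v = b.equivFun x := by rw [hx, LinearEquiv.apply_symm_apply]
    rw [hvx, hmv] at hv
    have h1 : τ g x = x := b.equivFun.injective hv
    have h2 : ρ g (x : M) = x := by rw [← hτ, h1]
    have hord : orderOf g ≠ 1 := fun h => hg (orderOf_eq_one_iff.mp h)
    obtain ⟨r, hr, hrd⟩ := Nat.exists_prime_and_dvd hord
    set c := g ^ (orderOf g / r) with hc
    have hco : orderOf c = r := orderOf_pow_orderOf_div (orderOf_pos g).ne' hrd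
    have h3 : ∀ k : ℕ, ρ (g ^ k) (x : M) = x := by
      intro k
      induction k with
      | zero => simp
      | succ k ih => rw [pow_succ, map_mul, Module.End.mul_apply, h2, ih]
    have hs := hσ c (by rw [hco]; exact hr)
    rw [hco] at hs
    have h4 := norm_fixed (F := K) (ρ c) r hs (Nat.cast_ne_zero.mpr hr.ne_zero) (x : M) (h3 _)
    have h5 : x = 0 := Subtype.ext h4
    rw [hvx, h5, map_zero]
  refine ⟨n, ρ', hpos, ?_, ?_, hfix⟩
  · rw [injective_iff_map_eq_one]
    intro a ha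
    by_contra ha1
    obtain ⟨x₀, hx₀, hx₀0⟩ := Submodule.exists_mem_ne_zero_of_ne_bot hne
    have h1 := hfix a ha1 (b.equivFun ⟨x₀, hx₀⟩) (by rw [ha]; simp)
    have h2 : (⟨x₀, hx₀⟩ : W₀) = 0 := b.equivFun.injective (by rw [h1, map_zero])
    exact hx₀0 (congrArg Subtype.val h2)
  · intro W hW
    by_cases hWb : W = ⊥
    · exact Or.inl hWb
    right
    set W' : Submodule K W₀ := W.comap b.equivFun.toLinearMap with hW'
    have hW'mem : ∀ x : W₀, x ∈ W' ↔ b.equivFun x ∈ W := fun x => Iff.rfl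
    have hW'' : W'.map W₀.subtype ∈ S := by
      constructor
      · obtain ⟨v, hv, hv0⟩ := Submodule.exists_mem_ne_zero_of_ne_bot hWb
        intro h
        have h1 : ((b.equivFun.symm v : W₀) : M) ∈ W'.map W₀.subtype :=
          ⟨b.equivFun.symm v, (hW'mem _).mpr (by rw [LinearEquiv.apply_symm_apply]; exact hv), rfl⟩
        rw [h, Submodule.mem_bot] at h1
        have h2 : b.equivFun.symm v = 0 := Subtype.ext h1
        apply hv0
        rw [← b.equivFun.apply_symm_apply v, h2, map_zero]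
      · rintro g _ ⟨x, hx, rfl⟩
        refine ⟨τ g x, (hW'mem _).mpr ?_, rfl⟩
        rw [← hmv]
        exact hW g _ ((hW'mem _).mp hx)
    have h3 := hmin' _ hW''
    rw [Submodule.finrank_map_subtype_eq] at h3
    have h4 : W' = ⊤ := Submodule.eq_top_of_finrank_eq (le_antisymm (Submodule.finrank_le _) h3)
    rw [eq_top_iff]
    intro v _
    have h5 : b.equivFun.symm v ∈ W' := by rw [h4]; trivial
    have h6 := (hW'mem _).mp h5
    rwa [LinearEquiv.apply_symm_apply] at h6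

lemma moduleFinite_rat [Finite Q] : Module.Finite ℚ (MonoidAlgebra ℚ Q) := by
  letI := Fintype.ofFinite Q
  classical
  refine ⟨⟨Finset.univ.image (fun g => MonoidAlgebra.of ℚ Q g), ?_⟩⟩
  rw [eq_top_iff]
  intro x _
  induction x using MonoidAlgebra.induction_linear with
  | zero => exact Submodule.zero_mem _
  | add a b ha hb => exact Submodule.add_mem _ (ha trivial) (hb trivial)
  | single g r =>
    have : (single g r : MonoidAlgebra ℚ Q) = r • MonoidAlgebra.of ℚ Q g := by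
      simp [MonoidAlgebra.of]
    rw [this]
    apply Submodule.smul_mem
    apply Submodule.subset_span
    simp

open scoped TensorProduct in
/-- Base change of a rational fixed point free module. -/
theorem pf_base_change [Finite Q] {M₀ : Type} [AddCommGroup M₀] [Module ℚ M₀] [Module.Finite ℚ M₀]
    [Nontrivial M₀] (ρ₀ : Q →* Module.End ℚ M₀)
    (hσ : ∀ c : Q, (orderOf c).Prime → ∑ k ∈ Finset.range (orderOf c), (ρ₀ c) ^ k = 0) :
    ∃ (n : ℕ) (ρ' : Q →* GL (Fin n) (AlgebraicClosure ℚ)), 0 < n ∧ Function.Injective ρ' ∧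
      (∀ W : Submodule (AlgebraicClosure ℚ) (Fin n → AlgebraicClosure ℚ),
        (∀ g : Q, ∀ w ∈ W, ((ρ' g : GL (Fin n) (AlgebraicClosure ℚ)) :
          Matrix (Fin n) (Fin n) (AlgebraicClosure ℚ)).mulVec w ∈ W) → W = ⊥ ∨ W = ⊤) ∧
      ∀ g : Q, g ≠ 1 → ∀ v : Fin n → AlgebraicClosure ℚ,
        ((ρ' g : GL (Fin n) (AlgebraicClosure ℚ)) :
          Matrix (Fin n) (Fin n) (AlgebraicClosure ℚ)).mulVec v = v → v = 0 := by
  classical
  haveI : Nontrivial (AlgebraicClosure ℚ ⊗[ℚ] M₀) := by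
    apply Module.nontrivial_of_finrank_pos (R := AlgebraicClosure ℚ)
    rw [Module.finrank_baseChange]
    exact Module.finrank_pos
  let ρK : Q →* Module.End (AlgebraicClosure ℚ) (AlgebraicClosure ℚ ⊗[ℚ] M₀) :=
    ((Module.End.baseChangeHom ℚ (AlgebraicClosure ℚ) M₀).toRingHom.toMonoidHom).comp ρ₀
  apply pf_irred ρK
  intro c hc
  have h2 := hσ c hc
  have h3 := congrArg (Module.End.baseChangeHom ℚ (AlgebraicClosure ℚ) M₀) h2
  rw [map_sum, map_zero] at h3
  simpa [ρK, map_pow] using h3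

/-- The representation attached to a Frobenius complement. -/
theorem pf_complement_rep {L : Type} [Group L] [Finite L] (H : Subgroup L)
    (hF : Cfsg.IsFrobeniusComplement H) :
    ∃ (n : ℕ) (ρ' : H →* GL (Fin n) (AlgebraicClosure ℚ)), 0 < n ∧ Function.Injective ρ' ∧
      (∀ W : Submodule (AlgebraicClosure ℚ) (Fin n → AlgebraicClosure ℚ),
        (∀ g : H, ∀ w ∈ W, ((ρ' g : GL (Fin n) (AlgebraicClosure ℚ)) :
          Matrix (Fin n) (Fin n) (AlgebraicClosure ℚ)).mulVec w ∈ W) → W = ⊥ ∨ W = ⊤) ∧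
      ∀ g : H, g ≠ 1 → ∀ v : Fin n → AlgebraicClosure ℚ,
        ((ρ' g : GL (Fin n) (AlgebraicClosure ℚ)) :
          Matrix (Fin n) (Fin n) (AlgebraicClosure ℚ)).mulVec v = v → v = 0 := by
  have h1 := rat_one_notMem (pf_nat_of_complement H hF)
  haveI : Module.Finite ℚ (MonoidAlgebra ℚ H) := moduleFinite_rat
  haveI : Module.Finite ℚ (MonoidAlgebra ℚ H ⧸ normIdeal ℚ H) :=
    Module.Finite.of_surjective ((normIdeal ℚ H).mkQ.restrictScalars ℚ)
      (fun y => by
        obtain ⟨x, rfl⟩ := Submodule.Quotient.mk_surjective _ y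
        exact ⟨x, rfl⟩)
  haveI : Nontrivial (MonoidAlgebra ℚ H ⧸ normIdeal ℚ H) := by
    refine ⟨⟨Submodule.Quotient.mk (p := normIdeal ℚ H) 1, 0, ?_⟩⟩
    intro h
    exact h1 ((Submodule.Quotient.mk_eq_zero _).mp h)
  exact pf_base_change (rhoOf ℚ (MonoidAlgebra ℚ H ⧸ normIdeal ℚ H)) (rhoOf_quot_sum ℚ)

end Cfsg.Agent.Lib.Struct.PF
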