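import Mathlib
import Cfsg.Agent.Lib.Struct.PF7
import Cfsg.Agent.Lib.Struct.PF3
import Cfsg.Agent.Lib.Struct.QuatKernel

/-!
The `pq`-condition for Frobenius complements.
-/

set_option autoImplicit false
set_option linter.unusedSectionVars false

namespace Cfsg.Agent.Lib.Struct.PF

open Cfsg

/-- Sum identity behind the `pq`-condition. -/
lemma pq_core {H : Type*} [Group H] [Finite H] {R : Type*} [Ring R] (ρ : H →* R)
    (hρ : ∀ c : H, (orderOf c).Prime → ∑ k ∈ Finset.range (orderOf c), (ρ c) ^ k = 0)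
    (a x : H) (ha : (orderOf a).Prime) (hx : (orderOf x).Prime)
    (hn : x * a * x⁻¹ ∈ Subgroup.zpowers a) (hne : x * a ≠ a * x) :
    ((orderOf a : ℕ) : R) = 0 := by
  classical
  set q := orderOf a with hq
  set p := orderOf x with hp
  -- the double sum
  have hsum : ∑ k ∈ Finset.range p, ∑ j ∈ Finset.range q, ρ (a ^ j * x ^ k * (a ^ j)⁻¹) = 0 := by
    rw [Finset.sum_comm]
    apply Finset.sum_eq_zero
    intro j _
    set c := a ^ j * x * (a ^ j)⁻¹ with hc
    have hoc : orderOf c = p := MulEquiv.orderOf_eq (MulAut.conj (a ^ j)) x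
    have h1 := hρ c (by rw [hoc]; exact hx)
    rw [hoc] at h1
    rw [← h1]
    apply Finset.sum_congr rfl
    intro k _
    rw [← map_pow, hc, conj_pow]
  -- `x^k` normalises `⟨a⟩`
  have hnorm : ∀ k : ℕ, x ^ k * a * (x ^ k)⁻¹ ∈ Subgroup.zpowers a := by
    intro k
    induction k with
    | zero => simp
    | succ k ih =>
      obtain ⟨s, hs⟩ := ih
      have h1 : x ^ (k + 1) * a * (x ^ (k + 1))⁻¹ = x * (x ^ k * a * (x ^ k)⁻¹) * x⁻¹ := by
        rw [pow_succ']
        group
      rw [h1, ← hs]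
      show x * a ^ s * x⁻¹ ∈ _
      rw [← conj_zpow]
      exact Subgroup.zpow_mem _ hn s
  -- the terms with `k ≠ 0` vanish
  have hvan : ∀ k ∈ Finset.range p, k ≠ 0 →
      ∑ j ∈ Finset.range q, ρ (a ^ j * x ^ k * (a ^ j)⁻¹) = 0 := by
    intro k hk hk0
    have hkp : k < p := Finset.mem_range.mp hk
    set y := x ^ k with hy
    -- `y` does not commute with `a`
    have hcop : Nat.Coprime k p := by
      apply Nat.Coprime.symm
      exact (Nat.Prime.coprime_iff_not_dvd hx).mpr (fun h => by
        have := Nat.le_of_dvd (Nat.pos_of_ne_zero hk0) h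
        omega)
    have hya : y * a ≠ a * y := by
      intro hcomm
      apply hne
      obtain ⟨u, hu⟩ := Nat.exists_mul_mod_eq_one_of_coprime hcop hx.one_lt
      have h1 : y ^ u = x := by
        rw [hy, ← pow_mul, ← pow_mod_orderOf, ← hp, hu.2, pow_one]
      have h2 : Commute y a := hcomm
      have h3 : Commute (y ^ u) a := h2.pow_left u
      rw [h1] at h3
      exact h3
    set b := a * y * a⁻¹ * y⁻¹ with hb
    have hb1 : b ≠ 1 := by
      intro h
      apply hya
      have h1 : a * y * a⁻¹ = y := mul_inv_eq_one.mp h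
      have h2 : a * y = y * a := mul_inv_eq_iff_eq_mul.mp h1
      exact h2.symm
    have hbmem : b ∈ Subgroup.zpowers a := by
      have h1 : b = a * (y * a * y⁻¹)⁻¹ := by
        rw [hb]
        group
      rw [h1]
      exact Subgroup.mul_mem _ (Subgroup.mem_zpowers a) (Subgroup.inv_mem _ (hnorm k))
    have hob : orderOf b = q := by
      have h3 : orderOf (⟨b, hbmem⟩ : Subgroup.zpowers a) ∣ Nat.card (Subgroup.zpowers a) :=
        orderOf_dvd_natCard _
      rw [Subgroup.orderOf_mk, Nat.card_zpowers] at h3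
      rcases (Nat.dvd_prime ha).mp h3 with h | h
      · exact absurd (orderOf_eq_one_iff.mp h) hb1
      · exact h
    have hba : Commute b a := by
      obtain ⟨s, hs⟩ := hbmem
      rw [← hs]
      exact (Commute.refl a).zpow_left s
    have hconj : ∀ j : ℕ, a ^ j * y * (a ^ j)⁻¹ = b ^ j * y := by
      intro j
      induction j with
      | zero => simp
      | succ j ih =>
        have h1 : a * y * a⁻¹ = b * y := by
          rw [hb]
          group
        calc a ^ (j + 1) * y * (a ^ (j + 1))⁻¹ = a * (a ^ j * y * (a ^ j)⁻¹) * a⁻¹ := by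
              rw [pow_succ']
              group
          _ = a * (b ^ j * y) * a⁻¹ := by rw [ih]
          _ = b ^ j * (a * y * a⁻¹) := by
              have : a * b ^ j = b ^ j * a := ((hba.pow_left j).eq).symm
              rw [← mul_assoc a, this]
              group
          _ = b ^ j * (b * y) := by rw [h1]
          _ = b ^ (j + 1) * y := by
              rw [pow_succ]
              group
    have h1 := hρ b (by rw [hob]; exact ha)
    rw [hob] at h1
    calc ∑ j ∈ Finset.range q, ρ (a ^ j * y * (a ^ j)⁻¹)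
        = ∑ j ∈ Finset.range q, (ρ b) ^ j * ρ y := by
          apply Finset.sum_congr rfl
          intro j _
          rw [hconj, map_mul, map_pow]
      _ = (∑ j ∈ Finset.range q, (ρ b) ^ j) * ρ y := by rw [Finset.sum_mul]
      _ = 0 := by rw [h1, zero_mul]
  have h0 : 0 ∈ Finset.range p := Finset.mem_range.mpr hx.pos
  rw [Finset.sum_eq_single_of_mem 0 h0 hvan] at hsum
  simpa using hsum

/-- Frobenius complements satisfy the `pq`-condition. -/
theorem pqCond_of_complement {L : Type} [Group L] [Finite L] (H : Subgroup L)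
    (hF : IsFrobeniusComplement H) : PQCond H := by
  classical
  intro a x ha hx hn
  by_contra hne
  obtain ⟨ℓ, hℓ, hℓq⟩ : ∃ ℓ : ℕ, ℓ.Prime ∧ ℓ ≠ orderOf a := by
    by_cases h : orderOf a = 2
    · exact ⟨3, Nat.prime_three, by omega⟩
    · exact ⟨2, Nat.prime_two, fun h2 => h h2.symm⟩
  haveI : Fact ℓ.Prime := ⟨hℓ⟩
  obtain ⟨M, _, _, _, _, ρ, hρ⟩ := pf_exists_module H hF ℓ
  have h0 := pq_core ρ hρ a x ha hx hn hne
  obtain ⟨m, hm⟩ := exists_ne (0 : M)
  have h1 : ((orderOf a : ℕ) : Module.End (ZMod ℓ) M) m = 0 := by rw [h0]; rfl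
  have h2 : ((orderOf a : ℕ) : ZMod ℓ) • m = 0 := by
    have : ((orderOf a : ℕ) : Module.End (ZMod ℓ) M) m = (orderOf a : ℕ) • m := by
      simp
    rw [this] at h1
    rw [Nat.cast_smul_eq_nsmul]
    exact h1
  have h3 : ((orderOf a : ℕ) : ZMod ℓ) ≠ 0 := by
    intro h
    have := (ZMod.natCast_eq_zero_iff _ ℓ).mp h
    exact hℓq ((Nat.prime_dvd_prime_iff_eq hℓ ha).mp this)
  exact hm ((smul_eq_zero.mp h2).resolve_left h3)

/-- Solvable Frobenius complements: the wrapped statement. -/
theorem solvable_complement_structure {G : Type*} [Group G] [Finite G] (hsol : Group.IsSolvable G)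
    (hFC : ∃ (L : Type) (_ : Group L) (_ : Finite L) (H : Subgroup L),
      Cfsg.IsFrobeniusComplement H ∧ Nonempty (G ≃* H)) :
    ∃ G₀ : Subgroup G, G₀.Normal ∧
      (∃ f : G →* Equiv.Perm (Fin 4), f.ker = G₀) ∧
      (∀ (p : ℕ) [Fact p.Prime] (P : Sylow p G₀), IsCyclic P) ∧
      ∃ n m r : ℕ, 0 < n ∧ 0 < m ∧ Nat.Coprime (r - 1) m ∧ Nat.Coprime n m ∧ 1 ≤ r ∧
        r ^ (n / ∏ p ∈ n.primeFactors, p) % m = 1 % m ∧
        Nonempty (G₀ ≃* PresentedGroup (zRels n m r)) := by
  classical
  obtain ⟨L, _, _, H, hF, ⟨e⟩⟩ := hFC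
  apply solvable_structure_core hsol
  · -- the Sylow structure
    intro p _ T hT
    obtain ⟨N, hN, hNn, hc⟩ := Cfsg.Agent.S0035.result H hF
    obtain ⟨hNne, hfpf⟩ := Cfsg.Agent.Lib.Struct.QuatKernel.kernel_fpf H hF hc
    let φ : G →* L := H.subtype.comp e.toMonoidHom
    have hφ : Function.Injective φ := H.subtype_injective.comp e.injective
    let T' : Subgroup L := T.map φ
    let e' : T ≃* T' := T.equivMapOfInjective φ hφ
    have hT' : IsPGroup p T' := hT.map φ
    have hT'H : T' ≤ H := by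
      rintro _ ⟨x, _, rfl⟩
      exact (e x).2
    rcases Cfsg.Agent.Lib.OddLocal.cyclic_or_quaternion_of_fpf hNne hT'
      (fun h hh h1 => hfpf h (hT'H hh) h1) with hcy | ⟨n, ⟨e''⟩⟩
    · exact Or.inl (isCyclic_of_surjective e'.symm e'.symm.surjective)
    · exact Or.inr ⟨n, ⟨e'.trans e''⟩⟩
  · -- the `pq`-condition
    intro a x ha hx hn
    have h := pqCond_of_complement H hF (e a) (e x)
      (by rwa [MulEquiv.orderOf_eq]) (by rwa [MulEquiv.orderOf_eq]) (by
        obtain ⟨k, hk⟩ := hn
        refine ⟨k, ?_⟩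
        have := congrArg e hk
        simpa using this)
    apply e.injective
    simpa using h

end Cfsg.Agent.Lib.Struct.PF
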