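import Mathlib
import Cfsg.Agent.Lib.SmallSimple.Basic
import Cfsg.Agent.Lib.SmallSimple.Sylow
import Cfsg.Agent.Lib.Struct.Basic
import Cfsg.Agent.Lib.Struct.MultA

/-! Normalizers of the nontrivial proper subgroups of a simple group of order 1092 are maximal. -/

set_option autoImplicit false
set_option linter.unusedVariables false
set_option linter.unusedSectionVars false
set_option linter.unusedSimpArgs false

namespace Cfsg.Agent.Lib.Struct.PSL13

open Subgroup

variable {G : Type*} [Group G] [Finite G]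

theorem fact13 : Fact (Nat.Prime 13) := ⟨by norm_num⟩
theorem fact7 : Fact (Nat.Prime 7) := ⟨by norm_num⟩

attribute [local instance] fact13 fact7

theorem sylow_sub {p : ℕ} [hp : Fact p.Prime] (hP : ∀ P : Sylow p G, Nat.card (P : Subgroup G) = p)
    (M : Subgroup G) (hM : p ∣ Nat.card M) :
    Nat.card (Sylow p M) ≤ Nat.card (Sylow p G) ∧
    (Nat.card (Sylow p M) = Nat.card (Sylow p G) → ∀ P : Sylow p G, (P : Subgroup G) ≤ M) ∧
    (Nat.card (Sylow p M) = 1 →
      ∃ P : Sylow p G, (P : Subgroup G) ≤ M ∧ M ≤ normalizer ((P : Subgroup G) : Set G)) := by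
  classical
  have hQc : ∀ Q : Sylow p M, Nat.card (Q : Subgroup M) = p := by
    intro Q
    have h1 : IsPGroup p ((Q : Subgroup M).map M.subtype) := Q.isPGroup'.map _
    obtain ⟨P, hP'⟩ := h1.exists_le_sylow
    have h2 : Nat.card ((Q : Subgroup M).map M.subtype) = Nat.card (Q : Subgroup M) :=
      Subgroup.card_map_of_injective M.subtype_injective
    have h3 : Nat.card (Q : Subgroup M) ∣ p := by
      have h5 : Nat.card ((Q : Subgroup M).map M.subtype) ∣ Nat.card (P : Subgroup G) :=
        Subgroup.card_dvd_of_le hP'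
      rwa [h2, hP P] at h5
    have h4 : p ∣ Nat.card (Q : Subgroup M) := by
      rw [Sylow.card_eq_multiplicity Q]
      exact dvd_pow_self p (Nat.Prime.factorization_pos_of_dvd hp.out Nat.card_pos.ne' hM).ne'
    exact Nat.dvd_antisymm h3 h4
  have hex : ∀ Q : Sylow p M, ∃ P : Sylow p G,
      (P : Subgroup G) = (Q : Subgroup M).map M.subtype := by
    intro Q
    obtain ⟨P, hP'⟩ := (Q.isPGroup'.map M.subtype).exists_le_sylow
    refine ⟨P, (Subgroup.eq_of_le_of_card_ge hP' ?_).symm⟩
    rw [hP P, Subgroup.card_map_of_injective M.subtype_injective, hQc Q]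
  choose f hf using hex
  have hinj : Function.Injective f := by
    intro Q Q' h
    have h1 := hf Q
    rw [h, hf Q'] at h1
    exact Sylow.ext ((Subgroup.map_injective M.subtype_injective) h1.symm)
  refine ⟨Nat.card_le_card_of_injective f hinj, ?_, ?_⟩
  · intro h P
    have hb : Function.Bijective f := (Nat.bijective_iff_injective_and_card f).2 ⟨hinj, h⟩
    obtain ⟨Q, rfl⟩ := hb.2 P
    rw [hf Q]
    exact Subgroup.map_subtype_le _
  · intro h
    obtain ⟨Q⟩ : Nonempty (Sylow p M) := inferInstance
    have hs : Subsingleton (Sylow p M) := (Nat.card_eq_one_iff_unique.1 h).1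
    have hn : (Q : Subgroup M).Normal := Sylow.normal_of_subsingleton Q
    refine ⟨f Q, ?_, ?_⟩
    · rw [hf Q]; exact Subgroup.map_subtype_le _
    · rw [hf Q]
      intro x hx
      have hmem : (⟨x, hx⟩ : M) ∈ normalizer (((Q : Subgroup M)) : Set M) := by
        rw [normalizer_eq_top_iff.2 hn]; trivial
      exact Subgroup.le_normalizer_map M.subtype ⟨⟨x, hx⟩, hmem, rfl⟩

theorem eq_top_of_all_sylow_le [IsSimpleGroup G] {p : ℕ} [hp : Fact p.Prime]
    (hpG : p ∣ Nat.card G) (M : Subgroup G)
    (h : ∀ P : Sylow p G, (P : Subgroup G) ≤ M) : M = ⊤ := by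
  obtain ⟨P⟩ : Nonempty (Sylow p G) := inferInstance
  have hn : (normalClosure ((P : Subgroup G) : Set G)).Normal := inferInstance
  rcases hn.eq_bot_or_eq_top with h0 | h0
  · exfalso
    have h1 : (P : Subgroup G) ≤ ⊥ := by
      rw [← h0]; exact Subgroup.subset_normalClosure
    have hc : Nat.card (P : Subgroup G) = 1 := by rw [le_bot_iff.1 h1]; simp
    have h2 := Sylow.card_eq_multiplicity P
    rw [hc] at h2
    have h3 : 0 < (Nat.card G).factorization p :=
      Nat.Prime.factorization_pos_of_dvd hp.out Nat.card_pos.ne' hpG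
    have h4 : p ∣ 1 := by rw [h2]; exact dvd_pow_self p h3.ne'
    exact hp.out.one_lt.ne' (Nat.dvd_one.1 h4)
  · rw [eq_top_iff, ← h0]
    refine (Subgroup.closure_le _).2 ?_
    intro x hx
    obtain ⟨a, ha, hc⟩ := Group.mem_conjugatesOfSet_iff.1 hx
    obtain ⟨c, rfl⟩ := isConj_iff.1 hc
    have h1 := h (c • P)
    apply h1
    rw [Sylow.smul_def, Sylow.pointwise_smul_def, Cfsg.Agent.Lib.Struct.mem_conj_smul]
    have h9 : c⁻¹ * (c * a * c⁻¹) * c = a := by group
    rw [h9]
    exact ha

theorem card_subgroupOf_le {A B : Subgroup G} (h : A ≤ B) : Nat.card (A.subgroupOf B) = Nat.card A :=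
  Nat.card_congr (subgroupOfEquivOfLe h).toEquiv

theorem le_normalizer_of_conj (L H : Subgroup G) (h : ∀ x ∈ L, ∀ y ∈ H, x * y * x⁻¹ ∈ H) :
    L ≤ normalizer (H : Set G) := by
  intro x hx
  rw [mem_normalizer_iff]
  intro y
  refine ⟨h x hx y, fun hy => ?_⟩
  have := h x⁻¹ (L.inv_mem hx) _ hy
  simpa [mul_assoc] using this

theorem coatom_of_ge {L N : Subgroup G} (hL : IsCoatom L) (hle : L ≤ N) (hN : N ≠ ⊤) : IsCoatom N := by
  rcases (hL.le_iff).1 hle with h | h
  · exact absurd h hN
  · rwa [h]

theorem comm_of_le_centralizer_of_lt {p : ℕ} [hp : Fact p.Prime] (x : G) (hx : x ^ p = 1)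
    (X : Subgroup G) (hxX : x ∈ normalizer (X : Set G)) (hlt : Nat.card X < p) :
    x ∈ centralizer (X : Set G) := by
  classical
  let φ : normalizer (X : Set G) →* Equiv.Perm X := (MulAut.toPerm X).comp X.normalizerMonoidHom
  have h1 : orderOf (φ ⟨x, hxX⟩) ∣ p := by
    apply orderOf_dvd_of_pow_eq_one
    rw [← map_pow]
    have : (⟨x, hxX⟩ : normalizer (X : Set G)) ^ p = 1 := Subtype.ext (by simpa using hx)
    rw [this, map_one]
  have h2 : orderOf (φ ⟨x, hxX⟩) ∣ (Nat.card X).factorial := by
    have := orderOf_dvd_natCard (φ ⟨x, hxX⟩)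
    rwa [Nat.card_perm] at this
  have h3 : orderOf (φ ⟨x, hxX⟩) = 1 := by
    rcases (Nat.dvd_prime hp.out).1 h1 with h | h
    · exact h
    · rw [h, Nat.Prime.dvd_factorial hp.out] at h2
      omega
  have h4 : φ ⟨x, hxX⟩ = 1 := orderOf_eq_one_iff.1 h3
  have h5 : X.normalizerMonoidHom ⟨x, hxX⟩ = 1 := by
    apply MulEquiv.ext
    intro y
    exact DFunLike.congr_fun h4 y
  have h6 : (⟨x, hxX⟩ : normalizer (X : Set G)) ∈ X.normalizerMonoidHom.ker := h5
  rw [normalizerMonoidHom_ker, mem_subgroupOf] at h6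
  exact h6

theorem le_zpowers_centralizer (x : G) : centralizer ({x} : Set G) ≤ centralizer ((zpowers x : Subgroup G) : Set G) := by
  intro y hy
  rw [mem_centralizer_iff] at hy ⊢
  intro z hz
  obtain ⟨k, rfl⟩ := mem_zpowers_iff.1 hz
  have h1 : x * y = y * x := hy x rfl
  have h2 : Commute x y := h1
  exact (h2.zpow_left k)

section Main

variable [IsSimpleGroup G] (hG : Nat.card G = 1092)
include hG

theorem not_comm : ¬ IsMulCommutative G := by
  intro hc
  have hcomm : ∀ a b : G, a * b = b * a := fun a b => hc.is_comm.comm a b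
  obtain ⟨x, hx⟩ := exists_prime_orderOf_dvd_card' (G := G) 13 (by rw [hG]; norm_num)
  have hn : (zpowers x).Normal := ⟨fun n hn g => by
    have : g * n * g⁻¹ = n := by rw [hcomm g n]; simp
    rwa [this]⟩
  rcases hn.eq_bot_or_eq_top with h | h
  · have : x = 1 := zpowers_eq_bot.1 h
    rw [this, orderOf_one] at hx; omega
  · have h1 := Nat.card_zpowers x
    rw [h, hx, Subgroup.card_top, hG] at h1
    omega

theorem not_pg (p : ℕ) (hp : p.Prime) : ¬ IsPGroup p G := by
  intro h
  haveI : Fact p.Prime := ⟨hp⟩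
  obtain ⟨n, hn⟩ := IsPGroup.iff_card.1 h
  rw [hG] at hn
  have h7 : 7 ∣ p ^ n := by rw [← hn]; norm_num
  have h13 : 13 ∣ p ^ n := by rw [← hn]; norm_num
  have h7' := (Nat.prime_dvd_prime_iff_eq (by norm_num) hp).1 (Nat.Prime.dvd_of_dvd_pow (by norm_num) h7)
  have h13' := (Nat.prime_dvd_prime_iff_eq (by norm_num) hp).1 (Nat.Prime.dvd_of_dvd_pow (by norm_num) h13)
  omega

theorem n13 : Nat.card (Sylow 13 G) = 14 := by
  obtain ⟨h1, h2, h3, -⟩ := SmallSimple.sylow_package (p := 13) (a := 1) (m := 84) (by rw [hG]; norm_num)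
    (by norm_num) (by norm_num) (not_pg hG 13 (by norm_num)) (not_comm hG)
  have h4 : Nat.card (Sylow 13 G) ≤ 84 := Nat.le_of_dvd (by norm_num) h2
  generalize Nat.card (Sylow 13 G) = n at *
  interval_cases n <;> omega

theorem n7 : Nat.card (Sylow 7 G) = 78 := by
  obtain ⟨h1, h2, h3, -⟩ := SmallSimple.sylow_package (p := 7) (a := 1) (m := 156) (by rw [hG]; norm_num)
    (by norm_num) (by norm_num) (not_pg hG 7 (by norm_num)) (not_comm hG)
  have h4 : Nat.card (Sylow 7 G) ≤ 156 := Nat.le_of_dvd (by norm_num) h2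
  generalize Nat.card (Sylow 7 G) = n at *
  interval_cases n <;> omega

theorem card_syl13 (P : Sylow 13 G) : Nat.card (P : Subgroup G) = 13 := by
  have := SmallSimple.sylow_card_of_eq P (a := 1) (m := 84) (by rw [hG]; norm_num) (by norm_num)
  simpa using this

theorem card_syl7 (P : Sylow 7 G) : Nat.card (P : Subgroup G) = 7 := by
  have := SmallSimple.sylow_card_of_eq P (a := 1) (m := 156) (by rw [hG]; norm_num) (by norm_num)
  simpa using this

theorem card_syl3 (P : Sylow 3 G) : Nat.card (P : Subgroup G) = 3 := by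
  have := SmallSimple.sylow_card_of_eq P (a := 1) (m := 364) (by rw [hG]; norm_num) (by norm_num)
  simpa using this

theorem card_syl2 (P : Sylow 2 G) : Nat.card (P : Subgroup G) = 4 := by
  have := SmallSimple.sylow_card_of_eq P (a := 2) (m := 273) (by rw [hG]; norm_num) (by norm_num)
  simpa using this

theorem norm13 (P : Sylow 13 G) : Nat.card (normalizer ((P : Subgroup G) : Set G)) = 78 := by
  have := SmallSimple.card_normalizer_mul_card_sylow 13 P
  rw [n13 hG, hG] at this
  have h : Nat.card (normalizer ((P : Subgroup G) : Set G)) * 14 = 1092 := this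
  omega

theorem norm7 (P : Sylow 7 G) : Nat.card (normalizer ((P : Subgroup G) : Set G)) = 14 := by
  have := SmallSimple.card_normalizer_mul_card_sylow 7 P
  rw [n7 hG, hG] at this
  have h : Nat.card (normalizer ((P : Subgroup G) : Set G)) * 78 = 1092 := this
  omega

theorem star13 (M : Subgroup G) (hM : M ≠ ⊤) (h : 13 ∣ Nat.card M) :
    ∃ P : Sylow 13 G, (P : Subgroup G) ≤ M ∧ M ≤ normalizer ((P : Subgroup G) : Set G) := by
  obtain ⟨h1, h2, h3⟩ := sylow_sub (card_syl13 hG) M h
  have h4 := card_sylow_modEq_one 13 M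
  have h5 : Nat.card (Sylow 13 M) % 13 = 1 % 13 := h4
  rw [n13 hG] at h1 h2
  have h6 : Nat.card (Sylow 13 M) = 1 ∨ Nat.card (Sylow 13 M) = 14 := by omega
  rcases h6 with h6 | h6
  · exact h3 h6
  · exact absurd (eq_top_of_all_sylow_le (p := 13) (by rw [hG]; norm_num) M (h2 h6)) hM

theorem card_dvd (M : Subgroup G) : Nat.card M ∣ 1092 := by
  rw [← hG]; exact Subgroup.card_subgroup_dvd_card M

theorem dvd78 (M : Subgroup G) (hM : M ≠ ⊤) (h : 13 ∣ Nat.card M) : Nat.card M ∣ 78 := by
  obtain ⟨P, -, hP⟩ := star13 hG M hM h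
  rw [← norm13 hG P]
  exact Subgroup.card_dvd_of_le hP

theorem star7 (M : Subgroup G) (hM : M ≠ ⊤) (h : 7 ∣ Nat.card M) :
    ∃ P : Sylow 7 G, (P : Subgroup G) ≤ M ∧ M ≤ normalizer ((P : Subgroup G) : Set G) := by
  have h13 : ¬ 13 ∣ Nat.card M := by
    intro h13
    have := dvd_trans h (dvd78 hG M hM h13)
    omega
  obtain ⟨h1, h2, h3⟩ := sylow_sub (card_syl7 hG) M h
  have h4 := card_sylow_modEq_one 7 M
  have h5 : Nat.card (Sylow 7 M) % 7 = 1 % 7 := h4
  apply h3
  obtain ⟨Q⟩ : Nonempty (Sylow 7 M) := inferInstance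
  have h6 : Nat.card (Sylow 7 M) ∣ (Q : Subgroup M).index := Q.card_dvd_index
  have h7 : Nat.card M ∣ 84 := by
    have hc : Nat.Coprime (Nat.card M) 13 :=
      ((Nat.Prime.coprime_iff_not_dvd (by norm_num)).2 h13).symm
    exact hc.dvd_of_dvd_mul_right (by simpa using card_dvd hG M)
  have h8 : Nat.card (Q : Subgroup M) = 7 := by
    have h9 : Nat.card (Q : Subgroup M) = 7 ^ (Nat.factorization (Nat.card M) 7) :=
      Sylow.card_eq_multiplicity Q
    have h10 : IsPGroup 7 (((Q : Subgroup M)).map M.subtype) := Q.isPGroup'.map _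
    obtain ⟨P, hP⟩ := h10.exists_le_sylow
    have h11 : Nat.card (Q : Subgroup M) ∣ 7 := by
      have h5 : Nat.card ((Q : Subgroup M).map M.subtype) ∣ Nat.card (P : Subgroup G) :=
        Subgroup.card_dvd_of_le hP
      rwa [Subgroup.card_map_of_injective M.subtype_injective, card_syl7 hG P] at h5
    have h12 : 7 ∣ Nat.card (Q : Subgroup M) := by
      rw [h9]
      exact dvd_pow_self 7 (Nat.Prime.factorization_pos_of_dvd (by norm_num) Nat.card_pos.ne' h).ne'
    exact Nat.dvd_antisymm h11 h12
  have h9 := Subgroup.card_mul_index (Q : Subgroup M)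
  rw [h8] at h9
  have h10 : (Q : Subgroup M).index ∣ 12 := by
    have : 7 * (Q : Subgroup M).index ∣ 7 * 12 := by rw [h9]; simpa using h7
    exact Nat.dvd_of_mul_dvd_mul_left (by norm_num) this
  have h11 := dvd_trans h6 h10
  have h12 : Nat.card (Sylow 7 M) ≤ 12 := Nat.le_of_dvd (by norm_num) h11
  generalize Nat.card (Sylow 7 M) = n at *
  interval_cases n <;> omega

theorem dvd14 (M : Subgroup G) (hM : M ≠ ⊤) (h : 7 ∣ Nat.card M) : Nat.card M ∣ 14 := by
  obtain ⟨P, -, hP⟩ := star7 hG M hM h
  rw [← norm7 hG P]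
  exact Subgroup.card_dvd_of_le hP

theorem star_all (M : Subgroup G) (hM : M ≠ ⊤) :
    Nat.card M ∣ 78 ∨ Nat.card M ∣ 14 ∨ Nat.card M ∣ 12 := by
  by_cases h13 : 13 ∣ Nat.card M
  · exact Or.inl (dvd78 hG M hM h13)
  by_cases h7 : 7 ∣ Nat.card M
  · exact Or.inr (Or.inl (dvd14 hG M hM h7))
  refine Or.inr (Or.inr ?_)
  have hc : Nat.Coprime (Nat.card M) 91 := by
    have h1 : Nat.Coprime (Nat.card M) 13 :=
      ((Nat.Prime.coprime_iff_not_dvd (by norm_num)).2 h13).symm
    have h2 : Nat.Coprime (Nat.card M) 7 :=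
      ((Nat.Prime.coprime_iff_not_dvd (by norm_num)).2 h7).symm
    exact Nat.Coprime.mul_right (k := Nat.card M) (m := 7) (n := 13) h2 h1
  exact hc.dvd_of_dvd_mul_right (by simpa using card_dvd hG M)

theorem coatom_of (L : Subgroup G) (hL : L ≠ ⊤)
    (hc : Nat.card L = 78 ∨ Nat.card L = 14 ∨ 12 ∣ Nat.card L) : IsCoatom L := by
  refine ⟨hL, fun M hLM => ?_⟩
  by_contra hM
  have hd : Nat.card L ∣ Nat.card M := Subgroup.card_dvd_of_le hLM.le
  have hne : Nat.card M ≠ Nat.card L := fun h => hLM.ne (Subgroup.eq_of_le_of_card_ge hLM.le h.le)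
  rcases hc with hl | hl | hl
  · rw [hl] at hd hne
    rcases star_all hG M hM with h | h | h
    · exact hne (Nat.dvd_antisymm h hd)
    · have := dvd_trans hd h; omega
    · have := dvd_trans hd h; omega
  · rw [hl] at hd hne
    rcases star_all hG M hM with h | h | h
    · have := dvd_trans hd h; omega
    · exact hne (Nat.dvd_antisymm h hd)
    · have := dvd_trans hd h; omega
  · have h12 := dvd_trans hl hd
    rcases star_all hG M hM with h | h | h
    · have := dvd_trans h12 h; omega
    · have := dvd_trans h12 h; omega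
    · have h1 : Nat.card M = 12 := Nat.dvd_antisymm h h12
      rw [h1] at hd hne
      exact hne (Nat.dvd_antisymm hl hd)

theorem cent_ne_top {x : G} (hx : x ≠ 1) : centralizer ({x} : Set G) ≠ ⊤ := by
  intro h
  have h1 : x ∈ center G := by
    rw [mem_center_iff]
    intro g
    have : g ∈ centralizer ({x} : Set G) := h ▸ mem_top g
    rw [mem_centralizer_iff] at this
    exact (this x rfl).symm
  have hn : (center G).Normal := inferInstance
  rcases hn.eq_bot_or_eq_top with h0 | h0
  · rw [h0] at h1; exact hx h1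
  · apply not_comm hG
    refine ⟨⟨fun a b => ?_⟩⟩
    have : a ∈ center G := h0 ▸ mem_top a
    exact (mem_center_iff.1 this b).symm

theorem norm_ne_top (H : Subgroup G) (h0 : H ≠ ⊥) (h1 : H ≠ ⊤) : normalizer (H : Set G) ≠ ⊤ := by
  intro h
  have hn : H.Normal := normalizer_eq_top_iff.1 h
  rcases hn.eq_bot_or_eq_top with h2 | h2
  · exact h0 h2
  · exact h1 h2

theorem comm_syl2 (T : Sylow 2 G) : ∀ a ∈ (T : Subgroup G), ∀ b ∈ (T : Subgroup G), a * b = b * a := by
  intro a ha b hb
  have h : IsMulCommutative (T : Subgroup G) :=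
    IsPGroup.isMulCommutative_of_card_eq_prime_sq (p := 2) (by rw [card_syl2 hG T]; norm_num)
  have := h.is_comm.comm (⟨a, ha⟩ : (T : Subgroup G)) ⟨b, hb⟩
  exact congrArg Subtype.val this

theorem exists_syl2 (x : G) (hx : orderOf x = 2) : ∃ T : Sylow 2 G, x ∈ (T : Subgroup G) := by
  have hp : IsPGroup 2 (zpowers x) := IsPGroup.of_card (n := 1) (by rw [Nat.card_zpowers, hx, pow_one])
  obtain ⟨T, hT⟩ := hp.exists_le_sylow
  exact ⟨T, hT (mem_zpowers x)⟩

theorem le_cent_syl2 (T : Sylow 2 G) (x : G) (hx : x ∈ (T : Subgroup G)) :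
    (T : Subgroup G) ≤ centralizer ({x} : Set G) := by
  intro y hy
  rw [mem_centralizer_iff]
  rintro z rfl
  exact comm_syl2 hG T z hx y hy

/-- Centralizer of a Sylow 13-subgroup. -/
theorem card_cent13 (P : Sylow 13 G) : Nat.card (centralizer ((P : Subgroup G) : Set G)) = 13 := by
  set C := centralizer ((P : Subgroup G) : Set G) with hC
  have hcP : IsCyclic (P : Subgroup G) := isCyclic_of_prime_card (p := 13) (card_syl13 hG P)
  have hPC : (P : Subgroup G) ≤ C := by
    intro x hx
    rw [hC, mem_centralizer_iff]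
    intro y hy
    have := (IsCyclic.isMulCommutative (α := (P : Subgroup G))).is_comm.comm ⟨y, hy⟩ ⟨x, hx⟩
    exact congrArg Subtype.val this
  have hCN : C ≤ normalizer ((P : Subgroup G) : Set G) := centralizer_le_normalizer _
  have h13 : 13 ∣ Nat.card C := by
    rw [← card_syl13 hG P]; exact Subgroup.card_dvd_of_le hPC
  have h78 : Nat.card C ∣ 78 := by
    rw [← norm13 hG P]; exact Subgroup.card_dvd_of_le hCN
  have key : ∀ x ∈ C, x ≠ 1 → (P : Subgroup G) ≤ centralizer ({x} : Set G) := by
    intro x hx _ y hy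
    rw [mem_centralizer_iff]
    rintro z rfl
    rw [hC, mem_centralizer_iff] at hx
    exact (hx y hy).symm
  have h2 : ¬ 2 ∣ Nat.card C := by
    intro h2
    obtain ⟨x, hx⟩ := exists_prime_orderOf_dvd_card' (G := C) 2 h2
    have hx' : orderOf (x : G) = 2 := by rw [Subgroup.orderOf_coe, hx]
    have hx1 : (x : G) ≠ 1 := by
      intro h; rw [h, orderOf_one] at hx'; omega
    obtain ⟨T, hT⟩ := exists_syl2 hG (x : G) hx'
    have h3 := dvd78 hG _ (cent_ne_top hG hx1) (by
      rw [← card_syl13 hG P]; exact Subgroup.card_dvd_of_le (key x x.2 hx1))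
    have h4 : 4 ∣ Nat.card (centralizer ({(x : G)} : Set G)) := by
      rw [← card_syl2 hG T]; exact Subgroup.card_dvd_of_le (le_cent_syl2 hG T x hT)
    have := dvd_trans h4 h3
    omega
  have h3 : ¬ 3 ∣ Nat.card C := by
    intro h3
    obtain ⟨x, hx⟩ := exists_prime_orderOf_dvd_card' (G := C) 3 h3
    have hx' : orderOf (x : G) = 3 := by rw [Subgroup.orderOf_coe, hx]
    have hx1 : (x : G) ≠ 1 := by
      intro h; rw [h, orderOf_one] at hx'; omega
    set X := zpowers (x : G) with hX
    have hXc : Nat.card X = 3 := by rw [hX, Nat.card_zpowers, hx']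
    have hX3 : IsPGroup 3 X := IsPGroup.of_card (n := 1) (by rw [hXc, pow_one])
    obtain ⟨R, hR⟩ := hX3.exists_le_sylow
    have hRX : (R : Subgroup G) = X :=
      (Subgroup.eq_of_le_of_card_ge hR (by rw [card_syl3 hG R, hXc])).symm
    have hX0 : X ≠ ⊥ := by
      intro h; rw [h] at hXc; simp at hXc
    have hX1 : X ≠ ⊤ := by
      intro h; rw [h, Subgroup.card_top, hG] at hXc; omega
    have hMne := norm_ne_top hG X hX0 hX1
    set M := normalizer (X : Set G) with hM
    have hcM : centralizer ({(x : G)} : Set G) ≤ M := by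
      refine le_trans (le_zpowers_centralizer _) (centralizer_le_normalizer _)
    have hPc := key x x.2 hx1
    have h13M : 13 ∣ Nat.card M := by
      rw [← card_syl13 hG P]; exact Subgroup.card_dvd_of_le (le_trans hPc hcM)
    have h3M : 3 ∣ Nat.card M := by
      rw [← hXc]; exact Subgroup.card_dvd_of_le le_normalizer
    have hM78 := dvd78 hG M hMne h13M
    have hn3 := card_sylow_modEq_one 3 G
    have hn3' : Nat.card (Sylow 3 G) % 3 = 1 % 3 := hn3
    have hNM := SmallSimple.card_normalizer_mul_card_sylow 3 R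
    rw [hG] at hNM
    have hNM' : Nat.card M * Nat.card (Sylow 3 G) = 1092 := by
      rw [hM, ← hRX]; exact hNM
    -- |M| ∈ {39, 78}
    have hXcomm : X ≤ centralizer (X : Set G) := by
      intro a ha
      rw [mem_centralizer_iff]
      intro b hb
      obtain ⟨i, rfl⟩ := mem_zpowers_iff.1 hb
      obtain ⟨j, rfl⟩ := mem_zpowers_iff.1 ha
      exact (Commute.refl (x : G)).zpow_zpow i j
    have hcc : 39 ∣ Nat.card (centralizer ({(x : G)} : Set G)) := by
      have h4 : 13 ∣ Nat.card (centralizer ({(x : G)} : Set G)) := by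
        rw [← card_syl13 hG P]; exact Subgroup.card_dvd_of_le hPc
      have h5 : 3 ∣ Nat.card (centralizer ({(x : G)} : Set G)) := by
        rw [← hXc]
        apply Subgroup.card_dvd_of_le
        intro a ha
        rw [mem_centralizer_iff]
        rintro z rfl
        obtain ⟨j, rfl⟩ := mem_zpowers_iff.1 ha
        exact ((Commute.refl (x : G)).zpow_left j).symm.eq
      exact (Nat.Coprime.mul_dvd_of_dvd_of_dvd (by norm_num) h4 h5 : 13 * 3 ∣ _)
    have hdd : Nat.card M = 39 ∨ Nat.card M = 78 := by
      have h5 : 39 ∣ Nat.card M := dvd_trans hcc (Subgroup.card_dvd_of_le hcM)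
      have h6 : Nat.card M ≤ 78 := Nat.le_of_dvd (by norm_num) hM78
      generalize Nat.card M = m at *
      interval_cases m <;> omega
    rcases hdd with h39 | h78'
    · have hcM' : centralizer ({(x : G)} : Set G) = M := by
        apply Subgroup.eq_of_le_of_card_ge hcM
        rw [h39]
        exact Nat.le_of_dvd Nat.card_pos hcc
      apply SmallSimple.normalizer_not_le_centralizer (p := 3) (by rw [hG]; norm_num)
        (not_pg hG 3 (by norm_num)) R
      have hRX' : ((R : Subgroup G) : Set G) = (X : Set G) := by rw [hRX]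
      show normalizer ((R : Subgroup G) : Set G) ≤ centralizer ((R : Subgroup G) : Set G)
      rw [hRX', ← hM, ← hcM']
      exact le_zpowers_centralizer _
    · rw [h78'] at hNM'
      omega
  have hc : Nat.Coprime (Nat.card C) 6 := by
    have h5 : Nat.Coprime (Nat.card C) 2 :=
      ((Nat.Prime.coprime_iff_not_dvd (by norm_num)).2 h2).symm
    have h6 : Nat.Coprime (Nat.card C) 3 :=
      ((Nat.Prime.coprime_iff_not_dvd (by norm_num)).2 h3).symm
    exact Nat.Coprime.mul_right (k := Nat.card C) (m := 2) (n := 3) h5 h6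
  have h1 : Nat.card C ∣ 13 := hc.dvd_of_dvd_mul_right (by simpa using h78)
  exact Nat.dvd_antisymm h1 h13

theorem card_cent7 (P : Sylow 7 G) : Nat.card (centralizer ((P : Subgroup G) : Set G)) = 7 := by
  set C := centralizer ((P : Subgroup G) : Set G) with hC
  have hcP : IsCyclic (P : Subgroup G) := isCyclic_of_prime_card (p := 7) (card_syl7 hG P)
  have hPC : (P : Subgroup G) ≤ C := by
    intro x hx
    rw [hC, mem_centralizer_iff]
    intro y hy
    have := (IsCyclic.isMulCommutative (α := (P : Subgroup G))).is_comm.comm ⟨y, hy⟩ ⟨x, hx⟩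
    exact congrArg Subtype.val this
  have hCN : C ≤ normalizer ((P : Subgroup G) : Set G) := centralizer_le_normalizer _
  have h7 : 7 ∣ Nat.card C := by
    rw [← card_syl7 hG P]; exact Subgroup.card_dvd_of_le hPC
  have h14 : Nat.card C ∣ 14 := by
    rw [← norm7 hG P]; exact Subgroup.card_dvd_of_le hCN
  have hne : Nat.card C ≠ 14 := by
    intro h
    apply SmallSimple.normalizer_not_le_centralizer (p := 7) (by rw [hG]; norm_num)
      (not_pg hG 7 (by norm_num)) P
    have : C = normalizer ((P : Subgroup G) : Set G) := by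
      apply Subgroup.eq_of_le_of_card_ge hCN
      rw [norm7 hG P, h]
    show normalizer ((P : Subgroup G) : Set G) ≤ centralizer ((P : Subgroup G) : Set G)
    rw [← hC, ← this]
  have h1 : Nat.card C ≤ 14 := Nat.le_of_dvd (by norm_num) h14
  generalize Nat.card C = n at *
  interval_cases n <;> omega

/-- Subgroups containing a Sylow 13-subgroup. -/
theorem case13 (H : Subgroup G) (hH0 : H ≠ ⊥) (hH1 : H ≠ ⊤) (h : 13 ∣ Nat.card H) :
    IsCoatom (normalizer (H : Set G)) := by
  obtain ⟨P, hPH, hHP⟩ := star13 hG H hH1 h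
  have hL : IsCoatom (normalizer ((P : Subgroup G) : Set G)) := by
    apply coatom_of hG
    · have := norm_ne_top hG (P : Subgroup G) (by
        intro h0
        have := card_syl13 hG P
        rw [h0] at this; simp at this) (by
        intro h0
        have := card_syl13 hG P
        rw [h0, Subgroup.card_top, hG] at this; omega)
      exact this
    · exact Or.inl (norm13 hG P)
  refine coatom_of_ge hL ?_ (norm_ne_top hG H hH0 hH1)
  apply le_normalizer_of_conj
  intro x hx y hy
  haveI hcP : IsCyclic (P : Subgroup G) := isCyclic_of_prime_card (p := 13) (card_syl13 hG P)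
  have hnorm : ∀ z ∈ normalizer ((P : Subgroup G) : Set G), ∀ t ∈ (P : Subgroup G), z * t * z⁻¹ ∈ (P : Subgroup G) := by
    intro z hz t ht
    exact (mem_normalizer_iff.1 hz t).1 ht
  have h1 := Cfsg.Agent.Lib.Struct.Mult.comm_of_cyclic (P : Subgroup G) x y (hnorm x hx) (hnorm y (hHP hy))
  have h2 : x * y * x⁻¹ * y⁻¹ ∈ centralizer ((P : Subgroup G) : Set G) := by
    rw [mem_centralizer_iff]
    intro t ht
    exact (h1 t ht).symm
  have h3 : centralizer ((P : Subgroup G) : Set G) = (P : Subgroup G) := by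
    symm
    apply Subgroup.eq_of_le_of_card_ge
    · intro a ha
      rw [mem_centralizer_iff]
      intro b hb
      have := (IsCyclic.isMulCommutative (α := (P : Subgroup G))).is_comm.comm ⟨b, hb⟩ ⟨a, ha⟩
      exact congrArg Subtype.val this
    · rw [card_cent13 hG P, card_syl13 hG P]
  rw [h3] at h2
  have h4 := H.mul_mem (hPH h2) hy
  simpa [mul_assoc] using h4

theorem case7 (H : Subgroup G) (hH0 : H ≠ ⊥) (hH1 : H ≠ ⊤) (h : 7 ∣ Nat.card H) :
    IsCoatom (normalizer (H : Set G)) := by
  obtain ⟨P, hPH, hHP⟩ := star7 hG H hH1 h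
  have hL : IsCoatom (normalizer ((P : Subgroup G) : Set G)) := by
    apply coatom_of hG
    · have := norm_ne_top hG (P : Subgroup G) (by
        intro h0
        have := card_syl7 hG P
        rw [h0] at this; simp at this) (by
        intro h0
        have := card_syl7 hG P
        rw [h0, Subgroup.card_top, hG] at this; omega)
      exact this
    · exact Or.inr (Or.inl (norm7 hG P))
  refine coatom_of_ge hL ?_ (norm_ne_top hG H hH0 hH1)
  have h14 : Nat.card H ∣ 14 := dvd14 hG H hH1 h
  have hcase : Nat.card H = 7 ∨ Nat.card H = 14 := by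
    have h1 : Nat.card H ≤ 14 := Nat.le_of_dvd (by norm_num) h14
    generalize Nat.card H = n at *
    interval_cases n <;> omega
  rcases hcase with h1 | h1
  · have : (P : Subgroup G) = H := Subgroup.eq_of_le_of_card_ge hPH (by rw [h1, card_syl7 hG P])
    rw [this]
  · have : H = normalizer ((P : Subgroup G) : Set G) :=
      Subgroup.eq_of_le_of_card_ge hHP (by rw [h1, norm7 hG P])
    rw [← this]
    exact le_normalizer

theorem norm3 (X : Subgroup G) (hX : Nat.card X = 3) : Nat.card (normalizer (X : Set G)) = 12 := by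
  have hX3 : IsPGroup 3 X := IsPGroup.of_card (n := 1) (by rw [hX, pow_one])
  obtain ⟨R, hR⟩ := hX3.exists_le_sylow
  have hRX : (R : Subgroup G) = X :=
    (Subgroup.eq_of_le_of_card_ge hR (by rw [card_syl3 hG R, hX])).symm
  have hX0 : X ≠ ⊥ := by
    intro h; rw [h] at hX; simp at hX
  have hX1 : X ≠ ⊤ := by
    intro h; rw [h, Subgroup.card_top, hG] at hX; omega
  have hMne := norm_ne_top hG X hX0 hX1
  set M := normalizer (X : Set G) with hM
  have h3M : 3 ∣ Nat.card M := by
    rw [← hX]; exact Subgroup.card_dvd_of_le le_normalizer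
  have hX' : ∀ x ∈ M, x ^ 13 = 1 → x ∈ centralizer (X : Set G) := fun x hx h =>
    comm_of_le_centralizer_of_lt (p := 13) x h X hx (by omega)
  have hX'' : ∀ x ∈ M, x ^ 7 = 1 → x ∈ centralizer (X : Set G) := fun x hx h =>
    comm_of_le_centralizer_of_lt (p := 7) x h X hx (by omega)
  have h13 : ¬ 13 ∣ Nat.card M := by
    intro h
    obtain ⟨P, hPM, hMP⟩ := star13 hG M hMne h
    have h1 : X ≤ centralizer ((P : Subgroup G) : Set G) := by
      intro y hy
      rw [mem_centralizer_iff]
      intro t ht
      have hp : t ^ 13 = 1 := by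
        have := pow_card_eq_one' (x := (⟨t, ht⟩ : (P : Subgroup G)))
        rw [card_syl13 hG P] at this
        exact congrArg Subtype.val this
      have := hX' t (hPM ht) hp
      rw [mem_centralizer_iff] at this
      exact (this y hy).symm
    have h2 := Subgroup.card_dvd_of_le h1
    rw [card_cent13 hG P, hX] at h2
    omega
  have h7 : ¬ 7 ∣ Nat.card M := by
    intro h
    obtain ⟨P, hPM, hMP⟩ := star7 hG M hMne h
    have h1 : X ≤ centralizer ((P : Subgroup G) : Set G) := by
      intro y hy
      rw [mem_centralizer_iff]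
      intro t ht
      have hp : t ^ 7 = 1 := by
        have := pow_card_eq_one' (x := (⟨t, ht⟩ : (P : Subgroup G)))
        rw [card_syl7 hG P] at this
        exact congrArg Subtype.val this
      have := hX'' t (hPM ht) hp
      rw [mem_centralizer_iff] at this
      exact (this y hy).symm
    have h2 := Subgroup.card_dvd_of_le h1
    rw [card_cent7 hG P, hX] at h2
    omega
  have hdv : Nat.card M ∣ 12 := by
    rcases star_all hG M hMne with h | h | h
    · -- `|M| ∣ 78` with `13 ∤ |M|`
      have hc : Nat.Coprime (Nat.card M) 13 :=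
        ((Nat.Prime.coprime_iff_not_dvd (by norm_num)).2 h13).symm
      have : Nat.card M ∣ 6 := hc.dvd_of_dvd_mul_right (by simpa using h)
      exact dvd_trans this (by norm_num)
    · have hc : Nat.Coprime (Nat.card M) 7 :=
        ((Nat.Prime.coprime_iff_not_dvd (by norm_num)).2 h7).symm
      have : Nat.card M ∣ 2 := hc.dvd_of_dvd_mul_right (by simpa using h)
      exact dvd_trans this (by norm_num)
    · exact h
  have hn3 := card_sylow_modEq_one 3 G
  have hn3' : Nat.card (Sylow 3 G) % 3 = 1 % 3 := hn3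
  have hNM := SmallSimple.card_normalizer_mul_card_sylow 3 R
  rw [hG] at hNM
  have hNM' : Nat.card M * Nat.card (Sylow 3 G) = 1092 := by
    rw [hM, ← hRX]; exact hNM
  have hne3 : Nat.card M ≠ 3 := by
    intro h
    have hXM : X = M := Subgroup.eq_of_le_of_card_ge le_normalizer (by rw [h, hX])
    apply SmallSimple.normalizer_not_le_centralizer (p := 3) (by rw [hG]; norm_num)
      (not_pg hG 3 (by norm_num)) R
    have hRX' : ((R : Subgroup G) : Set G) = (X : Set G) := by rw [hRX]
    show normalizer ((R : Subgroup G) : Set G) ≤ centralizer ((R : Subgroup G) : Set G)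
    rw [hRX', ← hM, ← hXM]
    intro a ha
    rw [mem_centralizer_iff]
    intro b hb
    haveI hc : IsCyclic X := isCyclic_of_prime_card (p := 3) hX
    have := (IsCyclic.isMulCommutative (α := X)).is_comm.comm ⟨b, hb⟩ ⟨a, ha⟩
    exact congrArg Subtype.val this
  have hle : Nat.card M ≤ 12 := Nat.le_of_dvd (by norm_num) hdv
  generalize Nat.card M = m at *
  generalize Nat.card (Sylow 3 G) = n at *
  interval_cases m <;> omega

theorem norm4 (T : Sylow 2 G) : Nat.card (normalizer ((T : Subgroup G) : Set G)) = 12 := by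
  have hT0 : (T : Subgroup G) ≠ ⊥ := by
    intro h0
    have := card_syl2 hG T
    rw [h0] at this; simp at this
  have hT1 : (T : Subgroup G) ≠ ⊤ := by
    intro h0
    have := card_syl2 hG T
    rw [h0, Subgroup.card_top, hG] at this; omega
  have hMne := norm_ne_top hG (T : Subgroup G) hT0 hT1
  set M := normalizer ((T : Subgroup G) : Set G) with hM
  have h4 : 4 ∣ Nat.card M := by
    rw [← card_syl2 hG T]; exact Subgroup.card_dvd_of_le le_normalizer
  have hdv : Nat.card M ∣ 12 := by
    rcases star_all hG M hMne with h | h | h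
    · have := dvd_trans h4 h; omega
    · have := dvd_trans h4 h; omega
    · exact h
  have hne : Nat.card M ≠ 4 := by
    intro h
    have hXM : (T : Subgroup G) = M := Subgroup.eq_of_le_of_card_ge le_normalizer (by rw [h, card_syl2 hG T])
    apply SmallSimple.normalizer_not_le_centralizer (p := 2) (by rw [hG]; norm_num)
      (not_pg hG 2 (by norm_num)) T
    show normalizer ((T : Subgroup G) : Set G) ≤ centralizer ((T : Subgroup G) : Set G)
    rw [← hM, ← hXM]
    intro a ha
    rw [mem_centralizer_iff]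
    intro b hb
    exact comm_syl2 hG T b hb a ha
  have hle : Nat.card M ≤ 12 := Nat.le_of_dvd (by norm_num) hdv
  generalize Nat.card M = m at *
  interval_cases m <;> omega

/-- In a Sylow 2-subgroup, all non-identity elements are conjugate. -/
theorem conj_in_syl2 (T : Sylow 2 G) (a b : G) (ha : a ∈ (T : Subgroup G)) (hb : b ∈ (T : Subgroup G))
    (ha1 : a ≠ 1) (hb1 : b ≠ 1) : IsConj a b := by
  classical
  set L := normalizer ((T : Subgroup G) : Set G) with hL
  have hTL : (T : Subgroup G) ≤ L := le_normalizer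
  have hLc : Nat.card L = 12 := norm4 hG T
  -- a non-central element
  have hex : ∃ a₀ ∈ (T : Subgroup G), ∃ y ∈ L, y * a₀ ≠ a₀ * y := by
    by_contra hcon
    push_neg at hcon
    apply SmallSimple.normalizer_not_le_centralizer (p := 2) (by rw [hG]; norm_num)
      (not_pg hG 2 (by norm_num)) T
    show normalizer ((T : Subgroup G) : Set G) ≤ centralizer ((T : Subgroup G) : Set G)
    intro y hy
    rw [mem_centralizer_iff]
    intro t ht
    exact (hcon t ht y hy).symm
  obtain ⟨a₀, ha₀, y, hy, hya⟩ := hex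
  have hall : ∀ t ∈ (T : Subgroup G), t ≠ 1 → IsConj a₀ t := by
    set a' : L := ⟨a₀, hTL ha₀⟩ with ha'
    have hidx : (centralizer ({a'} : Set L)).index = 3 := by
      have h1 : (T : Subgroup G).subgroupOf L ≤ centralizer ({a'} : Set L) := by
        intro z hz
        rw [mem_subgroupOf] at hz
        rw [mem_centralizer_iff]
        rintro w rfl
        apply Subtype.ext
        exact comm_syl2 hG T _ ha₀ _ hz
      have h2 : ((T : Subgroup G).subgroupOf L).index = 3 := by
        have h3 := Subgroup.card_mul_index ((T : Subgroup G).subgroupOf L)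
        rw [hLc, card_subgroupOf_le hTL, card_syl2 hG T] at h3
        omega
      have h4 : (centralizer ({a'} : Set L)).index ∣ 3 := by
        rw [← h2]; exact Subgroup.index_dvd_of_le h1
      rcases (Nat.dvd_prime (by norm_num)).1 h4 with h5 | h5
      · exfalso
        rw [Subgroup.index_eq_one] at h5
        have h6 : (⟨y, hy⟩ : L) ∈ centralizer ({a'} : Set L) := h5 ▸ mem_top _
        rw [mem_centralizer_iff] at h6
        have h7 := h6 a' rfl
        exact hya (congrArg Subtype.val h7).symm
      · exact h5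
    have hcl := Cfsg.Agent.Lib.Struct.card_isConj_eq_index a'
    rw [hidx] at hcl
    let g : {z : L // IsConj a' z} → G := fun z => ((z : L) : G)
    have hg : Function.Injective g := by
      intro u v huv
      exact Subtype.ext (Subtype.ext huv)
    have hS : (Set.range g).ncard = 3 := by
      rw [← Nat.card_coe_set_eq, Nat.card_range_of_injective hg, hcl]
    have ha₀1 : a₀ ≠ 1 := by
      rintro rfl
      exact hya (by simp)
    have hsub : Set.range g ⊆ ((T : Subgroup G) : Set G) \ {1} := by
      rintro _ ⟨⟨z, hz⟩, rfl⟩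
      obtain ⟨c, rfl⟩ := isConj_iff.1 hz
      constructor
      · exact (mem_normalizer_iff.1 c.2 a₀).1 ha₀
      · intro h
        apply ha₀1
        have h8 : (c : G) * a₀ * (c : G)⁻¹ = 1 := h
        have h9 : a₀ = (c : G)⁻¹ * ((c : G) * a₀ * (c : G)⁻¹) * c := by group
        rw [h9, h8]; simp
    have hTc : (((T : Subgroup G) : Set G) \ {1}).ncard = 3 := by
      rw [Set.ncard_diff_singleton_of_mem (one_mem (T : Subgroup G))]
      have : ((T : Subgroup G) : Set G).ncard = 4 := by
        rw [← Nat.card_coe_set_eq]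
        exact card_syl2 hG T
      rw [this]
    have heq := Set.eq_of_subset_of_ncard_le hsub (by rw [hS, hTc])
    intro t ht ht1
    have hmem : t ∈ Set.range g := by
      rw [heq]; exact ⟨ht, ht1⟩
    obtain ⟨⟨z, hz⟩, rfl⟩ := hmem
    exact L.subtype.map_isConj hz
  exact ((hall a ha ha1).symm).trans (hall b hb hb1)

theorem all_invol_conj (s t : G) (hs : orderOf s = 2) (ht : orderOf t = 2) : IsConj s t := by
  obtain ⟨T₁, h1⟩ := exists_syl2 hG s hs
  obtain ⟨T₂, h2⟩ := exists_syl2 hG t ht
  obtain ⟨g, hg⟩ := MulAction.exists_smul_eq G T₁ T₂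
  have hs1 : s ≠ 1 := by rintro rfl; simp at hs
  have ht1 : t ≠ 1 := by rintro rfl; simp at ht
  have hmem : g * s * g⁻¹ ∈ (T₂ : Subgroup G) := by
    rw [← hg, Sylow.smul_def, Sylow.pointwise_smul_def, Cfsg.Agent.Lib.Struct.mem_conj_smul]
    simpa [mul_assoc] using h1
  have hne : g * s * g⁻¹ ≠ 1 := by
    intro h
    apply hs1
    have h9 : s = g⁻¹ * (g * s * g⁻¹) * g := by group
    rw [h9, h]; simp
  have h3 := conj_in_syl2 hG T₂ _ t hmem h2 hne ht1
  exact (isConj_iff.2 ⟨g, rfl⟩).trans h3

theorem exists_good_invol : ∃ s : G, orderOf s = 2 ∧ 12 ∣ Nat.card (centralizer ({s} : Set G)) := by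
  obtain ⟨x, hx⟩ := exists_prime_orderOf_dvd_card' (G := G) 3 (by rw [hG]; norm_num)
  set X := zpowers x with hXdef
  have hXc : Nat.card X = 3 := by rw [hXdef, Nat.card_zpowers, hx]
  have hX3 : IsPGroup 3 X := IsPGroup.of_card (n := 1) (by rw [hXc, pow_one])
  obtain ⟨R, hR⟩ := hX3.exists_le_sylow
  have hRX : (R : Subgroup G) = X :=
    (Subgroup.eq_of_le_of_card_ge hR (by rw [card_syl3 hG R, hXc])).symm
  have hN := norm3 hG X hXc
  have hrel := SmallSimple.relIndex_centralizer_normalizer_dvd R
  haveI hcyc : IsCyclic (R : Subgroup G) := isCyclic_of_prime_card (p := 3) (card_syl3 hG R)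
  rw [IsCyclic.card_mulAut, card_syl3 hG R] at hrel
  have hφ : Nat.totient 3 = 2 := by decide
  rw [hφ] at hrel
  have hRX' : ((R : Subgroup G) : Set G) = (X : Set G) := by rw [hRX]
  change (centralizer ((R : Subgroup G) : Set G)).relIndex (normalizer ((R : Subgroup G) : Set G)) ∣ 2 at hrel
  rw [hRX'] at hrel
  have hcard := Cfsg.Agent.Lib.Struct.card_inf_mul_relIndex (centralizer (X : Set G)) (normalizer (X : Set G))
  rw [inf_eq_left.2 (centralizer_le_normalizer _), hN] at hcard
  have h2C : 2 ∣ Nat.card (centralizer (X : Set G)) := by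
    have hle : (centralizer (X : Set G)).relIndex (normalizer (X : Set G)) ≤ 2 :=
      Nat.le_of_dvd (by norm_num) hrel
    generalize (centralizer (X : Set G)).relIndex (normalizer (X : Set G)) = i at *
    generalize Nat.card (centralizer (X : Set G)) = c at *
    interval_cases i <;> omega
  obtain ⟨s, hs⟩ := exists_prime_orderOf_dvd_card' (G := centralizer (X : Set G)) 2 h2C
  have hs' : orderOf (s : G) = 2 := by rw [Subgroup.orderOf_coe, hs]
  refine ⟨s, hs', ?_⟩
  obtain ⟨T, hT⟩ := exists_syl2 hG (s : G) hs'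
  have h4 : 4 ∣ Nat.card (centralizer ({(s : G)} : Set G)) := by
    rw [← card_syl2 hG T]; exact Subgroup.card_dvd_of_le (le_cent_syl2 hG T s hT)
  have h3 : 3 ∣ Nat.card (centralizer ({(s : G)} : Set G)) := by
    rw [← hXc]
    apply Subgroup.card_dvd_of_le
    intro a ha
    rw [mem_centralizer_iff]
    rintro z rfl
    have := s.2
    rw [mem_centralizer_iff] at this
    exact (this a ha).symm
  exact (Nat.Coprime.mul_dvd_of_dvd_of_dvd (by norm_num) h4 h3 : 4 * 3 ∣ _)

theorem invol_cent (t : G) (ht : orderOf t = 2) : 12 ∣ Nat.card (centralizer ({t} : Set G)) := by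
  obtain ⟨s, hs, h12⟩ := exists_good_invol hG
  have hc := all_invol_conj hG s t hs ht
  have h1 : (centralizer ({t} : Set G)).index = (centralizer ({s} : Set G)).index := by
    rw [← Cfsg.Agent.Lib.Struct.card_isConj_eq_index, ← Cfsg.Agent.Lib.Struct.card_isConj_eq_index]
    apply Nat.card_congr
    exact Equiv.subtypeEquivRight (fun y => ⟨fun h => hc.trans h, fun h => hc.symm.trans h⟩)
  have h2 := Subgroup.card_mul_index (centralizer ({t} : Set G))
  have h3 := Subgroup.card_mul_index (centralizer ({s} : Set G))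
  have h4 : Nat.card (centralizer ({t} : Set G)) = Nat.card (centralizer ({s} : Set G)) := by
    have h5 : 0 < (centralizer ({s} : Set G)).index := Nat.pos_of_ne_zero Subgroup.index_ne_zero_of_finite
    rw [h1] at h2
    exact Nat.eq_of_mul_eq_mul_right h5 (h2.trans h3.symm)
  rwa [h4]

theorem twelve_dvd (H : Subgroup G) (hH : Nat.card H ∣ 12) (hne : Nat.card H ≠ 1) :
    12 ∣ Nat.card (normalizer (H : Set G)) := by
  have hle : Nat.card H ≤ 12 := Nat.le_of_dvd (by norm_num) hH
  have hcases : Nat.card H = 2 ∨ Nat.card H = 3 ∨ Nat.card H = 4 ∨ Nat.card H = 6 ∨ Nat.card H = 12 := by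
    have h0 : 0 < Nat.card H := Nat.card_pos
    generalize Nat.card H = n at *
    interval_cases n <;> omega
  rcases hcases with h | h | h | h | h
  · -- order 2
    obtain ⟨t, ht⟩ := exists_prime_orderOf_dvd_card' (G := H) 2 (by rw [h])
    have ht' : orderOf (t : G) = 2 := by rw [Subgroup.orderOf_coe, ht]
    have hHt : H = zpowers (t : G) := by
      symm
      apply Subgroup.eq_of_le_of_card_ge
      · rw [zpowers_le]; exact t.2
      · rw [Nat.card_zpowers, ht', h]
    refine dvd_trans (invol_cent hG t ht') (Subgroup.card_dvd_of_le ?_)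
    apply le_normalizer_of_conj
    intro x hx y hy
    rw [hHt] at hy ⊢
    obtain ⟨k, rfl⟩ := mem_zpowers_iff.1 hy
    rw [mem_centralizer_iff] at hx
    have h1 : (t : G) * x = x * t := hx t rfl
    have h2 : Commute (t : G) x := h1
    have h3 : x * (t : G) ^ k * x⁻¹ = (t : G) ^ k := by
      rw [(h2.zpow_left k).symm.eq]; simp
    rw [h3]
    exact ⟨k, rfl⟩
  · rw [norm3 hG H h]
  · have hp : IsPGroup 2 H := IsPGroup.of_card (n := 2) (by rw [h]; norm_num)
    obtain ⟨T, hT⟩ := hp.exists_le_sylow
    have hTH : (T : Subgroup G) = H :=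
      (Subgroup.eq_of_le_of_card_ge hT (by rw [card_syl2 hG T, h])).symm
    have := norm4 hG T
    rw [hTH] at this
    rw [this]
  · -- order 6
    obtain ⟨x, hx⟩ := exists_prime_orderOf_dvd_card' (G := H) 3 (by rw [h]; norm_num)
    have hx' : orderOf (x : G) = 3 := by rw [Subgroup.orderOf_coe, hx]
    set X := zpowers (x : G) with hXdef
    have hXc : Nat.card X = 3 := by rw [hXdef, Nat.card_zpowers, hx']
    have hN := norm3 hG X hXc
    have hXH : X ≤ H := by rw [hXdef, zpowers_le]; exact x.2
    -- `X` is normal in `H`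
    have h1 : H ≤ normalizer (X : Set G) := by
      have h2 : (X.subgroupOf H).index = 2 := by
        have h3 := Subgroup.card_mul_index (X.subgroupOf H)
        rw [h, card_subgroupOf_le hXH, hXc] at h3
        omega
      have h4 : (X.subgroupOf H).Normal := Subgroup.normal_of_index_eq_two h2
      exact (normal_subgroupOf_iff_le_normalizer hXH).1 h4
    have h5 : (H.subgroupOf (normalizer (X : Set G))).index = 2 := by
      have h3 := Subgroup.card_mul_index (H.subgroupOf (normalizer (X : Set G)))
      rw [hN, card_subgroupOf_le h1, h] at h3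
      omega
    have h6 : (H.subgroupOf (normalizer (X : Set G))).Normal := Subgroup.normal_of_index_eq_two h5
    have h7 := (normal_subgroupOf_iff_le_normalizer h1).1 h6
    rw [← hN]
    exact Subgroup.card_dvd_of_le h7
  · rw [← h]
    exact Subgroup.card_dvd_of_le le_normalizer

/-- **Main theorem**: in a simple group of order 1092 the normalizer of any nontrivial proper
subgroup is a maximal subgroup. -/
theorem main (H : Subgroup G) (hH0 : H ≠ ⊥) (hH1 : H ≠ ⊤) : IsCoatom (normalizer (H : Set G)) := by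
  by_cases h13 : 13 ∣ Nat.card H
  · exact case13 hG H hH0 hH1 h13
  by_cases h7 : 7 ∣ Nat.card H
  · exact case7 hG H hH0 hH1 h7
  have hH : Nat.card H ∣ 12 := by
    have hc : Nat.Coprime (Nat.card H) 91 := by
      have h1 : Nat.Coprime (Nat.card H) 13 :=
        ((Nat.Prime.coprime_iff_not_dvd (by norm_num)).2 h13).symm
      have h2 : Nat.Coprime (Nat.card H) 7 :=
        ((Nat.Prime.coprime_iff_not_dvd (by norm_num)).2 h7).symm
      exact Nat.Coprime.mul_right (k := Nat.card H) (m := 7) (n := 13) h2 h1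
    exact hc.dvd_of_dvd_mul_right (by simpa using card_dvd hG H)
  have hne : Nat.card H ≠ 1 := by
    intro h
    exact hH0 (Subgroup.eq_bot_of_card_eq _ h)
  exact coatom_of hG _ (norm_ne_top hG H hH0 hH1) (Or.inr (Or.inr (twelve_dvd hG H hH hne)))

end Main

/-! ### Reductions -/

theorem coatom_comap {A B : Type*} [Group A] [Group B] (f : A →* B) (hf : Function.Surjective f)
    {L : Subgroup B} (hL : IsCoatom L) : IsCoatom (L.comap f) := by
  refine ⟨?_, fun M hM => ?_⟩
  · intro h
    apply hL.1
    rw [eq_top_iff]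
    intro y _
    obtain ⟨x, rfl⟩ := hf y
    have : x ∈ L.comap f := h ▸ mem_top x
    exact this
  · have hker : f.ker ≤ M := le_trans (MonoidHom.ker_le_comap f L) hM.le
    have h3 : (M.map f).comap f = M := Subgroup.comap_map_eq_self hker
    have h1 : L < M.map f := by
      refine lt_of_le_of_ne ?_ ?_
      · intro y hy
        obtain ⟨x, rfl⟩ := hf y
        exact ⟨x, hM.le hy, rfl⟩
      · intro h
        apply hM.ne
        rw [h, h3]
    have h2 := hL.2 _ h1
    rw [← h3, h2, Subgroup.comap_top]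

/-- Transfer along an isomorphism. -/
theorem iso_step {A B : Type*} [Group A] [Group B] (e : A ≃* B)
    (h : ∀ H : Subgroup B, ¬ H.Normal → IsCoatom (normalizer (H : Set B)))
    (H : Subgroup A) (hH : ¬ H.Normal) : IsCoatom (normalizer (H : Set A)) := by
  have key : normalizer (H : Set A) = (normalizer ((H.map e.toMonoidHom : Subgroup B) : Set B)).comap e.toMonoidHom := by
    apply le_antisymm
    · intro x hx
      exact Subgroup.le_normalizer_map e.toMonoidHom ⟨x, hx, rfl⟩
    · have h1 := Subgroup.le_normalizer_comap (H := H.map e.toMonoidHom) e.toMonoidHom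
      rwa [Subgroup.comap_map_eq_self_of_injective e.injective] at h1
  rw [key]
  apply coatom_comap _ e.surjective
  apply h
  intro hn
  apply hH
  rw [← normalizer_eq_top_iff, key, normalizer_eq_top_iff.2 hn, Subgroup.comap_top]

/-- The passage from a central extension by a unique involution. -/
theorem sl_step {A B : Type*} [Group A] [Group B] [Finite A] (f : A →* B)
    (hf : Function.Surjective f) (z : A) (hz : ∀ a, a ∈ f.ker ↔ a = 1 ∨ a = z)
    (hzc : ∀ a, a * z = z * a) (hz2 : z ^ 2 = 1) (hinv : ∀ a : A, a ^ 2 = 1 → a = 1 ∨ a = z)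
    (hB : ∀ L : Subgroup B, L ≠ ⊥ → L ≠ ⊤ → IsCoatom (normalizer (L : Set B)))
    (H : Subgroup A) (hH : ¬ H.Normal) : IsCoatom (normalizer (H : Set A)) := by
  classical
  have hfw : ∀ x : A, f x ∈ normalizer ((H.map f : Subgroup B) : Set B) → ∀ h ∈ H, x * h * x⁻¹ ∈ H := by
    intro x hx h hh
    have h1 : f (x * h * x⁻¹) ∈ H.map f := by
      rw [map_mul, map_mul, map_inv]
      exact (mem_normalizer_iff.1 hx (f h)).1 ⟨h, hh, rfl⟩
    obtain ⟨h', hh', he⟩ := h1
    have h2 : h'⁻¹ * (x * h * x⁻¹) ∈ f.ker := by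
      rw [MonoidHom.mem_ker, map_mul, map_inv, he, inv_mul_cancel]
    rcases (hz _).1 h2 with h3 | h3
    · have : x * h * x⁻¹ = h' := by
        have := congrArg (fun t => h' * t) h3
        simpa using this
      rwa [this]
    · have h4 : x * h * x⁻¹ = h' * z := by
        have := congrArg (fun t => h' * t) h3
        simpa using this
      by_cases hzH : z ∈ H
      · rw [h4]; exact H.mul_mem hh' hzH
      · exfalso
        -- `H` has odd order
        have hodd : ¬ 2 ∣ Nat.card H := by
          intro h2'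
          obtain ⟨t, ht⟩ := exists_prime_orderOf_dvd_card' (G := H) 2 h2'
          have ht' : (t : A) ^ 2 = 1 := by
            have : orderOf (t : A) = 2 := by rw [Subgroup.orderOf_coe, ht]
            rw [← this]; exact pow_orderOf_eq_one _
          rcases hinv _ ht' with h5 | h5
          · have : orderOf (t : A) = 2 := by rw [Subgroup.orderOf_coe, ht]
            rw [h5, orderOf_one] at this; omega
          · exact hzH (h5 ▸ t.2)
        have hn : (x * h * x⁻¹) ^ Nat.card H = 1 := by
          have h6 : (x * h * x⁻¹) ^ Nat.card H = x * h ^ Nat.card H * x⁻¹ := by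
            exact conj_pow
          have h7 : h ^ Nat.card H = 1 := by
            have := pow_card_eq_one' (x := (⟨h, hh⟩ : H))
            exact congrArg Subtype.val this
          rw [h6, h7]; simp
        have hn2 : (h' * z) ^ Nat.card H = z := by
          have hcomm : Commute h' z := hzc h'
          rw [hcomm.mul_pow]
          have h7 : h' ^ Nat.card H = 1 := by
            have := pow_card_eq_one' (x := (⟨h', hh'⟩ : H))
            exact congrArg Subtype.val this
          rw [h7, one_mul]
          obtain ⟨k, hk⟩ : ∃ k, Nat.card H = 2 * k + 1 := by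
            have : Odd (Nat.card H) := by
              rw [← Nat.not_even_iff_odd, even_iff_two_dvd]; exact hodd
            exact this
          rw [hk, pow_succ, pow_mul, hz2]; simp
        rw [h4, hn2] at hn
        exact hzH (by rw [hn]; exact H.one_mem)
  have key : normalizer (H : Set A) = (normalizer ((H.map f : Subgroup B) : Set B)).comap f := by
    apply le_antisymm
    · intro x hx
      exact Subgroup.le_normalizer_map f ⟨x, hx, rfl⟩
    · intro x hx
      rw [mem_normalizer_iff]
      intro y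
      refine ⟨hfw x hx y, fun hy => ?_⟩
      have hx' : f x⁻¹ ∈ normalizer ((H.map f : Subgroup B) : Set B) := by
        rw [map_inv]; exact inv_mem hx
      have := hfw x⁻¹ hx' _ hy
      simpa [mul_assoc] using this
  rw [key]
  apply coatom_comap f hf
  apply hB
  · intro h0
    apply hH
    rw [← normalizer_eq_top_iff, key, h0]
    have : normalizer (((⊥ : Subgroup B) : Subgroup B) : Set B) = ⊤ :=
      normalizer_eq_top_iff.2 inferInstance
    rw [this, Subgroup.comap_top]
  · intro h0
    apply hH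
    rw [← normalizer_eq_top_iff, key, h0]
    have : normalizer (((⊤ : Subgroup B) : Subgroup B) : Set B) = ⊤ :=
      normalizer_eq_top_iff.2 inferInstance
    rw [this, Subgroup.comap_top]

theorem pow_of_modEq {A : Type*} [Group A] [Finite A] (a : A) {z w : ℕ} (h : z ≡ w [MOD Nat.card A]) :
    a ^ z = a ^ w := by
  rw [pow_eq_pow_mod z (pow_card_eq_one' (x := a)), pow_eq_pow_mod w (pow_card_eq_one' (x := a))]
  exact congrArg _ h

/-- The direct factor. -/
theorem product_step {K S : Type*} [Group K] [CommGroup S] [Finite K] [Finite S]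
    (hKS : (Nat.card K).Coprime (Nat.card S))
    (h : ∀ H : Subgroup K, ¬ H.Normal → IsCoatom (normalizer (H : Set K)))
    (H : Subgroup (K × S)) (hH : ¬ H.Normal) : IsCoatom (normalizer (H : Set (K × S))) := by
  classical
  obtain ⟨z, hz1, hz2⟩ : ∃ z : ℕ, z ≡ 1 [MOD Nat.card K] ∧ z ≡ 0 [MOD Nat.card S] := by
    obtain ⟨z, hz⟩ := Nat.chineseRemainder hKS 1 0
    exact ⟨z, hz.1, hz.2⟩
  obtain ⟨w, hw1, hw2⟩ : ∃ w : ℕ, w ≡ 0 [MOD Nat.card K] ∧ w ≡ 1 [MOD Nat.card S] := by
    obtain ⟨w, hw⟩ := Nat.chineseRemainder hKS 0 1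
    exact ⟨w, hw.1, hw.2⟩
  have hfst : ∀ k s, (k, s) ∈ H → (k, (1 : S)) ∈ H := by
    intro k s hks
    have h1 := H.pow_mem hks z
    have h2 : (k, s) ^ z = (k, (1 : S)) := by
      rw [Prod.pow_mk, pow_of_modEq k hz1, pow_of_modEq s hz2]; simp
    rwa [h2] at h1
  have hsnd : ∀ k s, (k, s) ∈ H → ((1 : K), s) ∈ H := by
    intro k s hks
    have h1 := H.pow_mem hks w
    have h2 : (k, s) ^ w = ((1 : K), s) := by
      rw [Prod.pow_mk, pow_of_modEq k hw1, pow_of_modEq s hw2]; simp
    rwa [h2] at h1
  let H₁ : Subgroup K := H.comap (MonoidHom.inl K S)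
  have hH₁ : ∀ k, k ∈ H₁ ↔ (k, (1 : S)) ∈ H := fun k => Iff.rfl
  have hsplit : ∀ k s, (k, s) ∈ H ↔ k ∈ H₁ ∧ ((1 : K), s) ∈ H := by
    intro k s
    refine ⟨fun h => ⟨hfst k s h, hsnd k s h⟩, fun h => ?_⟩
    have := H.mul_mem ((hH₁ k).1 h.1) h.2
    simpa using this
  have key : normalizer (H : Set (K × S)) = (normalizer (H₁ : Set K)).comap (MonoidHom.fst K S) := by
    ext ⟨a, b⟩
    rw [Subgroup.mem_comap, mem_normalizer_iff, mem_normalizer_iff]
    constructor
    · intro hx k
      have h1 := hx (k, 1)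
      have h2 : (a, b) * (k, (1 : S)) * (a, b)⁻¹ = (a * k * a⁻¹, (1 : S)) := by
        ext <;> simp
      rw [h2] at h1
      exact h1
    · intro hx ⟨k, s⟩
      have h2 : (a, b) * (k, s) * (a, b)⁻¹ = (a * k * a⁻¹, s) := by
        ext
        · simp
        · simp [mul_comm b s, mul_assoc]
      rw [h2, hsplit k s, hsplit (a * k * a⁻¹) s, hx k]
      rfl
  rw [key]
  apply coatom_comap _ (fun k => ⟨(k, 1), rfl⟩)
  apply h
  intro hn
  apply hH
  rw [← normalizer_eq_top_iff, key, normalizer_eq_top_iff.2 hn, Subgroup.comap_top]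

end Cfsg.Agent.Lib.Struct.PSL13
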