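import Mathlib
import Cfsg.Agent.Lib.Struct.PLen
import Cfsg.Agent.Lib.Struct.Metacyc
import Cfsg.Agent.Lib.Struct.Basic
import Cfsg.Agent.Lib.Coprime.PGroup
import Cfsg.Agent.Lib.Coprime.Action
import Cfsg.Agent.Lib.Basic.Nilpotent
import Cfsg.Agent.Lib.Basic.Index2
import Cfsg.Agent.Lib.Components.Layer2

/-!
# `p`-nilpotence and sections containing an element whose order is the exponent.
-/

set_option autoImplicit false
set_option linter.unusedSectionVars false
set_option linter.style.haveILetI false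

namespace Cfsg.Agent.Lib.Struct

open Subgroup

/-- A finite `p`-group has an element whose order is the exponent. -/
theorem exists_orderOf_eq_exponent_of_isPGroup {K : Type*} [Group K] [Finite K] {p : ℕ}
    [hp : Fact p.Prime] (hK : IsPGroup p K) : ∃ k : K, orderOf k = Monoid.exponent K := by
  obtain ⟨x, hx⟩ := Finite.exists_max (orderOf : K → ℕ)
  refine ⟨x, Nat.dvd_antisymm (Monoid.order_dvd_exponent x) ?_⟩
  apply Monoid.exponent_dvd_of_forall_pow_eq_one
  intro g
  apply orderOf_dvd_iff_pow_eq_one.mp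
  obtain ⟨i, hi⟩ := IsPGroup.iff_orderOf.mp hK x
  obtain ⟨j, hj⟩ := IsPGroup.iff_orderOf.mp hK g
  have h1 := hx g
  rw [hi, hj] at h1
  rw [hi, hj]
  exact pow_dvd_pow p ((Nat.pow_le_pow_iff_right hp.out.one_lt).mp h1)

variable {K : Type*} [Group K] [Finite K] {p q : ℕ} [hp : Fact p.Prime] [hq : Fact q.Prime]

/-- The section analysis. -/
theorem section_analysis (hqp : q ≠ p) (Q : Subgroup K) [hQn : Q.Normal] (hQp : IsPGroup p Q) (y : K) {m : ℕ}
    (hy : orderOf y = q ^ m) (hsup : Q ⊔ zpowers y = ⊤) (hR : ⁅Q, zpowers y⁆ ≠ ⊥)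
    (hmin : ∀ T : Subgroup K, T.Normal → T ≠ ⊥ → ⁅Q, zpowers y⁆ ≤ T) :
    Cfsg.pPrimeCore p K = ⊥ ∧ ∀ k : K, orderOf k ≠ Monoid.exponent K := by
  set A : Subgroup K := zpowers y with hA
  set R : Subgroup K := ⁅Q, A⁆ with hRdef
  have hAcard : Nat.card A = q ^ m := by rw [hA, Nat.card_zpowers, hy]
  have hAp : IsPGroup q A := IsPGroup.of_card hAcard
  obtain ⟨a0, ha0⟩ := IsPGroup.iff_card.mp hQp
  have hcopQA : (Nat.card Q).Coprime (Nat.card A) := by
    rw [ha0, hAcard]
    exact Nat.Coprime.pow _ _ ((Nat.coprime_primes hp.out hq.out).mpr hqp.symm)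
  have hQA : Disjoint Q A := Subgroup.disjoint_of_coprime_natCard hcopQA
  have hRQ : R ≤ Q := Subgroup.commutator_le_left Q A
  have hQnorm : A ≤ normalizer (Q : Set K) := by
    rw [Subgroup.normalizer_eq_top]; exact le_top
  have hAA : A ≤ normalizer (A : Set K) := Subgroup.le_normalizer
  have hRn : R.Normal := by
    refine normal_of_le_normalizer (N := Q) (M := A) ?_ ?_ hsup
    · exact Cfsg.Agent.Lib.Components.le_normalizer_commutator_left Q A
    · exact Cfsg.Agent.Lib.Basic.le_normalizer_commutator hQnorm hAA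
  haveI := hRn
  have hRp : IsPGroup p R := hQp.to_le hRQ
  -- part 1
  have hcore : Cfsg.pPrimeCore p K = ⊥ := by
    by_contra hne
    obtain ⟨h1, h2⟩ := Cfsg.Agent.Lib.Components.pPrimeCore_mem (G := K) p
    have h3 := hmin _ h1 hne
    have h4 : Disjoint Q (Cfsg.pPrimeCore p K) := by
      apply Subgroup.disjoint_of_coprime_natCard
      rw [ha0]
      exact Nat.Coprime.pow_left _ h2.symm
    apply hR
    rw [eq_bot_iff, ← h4.eq_bot]
    exact le_inf hRQ h3
  refine ⟨hcore, ?_⟩
  -- part 2 : `R` is central in `Q`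
  have hRcen : R ≤ centralizer (Q : Set K) := by
    haveI : Group.IsNilpotent Q := hQp.isNilpotent
    have hn : (R.subgroupOf Q).Normal := inferInstance
    have hne : R.subgroupOf Q ≠ ⊥ := by
      intro h
      apply hR
      rw [eq_bot_iff]
      intro x hx
      have : (⟨x, hRQ hx⟩ : Q) ∈ R.subgroupOf Q := hx
      rw [h, Subgroup.mem_bot] at this
      simpa using congrArg Subtype.val this
    have h1 := Cfsg.Agent.Lib.Basic.normal_inf_center_ne_bot (R.subgroupOf Q) hne
    haveI := (Subgroup.nontrivial_iff_ne_bot _).mpr h1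
    obtain ⟨⟨⟨z, hzQ⟩, hz⟩, hz1⟩ := exists_ne (1 : ↥(R.subgroupOf Q ⊓ center Q))
    obtain ⟨hz2, hz3⟩ := Subgroup.mem_inf.mp hz
    have hzR : z ∈ R := hz2
    have hzc : z ∈ R ⊓ centralizer (Q : Set K) := by
      refine Subgroup.mem_inf.mpr ⟨hzR, ?_⟩
      rw [Subgroup.mem_centralizer_iff]
      intro x hx
      have := (Subgroup.mem_center_iff.mp hz3) ⟨x, hx⟩
      exact congrArg Subtype.val this
    have hne2 : R ⊓ centralizer (Q : Set K) ≠ ⊥ := by
      intro h
      rw [h, Subgroup.mem_bot] at hzc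
      apply hz1
      apply Subtype.ext
      apply Subtype.ext
      exact hzc
    have h2 := hmin _ inferInstance hne2
    exact h2.trans inf_le_right
  -- part 3 : `Q = R`
  have hact : Cfsg.Agent.Lib.Coprime.CoprimeAction A Q :=
    Cfsg.Agent.Lib.Coprime.coprimeAction_of_isPGroup hQp
      (by rw [hAcard]; exact Nat.Coprime.pow_left _ ((Nat.coprime_primes hq.out hp.out).mpr hqp)) hQnorm
  have hdec := hact.commutator_sup_centralizer
  set C : Subgroup K := Q ⊓ centralizer (A : Set K) with hC
  have hCA : A ≤ normalizer (C : Set K) := by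
    intro a ha
    rw [Subgroup.mem_normalizer_iff]
    intro x
    have hcomm : ∀ x ∈ C, a * x * a⁻¹ = x := by
      intro x hx
      have := (Subgroup.mem_centralizer_iff.mp (Subgroup.mem_inf.mp hx).2) a ha
      rw [this]; group
    constructor
    · intro hx
      rw [hcomm x hx]; exact hx
    · intro hx
      have hQx : a * x * a⁻¹ ∈ Q := (Subgroup.mem_inf.mp hx).1
      have hx' : x ∈ C := by
        have h1 := hcomm _ hx
        have e2 : a * x * a⁻¹ = x := mul_left_cancel (mul_right_cancel h1)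
        rwa [e2] at hx
      exact hx'
  have hCQ : Q ≤ normalizer (C : Set K) := by
    rw [← hdec]
    refine sup_le ?_ ?_
    · intro r hr
      rw [Subgroup.mem_normalizer_iff]
      intro x
      have hcomm : ∀ x ∈ Q, r * x * r⁻¹ = x := by
        intro x hx
        have := (Subgroup.mem_centralizer_iff.mp (hRcen hr)) x hx
        rw [← this]; group
      have hrQ := hRQ hr
      constructor
      · intro hx
        rw [hcomm x (Subgroup.mem_inf.mp hx).1]; exact hx
      · intro hx
        have hx2 : x ∈ Q := by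
          have h1 := (Subgroup.mem_inf.mp hx).1
          have := Q.mul_mem (Q.mul_mem (Q.inv_mem hrQ) h1) hrQ
          simpa [mul_assoc] using this
        rwa [hcomm x hx2] at hx
    · exact Subgroup.le_normalizer
  have hCn : C.Normal := normal_of_le_normalizer hCQ hCA hsup
  have hC0 : C = ⊥ := by
    by_contra hne
    have h1 := hmin C hCn hne
    have h2 : Q ≤ centralizer (A : Set K) := by
      rw [← hdec]
      refine sup_le (h1.trans inf_le_right) inf_le_right
    apply hR
    rw [hRdef, eq_bot_iff, Subgroup.commutator_le]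
    intro x hx a ha
    have := (Subgroup.mem_centralizer_iff.mp (h2 hx)) a ha
    rw [commutatorElement_def, Subgroup.mem_bot, ← this]
    group
  have hQR : Q = R := by
    rw [hC0, sup_bot_eq] at hdec
    exact hdec.symm
  have hQab : ∀ a ∈ Q, ∀ b ∈ Q, a * b = b * a := by
    intro a ha b hb
    have h1 : a ∈ R := hQR ▸ ha
    exact ((Subgroup.mem_centralizer_iff.mp (hRcen h1)) b hb).symm
  -- part 4 : no element of order `exp K`
  intro k hk
  have hQne : Q ≠ ⊥ := by
    rw [hQR]; exact hR
  have hy1 : y ≠ 1 := by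
    intro h
    apply hR
    rw [hRdef, hA, h, Subgroup.zpowers_one_eq_bot, Subgroup.commutator_bot_right]
  have hm0 : m ≠ 0 := by
    rintro rfl
    rw [pow_zero, orderOf_eq_one_iff] at hy
    exact hy1 hy
  have hpd : p ∣ Monoid.exponent K := by
    haveI : Nontrivial Q := (Subgroup.nontrivial_iff_ne_bot Q).mpr hQne
    have hpQ : p ∣ Nat.card Q := by
      rw [ha0]
      apply dvd_pow_self
      rintro rfl
      rw [pow_zero] at ha0
      exact (Finite.one_lt_card (α := Q)).ne' ha0
    obtain ⟨x, hx⟩ := exists_prime_orderOf_dvd_card' p hpQ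
    rw [← hx, ← Subgroup.orderOf_coe]
    exact Monoid.order_dvd_exponent _
  have hqd : q ∣ Monoid.exponent K := by
    refine Dvd.dvd.trans ?_ (Monoid.order_dvd_exponent y)
    rw [hy]
    exact dvd_pow_self q hm0
  have hcopq : p.Coprime q := (Nat.coprime_primes hp.out hq.out).mpr hqp.symm
  have hpqd : p * q ∣ orderOf k := by
    rw [hk]
    exact hcopq.mul_dvd_of_dvd_of_dvd hpd hqd
  have hok : orderOf k ≠ 0 := (orderOf_pos k).ne'
  set w := k ^ (orderOf k / (p * q)) with hw
  have hwo : orderOf w = p * q := orderOf_pow_orderOf_div hok hpqd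
  have hw0 : orderOf w ≠ 0 := by rw [hwo]; exact (Nat.mul_pos hp.out.pos hq.out.pos).ne'
  set a := w ^ (orderOf w / p) with ha
  set b := w ^ (orderOf w / q) with hb
  have hao : orderOf a = p := orderOf_pow_orderOf_div hw0 (by rw [hwo]; exact dvd_mul_right _ _)
  have hbo : orderOf b = q := orderOf_pow_orderOf_div hw0 (by rw [hwo]; exact dvd_mul_left _ _)
  have hab : Commute a b := (Commute.refl w).pow_pow _ _
  have hcopa : (orderOf a).Coprime (q ^ m) := by
    rw [hao]; exact Nat.Coprime.pow_right _ hcopq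
  have hdec2 : ∀ x : K, ∃ u ∈ Q, ∃ v ∈ A, x = u * v := by
    intro x
    have h1 : x ∈ ((Q ⊔ A : Subgroup K) : Set K) := by rw [hsup]; trivial
    rw [Subgroup.normal_mul] at h1
    obtain ⟨u, hu, v, hv, rfl⟩ := Set.mem_mul.mp h1
    exact ⟨u, hu, v, hv, rfl⟩
  have hpow : ∀ x : K, x ^ (q ^ m) ∈ Q := by
    intro x
    obtain ⟨u, hu, v, hv, rfl⟩ := hdec2 x
    have h1 : (QuotientGroup.mk' Q) ((u * v) ^ (q ^ m)) = 1 := by
      have h0 : (QuotientGroup.mk' Q) u = 1 := (QuotientGroup.eq_one_iff u).mpr hu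
      rw [map_pow, map_mul, h0, one_mul, ← map_pow]
      have h2 : v ^ (q ^ m) = 1 := by
        obtain ⟨i, rfl⟩ := Subgroup.mem_zpowers_iff.mp hv
        rw [← zpow_natCast, zpow_comm, zpow_natCast, ← hy, pow_orderOf_eq_one, one_zpow]
      rw [h2, map_one]
    exact (QuotientGroup.eq_one_iff _).mp h1
  have haQ : a ∈ Q := mem_of_pow_mem_of_coprime Q hcopa (hpow a)
  have ha1 : a ≠ 1 := by
    intro h
    rw [h, orderOf_one] at hao
    exact hp.out.one_lt.ne hao
  obtain ⟨u, hu, v, hv, hbuv⟩ := hdec2 b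
  have hva : v * a = a * v := by
    have h1 : b * a = a * b := hab.eq.symm
    rw [hbuv] at h1
    have h2 := hQab u hu a haQ
    have h3 : u * (v * a) = u * (a * v) := by
      calc u * (v * a) = u * v * a := by group
        _ = a * (u * v) := h1
        _ = (a * u) * v := by group
        _ = (u * a) * v := by rw [h2]
        _ = u * (a * v) := by group
    exact mul_left_cancel h3
  -- the centralizer of `v` in `Q`
  let Cv : Subgroup K := Q ⊓ centralizer ({v} : Set K)
  have hcomv : ∀ a' ∈ A, a' * v = v * a' := by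
    intro a' ha'
    obtain ⟨i, rfl⟩ := Subgroup.mem_zpowers_iff.mp ha'
    obtain ⟨j, rfl⟩ := Subgroup.mem_zpowers_iff.mp hv
    rw [← zpow_add, ← zpow_add, add_comm]
  have hCvQ : Q ≤ normalizer (Cv : Set K) := by
    intro x hx
    rw [Subgroup.mem_normalizer_iff]
    intro c
    constructor
    · intro hc
      obtain ⟨hc1, hc2⟩ := Subgroup.mem_inf.mp hc
      have e : x * c * x⁻¹ = c := by rw [hQab x hx c hc1]; group
      rwa [e]
    · intro hc
      obtain ⟨hc1, hc2⟩ := Subgroup.mem_inf.mp hc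
      have hc3 : c ∈ Q := by
        have := Q.mul_mem (Q.mul_mem (Q.inv_mem hx) hc1) hx
        simpa [mul_assoc] using this
      have e : x * c * x⁻¹ = c := by rw [hQab x hx c hc3]; group
      rwa [e] at hc
  have hCvA : A ≤ normalizer (Cv : Set K) := by
    intro a' ha'
    rw [Subgroup.mem_normalizer_iff]
    intro c
    have hv' : ∀ c : K, (c * v = v * c) → (a' * c * a'⁻¹) * v = v * (a' * c * a'⁻¹) := by
      intro c hc
      have h1 := hcomv a' ha'
      have h2 : a'⁻¹ * v = v * a'⁻¹ := by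
        rw [inv_mul_eq_iff_eq_mul, ← mul_assoc, h1]; group
      calc a' * c * a'⁻¹ * v = a' * c * (a'⁻¹ * v) := by group
        _ = a' * c * (v * a'⁻¹) := by rw [h2]
        _ = a' * (c * v) * a'⁻¹ := by group
        _ = a' * (v * c) * a'⁻¹ := by rw [hc]
        _ = (a' * v) * c * a'⁻¹ := by group
        _ = (v * a') * c * a'⁻¹ := by rw [h1]
        _ = v * (a' * c * a'⁻¹) := by group
    have hv'' : ∀ c : K, (c * v = v * c) → (a'⁻¹ * c * a') * v = v * (a'⁻¹ * c * a') := by
      intro c hc
      have h1 := hcomv a' ha'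
      have h2 : a'⁻¹ * v = v * a'⁻¹ := by
        rw [inv_mul_eq_iff_eq_mul, ← mul_assoc, h1]; group
      calc a'⁻¹ * c * a' * v = a'⁻¹ * c * (a' * v) := by group
        _ = a'⁻¹ * c * (v * a') := by rw [h1]
        _ = a'⁻¹ * (c * v) * a' := by group
        _ = a'⁻¹ * (v * c) * a' := by rw [hc]
        _ = (a'⁻¹ * v) * c * a' := by group
        _ = (v * a'⁻¹) * c * a' := by rw [h2]
        _ = v * (a'⁻¹ * c * a') := by group
    have hmemv : ∀ c : K, c ∈ centralizer ({v} : Set K) ↔ c * v = v * c := by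
      intro c
      rw [Subgroup.mem_centralizer_singleton_iff]
    constructor
    · intro hc
      obtain ⟨hc1, hc2⟩ := Subgroup.mem_inf.mp hc
      refine Subgroup.mem_inf.mpr ⟨hQn.conj_mem c hc1 a', (hmemv _).mpr (hv' c ((hmemv c).mp hc2))⟩
    · intro hc
      obtain ⟨hc1, hc2⟩ := Subgroup.mem_inf.mp hc
      have e : c = a'⁻¹ * (a' * c * a'⁻¹) * a' := by group
      rw [e]
      refine Subgroup.mem_inf.mpr ⟨?_, (hmemv _).mpr (hv'' _ ((hmemv _).mp hc2))⟩
      have := hQn.conj_mem _ hc1 a'⁻¹
      simpa using this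
  have hCvn : Cv.Normal := normal_of_le_normalizer hCvQ hCvA hsup
  have haCv : a ∈ Cv := Subgroup.mem_inf.mpr ⟨haQ, by
    rw [Subgroup.mem_centralizer_singleton_iff]; exact hva.symm⟩
  have hCvne : Cv ≠ ⊥ := by
    intro h
    rw [h, Subgroup.mem_bot] at haCv
    exact ha1 haCv
  have hQCv : Q ≤ Cv := by
    rw [hQR]
    exact hmin Cv hCvn hCvne
  have hcen : v ∈ center K := by
    rw [Subgroup.mem_center_iff]
    intro g
    obtain ⟨u', hu', v', hv', rfl⟩ := hdec2 g
    have h1 : u' * v = v * u' := by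
      have := (Subgroup.mem_inf.mp (hQCv hu')).2
      rwa [Subgroup.mem_centralizer_singleton_iff] at this
    have h2 := hcomv v' hv'
    calc u' * v' * v = u' * (v' * v) := by group
      _ = u' * (v * v') := by rw [h2]
      _ = (u' * v) * v' := by group
      _ = (v * u') * v' := by rw [h1]
      _ = v * (u' * v') := by group
  have hv1 : v = 1 := by
    by_contra hne
    have hn : (zpowers v).Normal := by
      have hle : zpowers v ≤ center K := Subgroup.zpowers_le.mpr hcen
      exact ⟨fun x hx g => by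
        have h1 := Subgroup.mem_center_iff.mp (hle hx) g
        rw [h1]; simpa using hx⟩
    have hne2 : zpowers v ≠ ⊥ := by
      intro h
      exact hne (Subgroup.zpowers_eq_bot.mp h)
    have h1 := hmin _ hn hne2
    have h2 : zpowers v ≤ A := Subgroup.zpowers_le.mpr hv
    apply hR
    rw [eq_bot_iff, ← hQA.eq_bot]
    exact le_inf hRQ (h1.trans h2)
  rw [hv1, mul_one] at hbuv
  have hbQ : b ∈ Q := hbuv ▸ hu
  have h3 : orderOf b ∣ Nat.card Q := by
    have := Subgroup.orderOf_dvd_natCard Q hbQ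
    exact this
  rw [hbo, ha0] at h3
  exact hqp ((Nat.prime_dvd_prime_iff_eq hq.out hp.out).mp (hq.out.dvd_of_dvd_pow h3))

end Cfsg.Agent.Lib.Struct
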