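import Mathlib
import Cfsg.Agent.Lib.Components.Basic

/-!
Polycyclic lists in a finite group: an explicit enumeration of a solvable subgroup by
normal forms `g₁ ^ a₁ * … * g_k ^ a_k`.
-/

set_option autoImplicit false

namespace Cfsg.Agent.Lib.Struct.ThompPC

section PC
variable {G : Type} [Group G]

/-- All normal forms of a list of pairs (generator, relative order). -/
def pcSet : List (G × ℕ) → List G
  | [] => [1]
  | p :: l => (List.range p.2).flatMap fun a => (pcSet l).map fun y => p.1 ^ a * y

/-- The subgroup generated by the listed generators. -/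
def pcSub : List (G × ℕ) → Subgroup G
  | [] => ⊥
  | p :: l => pcSub l ⊔ Subgroup.zpowers p.1

/-- The conditions of a polycyclic list with prime relative orders. -/
def PCValid : List (G × ℕ) → Prop
  | [] => True
  | p :: l => PCValid l ∧ p.2.Prime ∧ p.1 ∉ pcSet l ∧ p.1 ^ p.2 ∈ pcSet l ∧
      ∀ h ∈ l, p.1 * h.1 * p.1⁻¹ ∈ pcSet l

theorem mem_pcSet_cons {p : G × ℕ} {l : List (G × ℕ)} {x : G} :
    x ∈ pcSet (p :: l) ↔ ∃ a, a < p.2 ∧ ∃ y ∈ pcSet l, p.1 ^ a * y = x := by
  simp [pcSet, List.mem_flatMap]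

theorem pcSet_sub (l : List (G × ℕ)) : ∀ x ∈ pcSet l, x ∈ pcSub l := by
  induction l with
  | nil =>
    intro x hx
    simp only [pcSet, List.mem_singleton] at hx
    subst hx
    exact (pcSub []).one_mem
  | cons p l ih =>
    intro x hx
    obtain ⟨a, -, y, hy, rfl⟩ := mem_pcSet_cons.1 hx
    have h1 : p.1 ^ a ∈ pcSub (p :: l) :=
      Subgroup.pow_mem _ ((le_sup_right : Subgroup.zpowers p.1 ≤ _) (Subgroup.mem_zpowers _)) a
    exact (pcSub (p :: l)).mul_mem h1 ((le_sup_left : pcSub l ≤ _) (ih y hy))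

theorem gen_mem_pcSub (l : List (G × ℕ)) : ∀ t ∈ l, t.1 ∈ pcSub l := by
  induction l with
  | nil => intro t ht; cases ht
  | cons p l ih =>
    intro t ht
    rcases List.mem_cons.1 ht with rfl | ht
    · exact (le_sup_right : Subgroup.zpowers t.1 ≤ _) (Subgroup.mem_zpowers _)
    · exact (le_sup_left : pcSub l ≤ _) (ih t ht)

/-- A subgroup containing the listed generators contains `pcSub`. -/
theorem pcSub_le (l : List (G × ℕ)) (M : Subgroup G) (h : ∀ t ∈ l, t.1 ∈ M) : pcSub l ≤ M := by
  induction l with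
  | nil => exact bot_le
  | cons p l ih =>
    refine sup_le (ih fun t ht => h t (List.mem_cons_of_mem _ ht)) ?_
    exact (Subgroup.zpowers_le).2 (h p List.mem_cons_self)

theorem pcSub_conj (K : Subgroup G) (g : G) (l : List (G × ℕ))
    (h : ∀ t ∈ l, g * t.1 * g⁻¹ ∈ K) : ∀ x ∈ pcSub l, g * x * g⁻¹ ∈ K := by
  intro x hx
  have h1 : pcSub l ≤ K.comap (MulAut.conj g).toMonoidHom :=
    pcSub_le l _ fun t ht => by simpa [Subgroup.mem_comap, MulAut.conj_apply] using h t ht
  simpa [Subgroup.mem_comap, MulAut.conj_apply] using h1 hx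

theorem one_mem_pcSet (l : List (G × ℕ)) (h : ∀ t ∈ l, 0 < t.2) : (1 : G) ∈ pcSet l := by
  induction l with
  | nil => simp [pcSet]
  | cons p l ih =>
    refine mem_pcSet_cons.2 ⟨0, h p List.mem_cons_self, 1, ?_, by simp⟩
    exact ih fun t ht => h t (List.mem_cons_of_mem _ ht)

/-- Disjointness of the cosets in a normal form step. -/
theorem nodup_step (K : Subgroup G) (M : List G) (hM : ∀ x, x ∈ K ↔ x ∈ M) (hN : M.Nodup)
    (g : G) (m : ℕ) (hm : m.Prime) (hg : g ∉ K) (hgm : g ^ m ∈ K) :
    ((List.range m).flatMap fun a => M.map fun y => g ^ a * y).Nodup := by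
  have key : ∀ a b : ℕ, a < b → b < m → ∀ y ∈ M, ∀ y' ∈ M, g ^ a * y = g ^ b * y' → False := by
    intro a b hab hb y hy y' hy' he
    have hK : g ^ (b - a) ∈ K := by
      have h1 : g ^ (b - a) = y * y'⁻¹ := by
        have h2 : g ^ b = g ^ a * g ^ (b - a) := by
          rw [← pow_add]; congr 1; omega
        rw [h2, mul_assoc] at he
        have h3 := mul_left_cancel he
        rw [h3]; group
      rw [h1]
      exact K.mul_mem ((hM _).2 hy) (K.inv_mem ((hM _).2 hy'))
    have hc : Nat.Coprime (b - a) m := by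
      refine Nat.Coprime.symm ((Nat.Prime.coprime_iff_not_dvd hm).2 ?_)
      exact Nat.not_dvd_of_pos_of_lt (by omega) (by omega)
    obtain ⟨u, hu⟩ := Nat.exists_mul_mod_eq_one_of_coprime hc hm.one_lt
    apply hg
    have h5 : (b - a) * u = m * ((b - a) * u / m) + 1 := by
      have := Nat.div_add_mod ((b - a) * u) m
      omega
    have h6 : (g ^ (b - a)) ^ u = (g ^ m) ^ ((b - a) * u / m) * g := by
      rw [← pow_mul, ← pow_mul, ← pow_succ]
      congr 1
    have h7 : g = ((g ^ m) ^ ((b - a) * u / m))⁻¹ * (g ^ (b - a)) ^ u := by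
      rw [h6]; group
    rw [h7]
    exact K.mul_mem (K.inv_mem (K.pow_mem hgm _)) (K.pow_mem hK _)
  rw [List.nodup_flatMap]
  refine ⟨fun a _ => hN.map (mul_right_injective _), ?_⟩
  refine List.Pairwise.imp_of_mem ?_ List.nodup_range
  intro a b ha hb hab
  show List.Disjoint _ _
  rw [List.disjoint_iff_ne]
  intro x hx x' hx' hxx
  subst hxx
  obtain ⟨y, hy, rfl⟩ := List.mem_map.1 hx
  obtain ⟨y', hy', he⟩ := List.mem_map.1 hx'
  have ha' := List.mem_range.1 ha
  have hb' := List.mem_range.1 hb
  rcases lt_or_gt_of_ne hab with h | h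
  · exact key a b h hb' y hy y' hy' he.symm
  · exact key b a h ha' y' hy' y hy he

variable [Finite G]

theorem conj_inv_mem (K : Subgroup G) (g : G) (h : ∀ x ∈ K, g * x * g⁻¹ ∈ K) :
    ∀ x ∈ K, g⁻¹ * x * g ∈ K := by
  have hk : ∀ k : ℕ, ∀ x ∈ K, g ^ k * x * (g ^ k)⁻¹ ∈ K := by
    intro k
    induction k with
    | zero => intro x hx; simpa using hx
    | succ k ih =>
      intro x hx
      have := h _ (ih x hx)
      rw [pow_succ']
      convert this using 1
      group
  intro x hx
  have h1 : g ^ (orderOf g - 1) = g⁻¹ := by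
    have h2 : 0 < orderOf g := orderOf_pos g
    apply eq_inv_of_mul_eq_one_left
    rw [← pow_succ]
    rw [Nat.sub_add_cancel h2]
    exact pow_orderOf_eq_one g
  have := hk (orderOf g - 1) x hx
  rw [h1] at this
  simpa using this

/-- The main induction on polycyclic lists. -/
theorem pc_main (l : List (G × ℕ)) (h : PCValid l) :
    (∀ x, x ∈ pcSub l ↔ x ∈ pcSet l) ∧ (pcSet l).Nodup ∧ Group.IsSolvable (pcSub l) := by
  induction l with
  | nil =>
    refine ⟨?_, by simp [pcSet], ?_⟩
    · intro x; simp [pcSub, pcSet]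
    · haveI : Subsingleton (pcSub ([] : List (G × ℕ))) := by
        simp only [pcSub]; infer_instance
      infer_instance
  | cons p l ih =>
    obtain ⟨hv, hm, hg, hgm, hn⟩ := h
    obtain ⟨hK, hN, hS⟩ := ih hv
    obtain ⟨g, m⟩ := p
    simp only at hm hg hgm hn
    -- names
    obtain ⟨K, hKdef⟩ : ∃ K, K = pcSub l := ⟨_, rfl⟩
    rw [← hKdef] at hK hS
    have hg' : g ∉ K := fun hh => hg ((hK g).1 hh)
    have hgm' : g ^ m ∈ K := (hK _).2 hgm
    have hconj : ∀ x ∈ K, g * x * g⁻¹ ∈ K := by
      intro x hx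
      rw [hKdef] at hx
      exact pcSub_conj K g l (fun t ht => (hK _).2 (hn t ht)) x hx
    have hconj' := conj_inv_mem K g hconj
    have hnorm : g ∈ Subgroup.normalizer (K : Set G) := by
      rw [Subgroup.mem_normalizer_iff]
      intro x
      constructor
      · exact hconj x
      · intro hx
        have := hconj' _ hx
        simpa [mul_assoc] using this
    have hZ : Subgroup.zpowers g ≤ Subgroup.normalizer (K : Set G) :=
      (Subgroup.zpowers_le).2 hnorm
    have hcons : pcSub ((g, m) :: l) = K ⊔ Subgroup.zpowers g := by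
      simp only [pcSub, hKdef]
    have hset : ∀ x, x ∈ pcSub ((g, m) :: l) ↔ x ∈ pcSet ((g, m) :: l) := by
      intro x
      constructor
      · intro hx
        rw [hcons] at hx
        have hx' : x⁻¹ ∈ K ⊔ Subgroup.zpowers g := Subgroup.inv_mem _ hx
        obtain ⟨k, hk, b, hb, he⟩ :=
          Cfsg.Agent.Lib.Components.exists_mul_of_mem_sup_of_le_normalizer hZ hx'
        obtain ⟨z, rfl⟩ := Subgroup.mem_zpowers_iff.1 hb
        have hx2 : x = g ^ (-z) * k⁻¹ := by
          have := congrArg (·⁻¹) he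
          simp only [inv_inv, mul_inv_rev] at this
          rw [this]
          simp
        have hmpos : (0 : ℤ) < m := by exact_mod_cast hm.pos
        obtain ⟨r, hr⟩ : ∃ r : ℕ, (r : ℤ) = (-z) % m :=
          ⟨((-z) % m).toNat, Int.toNat_of_nonneg (Int.emod_nonneg _ hmpos.ne')⟩
        have hrlt : r < m := by
          have := Int.emod_lt_of_pos (-z) hmpos
          omega
        have hz : -z = (r : ℤ) + m * ((-z) / m) := by
          rw [hr]; exact (Int.emod_add_mul_ediv _ _).symm
        refine mem_pcSet_cons.2 ⟨r, hrlt, (g ^ m) ^ ((-z) / m) * k⁻¹, ?_, ?_⟩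
        · exact (hK _).1 (K.mul_mem (K.zpow_mem hgm' _) (K.inv_mem hk))
        · simp only
          rw [hx2, ← mul_assoc]
          congr 1
          rw [← zpow_natCast g r, ← zpow_natCast g m, ← zpow_mul, ← zpow_add, ← hz]
      · exact pcSet_sub _ x
    refine ⟨hset, ?_, ?_⟩
    · exact nodup_step K (pcSet l) hK hN g m hm hg' hgm'
    · -- solvability
      obtain ⟨K', hK'⟩ : ∃ K', K' = pcSub ((g, m) :: l) := ⟨_, rfl⟩
      rw [← hK']
      have hle : K ≤ K' := by rw [hK', hcons]; exact le_sup_left
      have hnormK : K' ≤ Subgroup.normalizer (K : Set G) := by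
        rw [hK', hcons]
        exact sup_le Subgroup.le_normalizer hZ
      haveI hn' : (K.subgroupOf K').Normal :=
        (Subgroup.normal_subgroupOf_iff_le_normalizer hle).2 hnormK
      have hform : ∀ x : K', ∃ a : ℕ, ∃ y ∈ K, (x : G) = g ^ a * y := by
        intro x
        have hx : (x : G) ∈ pcSet ((g, m) :: l) := (hset _).1 (hK' ▸ x.2)
        obtain ⟨a, -, y, hy, he⟩ := mem_pcSet_cons.1 hx
        exact ⟨a, y, (hK _).2 hy, he.symm⟩
      have hgK' : g ∈ K' := by
        rw [hK', hcons]
        exact (le_sup_right : Subgroup.zpowers g ≤ _) (Subgroup.mem_zpowers _)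
      let gq : K' ⧸ K.subgroupOf K' := ((⟨g, hgK'⟩ : K') : K' ⧸ K.subgroupOf K')
      have hq : ∀ q : K' ⧸ K.subgroupOf K', ∃ a : ℕ, q = gq ^ a := by
        intro q
        induction q using QuotientGroup.induction_on with
        | H x =>
          obtain ⟨a, y, hy, he⟩ := hform x
          refine ⟨a, ?_⟩
          have hyK' : y ∈ K' := hle hy
          have hx : x = (⟨g, hgK'⟩ : K') ^ a * (⟨y, hyK'⟩ : K') := by
            apply Subtype.ext
            simpa using he
          rw [hx]
          have h1 : (((⟨y, hyK'⟩ : K') : K' ⧸ K.subgroupOf K')) = 1 := by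
            rw [QuotientGroup.eq_one_iff]
            exact Subgroup.mem_subgroupOf.2 hy
          rw [QuotientGroup.mk_mul, h1, mul_one, QuotientGroup.mk_pow]
      haveI hQ : Group.IsSolvable (K' ⧸ K.subgroupOf K') := by
        refine Group.isSolvable_of_comm ?_
        intro a b
        obtain ⟨s, rfl⟩ := hq a
        obtain ⟨t, rfl⟩ := hq b
        rw [← pow_add, ← pow_add, add_comm]
      refine Group.isSolvable_of_ker_le_range (Subgroup.inclusion hle)
        (QuotientGroup.mk' (K.subgroupOf K')) ?_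
      intro x hx
      have hx1 : x ∈ K.subgroupOf K' := by
        rwa [MonoidHom.mem_ker, QuotientGroup.mk'_apply, QuotientGroup.eq_one_iff] at hx
      have hx2 : (x : G) ∈ K := Subgroup.mem_subgroupOf.1 hx1
      exact ⟨⟨x, hx2⟩, by apply Subtype.ext; rfl⟩

/-- If the normal form list is stable under left multiplication by the generators it is
the whole subgroup. -/
theorem pcSet_closed (l : List (G × ℕ)) (hpos : ∀ t ∈ l, 0 < t.2)
    (hcl : ∀ t ∈ l, ∀ y ∈ pcSet l, t.1 * y ∈ pcSet l) :
    ∀ x, x ∈ pcSub l ↔ x ∈ pcSet l := by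
  intro x
  refine ⟨fun hx => ?_, pcSet_sub l x⟩
  let M : Subgroup G :=
    { carrier := {u | (∀ y ∈ pcSet l, u * y ∈ pcSet l) ∧ ∀ y ∈ pcSet l, u⁻¹ * y ∈ pcSet l}
      one_mem' := by simp
      mul_mem' := by
        rintro a b ⟨ha, ha'⟩ ⟨hb, hb'⟩
        refine ⟨fun y hy => ?_, fun y hy => ?_⟩
        · rw [mul_assoc]; exact ha _ (hb _ hy)
        · rw [mul_inv_rev, mul_assoc]; exact hb' _ (ha' _ hy)
      inv_mem' := by
        rintro a ⟨ha, ha'⟩
        exact ⟨ha', by simpa using ha⟩ }
  have hgen : ∀ t ∈ l, t.1 ∈ M := by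
    intro t ht
    have hk : ∀ k : ℕ, ∀ y ∈ pcSet l, t.1 ^ k * y ∈ pcSet l := by
      intro k
      induction k with
      | zero => intro y hy; simpa using hy
      | succ k ih =>
        intro y hy
        rw [pow_succ, mul_assoc]
        exact ih _ (hcl t ht y hy)
    refine ⟨hcl t ht, fun y hy => ?_⟩
    have h1 : t.1 ^ (orderOf t.1 - 1) = t.1⁻¹ := by
      have h2 : 0 < orderOf t.1 := orderOf_pos _
      apply eq_inv_of_mul_eq_one_left
      rw [← pow_succ, Nat.sub_add_cancel h2]
      exact pow_orderOf_eq_one _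
    rw [← h1]
    exact hk _ y hy
  have h2 := (pcSub_le l M hgen hx).1 1 (one_mem_pcSet l hpos)
  simpa using h2

end PC

section Count
variable {G : Type} [Group G]

/-- Counting in a subgroup described by a list without repetition. -/
theorem card_filter_of_list (A : Subgroup G) (L : List G) (hN : L.Nodup)
    (h : ∀ x, x ∈ A ↔ x ∈ L) (P : G → Prop) [DecidablePred P] :
    Nat.card {x : A // P x} = (L.filter fun y => decide (P y)).length := by
  classical
  have e : {x : A // P x} ≃ {x // x ∈ (L.filter fun y => decide (P y)).toFinset} :=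
    { toFun := fun x => ⟨x.1.1, by
        simp only [List.mem_toFinset, List.mem_filter, decide_eq_true_eq]
        exact ⟨(h _).1 x.1.2, x.2⟩⟩
      invFun := fun x => ⟨⟨x.1, by
          have := x.2
          simp only [List.mem_toFinset, List.mem_filter, decide_eq_true_eq] at this
          exact (h _).2 this.1⟩, by
          have := x.2
          simp only [List.mem_toFinset, List.mem_filter, decide_eq_true_eq] at this
          exact this.2⟩
      left_inv := fun x => rfl
      right_inv := fun x => rfl }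
  rw [Nat.card_congr e, Nat.card_eq_fintype_card, Fintype.card_coe,
    List.toFinset_card_of_nodup (hN.filter _)]

end Count

end Cfsg.Agent.Lib.Struct.ThompPC
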