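import Mathlib
import Cfsg.Agent.Lib.Struct.ThompPC

/-!
Permutations of `Fin n` coded as natural numbers in base 64; the kernel evaluates the
counting functions on the codes.
-/

set_option autoImplicit false

namespace Cfsg.Agent.Lib.Struct.ThompCode

open Equiv
open Cfsg.Agent.Lib.Struct.ThompPC

/-- Evaluate the first argument to a numeral before continuing. -/
noncomputable def force {α : Type} (x : ℕ) (f : ℕ → α) : α :=
  Nat.rec (f 0) (fun k _ => f (Nat.succ k)) x

theorem force_eq {α : Type} (x : ℕ) (f : ℕ → α) : force x f = f x := by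
  cases x <;> rfl

def dig (c i : ℕ) : ℕ := Nat.land (Nat.shiftRight c (Nat.mul 6 i)) 63

theorem dig_eq (c i : ℕ) : dig c i = c / 64 ^ i % 64 := by
  show (c >>> (6 * i)) &&& 63 = _
  rw [Nat.shiftRight_eq_div_pow, show (63 : ℕ) = 2 ^ 6 - 1 by norm_num,
    Nat.and_two_pow_sub_one_eq_mod, pow_mul]
  norm_num

noncomputable def enc (f : ℕ → ℕ) (n : ℕ) : ℕ :=
  Nat.rec 0 (fun k ih => Nat.add ih (Nat.shiftLeft (f k) (Nat.mul 6 k))) n

@[simp] theorem enc_zero (f : ℕ → ℕ) : enc f 0 = 0 := rfl

theorem enc_succ (f : ℕ → ℕ) (k : ℕ) : enc f (k + 1) = enc f k + f k * 64 ^ k := by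
  show enc f k + (f k <<< (6 * k)) = _
  rw [Nat.shiftLeft_eq, pow_mul]
  norm_num

theorem enc_congr {f f' : ℕ → ℕ} {k : ℕ} (h : ∀ i < k, f i = f' i) : enc f k = enc f' k := by
  induction k with
  | zero => rfl
  | succ k ih =>
    rw [enc_succ, enc_succ, ih fun i hi => h i (by omega), h k (by omega)]

theorem enc_lt {f : ℕ → ℕ} {k : ℕ} (h : ∀ i < k, f i < 64) : enc f k < 64 ^ k := by
  induction k with
  | zero => simp
  | succ k ih =>
    rw [enc_succ, pow_succ]
    have h1 := ih fun i hi => h i (by omega)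
    have h2 := h k (by omega)
    have h3 : f k * 64 ^ k ≤ 63 * 64 ^ k := Nat.mul_le_mul_right _ (by omega)
    omega

theorem dig_enc {f : ℕ → ℕ} {k : ℕ} (h : ∀ i < k, f i < 64) {j : ℕ} (hj : j < k) :
    dig (enc f k) j = f j := by
  induction k with
  | zero => omega
  | succ k ih =>
    rw [dig_eq, enc_succ]
    have h64 : 0 < 64 ^ j := by positivity
    rcases Nat.lt_succ_iff_lt_or_eq.1 hj with hj' | rfl
    · have h1 := ih (fun i hi => h i (by omega)) hj'
      rw [dig_eq] at h1
      obtain ⟨t, ht⟩ : ∃ t, k = j + (t + 1) := ⟨k - j - 1, by omega⟩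
      have h2 : f k * 64 ^ k = 64 ^ j * (f k * 64 ^ t * 64) := by
        rw [ht, pow_add, pow_succ]; ring
      rw [h2, Nat.add_mul_div_left _ _ h64, Nat.add_mul_mod_self_right, h1]
    · have h1 := enc_lt (fun i (hi : i < j) => h i (by omega))
      have h3 := h j (by omega)
      rw [mul_comm, Nat.add_mul_div_left _ _ h64, Nat.div_eq_of_lt h1, zero_add,
        Nat.mod_eq_of_lt h3]

theorem enc_dig (c k : ℕ) (hc : c < 64 ^ k) : enc (dig c) k = c := by
  have h : ∀ k : ℕ, enc (dig c) k = c % 64 ^ k := by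
    intro k
    induction k with
    | zero => simp [Nat.mod_one]
    | succ k ih =>
      rw [enc_succ, ih, Nat.mod_pow_succ, dig_eq, mul_comm]
  rw [h, Nat.mod_eq_of_lt hc]

noncomputable def mulc (n a b : ℕ) : ℕ := enc (fun i => dig a (dig b i)) n

noncomputable def idc (n : ℕ) : ℕ := enc (fun i => i) n

noncomputable def powC (n c m : ℕ) : ℕ :=
  Nat.rec (idc n) (fun _ ih => mulc n c ih) m

/-- The values of a permutation, extended by zero. -/
def pfun {n : ℕ} (x : Perm (Fin n)) (i : ℕ) : ℕ := if h : i < n then (x ⟨i, h⟩ : ℕ) else 0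

noncomputable def pcode {n : ℕ} (x : Perm (Fin n)) : ℕ := enc (pfun x) n

variable {n : ℕ}

theorem pfun_lt64 (hn : n ≤ 64) (x : Perm (Fin n)) (i : ℕ) : pfun x i < 64 := by
  unfold pfun
  split_ifs
  · exact lt_of_lt_of_le (x _).2 hn
  · norm_num

theorem dig_pcode (hn : n ≤ 64) (x : Perm (Fin n)) {i : ℕ} (hi : i < n) :
    dig (pcode x) i = pfun x i :=
  dig_enc (fun j _ => pfun_lt64 hn x j) hi

theorem pfun_fin (x : Perm (Fin n)) (i : Fin n) : pfun x i = x i := by
  simp [pfun]

theorem pcode_inj (hn : n ≤ 64) {x y : Perm (Fin n)} (h : pcode x = pcode y) : x = y := by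
  ext i
  rw [← pfun_fin, ← pfun_fin, ← dig_pcode hn x i.2, ← dig_pcode hn y i.2, h]

theorem pcode_mul (hn : n ≤ 64) (x y : Perm (Fin n)) :
    mulc n (pcode x) (pcode y) = pcode (x * y) := by
  refine enc_congr fun i hi => ?_
  rw [dig_pcode hn y hi]
  have h1 : pfun y i = ((y ⟨i, hi⟩ : Fin n) : ℕ) := by simp [pfun, hi]
  rw [h1, dig_pcode hn x (y ⟨i, hi⟩).2, pfun_fin]
  simp [pfun, hi]

theorem pcode_one : pcode (1 : Perm (Fin n)) = idc n := by
  refine enc_congr fun i hi => ?_
  simp [pfun, hi]

theorem powC_pcode (hn : n ≤ 64) (x : Perm (Fin n)) (m : ℕ) :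
    powC n (pcode x) m = pcode (x ^ m) := by
  induction m with
  | zero => rw [pow_zero, pcode_one]; rfl
  | succ m ih =>
    have : powC n (pcode x) (m + 1) = mulc n (pcode x) (powC n (pcode x) m) := rfl
    rw [this, ih, pcode_mul hn, pow_succ']

/-- A pair of mutually inverse codes. -/
def Valid (n c ci : ℕ) : Prop :=
  c < 64 ^ n ∧ ci < 64 ^ n ∧
    ∀ i < n, dig c i < n ∧ dig ci i < n ∧ dig ci (dig c i) = i ∧ dig c (dig ci i) = i

instance (n c ci : ℕ) : Decidable (Valid n c ci) := by
  unfold Valid; infer_instance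

/-- The permutation with a given code. -/
def permOf (n c ci : ℕ) : Perm (Fin n) :=
  if h : Valid n c ci then
    { toFun := fun i => ⟨dig c i, (h.2.2 i i.2).1⟩
      invFun := fun i => ⟨dig ci i, (h.2.2 i i.2).2.1⟩
      left_inv := fun i => Fin.ext (h.2.2 i i.2).2.2.1
      right_inv := fun i => Fin.ext (h.2.2 i i.2).2.2.2 }
  else 1

theorem pcode_permOf {c ci : ℕ} (h : Valid n c ci) : pcode (permOf n c ci) = c := by
  have h1 : enc (pfun (permOf n c ci)) n = enc (dig c) n := by
    refine enc_congr fun i hi => ?_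
    simp [pfun, hi, permOf, h]
  rw [pcode, h1, enc_dig c n h.1]

theorem pcode_permOf_inv {c ci : ℕ} (h : Valid n c ci) : pcode (permOf n c ci)⁻¹ = ci := by
  have h1 : enc (pfun (permOf n c ci)⁻¹) n = enc (dig ci) n := by
    refine enc_congr fun i hi => ?_
    simp only [pfun, hi, dite_true, permOf, h, dite_true]
    rfl
  rw [pcode, h1, enc_dig ci n h.2.1]

abbrev Tr := ℕ × ℕ × ℕ

/-- The generators and relative orders given by a list of codes. -/
def gensP (n : ℕ) (l : List Tr) : List (Perm (Fin n) × ℕ) :=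
  l.map fun t => (permOf n t.1 t.2.1, t.2.2)

noncomputable def cntAux (n : ℕ) (f : ℕ → ℕ) (g : ℕ) (k : ℕ) : ℕ → ℕ :=
  Nat.rec (fun _ => 0) (fun _ ih y => Nat.add (f y) (force (mulc n y g) ih)) k

/-- The sum of `w` over all normal forms, with prefix `x`. -/
noncomputable def cnt (n : ℕ) (w : ℕ → ℕ) (l : List Tr) : ℕ → ℕ :=
  List.rec w (fun p _ ih x => cntAux n ih p.1 p.2.2 x) l

theorem cntAux_eq (hn : n ≤ 64) (f : ℕ → ℕ) (W : Perm (Fin n) → ℕ) (M : List (Perm (Fin n)))
    (g : Perm (Fin n))
    (hf : ∀ z : Perm (Fin n), f (pcode z) = (M.map fun y => W (z * y)).sum) (k : ℕ) :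
    ∀ x : Perm (Fin n), cntAux n f (pcode g) k (pcode x) =
      (((List.range k).flatMap fun a => M.map fun y => g ^ a * y).map fun y => W (x * y)).sum := by
  induction k with
  | zero => intro x; rfl
  | succ k ih =>
    intro x
    have h0 : cntAux n f (pcode g) (k + 1) (pcode x) =
        f (pcode x) + force (mulc n (pcode x) (pcode g)) (cntAux n f (pcode g) k) := rfl
    rw [h0, force_eq, pcode_mul hn, ih, hf, List.range_succ_eq_map, List.flatMap_cons,
      List.map_append, List.sum_append, List.flatMap_map]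
    congr 1
    · simp
    · generalize List.range k = R
      induction R with
      | nil => rfl
      | cons a R ih2 =>
        simp only [List.flatMap_cons, List.map_append, List.sum_append, ih2, List.map_map,
          Function.comp_def]
        congr 2
        apply List.map_congr_left
        intro y _
        simp only [Nat.succ_eq_add_one, pow_succ', mul_assoc]

theorem cnt_eq (hn : n ≤ 64) (w : ℕ → ℕ) (l : List Tr) (hv : ∀ t ∈ l, Valid n t.1 t.2.1) :
    ∀ x : Perm (Fin n), cnt n w l (pcode x) =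
      ((pcSet (gensP n l)).map fun y => w (pcode (x * y))).sum := by
  induction l with
  | nil =>
    intro x
    show w (pcode x) = _
    simp [gensP, pcSet]
  | cons t l ih =>
    intro x
    have hl := ih fun s hs => hv s (List.mem_cons_of_mem _ hs)
    have h0 : cnt n w (t :: l) (pcode x) = cntAux n (cnt n w l) t.1 t.2.2 (pcode x) := rfl
    have hc := pcode_permOf (hv t List.mem_cons_self)
    rw [h0]
    conv_lhs => rw [← hc]
    rw [cntAux_eq hn (cnt n w l) (fun y => w (pcode y)) (pcSet (gensP n l)) _ hl]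
    rfl

theorem beq_false {a b : ℕ} (h : a ≠ b) : Nat.beq a b = false := by
  rw [← Bool.not_eq_true, Nat.beq_eq]
  exact h

theorem sum_pos_iff {α : Type} (L : List α) (f : α → ℕ) :
    0 < (L.map f).sum ↔ ∃ y ∈ L, 0 < f y := by
  induction L with
  | nil => simp
  | cons a L ih =>
    simp only [List.map_cons, List.sum_cons, List.mem_cons, exists_eq_or_imp]
    rw [← ih]
    omega

/-- Membership in the normal forms, tested by a sum. -/
noncomputable def memC (n : ℕ) (l : List Tr) (c : ℕ) : Bool :=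
  Nat.blt 0 (cnt n (fun y => cond (Nat.beq y c) 1 0) l (idc n))

theorem memC_iff (hn : n ≤ 64) (l : List Tr) (hv : ∀ t ∈ l, Valid n t.1 t.2.1)
    (z : Perm (Fin n)) : memC n l (pcode z) = true ↔ z ∈ pcSet (gensP n l) := by
  have h1 : memC n l (pcode z) = true ↔
      0 < cnt n (fun y => cond (Nat.beq y (pcode z)) 1 0) l (idc n) := by
    unfold memC
    rw [Nat.blt_eq]
  rw [h1, ← pcode_one, cnt_eq hn _ l hv, sum_pos_iff]
  constructor
  · rintro ⟨y, hy, h⟩
    simp only [one_mul] at h
    have : y = z := by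
      apply pcode_inj hn
      by_contra hne
      have : Nat.beq (pcode y) (pcode z) = false := beq_false hne
      rw [this] at h
      simp at h
    rwa [← this]
  · intro hz
    refine ⟨z, hz, ?_⟩
    simp only [one_mul]
    have : Nat.beq (pcode z) (pcode z) = true := Nat.beq_refl _
    rw [this]
    simp

/-- The complete check of a polycyclic list on codes. -/
noncomputable def checkB (n : ℕ) : List Tr → Bool
  | [] => true
  | t :: l =>
    checkB n l && decide (Valid n t.1 t.2.1) &&
      (Nat.beq t.2.2 2 || Nat.beq t.2.2 3 || Nat.beq t.2.2 7) &&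
      !(memC n l t.1) && memC n l (powC n t.1 t.2.2) &&
      l.all fun h => memC n l (mulc n (mulc n t.1 h.1) t.2.1)

theorem prime_of_beq {m : ℕ} (h : (Nat.beq m 2 || Nat.beq m 3 || Nat.beq m 7) = true) :
    m.Prime := by
  simp only [Bool.or_eq_true, Nat.beq_eq] at h
  rcases h with (rfl | rfl) | rfl <;> norm_num

theorem check_spec (hn : n ≤ 64) (l : List Tr) (h : checkB n l = true) :
    (∀ t ∈ l, Valid n t.1 t.2.1) ∧ PCValid (gensP n l) := by
  induction l with
  | nil => exact ⟨(fun t ht => by cases ht), trivial⟩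
  | cons t l ih =>
    simp only [checkB, Bool.and_eq_true, decide_eq_true_eq, Bool.not_eq_true',
      List.all_eq_true] at h
    obtain ⟨⟨⟨⟨⟨h1, h2⟩, h3⟩, h4⟩, h5⟩, h6⟩ := h
    obtain ⟨hv, hp⟩ := ih h1
    have hall : ∀ s ∈ t :: l, Valid n s.1 s.2.1 := by
      intro s hs
      rcases List.mem_cons.1 hs with rfl | hs
      · exact h2
      · exact hv s hs
    refine ⟨hall, hp, prime_of_beq h3, ?_, ?_, ?_⟩
    · intro hmem
      have h7 := (memC_iff hn l hv _).2 hmem
      rw [pcode_permOf h2] at h7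
      rw [h7] at h4
      cases h4
    · show (permOf n t.1 t.2.1) ^ t.2.2 ∈ pcSet (gensP n l)
      rw [← memC_iff hn l hv, ← powC_pcode hn, pcode_permOf h2]
      exact h5
    · intro s hs
      obtain ⟨s', hs', rfl⟩ := List.mem_map.1 hs
      show (permOf n t.1 t.2.1) * (permOf n s'.1 s'.2.1) * (permOf n t.1 t.2.1)⁻¹ ∈
        pcSet (gensP n l)
      rw [← memC_iff hn l hv, ← pcode_mul hn, ← pcode_mul hn, pcode_permOf h2,
        pcode_permOf (hv s' hs'), pcode_permOf_inv h2]
      exact h6 s' hs'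

/-- The number of normal forms. -/
def lenC (l : List Tr) : ℕ := (l.map fun t => t.2.2).prod

theorem length_pcSet (l : List Tr) : (pcSet (gensP n l)).length = lenC l := by
  induction l with
  | nil => rfl
  | cons t l ih =>
    have : gensP n (t :: l) = (permOf n t.1 t.2.1, t.2.2) :: gensP n l := rfl
    rw [this]
    simp only [pcSet, lenC, List.map_cons, List.prod_cons, List.length_flatMap, List.length_map,
      List.map_const', List.length_range, List.sum_replicate, smul_eq_mul, ih]

/-- The exponents recorded by the mask. -/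
def ds : List ℕ := [0, 1, 2, 3, 4, 6, 7, 12, 14, 21, 28, 42, 84]

/-- Horner evaluation in base `65536`. -/
def hor : List ℕ → ℕ
  | [] => 0
  | a :: as => a + 65536 * hor as

def horDig (V : ℕ) : ℕ → ℕ
  | 0 => V % 65536
  | j + 1 => horDig (V / 65536) j

theorem horDig_zero (j : ℕ) : horDig 0 j = 0 := by
  induction j with
  | zero => rfl
  | succ j ih => simpa [horDig] using ih

theorem horDig_hor (as : List ℕ) (h : ∀ a ∈ as, a < 65536) (j : ℕ) :
    horDig (hor as) j = as.getD j 0 := by
  induction as generalizing j with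
  | nil => simp [hor, horDig_zero]
  | cons a as ih =>
    have h1 := h a List.mem_cons_self
    cases j with
    | zero =>
      simp only [hor, horDig, List.getD_cons_zero]
      omega
    | succ j =>
      simp only [hor, horDig, List.getD_cons_succ]
      rw [show (a + 65536 * hor as) / 65536 = hor as by omega]
      exact ih (fun b hb => h b (List.mem_cons_of_mem _ hb)) j

noncomputable def ind (a b : ℕ) : ℕ := cond (Nat.beq a b) 1 0

/-- Records, in base `65536`, which of the powers of `x` listed in `ds` are trivial. -/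
noncomputable def mask (n e x : ℕ) : ℕ :=
  force (mulc n x x) fun x2 =>
  force (mulc n x x2) fun x3 =>
  force (mulc n x2 x2) fun x4 =>
  force (mulc n x3 x3) fun x6 =>
  force (mulc n x x6) fun x7 =>
  force (mulc n x6 x6) fun x12 =>
  force (mulc n x7 x7) fun x14 =>
  force (mulc n x7 x14) fun x21 =>
  force (mulc n x14 x14) fun x28 =>
  force (mulc n x21 x21) fun x42 =>
  force (mulc n x42 x42) fun x84 =>
  Nat.add 1 (Nat.mul 65536 (Nat.add (ind x e) (Nat.mul 65536 (Nat.add (ind x2 e)
    (Nat.mul 65536 (Nat.add (ind x3 e) (Nat.mul 65536 (Nat.add (ind x4 e)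
    (Nat.mul 65536 (Nat.add (ind x6 e) (Nat.mul 65536 (Nat.add (ind x7 e)
    (Nat.mul 65536 (Nat.add (ind x12 e) (Nat.mul 65536 (Nat.add (ind x14 e)
    (Nat.mul 65536 (Nat.add (ind x21 e) (Nat.mul 65536 (Nat.add (ind x28 e)
    (Nat.mul 65536 (Nat.add (ind x42 e) (Nat.mul 65536 (ind x84 e))))))))))))))))))))))))

theorem ind_pcode (hn : n ≤ 64) (z : Perm (Fin n)) :
    ind (pcode z) (idc n) = if z = 1 then 1 else 0 := by
  rw [← pcode_one]
  unfold ind
  split_ifs with h
  · subst h
    rw [Nat.beq_refl]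
    rfl
  · have : Nat.beq (pcode z) (pcode (1 : Perm (Fin n))) = false :=
      beq_false fun he => h (pcode_inj hn he)
    rw [this]
    rfl

theorem mask_pcode (hn : n ≤ 64) (y : Perm (Fin n)) :
    mask n (idc n) (pcode y) = hor (ds.map fun d => if y ^ d = 1 then 1 else 0) := by
  have e2 : mulc n (pcode y) (pcode y) = pcode (y ^ 2) := by rw [pcode_mul hn, pow_two]
  have e3 : mulc n (pcode y) (pcode (y ^ 2)) = pcode (y ^ 3) := by
    rw [pcode_mul hn, ← pow_succ']
  have e4 : mulc n (pcode (y ^ 2)) (pcode (y ^ 2)) = pcode (y ^ 4) := by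
    rw [pcode_mul hn, ← pow_add]
  have e6 : mulc n (pcode (y ^ 3)) (pcode (y ^ 3)) = pcode (y ^ 6) := by
    rw [pcode_mul hn, ← pow_add]
  have e7 : mulc n (pcode y) (pcode (y ^ 6)) = pcode (y ^ 7) := by
    rw [pcode_mul hn, ← pow_succ']
  have e12 : mulc n (pcode (y ^ 6)) (pcode (y ^ 6)) = pcode (y ^ 12) := by
    rw [pcode_mul hn, ← pow_add]
  have e14 : mulc n (pcode (y ^ 7)) (pcode (y ^ 7)) = pcode (y ^ 14) := by
    rw [pcode_mul hn, ← pow_add]
  have e21 : mulc n (pcode (y ^ 7)) (pcode (y ^ 14)) = pcode (y ^ 21) := by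
    rw [pcode_mul hn, ← pow_add]
  have e28 : mulc n (pcode (y ^ 14)) (pcode (y ^ 14)) = pcode (y ^ 28) := by
    rw [pcode_mul hn, ← pow_add]
  have e42 : mulc n (pcode (y ^ 21)) (pcode (y ^ 21)) = pcode (y ^ 42) := by
    rw [pcode_mul hn, ← pow_add]
  have e84 : mulc n (pcode (y ^ 42)) (pcode (y ^ 42)) = pcode (y ^ 84) := by
    rw [pcode_mul hn, ← pow_add]
  simp only [mask, force_eq, e2, e3, e4, e6, e7, e12, e14, e21, e28, e42, e84]
  simp only [ind_pcode hn]
  simp [ds, hor]

theorem sum_ite_length {α : Type} (L : List α) (P : α → Prop) [DecidablePred P] :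
    (L.map fun y => if P y then 1 else 0).sum = (L.filter fun y => decide (P y)).length := by
  induction L with
  | nil => rfl
  | cons a L ih =>
    by_cases h : P a <;> simp [h, ih, List.filter_cons] <;> omega

theorem sum_hor {α : Type} (L : List α) (ds' : List ℕ) (P : ℕ → α → Prop)
    [∀ d, DecidablePred (P d)] :
    (L.map fun y => hor (ds'.map fun d => if P d y then 1 else 0)).sum =
      hor (ds'.map fun d => (L.filter fun y => decide (P d y)).length) := by
  induction ds' with
  | nil => simp [hor]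
  | cons d ds' ih =>
    simp only [List.map_cons, hor]
    rw [List.sum_map_add, List.sum_map_mul_left, ih, sum_ite_length]

/-- The counts in a subgroup enumerated by a list of normal forms. -/
theorem count_of_list (hn : n ≤ 64) (l : List Tr) (hv : ∀ t ∈ l, Valid n t.1 t.2.1)
    (A : Subgroup (Perm (Fin n))) (hN : (pcSet (gensP n l)).Nodup)
    (hmem : ∀ x, x ∈ A ↔ x ∈ pcSet (gensP n l)) (hlen : lenC l < 65536) (V : ℕ)
    (hV : cnt n (mask n (idc n)) l (idc n) = V) (j : ℕ) (hj : j < ds.length) :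
    Nat.card {x : A // x ^ (ds.getD j 0) = 1} = horDig V j := by
  classical
  have hL : ∀ d, ((pcSet (gensP n l)).filter fun y => decide (y ^ d = 1)).length < 65536 := by
    intro d
    refine lt_of_le_of_lt (List.length_filter_le _ _) ?_
    rw [length_pcSet]
    exact hlen
  have h1 : V = hor (ds.map fun d => ((pcSet (gensP n l)).filter fun y => decide (y ^ d = 1)).length) := by
    have h3 := cnt_eq hn (mask n (idc n)) l hv 1
    rw [pcode_one] at h3
    rw [← hV, h3]
    simp only [one_mul, mask_pcode hn]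
    rw [sum_hor (pcSet (gensP n l)) ds (fun d y => y ^ d = 1)]
  rw [h1, horDig_hor _ (by
    intro a ha
    obtain ⟨d, -, rfl⟩ := List.mem_map.1 ha
    exact hL d)]
  have h2 : Nat.card {x : A // x ^ (ds.getD j 0) = 1} =
      Nat.card {x : A // (x : Perm (Fin n)) ^ (ds.getD j 0) = 1} := by
    refine Nat.card_congr (Equiv.subtypeEquivRight fun x => ?_)
    rw [← Subtype.coe_inj]
    simp
  rw [h2, card_filter_of_list A _ hN hmem (fun y => y ^ (ds.getD j 0) = 1)]
  rw [List.getD_eq_getElem _ _ hj, List.getD_eq_getElem _ _ (by simpa using hj)]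
  simp

end Cfsg.Agent.Lib.Struct.ThompCode
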