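import Mathlib

/-!
Counting solutions of `x ^ d = 1`: behaviour under products and the passage to the number of
elements of each order.
-/

set_option autoImplicit false

namespace Cfsg.Agent.Lib.Struct.ThompCount

/-- The number of solutions of `x ^ d = 1`. -/
noncomputable def F (G : Type) [Monoid G] (d : ℕ) : ℕ := Nat.card {x : G // x ^ d = 1}

theorem F_prod (G H : Type) [Monoid G] [Monoid H] (d : ℕ) :
    F (G × H) d = F G d * F H d := by
  unfold F
  rw [← Nat.card_prod]
  refine Nat.card_congr
    { toFun := fun x => (⟨x.1.1, congrArg Prod.fst x.2⟩, ⟨x.1.2, congrArg Prod.snd x.2⟩)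
      invFun := fun x => ⟨(x.1.1, x.2.1), Prod.ext x.1.2 x.2.2⟩
      left_inv := fun x => rfl
      right_inv := fun x => rfl }

theorem F_pi {ι : Type} [Fintype ι] (A : ι → Type) [∀ i, Monoid (A i)] (d : ℕ) :
    F ((i : ι) → A i) d = ∏ i, F (A i) d := by
  unfold F
  rw [← Nat.card_pi]
  refine Nat.card_congr
    { toFun := fun x i => ⟨x.1 i, congrFun x.2 i⟩
      invFun := fun x => ⟨fun i => (x i).1, funext fun i => (x i).2⟩
      left_inv := fun x => rfl
      right_inv := fun x => rfl }

theorem F_fun (A : Type) [Monoid A] (k d : ℕ) : F (Fin k → A) d = F A d ^ k := by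
  rw [F_pi (fun _ : Fin k => A) d]
  simp

theorem solvable_pi {ι : Type} [Finite ι] (A : ι → Type) [∀ i, Group (A i)]
    [∀ i, Group.IsSolvable (A i)] : Group.IsSolvable ((i : ι) → A i) := by
  classical
  haveI := Fintype.ofFinite ι
  choose m hm using fun i => (inferInstance : Group.IsSolvable (A i)).solvable
  refine ⟨⟨Finset.univ.sup m, ?_⟩⟩
  rw [eq_bot_iff]
  intro x hx
  rw [Subgroup.mem_bot]
  funext i
  have h1 : (Pi.evalMonoidHom A i) x ∈ derivedSeries (A i) (Finset.univ.sup m) :=
    map_derivedSeries_le_derivedSeries (Pi.evalMonoidHom A i) _ (Subgroup.mem_map_of_mem _ hx)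
  have h2 : derivedSeries (A i) (Finset.univ.sup m) ≤ derivedSeries (A i) (m i) :=
    derivedSeries_antitone _ (Finset.le_sup (Finset.mem_univ i))
  have h3 := h2 h1
  rw [hm i, Subgroup.mem_bot] at h3
  exact h3

theorem exponent_of_F {G : Type} [Group G] [Finite G] (h : F G 84 = F G 0) (x : G) :
    x ^ 84 = 1 := by
  by_contra hx
  have h1 : Nat.card {y : G // y ^ 84 = 1} < Nat.card G := Finite.card_subtype_lt hx
  have h2 : F G 0 = Nat.card G := by
    unfold F
    refine Nat.card_congr (Equiv.subtypeUnivEquiv fun y => by simp)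
  unfold F at h h2
  omega

theorem F_gcd {G : Type} [Group G] (hexp : ∀ x : G, x ^ 84 = 1) (n : ℕ) :
    F G n = F G (Nat.gcd n 84) := by
  unfold F
  refine Nat.card_congr (Equiv.subtypeEquivRight fun x => ?_)
  constructor
  · intro h
    exact pow_gcd_eq_one.2 ⟨h, hexp x⟩
  · intro h
    obtain ⟨k, hk⟩ := Nat.gcd_dvd_left n 84
    rw [hk, pow_mul, h, one_pow]

theorem order_eq {G H : Type} [Group G] [Group H] [Finite G] [Finite H]
    (h : ∀ d, 0 < d → F G d = F H d) (n : ℕ) :
    Nat.card {g : G // orderOf g = n} = Nat.card {g : H // orderOf g = n} := by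
  classical
  haveI := Fintype.ofFinite G
  haveI := Fintype.ofFinite H
  have keyG : ∀ {K : Type} [Group K] [Fintype K], ∀ d, 0 < d →
      F K d = ∑ m ∈ Nat.properDivisors d, Nat.card {g : K // orderOf g = m} +
        Nat.card {g : K // orderOf g = d} := by
    intro K _ _ d hd
    have h1 := sum_card_orderOf_eq_card_pow_eq_one (G := K) hd.ne'
    rw [← Nat.insert_self_properDivisors hd.ne', Finset.sum_insert (by simp)] at h1
    unfold F
    rw [Nat.card_eq_fintype_card, Fintype.card_subtype, ← h1, add_comm]
    congr 1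
    · refine Finset.sum_congr rfl fun m _ => ?_
      rw [Nat.card_eq_fintype_card, Fintype.card_subtype]
    · rw [Nat.card_eq_fintype_card, Fintype.card_subtype]
  induction n using Nat.strong_induction_on with
  | _ n ih =>
    rcases Nat.eq_zero_or_pos n with rfl | hn
    · have h0 : ∀ {K : Type} [Group K] [Finite K], IsEmpty {g : K // orderOf g = 0} :=
        fun {K} _ _ => ⟨fun g => (orderOf_pos g.1).ne' g.2⟩
      haveI := h0 (K := G)
      haveI := h0 (K := H)
      rw [Nat.card_of_isEmpty, Nat.card_of_isEmpty]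
    · have h1 := keyG (K := G) n hn
      have h2 := keyG (K := H) n hn
      have h3 : ∑ m ∈ Nat.properDivisors n, Nat.card {g : G // orderOf g = m} =
          ∑ m ∈ Nat.properDivisors n, Nat.card {g : H // orderOf g = m} := by
        refine Finset.sum_congr rfl fun m hm => ?_
        exact ih m (Nat.mem_properDivisors.1 hm).2
      have h4 := h n hn
      omega

/-- Equality of all counts at the divisors of `84` gives the same order statistics. -/
theorem final_eq {G H : Type} [Group G] [Group H] [Finite G] [Finite H]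
    (ds : List ℕ) (hds : ∀ n, 0 < n → Nat.gcd n 84 ∈ ds)
    (h : ∀ d ∈ ds, F G d = F H d) (hG : F G 84 = F G 0) (hH : F H 84 = F H 0) (n : ℕ) :
    Nat.card {g : G // orderOf g = n} = Nat.card {g : H // orderOf g = n} := by
  refine order_eq (fun d hd => ?_) n
  rw [F_gcd (exponent_of_F hG) d, F_gcd (exponent_of_F hH) d]
  exact h _ (hds d hd)

end Cfsg.Agent.Lib.Struct.ThompCount
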