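import Cfsg.Agent.Lib.Struct.ThompData
import Cfsg.Agent.Lib.Struct.ThompCount

/-!
A solvable group and a non-solvable group with the same number of elements of each order.
-/

set_option autoImplicit false

namespace Cfsg.Agent.Lib.Struct.ThompMain

open Equiv
open scoped commutatorElement
open Cfsg.Agent.Lib.Struct.ThompPC Cfsg.Agent.Lib.Struct.ThompCode
open Cfsg.Agent.Lib.Struct.ThompData Cfsg.Agent.Lib.Struct.ThompCount

/-- All conditions on one group of the list. -/
noncomputable def okD (D : Dat) : Bool :=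
  decide (D.1 ≤ 64) && checkB D.1 D.2.1 && decide (lenC D.2.1 < 65536) &&
    Nat.beq (cnt D.1 (mask D.1 (idc D.1)) D.2.1 (idc D.1)) D.2.2.1

theorem data_spec (D : Dat) (h : okD D = true) :
    Group.IsSolvable (pcSub (gensP D.1 D.2.1)) ∧
      ∀ j, j < ds.length → F (pcSub (gensP D.1 D.2.1)) (ds.getD j 0) = horDig D.2.2.1 j := by
  simp only [okD, Bool.and_eq_true, decide_eq_true_eq, Nat.beq_eq] at h
  obtain ⟨⟨⟨h1, h2⟩, h3⟩, h4⟩ := h
  obtain ⟨hv, hp⟩ := check_spec h1 _ h2
  obtain ⟨hm, hN, hS⟩ := pc_main _ hp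
  exact ⟨hS, fun j hj => count_of_list h1 _ hv _ hN hm h3 _ h4 j hj⟩

/-- All conditions on the non-solvable group. -/
noncomputable def okT : Bool :=
  checkB 7 listS && decide (Valid 7 headT.1 headT.2.1) && !(memC 7 listS headT.1) &&
    memC 7 listS (powC 7 headT.1 7) && Nat.beq headT.2.2 7 &&
    (listT.all fun t => Nat.blt 0 t.2.2 &&
      Nat.beq (cnt 7 (fun y => cond (memC 7 listT (mulc 7 t.1 y)) 0 1) listT (idc 7)) 0) &&
    (commT.all fun c => decide (Valid 7 c.1 c.2.1) && decide (Valid 7 c.2.2.1 c.2.2.2.1) &&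
      memC 7 listT c.1 && memC 7 listT c.2.2.1 &&
      Nat.beq (mulc 7 (mulc 7 (mulc 7 c.1 c.2.2.1) c.2.1) c.2.2.2.1) c.2.2.2.2) &&
    (listT.all fun t => commT.any fun c => Nat.beq c.2.2.2.2 t.1) &&
    decide (lenC listT < 65536) &&
    Nat.beq (cnt 7 (mask 7 (idc 7)) listT (idc 7)) valT

/-- The non-solvable group. -/
noncomputable def groupT : Subgroup (Perm (Fin 7)) := pcSub (gensP 7 listT)

theorem sum_eq_zero_of {α : Type} (L : List α) (f : α → ℕ) (h : (L.map f).sum = 0) :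
    ∀ y ∈ L, f y = 0 := by
  induction L with
  | nil => intro y hy; cases hy
  | cons a L ih =>
    simp only [List.map_cons, List.sum_cons] at h
    intro y hy
    rcases List.mem_cons.1 hy with rfl | hy
    · omega
    · exact ih (by omega) y hy

theorem T_spec (h : okT = true) :
    ¬ Group.IsSolvable groupT ∧
      ∀ j, j < ds.length → F groupT (ds.getD j 0) = horDig valT j := by
  simp only [okT, Bool.and_eq_true, decide_eq_true_eq, Nat.beq_eq, List.all_eq_true,
    List.any_eq_true, Bool.not_eq_true', Nat.blt_eq] at h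
  obtain ⟨⟨⟨⟨⟨⟨⟨⟨⟨h1, h2⟩, h3⟩, h4⟩, h5⟩, h6⟩, h7⟩, h8⟩, h9⟩, h10⟩ := h
  have hn : (7 : ℕ) ≤ 64 := by norm_num
  obtain ⟨hvS, hpS⟩ := check_spec hn _ h1
  obtain ⟨hmS, hNS, -⟩ := pc_main _ hpS
  have hv : ∀ t ∈ listT, Valid 7 t.1 t.2.1 := by
    intro t ht
    rcases List.mem_cons.1 ht with rfl | ht
    · exact h2
    · exact hvS t ht
  have hcode : pcode (permOf 7 headT.1 headT.2.1) = headT.1 := pcode_permOf h2
  have hgS : permOf 7 headT.1 headT.2.1 ∉ pcSet (gensP 7 listS) := by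
    intro hmem
    have h11 := (memC_iff hn listS hvS _).2 hmem
    rw [hcode] at h11
    rw [h11] at h3
    cases h3
  have hg7 : (permOf 7 headT.1 headT.2.1) ^ 7 ∈ pcSet (gensP 7 listS) := by
    rw [← memC_iff hn listS hvS, ← powC_pcode hn, hcode]
    exact h4
  have hNT : (pcSet (gensP 7 listT)).Nodup := by
    have hh : pcSet (gensP 7 listT) = (List.range headT.2.2).flatMap fun a =>
        (pcSet (gensP 7 listS)).map fun y => (permOf 7 headT.1 headT.2.1) ^ a * y := rfl
    rw [hh, h5]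
    exact nodup_step (pcSub (gensP 7 listS)) _ hmS hNS _ 7 (by norm_num)
      (fun hh' => hgS ((hmS _).1 hh')) ((hmS _).2 hg7)
  have hclosed : ∀ t ∈ listT, ∀ y ∈ pcSet (gensP 7 listT),
      permOf 7 t.1 t.2.1 * y ∈ pcSet (gensP 7 listT) := by
    intro t ht y hy
    have h11 := (h6 t ht).2
    have h12 := cnt_eq hn (fun y => cond (memC 7 listT (mulc 7 t.1 y)) 0 1) listT hv 1
    rw [pcode_one, h11] at h12
    have h13 := sum_eq_zero_of _ _ h12.symm y hy
    simp only [one_mul] at h13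
    have h14 : memC 7 listT (mulc 7 t.1 (pcode y)) = true := by
      cases hc : memC 7 listT (mulc 7 t.1 (pcode y))
      · rw [hc] at h13
        simp at h13
      · rfl
    rw [← memC_iff hn listT hv, ← pcode_mul hn, pcode_permOf (hv t ht)]
    exact h14
  have hmT : ∀ x, x ∈ groupT ↔ x ∈ pcSet (gensP 7 listT) := by
    refine pcSet_closed _ ?_ ?_
    · intro t ht
      obtain ⟨s, hs, rfl⟩ := List.mem_map.1 ht
      exact (h6 s hs).1
    · intro t ht y hy
      obtain ⟨s, hs, rfl⟩ := List.mem_map.1 ht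
      exact hclosed s hs y hy
  refine ⟨?_, fun j hj => count_of_list hn _ hv _ hNT hmT h9 _ h10 j hj⟩
  -- non-solvability
  have hTmem : ∀ c : ℕ × ℕ, Valid 7 c.1 c.2 → memC 7 listT c.1 = true →
      permOf 7 c.1 c.2 ∈ groupT := by
    intro c hc hm
    rw [hmT, ← memC_iff hn listT hv, pcode_permOf hc]
    exact hm
  have hgen : ∀ t ∈ gensP 7 listT, t.1 ∈ (commutator groupT).map groupT.subtype := by
    intro t ht
    obtain ⟨s, hs, rfl⟩ := List.mem_map.1 ht
    obtain ⟨c, hc, hcs⟩ := h8 s hs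
    obtain ⟨⟨⟨⟨hc1, hc2⟩, hc3⟩, hc4⟩, hc5⟩ := h7 c hc
    have hu := hTmem (c.1, c.2.1) hc1 hc3
    have hw := hTmem (c.2.2.1, c.2.2.2.1) hc2 hc4
    have hid : permOf 7 s.1 s.2.1 = ⁅permOf 7 c.1 c.2.1, permOf 7 c.2.2.1 c.2.2.2.1⁆ := by
      apply pcode_inj hn
      rw [commutatorElement_def, pcode_permOf (hv s hs), ← hcs, ← hc5, ← pcode_mul hn,
        ← pcode_mul hn, ← pcode_mul hn, pcode_permOf hc1, pcode_permOf hc2,
        pcode_permOf_inv hc1, pcode_permOf_inv hc2]
    refine ⟨⁅(⟨_, hu⟩ : groupT), (⟨_, hw⟩ : groupT)⁆, ?_, ?_⟩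
    · exact Subgroup.commutator_mem_commutator (Subgroup.mem_top _) (Subgroup.mem_top _)
    · show (permOf 7 c.1 c.2.1 * _ * _ * _ : Perm (Fin 7)) = _
      rw [hid, commutatorElement_def]
      rfl
  have hle : groupT ≤ (commutator groupT).map groupT.subtype :=
    pcSub_le _ _ hgen
  have htop : commutator groupT = ⊤ := by
    rw [eq_top_iff]
    rintro x -
    obtain ⟨y, hy, hyx⟩ := hle x.2
    have : y = x := Subtype.ext hyx
    rwa [← this]
  have hD : ∀ m, derivedSeries groupT m = ⊤ := by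
    intro m
    induction m with
    | zero => rfl
    | succ m ih =>
      rw [derivedSeries_succ, ih]
      exact htop
  have hg1 : permOf 7 headT.1 headT.2.1 ∈ groupT :=
    gen_mem_pcSub _ _ (List.mem_map.2 ⟨headT, List.mem_cons_self, rfl⟩)
  have hne : (⟨_, hg1⟩ : groupT) ≠ 1 := by
    intro he
    have : permOf 7 headT.1 headT.2.1 = 1 := congrArg Subtype.val he
    apply hgS
    rw [this]
    refine one_mem_pcSet _ ?_
    intro t ht
    obtain ⟨s, hs, rfl⟩ := List.mem_map.1 ht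
    exact (h6 s (List.mem_cons_of_mem _ hs)).1
  exact not_isSolvable_of_mem_derivedSeries hne fun m => by rw [hD]; trivial

end Cfsg.Agent.Lib.Struct.ThompMain
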