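import Mathlib

set_option autoImplicit false

namespace Cfsg.Agent.Lib.Struct.TwoFix

open Polynomial

section LA

variable {W : Type*} [AddCommGroup W] [Module (ZMod 2) W] [Module.Finite (ZMod 2) W]

theorem finrank_ker_pow_le (N : W →ₗ[ZMod 2] W) (m : ℕ) :
    Module.finrank (ZMod 2) (LinearMap.ker (N ^ m)) ≤
      m * Module.finrank (ZMod 2) (LinearMap.ker N) := by
  induction m with
  | zero =>
    have : LinearMap.ker (N ^ 0) = ⊥ := by
      rw [pow_zero]; exact LinearMap.ker_id
    rw [this]; simp
  | succ m ih =>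
    let P := LinearMap.ker (N ^ (m + 1))
    let f : P →ₗ[ZMod 2] W := (N ^ m).domRestrict P
    have h1 := LinearMap.finrank_range_add_finrank_ker f
    have h2 : LinearMap.range f ≤ LinearMap.ker N := by
      rintro _ ⟨x, rfl⟩
      have hx : (N ^ (m + 1)) x.1 = 0 := x.2
      rw [LinearMap.mem_ker]
      have : N (f x) = (N ^ (m + 1)) x.1 := by
        simp [f, pow_succ']
      rw [this, hx]
    have h3 : Module.finrank (ZMod 2) (LinearMap.range f) ≤
        Module.finrank (ZMod 2) (LinearMap.ker N) := Submodule.finrank_mono h2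
    have h4 : Module.finrank (ZMod 2) (LinearMap.ker f) ≤
        Module.finrank (ZMod 2) (LinearMap.ker (N ^ m)) := by
      let g : LinearMap.ker f →ₗ[ZMod 2] LinearMap.ker (N ^ m) :=
        LinearMap.codRestrict _ (P.subtype.comp (LinearMap.ker f).subtype) (by
          intro x
          have hx : f x.1 = 0 := x.2
          rw [LinearMap.mem_ker]
          exact hx)
      apply LinearMap.finrank_le_finrank_of_injective (f := g)
      intro x y hxy
      have : (x.1.1 : W) = y.1.1 := congrArg (fun z : LinearMap.ker (N ^ m) => (z : W)) hxy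
      exact Subtype.ext (Subtype.ext this)
    have : Module.finrank (ZMod 2) P = Module.finrank (ZMod 2) (LinearMap.range f) +
      Module.finrank (ZMod 2) (LinearMap.ker f) := h1.symm
    show Module.finrank (ZMod 2) P ≤ _
    rw [this, add_mul, one_mul]
    omega

theorem finrank_le_of_pow_eq_zero (N : W →ₗ[ZMod 2] W) (m : ℕ) (hN : N ^ m = 0) :
    Module.finrank (ZMod 2) W ≤ m * Module.finrank (ZMod 2) (LinearMap.ker N) := by
  have := finrank_ker_pow_le N m
  rw [hN, LinearMap.ker_zero, finrank_top] at this
  exact this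

theorem sub_one_pow_two_pow (σ : Module.End (ZMod 2) W) (b : ℕ) :
    (σ - 1) ^ (2 ^ b) = σ ^ (2 ^ b) - 1 := by
  have h : ((X - 1 : (ZMod 2)[X])) ^ (2 ^ b) = X ^ (2 ^ b) - 1 := by
    rw [sub_pow_char_pow, one_pow]
  have := congrArg (fun f : (ZMod 2)[X] => aeval σ f) h
  simpa using this

/-- Eigenvalue lemma. -/
theorem le_finrank_of_semiconj [Nontrivial W] (p : ℕ) [Fact p.Prime]
    (y τ τ' : Module.End (ZMod 2) W) (u n : ℕ)
    (hy : y ^ p = 1) (hfix : ∀ w, y w = w → w = 0)
    (hτ : τ * y = y ^ u * τ) (h1 : τ * τ' = 1) (h2 : τ' * τ = 1)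
    (hn : ∀ k, (u : ZMod p) ^ k = 1 → n ∣ k) :
    n ≤ Module.finrank (ZMod 2) W := by
  classical
  have hp : p.Prime := Fact.out
  -- u is a unit mod p
  have hu0 : (u : ZMod p) ≠ 0 := by
    intro h0
    have hd : p ∣ u := (ZMod.natCast_eq_zero_iff u p).mp h0
    obtain ⟨c, rfl⟩ := hd
    have hy1 : y ^ (p * c) = 1 := by rw [pow_mul, hy, one_pow]
    rw [hy1, one_mul] at hτ
    have hy2 : y = 1 := by
      calc y = (τ' * τ) * y := by rw [h2, one_mul]
        _ = τ' * (τ * y) := by rw [mul_assoc]
        _ = 1 := by rw [hτ, h2]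
    obtain ⟨w, hw⟩ := exists_ne (0 : W)
    exact hw (hfix w (by rw [hy2]; rfl))
  set f := minpoly (ZMod 2) y with hf
  have hint : IsIntegral (ZMod 2) y := Algebra.IsIntegral.isIntegral y
  have hdeg : 0 < f.natDegree := minpoly.natDegree_pos hint
  let L := AlgebraicClosure (ZMod 2)
  obtain ⟨l, hl⟩ := IsAlgClosed.exists_aeval_eq_zero L f
    (by rw [Polynomial.degree_eq_natDegree (minpoly.ne_zero hint)]; exact_mod_cast hdeg.ne')
  -- l^p = 1
  have hdvdp : f ∣ (X ^ p - 1 : (ZMod 2)[X]) := by
    apply minpoly.dvd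
    simp [hy]
  have hlp : l ^ p = 1 := by
    obtain ⟨g, hg⟩ := hdvdp
    have := congrArg (fun h : (ZMod 2)[X] => aeval l h) hg
    simp only [map_sub, map_pow, aeval_X, map_one, map_mul, hl, zero_mul] at this
    exact sub_eq_zero.mp this
  have hl1 : l ≠ 1 := by
    rintro rfl
    have hroot : f.IsRoot 1 := by
      have : aeval (1 : L) f = algebraMap (ZMod 2) L (f.eval 1) := by
        rw [Polynomial.aeval_def, Polynomial.eval₂_at_one]
      rw [this] at hl
      have h0 : f.eval 1 = 0 := by
        apply (algebraMap (ZMod 2) L).injective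
        rw [hl, map_zero]
      exact h0
    have hev : Module.End.HasEigenvalue y (1 : ZMod 2) :=
      Module.End.hasEigenvalue_of_isRoot hroot
    obtain ⟨w, hw⟩ := hev.exists_hasEigenvector
    have : y w = w := by
      have := hw.apply_eq_smul
      simpa using this
    exact hw.2 (hfix w this)
  have hord : orderOf l = p := orderOf_eq_prime hlp hl1
  -- conjugation
  have hsemi : SemiconjBy τ y (y ^ u) := hτ
  have hcomp : ∀ g : (ZMod 2)[X], aeval (y ^ u) g * τ = τ * aeval y g := by
    intro g
    induction g using Polynomial.induction_on' with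
    | add a b ha hb => simp only [map_add, add_mul, mul_add, ha, hb]
    | monomial k a =>
      rw [Polynomial.aeval_monomial, Polynomial.aeval_monomial]
      have hs : SemiconjBy τ (y ^ k) ((y ^ u) ^ k) := hsemi.pow_right k
      have hc : Commute (algebraMap (ZMod 2) (Module.End (ZMod 2) W) a) τ := Algebra.commutes _ _
      calc algebraMap (ZMod 2) (Module.End (ZMod 2) W) a * (y ^ u) ^ k * τ
          = algebraMap (ZMod 2) (Module.End (ZMod 2) W) a * ((y ^ u) ^ k * τ) := by rw [mul_assoc]
        _ = algebraMap (ZMod 2) (Module.End (ZMod 2) W) a * (τ * y ^ k) := by rw [hs.eq]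
        _ = (algebraMap (ZMod 2) (Module.End (ZMod 2) W) a * τ) * y ^ k := by rw [mul_assoc]
        _ = τ * (algebraMap (ZMod 2) (Module.End (ZMod 2) W) a * y ^ k) := by
          rw [hc.eq, mul_assoc]
  have hann : aeval (y ^ u) f = 0 := by
    have := hcomp f
    rw [minpoly.aeval, mul_zero] at this
    calc aeval (y ^ u) f = aeval (y ^ u) f * (τ * τ') := by rw [h1, mul_one]
      _ = (aeval (y ^ u) f * τ) * τ' := by rw [mul_assoc]
      _ = 0 := by rw [this, zero_mul]
  have hdvdexp : f ∣ Polynomial.expand (ZMod 2) u f := by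
    apply minpoly.dvd
    rw [Polynomial.expand_aeval]
    exact hann
  have hrootpow : ∀ m : L, aeval m f = 0 → aeval (m ^ u) f = 0 := by
    intro m hm
    obtain ⟨g, hg⟩ := hdvdexp
    have := congrArg (fun h : (ZMod 2)[X] => aeval m h) hg
    simp only [Polynomial.expand_aeval, map_mul, hm, zero_mul] at this
    exact this
  have hroots : ∀ i : ℕ, aeval (l ^ (u ^ i)) f = 0 := by
    intro i
    induction i with
    | zero => simpa using hl
    | succ i ih =>
      have := hrootpow _ ih
      rwa [← pow_mul, ← pow_succ] at this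
  -- injectivity
  have hinj : Set.InjOn (fun i : ℕ => l ^ (u ^ i)) (Finset.range n : Set ℕ) := by
    intro i hi j hj hij
    simp only [Finset.coe_range, Set.mem_Iio] at hi hj
    have key : ∀ a b : ℕ, a < n → b < n → a ≤ b → l ^ (u ^ a) = l ^ (u ^ b) → a = b := by
      intro a b ha hb hab he
      have hl0 : l ≠ 0 := by
        rintro rfl
        rw [zero_pow hp.ne_zero] at hlp
        exact zero_ne_one hlp
      have hm : u ^ a ≡ u ^ b [MOD p] := by
        have hcoe : orderOf (Units.mk0 l hl0) = orderOf l := by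
          rw [← orderOf_units]; rfl
        rw [← hord, ← hcoe]
        apply (pow_eq_pow_iff_modEq).mp
        apply Units.ext
        simpa using he
      have hz : (u : ZMod p) ^ a = (u : ZMod p) ^ b := by
        have := (ZMod.natCast_eq_natCast_iff _ _ p).mpr hm
        simpa using this
      obtain ⟨c, rfl⟩ := Nat.exists_eq_add_of_le hab
      have hc1 : (u : ZMod p) ^ c = 1 := by
        rw [pow_add] at hz
        have : (u : ZMod p) ^ a ≠ 0 := pow_ne_zero _ hu0
        exact mul_left_cancel₀ this (by rw [mul_one]; exact hz.symm)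
      have hdc := hn c hc1
      have hc0 : c = 0 := by
        by_contra hc
        have := Nat.le_of_dvd (Nat.pos_of_ne_zero hc) hdc
        omega
      omega
    rcases le_total i j with h | h
    · exact key i j hi hj h hij
    · exact (key j i hj hi h hij.symm).symm
  -- counting
  have hfmap : f.map (algebraMap (ZMod 2) L) ≠ 0 :=
    Polynomial.map_ne_zero (minpoly.ne_zero hint)
  have hsub : (Finset.range n).image (fun i : ℕ => l ^ (u ^ i)) ⊆
      (f.map (algebraMap (ZMod 2) L)).roots.toFinset := by
    intro x hx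
    obtain ⟨i, -, rfl⟩ := Finset.mem_image.mp hx
    rw [Multiset.mem_toFinset, Polynomial.mem_roots hfmap, Polynomial.IsRoot,
      Polynomial.eval_map_algebraMap]
    exact hroots i
  have hc1 : n ≤ (f.map (algebraMap (ZMod 2) L)).natDegree := by
    calc n = ((Finset.range n).image (fun i : ℕ => l ^ (u ^ i))).card := by
          rw [Finset.card_image_of_injOn hinj, Finset.card_range]
      _ ≤ (f.map (algebraMap (ZMod 2) L)).roots.toFinset.card := Finset.card_le_card hsub
      _ ≤ Multiset.card (f.map (algebraMap (ZMod 2) L)).roots := Multiset.toFinset_card_le _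
      _ ≤ _ := Polynomial.card_roots' _
  rw [Polynomial.natDegree_map] at hc1
  have hc2 : f.natDegree ≤ (LinearMap.charpoly y).natDegree :=
    Polynomial.natDegree_le_of_dvd (LinearMap.minpoly_dvd_charpoly y)
      (LinearMap.charpoly_monic y).ne_zero
  rw [LinearMap.charpoly_natDegree] at hc2
  omega

end LA

end Cfsg.Agent.Lib.Struct.TwoFix
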