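import Mathlib

set_option autoImplicit false

namespace Cfsg.Agent.Lib.Struct.TwoFix

open scoped commutatorElement

theorem gt_lemma {S : Type*} [Group S] [Finite S]
    (A K T S₂ Sq : Subgroup S) (p q : ℕ) [Fact p.Prime] (hq : q.Prime) (hq2 : q ≠ 2)
    (hAn : A.Normal) (hcomm : ∀ a ∈ A, ∀ b ∈ A, a * b = b * a)
    (hKA : K ≤ A) (hcard : Nat.card K * p = Nat.card A)
    (hTN : T ≤ Subgroup.normalizer (K : Set S))
    (hSqT : Sq ≤ T) (hSq : Nat.card Sq = q)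
    (hS₂ : IsPGroup 2 S₂)
    (hTcard : Nat.card T ∣ Nat.card S₂ * q)
    (hAK : ⁅A, Sq⁆ = A) :
    ∃ (τ : S) (b u : ℕ) (B : Subgroup S), τ ∈ T ∧ B ≤ T ∧
      (∀ t ∈ T, ∀ x ∈ B, t * x * t⁻¹ ∈ B) ∧
      (∀ x ∈ B, ∀ a ∈ A, (x * a * x⁻¹)⁻¹ * a ∈ K) ∧
      IsPGroup 2 B ∧
      τ ^ (q * 2 ^ b) ∈ B ∧
      (∀ a ∈ S₂, a ∈ T → ∃ j : ℕ, a * (τ ^ (q * j))⁻¹ ∈ B) ∧
      (∀ a ∈ A, (τ * a * τ⁻¹)⁻¹ * a ^ u ∈ K) ∧
      (∀ k, (u : ZMod p) ^ k = 1 → q * 2 ^ b ∣ k) := by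
  classical
  have hp : p.Prime := Fact.out
  haveI := hAn
  haveI : Fact q.Prime := ⟨hq⟩
  let Kq : Subgroup A := K.subgroupOf A
  haveI hKqn : Kq.Normal := ⟨fun n hn g => by
    have h1 : g * n * g⁻¹ = n := by
      apply Subtype.ext
      show (g : S) * n * (g : S)⁻¹ = n
      rw [hcomm g g.2 n n.2, mul_inv_cancel_right]
    rw [h1]; exact hn⟩
  have hKqcard : Nat.card Kq = Nat.card K := Nat.card_congr (Subgroup.subgroupOfEquivOfLe hKA).toEquiv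
  have hKpos : 0 < Nat.card K := Nat.card_pos
  have hQcard : Nat.card (↥A ⧸ Kq) = p := by
    have h := Subgroup.card_eq_card_quotient_mul_card_subgroup Kq
    rw [hKqcard, ← hcard, mul_comm] at h
    exact (Nat.eq_of_mul_eq_mul_right hKpos h).symm
  haveI : IsCyclic (↥A ⧸ Kq) := isCyclic_of_prime_card hQcard
  -- the conjugation homomorphism
  have hmapeq : ∀ t : ↥T, Kq.map (MulAut.conjNormal (t : S) : MulAut A).toMonoidHom = Kq := by
    intro t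
    ext x
    rw [Subgroup.mem_map_equiv, Subgroup.mem_subgroupOf, Subgroup.mem_subgroupOf,
      MulAut.conjNormal_symm_apply]
    have ht := Subgroup.mem_normalizer_iff.mp (hTN t.2) (((t : S)⁻¹ * (x : S) * (t : S)))
    rw [ht]
    have h2 : (t : S) * ((t : S)⁻¹ * (x : S) * (t : S)) * (t : S)⁻¹ = x := by group
    rw [h2]
  let aut : ↥T → MulAut (↥A ⧸ Kq) := fun t =>
    QuotientGroup.congr Kq Kq (MulAut.conjNormal (t : S) : MulAut A) (hmapeq t)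
  have haut : ∀ (t : ↥T) (a : ↥A), aut t (a : ↥A ⧸ Kq) =
      ((MulAut.conjNormal (t : S) : MulAut A) a : ↥A ⧸ Kq) := fun t a => rfl
  let ψ : ↥T →* MulAut (↥A ⧸ Kq) :=
    { toFun := aut
      map_one' := by
        apply MulEquiv.ext
        intro x
        induction x using QuotientGroup.induction_on with
        | H a =>
          rw [haut]
          simp
      map_mul' := by
        intro s t
        apply MulEquiv.ext
        intro x
        induction x using QuotientGroup.induction_on with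
        | H a =>
          rw [MulAut.mul_apply, haut, haut, haut]
          simp [map_mul] }
  have hψ : ∀ (t : ↥T) (a : ↥A), ψ t (a : ↥A ⧸ Kq) =
      ((MulAut.conjNormal (t : S) : MulAut A) a : ↥A ⧸ Kq) := fun t a => rfl
  have hψK : ∀ (t : ↥T) (a : ↥A) (c : ↥A), ψ t (a : ↥A ⧸ Kq) = (c : ↥A ⧸ Kq) →
      ((t : S) * a * (t : S)⁻¹)⁻¹ * c ∈ K := by
    intro t a c h
    rw [hψ, QuotientGroup.eq] at h
    have := Subgroup.mem_subgroupOf.mp h
    simpa [MulAut.conjNormal_apply] using this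
  -- the image is cyclic
  haveI : Finite ↥T := inferInstance
  haveI hcycU : IsCyclic (ZMod (Nat.card (↥A ⧸ Kq)))ˣ := by
    rw [hQcard]; infer_instance
  haveI hcycA : IsCyclic (MulAut (↥A ⧸ Kq)) :=
    isCyclic_of_injective (IsCyclic.mulAutMulEquiv (↥A ⧸ Kq)).toMonoidHom
      (IsCyclic.mulAutMulEquiv (↥A ⧸ Kq)).injective
  obtain ⟨g₀, hg₀⟩ := IsCyclic.exists_generator (α := ψ.range)
  obtain ⟨τ₀, hτ₀⟩ := g₀.2
  have hg₀ord : orderOf g₀ = Nat.card ψ.range := orderOf_eq_card_of_forall_mem_zpowers hg₀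
  -- cardinalities
  have hkerR : Nat.card ψ.ker * Nat.card ψ.range = Nat.card ↥T := by
    rw [← Subgroup.index_ker, Subgroup.card_mul_index]
  obtain ⟨e, he⟩ := IsPGroup.iff_card.mp hS₂
  -- an element of Sq acting nontrivially
  have hxex : ∃ x : ↥T, (x : S) ∈ Sq ∧ ψ x ≠ 1 := by
    by_contra hcon
    push_neg at hcon
    have hle : ⁅A, Sq⁆ ≤ K := by
      rw [Subgroup.commutator_le]
      intro a ha x hx
      have h1 := hcon ⟨x, hSqT hx⟩ hx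
      have h2 : ψ ⟨x, hSqT hx⟩ ((⟨a⁻¹, A.inv_mem ha⟩ : ↥A) : ↥A ⧸ Kq) =
          ((⟨a⁻¹, A.inv_mem ha⟩ : ↥A) : ↥A ⧸ Kq) := by
        rw [h1]; rfl
      have h3 := hψK _ _ _ h2
      have h4 : ⁅a, x⁆ = ((x * a⁻¹ * x⁻¹)⁻¹ * a⁻¹)⁻¹ := by
        rw [commutatorElement_def]; group
      rw [h4]
      exact K.inv_mem h3
    rw [hAK] at hle
    have h5 := Subgroup.card_le_of_le hle
    have h6 : 2 ≤ p := hp.two_le
    nlinarith
  obtain ⟨x, hxSq, hxne⟩ := hxex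
  have hxq : (x : S) ^ q = 1 := by
    have := pow_card_eq_one' (x := (⟨x, hxSq⟩ : ↥Sq))
    rw [hSq] at this
    simpa using congrArg (fun z : ↥Sq => (z : S)) this
  have hxq' : x ^ q = 1 := Subtype.ext (by simpa using hxq)
  have hqR : q ∣ Nat.card ψ.range := by
    let r : ψ.range := ⟨ψ x, x, rfl⟩
    have h1 : r ^ q = 1 := Subtype.ext (by
      show (ψ x) ^ q = 1
      rw [← map_pow, hxq', map_one])
    have h2 : r ≠ 1 := fun h => hxne (congrArg (fun z : ψ.range => (z : MulAut (↥A ⧸ Kq))) h)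
    have h3 : orderOf r = q := orderOf_eq_prime h1 h2
    rw [← h3]
    exact orderOf_dvd_natCard r
  obtain ⟨m, hm⟩ := hqR
  have hqpos : 0 < q := hq.pos
  have hker2 : Nat.card ψ.ker * m ∣ 2 ^ e := by
    have h1 : Nat.card ψ.ker * (q * m) ∣ 2 ^ e * q := by
      rw [← hm, hkerR, ← he]; exact hTcard
    have h2 : q * (Nat.card ψ.ker * m) ∣ q * 2 ^ e := by
      convert h1 using 1
      · ring
      · ring
    exact Nat.dvd_of_mul_dvd_mul_left hqpos h2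
  obtain ⟨b, -, hb⟩ := (Nat.dvd_prime_pow Nat.prime_two).mp (Dvd.dvd.trans (dvd_mul_left m _) hker2)
  have hcardR : Nat.card ψ.range = q * 2 ^ b := by rw [hm, hb]
  have hkerP : IsPGroup 2 ψ.ker := by
    have h1 : Nat.card ψ.ker ∣ 2 ^ e := Dvd.dvd.trans (dvd_mul_right _ m) hker2
    obtain ⟨c, -, hc⟩ := (Nat.dvd_prime_pow Nat.prime_two).mp h1
    exact IsPGroup.of_card hc
  -- the cyclic group
  obtain ⟨g₁, hg₁⟩ := IsCyclic.exists_generator (α := ↥A ⧸ Kq)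
  obtain ⟨u, hu⟩ : ∃ u : ℕ, ψ τ₀ g₁ = g₁ ^ u := by
    have h1 := hg₁ (ψ τ₀ g₁)
    rw [← mem_powers_iff_mem_zpowers] at h1
    obtain ⟨u, hu⟩ := h1
    exact ⟨u, hu.symm⟩
  have hσ : ∀ g : ↥A ⧸ Kq, ψ τ₀ g = g ^ u := by
    intro g
    have h1 := hg₁ g
    rw [← mem_powers_iff_mem_zpowers] at h1
    obtain ⟨i, rfl⟩ := h1
    simp only [map_pow, hu]
    rw [← pow_mul, ← pow_mul, mul_comm]
  have hσk : ∀ (k : ℕ) (g : ↥A ⧸ Kq), ((ψ τ₀) ^ k) g = g ^ (u ^ k) := by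
    intro k
    induction k with
    | zero => intro g; simp
    | succ k ih =>
      intro g
      rw [pow_succ, MulAut.mul_apply, ih, hσ, ← pow_mul, pow_succ, mul_comm (u ^ k) u]
  refine ⟨(τ₀ : S), b, u, ψ.ker.map T.subtype, τ₀.2, ?_, ?_, ?_, ?_, ?_, ?_, ?_, ?_⟩
  · rintro _ ⟨y, -, rfl⟩
    exact y.2
  · rintro t ht _ ⟨y, hy, rfl⟩
    refine ⟨⟨t, ht⟩ * y * ⟨t, ht⟩⁻¹, ?_, rfl⟩
    have hy' : ψ y = 1 := hy
    show ψ _ = 1
    rw [map_mul, map_mul, hy', mul_one, map_inv, mul_inv_cancel]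
  · rintro _ ⟨y, hy, rfl⟩ a ha
    have hy' : ψ y = 1 := hy
    have h2 : ψ y ((⟨a, ha⟩ : ↥A) : ↥A ⧸ Kq) = ((⟨a, ha⟩ : ↥A) : ↥A ⧸ Kq) := by
      rw [hy']; rfl
    exact hψK _ _ _ h2
  · exact hkerP.map T.subtype
  · refine ⟨τ₀ ^ (q * 2 ^ b), ?_, by simp⟩
    show ψ _ = 1
    rw [map_pow, ← hcardR]
    have h1 : (g₀ : MulAut (↥A ⧸ Kq)) ^ Nat.card ψ.range = 1 := by
      have := pow_card_eq_one' (x := g₀)
      simpa using congrArg (fun z : ψ.range => (z : MulAut (↥A ⧸ Kq))) this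
    rw [hτ₀]; exact h1
  · intro a ha haT
    have hae : a ^ (2 ^ e) = 1 := by
      have := pow_card_eq_one' (x := (⟨a, ha⟩ : ↥S₂))
      rw [he] at this
      simpa using congrArg (fun z : ↥S₂ => (z : S)) this
    have hae' : (⟨a, haT⟩ : ↥T) ^ (2 ^ e) = 1 := Subtype.ext (by simpa using hae)
    let r : ψ.range := ⟨ψ ⟨a, haT⟩, _, rfl⟩
    have h1 := hg₀ r
    rw [← mem_powers_iff_mem_zpowers] at h1
    obtain ⟨i, hi⟩ := h1
    have hr2 : r ^ (2 ^ e) = 1 := Subtype.ext (by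
      show (ψ ⟨a, haT⟩) ^ (2 ^ e) = 1
      rw [← map_pow, hae', map_one])
    have h2 : g₀ ^ (i * 2 ^ e) = 1 := by
      rw [pow_mul]
      show (fun x => g₀ ^ x) i ^ 2 ^ e = 1
      rw [hi, hr2]
    have h3 : q * 2 ^ b ∣ i * 2 ^ e := by
      rw [← hcardR, ← hg₀ord]
      exact orderOf_dvd_of_pow_eq_one h2
    have h4 : q ∣ i * 2 ^ e := Dvd.dvd.trans (dvd_mul_right _ _) h3
    have h5 : q ∣ i := by
      rcases (Nat.Prime.dvd_mul hq).mp h4 with h | h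
      · exact h
      · exact absurd ((Nat.prime_dvd_prime_iff_eq hq Nat.prime_two).mp
          (hq.dvd_of_dvd_pow h)) hq2
    obtain ⟨j, rfl⟩ := h5
    refine ⟨j, ⟨a, haT⟩ * (τ₀ ^ (q * j))⁻¹, ?_, by simp⟩
    show ψ _ = 1
    have h6 : ψ ⟨a, haT⟩ = ψ (τ₀ ^ (q * j)) := by
      rw [map_pow, hτ₀]
      have : ((g₀ ^ (q * j) : ψ.range) : MulAut (↥A ⧸ Kq)) = (r : MulAut (↥A ⧸ Kq)) :=
        congrArg (fun z : ψ.range => (z : MulAut (↥A ⧸ Kq))) hi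
      simpa [r] using this.symm
    rw [map_mul, map_inv, h6, mul_inv_cancel]
  · intro a ha
    have h1 : ψ τ₀ ((⟨a, ha⟩ : ↥A) : ↥A ⧸ Kq) = ((⟨a, ha⟩ ^ u : ↥A) : ↥A ⧸ Kq) := by
      rw [hσ]; rfl
    have := hψK _ _ _ h1
    simpa using this
  · intro k hk
    rw [← hcardR, ← hg₀ord, ← Subgroup.orderOf_coe, hτ₀.symm]
    apply orderOf_dvd_of_pow_eq_one
    apply MulEquiv.ext
    intro g
    rw [hσk]
    have hm : u ^ k ≡ 1 [MOD p] := (ZMod.natCast_eq_natCast_iff _ _ p).mp (by push_cast; exact hk)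
    have hdv : orderOf g ∣ p := by
      rw [← hQcard]; exact orderOf_dvd_natCard g
    have h2 : g ^ (u ^ k) = g ^ 1 := (pow_eq_pow_iff_modEq).mpr (hm.of_dvd hdv)
    rw [h2, pow_one]; rfl

end Cfsg.Agent.Lib.Struct.TwoFix
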