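import Mathlib

set_option autoImplicit false

namespace Cfsg.Agent.Lib.Struct.TwoFix

open Classical

section Pr

variable {S : Type*} [Group S] [Fintype S] {E : Type*} [AddCommGroup E] [Module (ZMod 2) E]
  (ρ : Representation (ZMod 2) S E)

theorem rho_mul (x y : S) (v : E) : ρ (x * y) v = ρ x (ρ y v) := by
  rw [map_mul]; rfl

theorem rho_one (v : E) : ρ 1 v = v := by
  rw [map_one]; rfl

theorem rho_cancel (g : S) (v : E) : ρ g (ρ g⁻¹ v) = v := by
  rw [← rho_mul, mul_inv_cancel, rho_one]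

theorem rho_cancel' (g : S) (v : E) : ρ g⁻¹ (ρ g v) = v := by
  rw [← rho_mul, inv_mul_cancel, rho_one]

theorem add_self0 (w : E) : w + w = 0 := by
  rw [← two_smul (ZMod 2) w]
  have : (2 : ZMod 2) = 0 := by decide
  rw [this, zero_smul]

theorem eq_of_add_eq_zero' {a b : E} (h : a + b = 0) : a = b := by
  have h2 := add_self0 b
  exact add_right_cancel (h.trans h2.symm)

theorem odd_nsmul (n : ℕ) (hn : Odd n) (w : E) : n • w = w := by
  obtain ⟨m, rfl⟩ := hn
  rw [add_smul, mul_smul, two_nsmul, add_self0, one_smul, zero_add]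

noncomputable def pr (K : Subgroup S) : E →ₗ[ZMod 2] E :=
  ∑ x : S, if x ∈ K then ρ x else 0

theorem pr_apply (K : Subgroup S) (v : E) :
    pr ρ K v = ∑ x : S, if x ∈ K then ρ x v else 0 := by
  unfold pr
  rw [LinearMap.sum_apply]
  apply Finset.sum_congr rfl
  intro x _
  split_ifs <;> rfl

def cj (g : S) (K : Subgroup S) : Subgroup S := K.map (MulAut.conj g).toMonoidHom

theorem mem_cj {g x : S} {K : Subgroup S} : x ∈ cj g K ↔ g⁻¹ * x * g ∈ K := by
  unfold cj
  rw [Subgroup.mem_map_equiv, MulAut.conj_symm_apply]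

theorem cj_one (K : Subgroup S) : cj (1 : S) K = K := by
  ext x; simp [mem_cj]

theorem cj_mul (g h : S) (K : Subgroup S) : cj (g * h) K = cj g (cj h K) := by
  ext x
  rw [mem_cj, mem_cj, mem_cj]
  have : (g * h)⁻¹ * x * (g * h) = h⁻¹ * (g⁻¹ * x * g) * h := by group
  rw [this]

theorem cj_inv_cj (g : S) (K : Subgroup S) : cj g⁻¹ (cj g K) = K := by
  rw [← cj_mul, inv_mul_cancel, cj_one]

theorem cj_cj_inv (g : S) (K : Subgroup S) : cj g (cj g⁻¹ K) = K := by
  rw [← cj_mul, mul_inv_cancel, cj_one]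

theorem card_cj (g : S) (K : Subgroup S) : Nat.card (cj g K) = Nat.card K :=
  Nat.card_congr ((MulAut.conj g).subgroupMap K).toEquiv.symm

theorem pr_cj (g : S) (K : Subgroup S) (v : E) :
    pr ρ (cj g K) v = ρ g (pr ρ K (ρ g⁻¹ v)) := by
  rw [pr_apply, pr_apply, map_sum]
  rw [← Equiv.sum_comp (MulAut.conj g).toEquiv]
  apply Finset.sum_congr rfl
  intro z _
  have hz : (MulAut.conj g).toEquiv z = g * z * g⁻¹ := rfl
  rw [hz]
  by_cases h : z ∈ K
  · have h' : g * z * g⁻¹ ∈ cj g K := by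
      rw [mem_cj]
      have : g⁻¹ * (g * z * g⁻¹) * g = z := by group
      rwa [this]
    rw [if_pos h', if_pos h, rho_mul, rho_mul]
  · have h' : g * z * g⁻¹ ∉ cj g K := by
      rw [mem_cj]
      have : g⁻¹ * (g * z * g⁻¹) * g = z := by group
      rwa [this]
    rw [if_neg h', if_neg h, map_zero]

theorem pr_rho (g : S) (K : Subgroup S) (v : E) :
    pr ρ K (ρ g v) = ρ g (pr ρ (cj g⁻¹ K) v) := by
  rw [pr_cj, inv_inv, rho_cancel]

theorem pr_fix (K : Subgroup S) {k : S} (hk : k ∈ K) (v : E) :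
    ρ k (pr ρ K v) = pr ρ K v := by
  rw [pr_apply, map_sum]
  conv_rhs => rw [← Equiv.sum_comp (Equiv.mulLeft k)]
  apply Finset.sum_congr rfl
  intro x _
  have hx : (Equiv.mulLeft k) x = k * x := rfl
  rw [hx]
  by_cases h : x ∈ K
  · rw [if_pos h, if_pos (K.mul_mem hk h), rho_mul]
  · have h' : k * x ∉ K := fun hc => h (by
      have := K.mul_mem (K.inv_mem hk) hc
      simpa using this)
    rw [if_neg h, if_neg h', map_zero]

theorem pr_self (K : Subgroup S) (hodd : Odd (Nat.card K)) {w : E}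
    (hw : ∀ k ∈ K, ρ k w = w) : pr ρ K w = w := by
  rw [pr_apply]
  have h1 : ∀ x ∈ Finset.univ, (if x ∈ K then ρ x w else 0) = if x ∈ K then w else 0 := by
    intro x _
    by_cases h : x ∈ K
    · rw [if_pos h, if_pos h, hw x h]
    · rw [if_neg h, if_neg h]
  rw [Finset.sum_congr rfl h1, Finset.sum_ite, Finset.sum_const, Finset.sum_const_zero, add_zero]
  have h2 : (Finset.univ.filter (fun x => x ∈ K)).card = Nat.card K := by
    rw [Nat.card_eq_fintype_card, Fintype.card_subtype]
  rw [h2]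
  exact odd_nsmul _ hodd w

/-- The fixed submodule. -/
def fixK (K : Subgroup S) : Submodule (ZMod 2) E where
  carrier := {w | ∀ k ∈ K, ρ k w = w}
  add_mem' := by
    intro a b ha hb k hk
    rw [map_add, ha k hk, hb k hk]
  zero_mem' := by
    intro k _
    exact map_zero _
  smul_mem' := by
    intro c a ha k hk
    rw [map_smul, ha k hk]

theorem mem_fixK {K : Subgroup S} {w : E} : w ∈ fixK ρ K ↔ ∀ k ∈ K, ρ k w = w := Iff.rfl

theorem pr_mem (K : Subgroup S) (v : E) : pr ρ K v ∈ fixK ρ K :=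
  fun _ hk => pr_fix ρ K hk v

theorem rho_mem_fix {K : Subgroup S} {g : S} (hg : g ∈ Subgroup.normalizer (K : Set S)) {w : E}
    (hw : w ∈ fixK ρ K) : ρ g w ∈ fixK ρ K := by
  intro k hk
  have h1 : g⁻¹ * k * g ∈ K := (Subgroup.mem_normalizer_iff''.mp hg k).mp hk
  have h2 : k * g = g * (g⁻¹ * k * g) := by group
  rw [← rho_mul, h2, rho_mul, hw _ h1]

/-- The hyperplanes. -/
def Hy (A : Subgroup S) (p : ℕ) (K : Subgroup S) : Prop := K ≤ A ∧ Nat.card K * p = Nat.card A

structure Setup (A : Subgroup S) (p : ℕ) : Prop where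
  pp : p.Prime
  odd : p ≠ 2
  nor : A.Normal
  comm : ∀ a ∈ A, ∀ b ∈ A, a * b = b * a
  exp : ∀ a ∈ A, a ^ p = 1
  card : Nat.card A = p ∨ Nat.card A = p ^ 2
  nofix : ∀ v : E, (∀ a ∈ A, ρ a v = v) → v = 0

variable {ρ} {A : Subgroup S} {p : ℕ}

theorem Setup.oddp (h : Setup ρ A p) : Odd p := h.pp.odd_of_ne_two h.odd

theorem Setup.oddA (h : Setup ρ A p) : Odd (Nat.card A) := by
  rcases h.card with h1 | h1 <;> rw [h1]
  · exact h.oddp
  · exact h.oddp.pow

theorem Setup.oddK (h : Setup ρ A p) {K : Subgroup S} (hK : Hy A p K) : Odd (Nat.card K) :=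
  Odd.of_dvd_nat h.oddA ⟨p, hK.2.symm⟩

theorem Setup.cj_self (h : Setup ρ A p) {K : Subgroup S} (hK : K ≤ A) {g : S} (hg : g ∈ A) :
    cj g K = K := by
  ext x
  rw [mem_cj]
  constructor
  · intro hx
    have hxA : x ∈ A := by
      have h1 := hK hx
      have h2 := A.mul_mem (A.mul_mem hg h1) (A.inv_mem hg)
      have h3 : g * (g⁻¹ * x * g) * g⁻¹ = x := by group
      rwa [h3] at h2
    have h4 : g⁻¹ * x * g = x := by
      rw [mul_assoc, h.comm x hxA g hg, inv_mul_cancel_left]
    rwa [h4] at hx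
  · intro hx
    have h4 : g⁻¹ * x * g = x := by
      rw [mul_assoc, h.comm x (hK hx) g hg, inv_mul_cancel_left]
    rwa [h4]

theorem Setup.mem_norm (h : Setup ρ A p) {K : Subgroup S} (hK : K ≤ A) {g : S} (hg : g ∈ A) :
    g ∈ Subgroup.normalizer (K : Set S) := by
  rw [Subgroup.mem_normalizer_iff'']
  intro x
  have := h.cj_self hK hg
  rw [← mem_cj, this]

theorem Setup.hy_cj (h : Setup ρ A p) {K : Subgroup S} (hK : Hy A p K) (g : S) :
    Hy A p (cj g K) := by
  refine ⟨?_, by rw [card_cj]; exact hK.2⟩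
  intro x hx
  rw [mem_cj] at hx
  have h1 := hK.1 hx
  have h2 := h.nor.conj_mem _ h1 g
  have h3 : g * (g⁻¹ * x * g) * g⁻¹ = x := by group
  rwa [h3] at h2

theorem hy_sup (hp : p.Prime) {K L : Subgroup S} (hK : Hy A p K) (h1 : K ≤ L) (h2 : L ≤ A)
    (h3 : L ≠ K) : L = A := by
  have hd1 : Nat.card K ∣ Nat.card L := Subgroup.card_dvd_of_le h1
  have hd2 : Nat.card L ∣ Nat.card A := Subgroup.card_dvd_of_le h2
  obtain ⟨d, hd⟩ := hd1
  have hKpos : 0 < Nat.card K := Nat.card_pos
  have hd3 : d ∣ p := by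
    rw [hd, ← hK.2] at hd2
    exact Nat.dvd_of_mul_dvd_mul_left hKpos hd2
  rcases (Nat.dvd_prime hp).mp hd3 with rfl | rfl
  · exfalso
    apply h3
    symm
    apply Subgroup.eq_of_le_of_card_ge h1
    rw [hd, mul_one]
  · apply Subgroup.eq_of_le_of_card_ge h2
    rw [hd, hK.2]

theorem Setup.orth (h : Setup ρ A p) {K K' : Subgroup S} (hK : Hy A p K) (hK' : Hy A p K')
    (hne : K' ≠ K) (v : E) : pr ρ K' (pr ρ K v) = 0 := by
  apply h.nofix
  have hsup : K ⊔ K' = A := by
    apply hy_sup h.pp hK le_sup_left (sup_le hK.1 hK'.1)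
    intro heq
    have hle : K' ≤ K := by rw [← heq]; exact le_sup_right
    apply hne
    apply Subgroup.eq_of_le_of_card_ge hle
    have h1 : Nat.card K * p = Nat.card K' * p := hK.2.trans hK'.2.symm
    exact (Nat.eq_of_mul_eq_mul_right h.pp.pos h1).le
  set z := pr ρ K' (pr ρ K v) with hz
  let st : Subgroup S :=
    { carrier := {g | ρ g z = z}
      mul_mem' := by
        intro a b ha hb
        show ρ (a * b) z = z
        rw [rho_mul, hb, ha]
      one_mem' := rho_one ρ z
      inv_mem' := by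
        intro a ha
        show ρ a⁻¹ z = z
        conv_lhs => rw [← ha]
        rw [rho_cancel'] }
  have h1 : K' ≤ st := fun k hk => pr_fix ρ K' hk _
  have h2 : K ≤ st := by
    intro k hk
    show ρ k z = z
    have h3 := pr_cj ρ k K' (ρ k (pr ρ K v))
    rw [h.cj_self hK'.1 (hK.1 hk), rho_cancel'] at h3
    rw [hz, ← h3, pr_fix ρ K hk]
  have h3 : A ≤ st := by rw [← hsup]; exact sup_le h2 h1
  exact fun a ha => h3 ha

/-- finset of hyperplanes -/
noncomputable def hyS (A : Subgroup S) (p : ℕ) : Finset (Subgroup S) :=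
  (Set.toFinite {K : Subgroup S | Hy A p K}).toFinset

theorem mem_hyS {K : Subgroup S} : K ∈ hyS A p ↔ Hy A p K := by
  simp [hyS]

theorem Setup.sum_swap (h : Setup ρ A p) (hsq : Nat.card A = p ^ 2) {M : Type*}
    [AddCommMonoid M] (f : S → M) :
    ∑ K ∈ hyS A p, ∑ x : S, (if x ∈ K then f x else 0) =
      (hyS A p).card • f 1 + ∑ x : S, (if x ∈ A ∧ x ≠ 1 then f x else 0) := by
  rw [Finset.sum_comm]
  have key : ∀ x : S, ∑ K ∈ hyS A p, (if x ∈ K then f x else 0) =
      (if x = 1 then (hyS A p).card • f 1 else 0) + (if x ∈ A ∧ x ≠ 1 then f x else 0) := by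
    intro x
    by_cases hx1 : x = 1
    · subst hx1
      simp only [Subgroup.one_mem, if_true, ne_eq, not_true_eq_false, and_false, if_false,
        add_zero, Finset.sum_const]
    · rw [if_neg hx1, zero_add]
      by_cases hxA : x ∈ A
      · rw [if_pos ⟨hxA, hx1⟩]
        have hord : orderOf x = p := by
          haveI : Fact p.Prime := ⟨h.pp⟩
          exact orderOf_eq_prime (h.exp x hxA) hx1
        have hZ : Hy A p (Subgroup.zpowers x) := by
          refine ⟨Subgroup.zpowers_le.mpr hxA, ?_⟩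
          rw [Nat.card_zpowers, hord, hsq, sq]
        rw [Finset.sum_eq_single (Subgroup.zpowers x)]
        · rw [if_pos (Subgroup.mem_zpowers x)]
        · intro K hK hne
          rw [if_neg]
          intro hxK
          apply hne
          have hKc := (mem_hyS.mp hK).2
          rw [hsq, sq] at hKc
          have hKp : Nat.card K = p := Nat.eq_of_mul_eq_mul_right h.pp.pos hKc
          symm
          apply Subgroup.eq_of_le_of_card_ge (Subgroup.zpowers_le.mpr hxK)
          rw [Nat.card_zpowers, hord, hKp]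
        · intro hc
          exact absurd (mem_hyS.mpr hZ) hc
      · rw [if_neg (fun hc => hxA hc.1)]
        apply Finset.sum_eq_zero
        intro K hK
        rw [if_neg]
        exact fun hc => hxA ((mem_hyS.mp hK).1 hc)
  rw [Finset.sum_congr rfl (fun x _ => key x), Finset.sum_add_distrib]
  congr 1
  rw [Finset.sum_ite_eq']
  simp

theorem Setup.card_hyS (h : Setup ρ A p) (hsq : Nat.card A = p ^ 2) :
    (hyS A p).card = p + 1 := by
  have h1 := h.sum_swap hsq (fun _ => (1 : ℕ))
  have h2 : ∀ K ∈ hyS A p, ∑ x : S, (if x ∈ K then (1 : ℕ) else 0) = p := by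
    intro K hK
    have hKc := (mem_hyS.mp hK).2
    rw [hsq, sq] at hKc
    have hKp : Nat.card K = p := Nat.eq_of_mul_eq_mul_right h.pp.pos hKc
    have : (Finset.univ.filter (fun x => x ∈ K)).card = Nat.card K := by
      rw [Nat.card_eq_fintype_card, Fintype.card_subtype]
    rw [← Finset.card_filter, this, hKp]
  rw [Finset.sum_congr rfl h2, Finset.sum_const, ← Finset.card_filter] at h1
  have h3 : (Finset.univ.filter (fun x => x ∈ A ∧ x ≠ 1)).card + 1 = p ^ 2 := by
    rw [← hsq, Nat.card_eq_fintype_card, Fintype.card_subtype]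
    have : Finset.univ.filter (fun x => x ∈ A) =
        insert (1 : S) (Finset.univ.filter (fun x => x ∈ A ∧ x ≠ 1)) := by
      ext x
      simp only [Finset.mem_filter, Finset.mem_univ, true_and, Finset.mem_insert]
      constructor
      · intro hx
        by_cases hx1 : x = 1
        · exact Or.inl hx1
        · exact Or.inr ⟨hx, hx1⟩
      · rintro (rfl | hx)
        · exact A.one_mem
        · exact hx.1
    rw [this, Finset.card_insert_of_notMem]
    simp
  set c := (hyS A p).card with hc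
  simp only [smul_eq_mul, mul_one, Nat.cast_id] at h1
  -- c * p = c + (p^2 - 1)
  have hp2 : 2 ≤ p := h.pp.two_le
  obtain ⟨r, rfl⟩ : ∃ r, p = r + 2 := ⟨p - 2, by omega⟩
  have h4 : c * (r + 1) = (r + 3) * (r + 1) := by
    nlinarith
  exact Nat.eq_of_mul_eq_mul_right (by omega) h4

theorem Setup.sum_pr (h : Setup ρ A p) (v : E) : ∑ K ∈ hyS A p, pr ρ K v = v := by
  rcases h.card with h1 | h1
  · -- order p: only the trivial hyperplane
    have hs : hyS A p = {⊥} := by
      ext K
      rw [mem_hyS, Finset.mem_singleton]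
      constructor
      · rintro ⟨-, h2⟩
        rw [h1] at h2
        have h3 : Nat.card K = 1 := by
          have := h.pp.pos
          nlinarith [Nat.eq_of_mul_eq_mul_right this (h2.trans (one_mul p).symm)]
        exact Subgroup.card_eq_one.mp h3
      · rintro rfl
        refine ⟨bot_le, ?_⟩
        rw [h1]; simp
    rw [hs, Finset.sum_singleton, pr_apply]
    simp only [Subgroup.mem_bot]
    rw [Finset.sum_ite_eq']
    simp [rho_one]
  · have h2 := h.sum_swap h1 (fun x => ρ x v)
    have h3 : ∑ K ∈ hyS A p, pr ρ K v =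
        ∑ K ∈ hyS A p, ∑ x : S, (if x ∈ K then ρ x v else 0) :=
      Finset.sum_congr rfl (fun K _ => pr_apply ρ K v)
    rw [h3, h2, rho_one, h.card_hyS h1]
    -- the sum over A vanishes
    have h4 : pr ρ A v = 0 := h.nofix _ (fun a ha => pr_fix ρ A ha v)
    rw [pr_apply] at h4
    have h5 : ∑ x : S, (if x ∈ A then ρ x v else 0) =
        v + ∑ x : S, (if x ∈ A ∧ x ≠ 1 then ρ x v else 0) := by
      have h6 : ∀ x : S, (if x ∈ A then ρ x v else 0) =
          (if x = 1 then v else 0) + (if x ∈ A ∧ x ≠ 1 then ρ x v else 0) := by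
        intro x
        by_cases hx1 : x = 1
        · subst hx1
          simp [rho_one, A.one_mem]
        · by_cases hxA : x ∈ A
          · simp [hx1, hxA]
          · simp [hx1, hxA]
      rw [Finset.sum_congr rfl (fun x _ => h6 x), Finset.sum_add_distrib, Finset.sum_ite_eq']
      simp
    rw [h5] at h4
    have h7 := eq_of_add_eq_zero' h4
    rw [← h7]
    have h8 : (p + 1) • v + v = (p + 1 + 1) • v := by rw [add_smul (p + 1) 1 v, one_smul]
    rw [h8]
    exact odd_nsmul _ (by
      obtain ⟨k, hk⟩ := h.oddp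
      exact ⟨k + 1, by omega⟩) v

theorem Setup.exists_pr_ne (h : Setup ρ A p) {v : E} (hv : v ≠ 0) :
    ∃ K ∈ hyS A p, pr ρ K v ≠ 0 := by
  by_contra hc
  push_neg at hc
  apply hv
  rw [← h.sum_pr v]
  exact Finset.sum_eq_zero hc

end Pr

/-- fixed vector of a 2-group -/
theorem exists_fixed {S : Type*} [Group S] [Finite S] {E : Type*} [AddCommGroup E]
    [Module (ZMod 2) E] [Finite E] (ρ : Representation (ZMod 2) S E)
    (G : Subgroup S) (hG : IsPGroup 2 G) (U : Submodule (ZMod 2) E)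
    (hU : ∀ g ∈ G, ∀ u ∈ U, ρ g u ∈ U) (hne : U ≠ ⊥) :
    ∃ t ∈ U, t ≠ 0 ∧ ∀ g ∈ G, ρ g t = t := by
  haveI : Fact (Nat.Prime 2) := ⟨Nat.prime_two⟩
  letI : MulAction ↥G ↥U :=
    { smul := fun g u => ⟨ρ g u, hU g g.2 u u.2⟩
      one_smul := fun u => Subtype.ext (by
        show ρ ((1 : ↥G) : S) u = u
        simp)
      mul_smul := fun a b u => Subtype.ext (by
        show ρ ((a * b : ↥G) : S) u = ρ a (ρ b u)
        simp) }
  obtain ⟨u, huU, hu0⟩ := Submodule.exists_mem_ne_zero_of_ne_bot hne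
  have h2 : 2 ∣ Nat.card ↥U := by
    have h3 : addOrderOf (⟨u, huU⟩ : ↥U) = 2 := by
      apply addOrderOf_eq_prime
      · apply Subtype.ext
        show (2 : ℕ) • u = 0
        rw [two_nsmul]
        exact add_self0 u
      · intro hc
        exact hu0 (congrArg Subtype.val hc)
    have h4 := addOrderOf_dvd_natCard (⟨u, huU⟩ : ↥U)
    rwa [h3] at h4
  have hfix0 : (0 : ↥U) ∈ MulAction.fixedPoints ↥G ↥U := by
    intro g
    apply Subtype.ext
    show ρ g 0 = 0
    exact map_zero _
  obtain ⟨t, ht, hne0⟩ := hG.exists_fixed_point_of_prime_dvd_card_of_fixed_point ↥U h2 hfix0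
  refine ⟨t.1, t.2, fun hc => hne0 (Subtype.ext hc.symm), fun g hg => ?_⟩
  have := ht ⟨g, hg⟩
  exact congrArg Subtype.val this

end Cfsg.Agent.Lib.Struct.TwoFix
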