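import Cfsg.Agent.Lib.Struct.TwoFixA
import Cfsg.Agent.Lib.Struct.TwoFixB
import Cfsg.Agent.Lib.Struct.TwoFixC

set_option autoImplicit false

namespace Cfsg.Agent.Lib.Struct.TwoFix

open Classical

section A

variable {S : Type*} [Group S] [Fintype S] {E : Type*} [AddCommGroup E] [Module (ZMod 2) E]
  {ρ : Representation (ZMod 2) S E} {A : Subgroup S} {p : ℕ}

theorem norm_of_cj {g : S} {K : Subgroup S} (h : cj g⁻¹ K = K) :
    g ∈ Subgroup.normalizer (K : Set S) := by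
  rw [Subgroup.mem_normalizer_iff]
  intro x
  have h1 : x ∈ cj g⁻¹ K ↔ g * x * g⁻¹ ∈ K := by
    rw [mem_cj, inv_inv]
  rw [← h1, h]

theorem cj_of_norm {g : S} {K : Subgroup S} (h : g ∈ Subgroup.normalizer (K : Set S)) :
    cj g K = K := by
  ext x
  rw [mem_cj]
  exact ((Subgroup.mem_normalizer_iff''.mp h) x).symm

/-- stabiliser of a vector -/
def stV (ρ : Representation (ZMod 2) S E) (z : E) : Subgroup S where
  carrier := {g | ρ g z = z}
  mul_mem' := by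
    intro a b ha hb
    show ρ (a * b) z = z
    rw [rho_mul, hb, ha]
  one_mem' := rho_one ρ z
  inv_mem' := by
    intro a ha
    show ρ a⁻¹ z = z
    conv_lhs => rw [← ha]
    rw [rho_cancel']

theorem mem_stV {z : E} {g : S} : g ∈ stV ρ z ↔ ρ g z = z := Iff.rfl

/-- trace lemma -/
theorem Setup.trace (h : Setup ρ A p) {K : Subgroup S} (hK : Hy A p K) (S₂ : Subgroup S) {w : E}
    (hw : w ∈ fixK ρ K)
    (hfix : ∀ a ∈ S₂, a ∈ Subgroup.normalizer (K : Set S) → ρ a w = w) :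
    ∃ t : E, (∀ s ∈ S₂, ρ s t = t) ∧ pr ρ K t = w := by
  let N' : Subgroup ↥S₂ := (Subgroup.normalizer (K : Set S)).subgroupOf S₂
  haveI : Fintype (↥S₂ ⧸ N') := Fintype.ofFinite _
  have hpw : pr ρ K w = w := pr_self ρ K (h.oddK hK) hw
  have hout : ∀ (g : ↥S₂) (n : ↥N'), ρ ((g * (n : ↥S₂) : ↥S₂) : S) w = ρ (g : S) w := by
    intro g n
    show ρ ((g : S) * ((n : ↥S₂) : S)) w = _
    rw [rho_mul, hfix _ (n : ↥S₂).2 (Subgroup.mem_subgroupOf.mp n.2)]
  refine ⟨∑ c : ↥S₂ ⧸ N', ρ ((c.out : ↥S₂) : S) w, ?_, ?_⟩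
  · intro s hs
    rw [map_sum]
    conv_rhs => rw [← Equiv.sum_comp (MulAction.toPerm (⟨s, hs⟩ : ↥S₂))]
    apply Finset.sum_congr rfl
    intro c _
    have h1 : (MulAction.toPerm (⟨s, hs⟩ : ↥S₂)) c =
        (((⟨s, hs⟩ : ↥S₂) * c.out : ↥S₂) : ↥S₂ ⧸ N') := by
      conv_lhs => rw [← QuotientGroup.out_eq' c]
      rfl
    rw [h1]
    obtain ⟨n, hn⟩ := QuotientGroup.mk_out_eq_mul N' ((⟨s, hs⟩ : ↥S₂) * c.out : ↥S₂)
    rw [hn, hout]
    show _ = ρ (s * ((c.out : ↥S₂) : S)) w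
    rw [rho_mul]
  · rw [map_sum, Finset.sum_eq_single ((1 : ↥S₂) : ↥S₂ ⧸ N')]
    · obtain ⟨n, hn⟩ := QuotientGroup.mk_out_eq_mul N' (1 : ↥S₂)
      rw [hn]
      have h2 := hout 1 n
      rw [h2]
      show pr ρ K (ρ 1 w) = w
      rw [rho_one, hpw]
    · intro c _ hc
      have hg : ((c.out : ↥S₂) : S) ∉ Subgroup.normalizer (K : Set S) := by
        intro hmem
        apply hc
        rw [← QuotientGroup.out_eq' c]
        have h3 : c.out ∈ N' := Subgroup.mem_subgroupOf.mpr hmem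
        exact QuotientGroup.eq.mpr (by simpa using N'.inv_mem h3)
      rw [pr_rho]
      have hne : cj ((c.out : ↥S₂) : S)⁻¹ K ≠ K := fun hc' => hg (norm_of_cj hc')
      rw [← hpw, h.orth hK (h.hy_cj hK _) hne, map_zero]
    · intro hc
      exact absurd (Finset.mem_univ _) hc

variable [Finite E]

theorem Setup.triv (h : Setup ρ A p) {K : Subgroup S} (hK : Hy A p K) (hv : ∃ v, pr ρ K v ≠ 0)
    (H B : Subgroup S) (hgen : H ⊔ A = ⊤)
    (hBT : B ≤ H ⊓ Subgroup.normalizer (K : Set S))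
    (hBn : ∀ t ∈ H ⊓ Subgroup.normalizer (K : Set S), ∀ x ∈ B, t * x * t⁻¹ ∈ B)
    (hBK : ∀ x ∈ B, ∀ a ∈ A, (x * a * x⁻¹)⁻¹ * a ∈ K) (hBP : IsPGroup 2 B)
    (hirr : ∀ N : Submodule (ZMod 2) E, (∀ s : S, ∀ m ∈ N, ρ s m ∈ N) → N = ⊥ ∨ N = ⊤) :
    ∀ x ∈ B, ∀ w ∈ fixK ρ K, ρ x w = w := by
  haveI := h.nor
  let W' : Submodule (ZMod 2) E :=
    { carrier := {w | w ∈ fixK ρ K ∧ ∀ β ∈ B, ρ β w = w}
      add_mem' := by
        rintro a b ⟨ha, ha'⟩ ⟨hb, hb'⟩
        refine ⟨Submodule.add_mem _ ha hb, fun β hβ => ?_⟩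
        rw [map_add, ha' β hβ, hb' β hβ]
      zero_mem' := ⟨Submodule.zero_mem _, fun β _ => map_zero _⟩
      smul_mem' := by
        rintro c a ⟨ha, ha'⟩
        refine ⟨Submodule.smul_mem _ c ha, fun β hβ => ?_⟩
        rw [map_smul, ha' β hβ] }
  have hmemW' : ∀ {w}, w ∈ W' ↔ (w ∈ fixK ρ K ∧ ∀ β ∈ B, ρ β w = w) := Iff.rfl
  -- stable under T
  have hstT : ∀ t ∈ H ⊓ Subgroup.normalizer (K : Set S), ∀ w ∈ W', ρ t w ∈ W' := by
    intro t ht w hw
    refine ⟨rho_mem_fix ρ ht.2 hw.1, fun β hβ => ?_⟩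
    have h1 := hBn t⁻¹ ((H ⊓ Subgroup.normalizer (K : Set S)).inv_mem ht) β hβ
    have h2 := hw.2 _ h1
    rw [inv_inv] at h2
    have h3 : β * t = t * (t⁻¹ * β * t) := by group
    rw [← rho_mul, h3, rho_mul, h2]
  have hstA : ∀ a ∈ A, ∀ w ∈ W', ρ a w ∈ W' := by
    intro a ha w hw
    have hmem : ρ a w ∈ fixK ρ K := rho_mem_fix ρ (h.mem_norm hK.1 ha) hw.1
    refine ⟨hmem, fun β hβ => ?_⟩
    have h1 := hBK β hβ a⁻¹ (A.inv_mem ha)
    have h2 : β * a = ((β * a⁻¹ * β⁻¹)⁻¹ * a⁻¹) * a * β := by group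
    rw [← rho_mul, h2, rho_mul, rho_mul, hw.2 β hβ, hmem _ h1]
  -- nonzero
  obtain ⟨v, hv⟩ := hv
  have hfixne : fixK ρ K ≠ ⊥ := by
    intro hc
    have : pr ρ K v ∈ fixK ρ K := pr_mem ρ K v
    rw [hc, Submodule.mem_bot] at this
    exact hv this
  obtain ⟨t, htW, ht0, htB⟩ := exists_fixed ρ B hBP (fixK ρ K)
    (fun g hg u hu => rho_mem_fix ρ (hBT hg).2 hu) hfixne
  have htW' : t ∈ W' := ⟨htW, htB⟩
  -- the submodule
  let U' : Submodule (ZMod 2) E :=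
    { carrier := {u | ∀ g : S, pr ρ K (ρ g u) ∈ W'}
      add_mem' := by
        intro a b ha hb g
        rw [map_add, map_add]
        exact Submodule.add_mem _ (ha g) (hb g)
      zero_mem' := by
        intro g
        rw [map_zero, map_zero]
        exact Submodule.zero_mem _
      smul_mem' := by
        intro c a ha g
        rw [map_smul, map_smul]
        exact Submodule.smul_mem _ c (ha g) }
  have hU'st : ∀ s : S, ∀ m ∈ U', ρ s m ∈ U' := by
    intro s m hm g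
    rw [← rho_mul]
    exact hm (g * s)
  have htU' : t ∈ U' := by
    intro g
    by_cases hg : g ∈ Subgroup.normalizer (K : Set S)
    · have hgm : g ∈ (↑(H ⊔ A) : Set S) := by rw [hgen]; trivial
      rw [Subgroup.mul_normal H A] at hgm
      obtain ⟨x, hx, a, ha, rfl⟩ := Set.mem_mul.mp hgm
      have haN := h.mem_norm hK.1 ha
      have hxN : x ∈ Subgroup.normalizer (K : Set S) := by
        have := (Subgroup.normalizer (K : Set S)).mul_mem hg
          ((Subgroup.normalizer (K : Set S)).inv_mem haN)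
        simpa using this
      have h1 : ρ (x * a) t ∈ W' := by
        rw [rho_mul]
        exact hstT x ⟨hx, hxN⟩ _ (hstA a ha t htW')
      rw [pr_self ρ K (h.oddK hK) h1.1]
      exact h1
    · rw [pr_rho]
      have hne : cj g⁻¹ K ≠ K := fun hc' => hg (norm_of_cj hc')
      have hpt : pr ρ K t = t := pr_self ρ K (h.oddK hK) htW
      rw [← hpt, h.orth hK (h.hy_cj hK _) hne, map_zero]
      exact Submodule.zero_mem _
  have hU'top : U' = ⊤ := by
    rcases hirr U' hU'st with hc | hc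
    · exfalso
      rw [hc, Submodule.mem_bot] at htU'
      exact ht0 htU'
    · exact hc
  intro x hx w hw
  have hwU : w ∈ U' := by rw [hU'top]; trivial
  have h1 := hwU 1
  rw [rho_one, pr_self ρ K (h.oddK hK) hw] at h1
  exact h1.2 x hx

/-- restriction -/
def res (K : Subgroup S) (g : S) (hg : g ∈ Subgroup.normalizer (K : Set S)) :
    Module.End (ZMod 2) ↥(fixK ρ K) :=
  (ρ g).restrict (fun _ hw => rho_mem_fix ρ hg hw)

omit [Finite E] in
theorem res_coe (K : Subgroup S) (g : S) (hg : g ∈ Subgroup.normalizer (K : Set S))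
    (w : ↥(fixK ρ K)) : ((res K g hg w : ↥(fixK ρ K)) : E) = ρ g w := rfl

omit [Finite E] in
theorem res_mul (K : Subgroup S) (g h : S) (hg : g ∈ Subgroup.normalizer (K : Set S))
    (hh : h ∈ Subgroup.normalizer (K : Set S)) :
    (res K g hg * res K h hh : Module.End (ZMod 2) ↥(fixK ρ K)) =
      res K (g * h) ((Subgroup.normalizer (K : Set S)).mul_mem hg hh) := by
  apply LinearMap.ext
  intro w
  apply Subtype.ext
  show ρ g (ρ h w) = ρ (g * h) w
  rw [rho_mul]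

omit [Finite E] in
theorem res_one (K : Subgroup S) (hg : (1 : S) ∈ Subgroup.normalizer (K : Set S)) :
    (res K 1 hg : Module.End (ZMod 2) ↥(fixK ρ K)) = 1 := by
  apply LinearMap.ext
  intro w
  apply Subtype.ext
  show ρ 1 w = w
  rw [rho_one]

omit [Finite E] in
theorem res_pow (K : Subgroup S) (g : S) (hg : g ∈ Subgroup.normalizer (K : Set S)) (m : ℕ)
    (hgm : g ^ m ∈ Subgroup.normalizer (K : Set S)) :
    (res K g hg : Module.End (ZMod 2) ↥(fixK ρ K)) ^ m = res K (g ^ m) hgm := by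
  induction m with
  | zero =>
    rw [pow_zero]
    apply LinearMap.ext
    intro w
    apply Subtype.ext
    show w.1 = ρ (g ^ 0) w
    rw [pow_zero, rho_one]
  | succ m ih =>
    rw [pow_succ, ih ((Subgroup.normalizer (K : Set S)).pow_mem hg m), res_mul]
    congr 1
    exact (pow_succ g m).symm

theorem natCard_two_pow (U : Type*) [AddCommGroup U] [Module (ZMod 2) U] [Finite U] :
    Nat.card U = 2 ^ Module.finrank (ZMod 2) U := by
  haveI := Fintype.ofFinite U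
  rw [Nat.card_eq_fintype_card, Module.card_eq_pow_finrank (K := ZMod 2), ZMod.card]

open scoped commutatorElement in
theorem Setup.caseA (h : Setup ρ A p) {K : Subgroup S} (hK : Hy A p K) (hv : ∃ v, pr ρ K v ≠ 0)
    (S₂ Sq : Subgroup S) (q : ℕ) (hq : q.Prime) (hq2 : q ≠ 2)
    (hS₂ : IsPGroup 2 S₂) (hSq : Nat.card Sq = q)
    (hH : Nat.card ↥(S₂ ⊔ Sq) = Nat.card S₂ * q) (hgen : (S₂ ⊔ Sq) ⊔ A = ⊤)
    (hnorm : ∀ x ∈ Sq, x ∈ Subgroup.normalizer (K : Set S)) (hAK : ⁅A, Sq⁆ = A)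
    (hirr : ∀ N : Submodule (ZMod 2) E, (∀ s : S, ∀ m ∈ N, ρ s m ∈ N) → N = ⊥ ∨ N = ⊤) :
    8 ≤ Nat.card {v : E // ∀ s ∈ S₂, ρ s v = v} := by
  haveI : Fact p.Prime := ⟨h.pp⟩
  set N := Subgroup.normalizer (K : Set S) with hNdef
  set T := (S₂ ⊔ Sq) ⊓ N with hT
  have hTcard : Nat.card T ∣ Nat.card S₂ * q := by
    rw [← hH]; exact Subgroup.card_dvd_of_le inf_le_left
  obtain ⟨τ, b, u, B, hτ, hBT, hBn, hBK, hBP, hτn, hS₂j, hτa, hn⟩ :=
    gt_lemma A K T S₂ Sq p q hq hq2 h.nor h.comm hK.1 hK.2 inf_le_right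
      (le_inf le_sup_right hnorm) hSq hS₂ hTcard hAK
  have htriv := h.triv hK hv (S₂ ⊔ Sq) B hgen hBT hBn hBK hBP hirr
  -- nontriviality
  obtain ⟨v₀, hv₀⟩ := hv
  haveI hntW : Nontrivial ↥(fixK ρ K) :=
    ⟨⟨⟨pr ρ K v₀, pr_mem ρ K v₀⟩, 0, fun hc => hv₀ (congrArg Subtype.val hc)⟩⟩
  haveI : Finite ↥(fixK ρ K) := inferInstance
  haveI : Module.Finite (ZMod 2) ↥(fixK ρ K) := Module.Finite.of_finite
  -- a₁
  obtain ⟨a₁, ha₁, ha₁K⟩ : ∃ a₁ ∈ A, a₁ ∉ K := by
    by_contra hc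
    push_neg at hc
    have h5 := Subgroup.card_le_of_le (show A ≤ K from hc)
    have h6 := hK.2
    have h7 : 2 ≤ p := h.pp.two_le
    have h8 : 0 < Nat.card K := Nat.card_pos
    nlinarith
  have ha₁N : a₁ ∈ N := h.mem_norm hK.1 ha₁
  have hτN : τ ∈ N := hτ.2
  have hτiN : τ⁻¹ ∈ N := N.inv_mem hτN
  let y : Module.End (ZMod 2) ↥(fixK ρ K) := res K a₁ ha₁N
  let τw : Module.End (ZMod 2) ↥(fixK ρ K) := res K τ hτN
  let τ' : Module.End (ZMod 2) ↥(fixK ρ K) := res K τ⁻¹ hτiN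
  have hy : y ^ p = 1 := by
    rw [res_pow K a₁ ha₁N p (N.pow_mem ha₁N p)]
    apply LinearMap.ext
    intro w
    apply Subtype.ext
    show ρ (a₁ ^ p) w = w
    rw [h.exp a₁ ha₁, rho_one]
  have hfix : ∀ w, y w = w → w = 0 := by
    intro w hw
    apply Subtype.ext
    apply h.nofix
    have hw1 : ρ a₁ w = w := congrArg Subtype.val hw
    have hle : K ≤ stV ρ (w : E) := fun k hk => w.2 k hk
    have hLA : K ⊔ Subgroup.zpowers a₁ = A := by
      apply hy_sup h.pp hK le_sup_left (sup_le hK.1 (Subgroup.zpowers_le.mpr ha₁))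
      intro heq
      apply ha₁K
      rw [← heq]
      exact (le_sup_right : Subgroup.zpowers a₁ ≤ _) (Subgroup.mem_zpowers a₁)
    have hle2 : A ≤ stV ρ (w : E) := by
      rw [← hLA]
      exact sup_le hle (Subgroup.zpowers_le.mpr hw1)
    exact fun a ha => hle2 ha
  have hτ' : τw * y = y ^ u * τw := by
    rw [res_pow K a₁ ha₁N u (N.pow_mem ha₁N u)]
    apply LinearMap.ext
    intro w
    apply Subtype.ext
    show ρ τ (ρ a₁ w) = ρ (a₁ ^ u) (ρ τ w)
    have hc := hτa a₁ ha₁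
    have hw2 : ρ τ (w : E) ∈ fixK ρ K := rho_mem_fix ρ hτN w.2
    have h9 : a₁ ^ u = (τ * a₁ * τ⁻¹) * ((τ * a₁ * τ⁻¹)⁻¹ * a₁ ^ u) := by group
    rw [h9, rho_mul, hw2 _ hc, ← rho_mul, ← rho_mul]
    congr 2
    group
  have h1 : τw * τ' = 1 := by
    show res K τ hτN * res K τ⁻¹ hτiN = 1
    rw [res_mul]
    apply LinearMap.ext
    intro w
    apply Subtype.ext
    show ρ (τ * τ⁻¹) w = w
    rw [mul_inv_cancel, rho_one]
  have h2 : τ' * τw = 1 := by
    show res K τ⁻¹ hτiN * res K τ hτN = 1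
    rw [res_mul]
    apply LinearMap.ext
    intro w
    apply Subtype.ext
    show ρ (τ⁻¹ * τ) w = w
    rw [inv_mul_cancel, rho_one]
  have hB := le_finrank_of_semiconj p y τw τ' u (q * 2 ^ b) hy hfix hτ' h1 h2 hn
  -- σ
  have hτqN : τ ^ q ∈ N := N.pow_mem hτN q
  let σ : Module.End (ZMod 2) ↥(fixK ρ K) := res K (τ ^ q) hτqN
  have hσ : σ ^ (2 ^ b) = 1 := by
    rw [res_pow K (τ ^ q) hτqN (2 ^ b) (N.pow_mem hτqN _)]
    apply LinearMap.ext
    intro w
    apply Subtype.ext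
    show ρ ((τ ^ q) ^ (2 ^ b)) w = w
    rw [← pow_mul]
    exact htriv _ hτn w w.2
  have hnil : (σ - 1) ^ (2 ^ b) = 0 := by
    rw [sub_one_pow_two_pow, hσ, sub_self]
  have hL1 := finrank_le_of_pow_eq_zero (σ - 1) (2 ^ b) hnil
  have hq' : q ≤ Module.finrank (ZMod 2) (LinearMap.ker (σ - 1)) := by
    have h10 : 2 ^ b * q ≤ 2 ^ b * Module.finrank (ZMod 2) (LinearMap.ker (σ - 1)) := by
      rw [mul_comm]; exact hB.trans hL1
    exact Nat.le_of_mul_le_mul_left h10 (by positivity)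
  have hq3 : 3 ≤ q := by
    have := hq.two_le
    omega
  have hcard : 8 ≤ Nat.card (LinearMap.ker (σ - 1)) := by
    rw [natCard_two_pow]
    calc 8 = 2 ^ 3 := by norm_num
      _ ≤ _ := Nat.pow_le_pow_right (by norm_num) (hq3.trans hq')
  refine hcard.trans ?_
  -- fixed points of σ are fixed by S₂ ⊓ N
  have hσfix : ∀ w : ↥(LinearMap.ker (σ - 1)), ρ (τ ^ q) ((w : ↥(fixK ρ K)) : E) = w := by
    intro w
    have h11 : (σ - 1) (w : ↥(fixK ρ K)) = 0 := w.2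
    have h12 : σ (w : ↥(fixK ρ K)) = w := by
      have : σ (w : ↥(fixK ρ K)) - (w : ↥(fixK ρ K)) = 0 := h11
      exact sub_eq_zero.mp this
    exact congrArg Subtype.val h12
  have hσpow : ∀ (w : ↥(LinearMap.ker (σ - 1))) (j : ℕ),
      ρ (τ ^ (q * j)) ((w : ↥(fixK ρ K)) : E) = w := by
    intro w j
    induction j with
    | zero => simp [rho_one]
    | succ j ih =>
      rw [Nat.mul_succ, pow_add, rho_mul, hσfix, ih]
  have hfixS : ∀ w : ↥(LinearMap.ker (σ - 1)), ∀ a ∈ S₂, a ∈ N →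
      ρ a ((w : ↥(fixK ρ K)) : E) = w := by
    intro w a ha haN
    obtain ⟨j, hj⟩ := hS₂j a ha ⟨le_sup_left (α := Subgroup S) ha, haN⟩
    have h13 : a = (a * (τ ^ (q * j))⁻¹) * τ ^ (q * j) := by group
    rw [h13, rho_mul, hσpow, htriv _ hj _ (w : ↥(fixK ρ K)).2]
  have hex := fun w : ↥(LinearMap.ker (σ - 1)) =>
    h.trace hK S₂ (w : ↥(fixK ρ K)).2 (hfixS w)
  choose t ht1 ht2 using hex
  apply Nat.card_le_card_of_injective (fun w => (⟨t w, ht1 w⟩ : {v : E // ∀ s ∈ S₂, ρ s v = v}))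
  intro w w' hww
  have h14 : t w = t w' := congrArg Subtype.val hww
  apply Subtype.ext
  apply Subtype.ext
  rw [← ht2 w, ← ht2 w', h14]

end A

end Cfsg.Agent.Lib.Struct.TwoFix
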