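import Cfsg.Agent.Lib.Struct.TwoFixD

set_option autoImplicit false

namespace Cfsg.Agent.Lib.Struct.TwoFix

open Classical

section B

variable {S : Type*} [Group S] [Fintype S] {E : Type*} [AddCommGroup E] [Module (ZMod 2) E]
  {ρ : Representation (ZMod 2) S E} {A : Subgroup S} {p : ℕ}

/-- support -/
noncomputable def sp (ρ : Representation (ZMod 2) S E) (A : Subgroup S) (p : ℕ) (v : E) :
    Finset (Subgroup S) :=
  (hyS A p).filter (fun K => pr ρ K v ≠ 0)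

theorem mem_sp {v : E} {K : Subgroup S} : K ∈ sp ρ A p v ↔ Hy A p K ∧ pr ρ K v ≠ 0 := by
  simp [sp, mem_hyS]

theorem rho_ne_zero {g : S} {v : E} (hv : v ≠ 0) : ρ g v ≠ 0 := by
  intro hc
  apply hv
  rw [← rho_cancel' ρ g v, hc, map_zero]

theorem Setup.card_sp (h : Setup ρ A p) (g : S) (v : E) :
    (sp ρ A p (ρ g v)).card = (sp ρ A p v).card := by
  symm
  apply Finset.card_bij' (fun K _ => cj g K) (fun K _ => cj g⁻¹ K)
  · intro K hK
    obtain ⟨h1, h2⟩ := mem_sp.mp hK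
    refine mem_sp.mpr ⟨h.hy_cj h1 g, ?_⟩
    rw [pr_cj, rho_cancel']
    exact rho_ne_zero h2
  · intro K hK
    obtain ⟨h1, h2⟩ := mem_sp.mp hK
    refine mem_sp.mpr ⟨h.hy_cj h1 g⁻¹, ?_⟩
    rw [pr_cj, inv_inv]
    exact rho_ne_zero h2
  · intro K _
    exact cj_inv_cj g K
  · intro K _
    exact cj_cj_inv g K

/-- vectors with vanishing components on a set of hyperplanes -/
def vanS (ρ : Representation (ZMod 2) S E) (A : Subgroup S) (p : ℕ) (P : Subgroup S → Prop) :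
    Submodule (ZMod 2) E where
  carrier := {v | ∀ K, Hy A p K → P K → pr ρ K v = 0}
  add_mem' := by
    intro a b ha hb K h1 h2
    rw [map_add, ha K h1 h2, hb K h1 h2, add_zero]
  zero_mem' := by
    intro K _ _
    exact map_zero _
  smul_mem' := by
    intro c a ha K h1 h2
    rw [map_smul, ha K h1 h2, smul_zero]

theorem mem_vanS {P : Subgroup S → Prop} {v : E} :
    v ∈ vanS ρ A p P ↔ ∀ K, Hy A p K → P K → pr ρ K v = 0 := Iff.rfl

theorem Setup.vanS_stable (h : Setup ρ A p) {P : Subgroup S → Prop} {s : S}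
    (hP : ∀ K, Hy A p K → P K → P (cj s⁻¹ K)) {v : E} (hv : v ∈ vanS ρ A p P) :
    ρ s v ∈ vanS ρ A p P := by
  intro K h1 h2
  rw [pr_rho, hv _ (h.hy_cj h1 _) (hP K h1 h2), map_zero]

variable [Finite E]

theorem Setup.caseB (h : Setup ρ A p) (S₂ Sq : Subgroup S) (q : ℕ) (hq : q.Prime) (hq2 : q ≠ 2)
    (hS₂ : IsPGroup 2 S₂) (hSq : Nat.card Sq = q) (hgen : (S₂ ⊔ Sq) ⊔ A = ⊤)
    (O : Set (Subgroup S)) (hO : ∀ s ∈ S₂, ∀ K, K ∈ O → cj s K ∈ O)
    {K₁ K₂ : Subgroup S} (hK₁ : Hy A p K₁) (hK₂ : Hy A p K₂) (h1O : K₁ ∈ O) (h2O : K₂ ∉ O)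
    (hv1 : ∃ v, pr ρ K₁ v ≠ 0) (hv2 : ∃ v, pr ρ K₂ v ≠ 0)
    (hirr : ∀ N : Submodule (ZMod 2) E, (∀ s : S, ∀ m ∈ N, ρ s m ∈ N) → N = ⊥ ∨ N = ⊤) :
    8 ≤ Nat.card {v : E // ∀ s ∈ S₂, ρ s v = v} ∨
      (Nat.card {v : E // ∀ s ∈ S₂, ρ s v = v} = 4 ∧
        ∃ x ∈ Sq, ∃ v : E, (∀ s ∈ S₂, ρ s v = v) ∧ ¬ ∀ s ∈ S₂, ρ s (ρ x v) = ρ x v) := by
  set U₁ := vanS ρ A p (fun K => K ∉ O) with hU₁
  set U₂ := vanS ρ A p (fun K => K ∈ O) with hU₂
  have hst1 : ∀ g ∈ S₂, ∀ u ∈ U₁, ρ g u ∈ U₁ := by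
    intro g hg u hu
    refine h.vanS_stable (fun K _ hK hc => hK ?_) hu
    have := hO g hg _ hc
    rwa [cj_cj_inv] at this
  have hst2 : ∀ g ∈ S₂, ∀ u ∈ U₂, ρ g u ∈ U₂ := by
    intro g hg u hu
    exact h.vanS_stable (fun K _ hK => hO g⁻¹ (S₂.inv_mem hg) K hK) hu
  obtain ⟨v₁, hv₁⟩ := hv1
  obtain ⟨v₂, hv₂⟩ := hv2
  have hU₁ne : U₁ ≠ ⊥ := by
    intro hc
    have h1 : pr ρ K₁ v₁ ∈ U₁ := by
      intro K hK hKO
      exact h.orth hK₁ hK (fun he => hKO (he ▸ h1O)) v₁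
    rw [hc, Submodule.mem_bot] at h1
    exact hv₁ h1
  have hU₂ne : U₂ ≠ ⊥ := by
    intro hc
    have h1 : pr ρ K₂ v₂ ∈ U₂ := by
      intro K hK hKO
      exact h.orth hK₂ hK (fun he => h2O (he ▸ hKO)) v₂
    rw [hc, Submodule.mem_bot] at h1
    exact hv₂ h1
  obtain ⟨t₁, ht₁U, ht₁0, ht₁f⟩ := exists_fixed ρ S₂ hS₂ U₁ hst1 hU₁ne
  obtain ⟨t₂, ht₂U, ht₂0, ht₂f⟩ := exists_fixed ρ S₂ hS₂ U₂ hst2 hU₂ne
  have hclass : ∀ K, (K ∉ O → pr ρ K t₁ = 0) → (K ∈ O → pr ρ K t₂ = 0) → True := fun _ _ _ => trivial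
  clear hclass
  have hne12 : t₁ ≠ t₂ := by
    rintro rfl
    obtain ⟨K, hK, hKne⟩ := h.exists_pr_ne ht₁0
    have hKy := mem_hyS.mp hK
    by_cases hKO : K ∈ O
    · exact hKne (ht₂U K hKy hKO)
    · exact hKne (ht₁U K hKy hKO)
  set z := t₁ + t₂ with hz
  have hz0 : z ≠ 0 := by
    intro hc
    exact hne12 (eq_of_add_eq_zero' hc)
  have hzt1 : z ≠ t₁ := by
    intro hc
    apply ht₂0
    have : t₁ + t₂ = t₁ + 0 := by rw [add_zero]; exact hc
    exact add_left_cancel this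
  have hzt2 : z ≠ t₂ := by
    intro hc
    apply ht₁0
    have : t₁ + t₂ = 0 + t₂ := by rw [zero_add]; exact hc
    exact add_right_cancel this
  let E0 : Submodule (ZMod 2) E :=
    { carrier := {v | ∀ s ∈ S₂, ρ s v = v}
      add_mem' := by
        intro a b ha hb s hs
        rw [map_add, ha s hs, hb s hs]
      zero_mem' := fun _ _ => map_zero _
      smul_mem' := by
        intro c a ha s hs
        rw [map_smul, ha s hs] }
  have hE0 : ∀ {v}, v ∈ E0 ↔ ∀ s ∈ S₂, ρ s v = v := Iff.rfl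
  have hcardE0 : Nat.card {v : E // ∀ s ∈ S₂, ρ s v = v} = Nat.card ↥E0 := rfl
  rw [hcardE0]
  have h1E : t₁ ∈ E0 := ht₁f
  have h2E : t₂ ∈ E0 := ht₂f
  have hzE : z ∈ E0 := Submodule.add_mem _ h1E h2E
  -- the four elements
  let F : Finset E := {0, t₁, t₂, z}
  have hFcard : F.card = 4 := by
    have hh1 : t₂ ∉ ({z} : Finset E) := by simp [hzt2.symm]
    have hh2 : t₁ ∉ ({t₂, z} : Finset E) := by simp [hne12, hzt1.symm]
    have hh3 : (0 : E) ∉ ({t₁, t₂, z} : Finset E) := by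
      simp [ht₁0.symm, ht₂0.symm, hz0.symm]
    show ({0, t₁, t₂, z} : Finset E).card = 4
    rw [Finset.card_insert_of_notMem hh3, Finset.card_insert_of_notMem hh2,
      Finset.card_insert_of_notMem hh1, Finset.card_singleton]
  have hFsub : (F : Set E) ⊆ (E0 : Set E) := by
    intro x hx
    simp only [F, Finset.coe_insert, Finset.coe_singleton, Set.mem_insert_iff,
      Set.mem_singleton_iff] at hx
    rcases hx with rfl | rfl | rfl | rfl
    · exact Submodule.zero_mem _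
    · exact h1E
    · exact h2E
    · exact hzE
  have hge4 : 4 ≤ Nat.card ↥E0 := by
    have h1 : Set.ncard (F : Set E) ≤ Set.ncard (E0 : Set E) :=
      Set.ncard_le_ncard hFsub (Set.toFinite _)
    rw [Set.ncard_coe_finset, hFcard] at h1
    have h2 : Set.ncard (E0 : Set E) = Nat.card ↥E0 := rfl
    omega
  rw [natCard_two_pow] at hge4 ⊢
  set d := Module.finrank (ZMod 2) ↥E0 with hd
  by_cases hd3 : 3 ≤ d
  · left
    calc 8 = 2 ^ 3 := by norm_num
      _ ≤ 2 ^ d := Nat.pow_le_pow_right (by norm_num) hd3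
  right
  have hd2 : d = 2 := by
    have hd1 : 2 ≤ d := by
      by_contra hlt
      have : d = 0 ∨ d = 1 := by omega
      rcases this with h0 | h0 <;> rw [h0] at hge4 <;> omega
    omega
  rw [hd2]
  refine ⟨by norm_num, ?_⟩
  by_contra hcon
  push_neg at hcon
  have hst : ∀ x ∈ Sq, ∀ v ∈ E0, ρ x v ∈ E0 := fun x hx v hv => hcon x hx v hv
  -- E0 is exactly F
  have hE0F : (E0 : Set E) = (F : Set E) := by
    symm
    apply Set.eq_of_subset_of_ncard_le hFsub _ (Set.toFinite _)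
    rw [Set.ncard_coe_finset, hFcard]
    have h2 : Set.ncard (E0 : Set E) = Nat.card ↥E0 := rfl
    rw [h2, natCard_two_pow, ← hd, hd2]
    norm_num
  have hmemF : ∀ v ∈ E0, v = 0 ∨ v = t₁ ∨ v = t₂ ∨ v = z := by
    intro v hv
    have : v ∈ (F : Set E) := by rw [← hE0F]; exact hv
    simpa [F] using this
  -- support comparison
  have hsp1 : (sp ρ A p t₁).card < (sp ρ A p z).card := by
    apply Finset.card_lt_card
    rw [Finset.ssubset_iff_of_subset]
    · obtain ⟨K, hK, hKne⟩ := h.exists_pr_ne ht₂0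
      have hKy := mem_hyS.mp hK
      have hKO : K ∉ O := fun hc => hKne (ht₂U K hKy hc)
      have h0 : pr ρ K t₁ = 0 := ht₁U K hKy hKO
      refine ⟨K, mem_sp.mpr ⟨hKy, ?_⟩, fun hc => (mem_sp.mp hc).2 h0⟩
      rw [hz, map_add, h0, zero_add]
      exact hKne
    · intro K hK
      obtain ⟨hKy, hKne⟩ := mem_sp.mp hK
      have hKO : K ∈ O := by
        by_contra hc
        exact hKne (ht₁U K hKy hc)
      refine mem_sp.mpr ⟨hKy, ?_⟩
      rw [hz, map_add, ht₂U K hKy hKO, add_zero]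
      exact hKne
  have hsp2 : (sp ρ A p t₂).card < (sp ρ A p z).card := by
    apply Finset.card_lt_card
    rw [Finset.ssubset_iff_of_subset]
    · obtain ⟨K, hK, hKne⟩ := h.exists_pr_ne ht₁0
      have hKy := mem_hyS.mp hK
      have hKO : K ∈ O := by
        by_contra hc
        exact hKne (ht₁U K hKy hc)
      have h0 : pr ρ K t₂ = 0 := ht₂U K hKy hKO
      refine ⟨K, mem_sp.mpr ⟨hKy, ?_⟩, fun hc => (mem_sp.mp hc).2 h0⟩
      rw [hz, map_add, h0, add_zero]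
      exact hKne
    · intro K hK
      obtain ⟨hKy, hKne⟩ := mem_sp.mp hK
      have hKO : K ∉ O := fun hc => hKne (ht₂U K hKy hc)
      refine mem_sp.mpr ⟨hKy, ?_⟩
      rw [hz, map_add, ht₁U K hKy hKO, zero_add]
      exact hKne
  -- every element of Sq fixes t₁
  have hyfix : ∀ y ∈ Sq, ρ y t₁ = t₁ := by
    intro y hy
    have hyz : ρ y z = z := by
      rcases hmemF _ (hst y hy z hzE) with h0 | h0 | h0 | h0
      · exact absurd h0 (rho_ne_zero hz0)
      · exfalso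
        have := h.card_sp y z
        rw [h0] at this
        omega
      · exfalso
        have := h.card_sp y z
        rw [h0] at this
        omega
      · exact h0
    rcases hmemF _ (hst y hy t₁ h1E) with h0 | h0 | h0 | h0
    · exact absurd h0 (rho_ne_zero ht₁0)
    · exact h0
    · exfalso
      -- y swaps t₁ and t₂
      have hy2 : ρ y t₂ = t₁ := by
        have h3 : ρ y z = ρ y t₁ + ρ y t₂ := map_add _ _ _
        rw [hyz, h0] at h3
        have h4 : t₁ + t₂ = ρ y t₂ + t₂ := by rw [add_comm (ρ y t₂) t₂]; exact h3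
        exact (add_right_cancel h4).symm
      have hq3 : Odd q := hq.odd_of_ne_two hq2
      obtain ⟨m, hm⟩ := hq3
      have hyq : y ^ q = 1 := by
        have := pow_card_eq_one' (x := (⟨y, hy⟩ : ↥Sq))
        rw [hSq] at this
        simpa using congrArg (fun z : ↥Sq => (z : S)) this
      have hpow : ∀ j : ℕ, ρ (y ^ (2 * j)) t₁ = t₁ := by
        intro j
        induction j with
        | zero => simp [rho_one]
        | succ j ih =>
          rw [Nat.mul_succ, pow_add, rho_mul, pow_two, rho_mul, h0, hy2, ih]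
      have h5 : ρ (y ^ q) t₁ = t₂ := by
        rw [hm, pow_succ', rho_mul, hpow, h0]
      rw [hyq, rho_one] at h5
      exact hne12 h5
    · exfalso
      apply hzt1
      have : ρ y z = ρ y t₁ := by rw [hyz, h0]
      have h3 : ρ y⁻¹ (ρ y z) = ρ y⁻¹ (ρ y t₁) := by rw [this]
      rwa [rho_cancel', rho_cancel'] at h3
  -- the invariant submodule
  set U := vanS ρ A p (fun K => pr ρ K t₁ = 0) with hU
  let L : Subgroup S :=
    { carrier := {g | (∀ v ∈ U, ρ g v ∈ U) ∧ (∀ v ∈ U, ρ g⁻¹ v ∈ U)}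
      mul_mem' := by
        rintro a b ⟨ha, ha'⟩ ⟨hb, hb'⟩
        refine ⟨fun v hv => ?_, fun v hv => ?_⟩
        · rw [rho_mul]; exact ha _ (hb v hv)
        · rw [mul_inv_rev, rho_mul]; exact hb' _ (ha' v hv)
      one_mem' := by
        refine ⟨fun v hv => ?_, fun v hv => ?_⟩
        · rw [rho_one]; exact hv
        · rw [inv_one, rho_one]; exact hv
      inv_mem' := by
        rintro a ⟨ha, ha'⟩
        refine ⟨ha', fun v hv => ?_⟩
        rw [inv_inv]; exact ha v hv }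
  have hfixL : ∀ g, ρ g t₁ = t₁ → g ∈ L := by
    intro g hg
    have hgi : ρ g⁻¹ t₁ = t₁ := by
      conv_lhs => rw [← hg]
      rw [rho_cancel']
    have key : ∀ g' : S, ρ g' t₁ = t₁ → ∀ v ∈ U, ρ g' v ∈ U := by
      intro g' hg' v hv
      refine h.vanS_stable (fun K _ hK => ?_) hv
      -- pr (cj g'⁻¹ K) t₁ = ρ g'⁻¹ (pr K (ρ g' t₁))
      show pr ρ (cj g'⁻¹ K) t₁ = 0
      rw [pr_cj, inv_inv, hg', hK, map_zero]
    exact ⟨key g hg, key g⁻¹ hgi⟩
  have hAL : A ≤ L := by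
    intro a ha
    have key : ∀ a' ∈ A, ∀ v ∈ U, ρ a' v ∈ U := by
      intro a' ha' v hv
      refine h.vanS_stable (fun K hKy hK => ?_) hv
      show pr ρ (cj a'⁻¹ K) t₁ = 0
      rw [h.cj_self hKy.1 (A.inv_mem ha')]
      exact hK
    exact ⟨key a ha, key a⁻¹ (A.inv_mem ha)⟩
  have hS₂L : S₂ ≤ L := fun s hs => hfixL s (ht₁f s hs)
  have hSqL : Sq ≤ L := fun y hy => hfixL y (hyfix y hy)
  have hLtop : L = ⊤ := by
    rw [eq_top_iff, ← hgen]
    exact sup_le (sup_le hS₂L hSqL) hAL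
  have hUst : ∀ s : S, ∀ m ∈ U, ρ s m ∈ U := by
    intro s m hm
    have hs : s ∈ L := by rw [hLtop]; trivial
    exact hs.1 m hm
  have ht₁mem : t₁ ∈ U := fun K _ hK => hK
  rcases hirr U hUst with hc | hc
  · rw [hc, Submodule.mem_bot] at ht₁mem
    exact ht₁0 ht₁mem
  · have ht₂mem : t₂ ∈ U := by rw [hc]; trivial
    obtain ⟨K, hK, hKne⟩ := h.exists_pr_ne ht₂0
    have hKy := mem_hyS.mp hK
    have hKO : K ∉ O := fun hc' => hKne (ht₂U K hKy hc')
    exact hKne (ht₂mem K hKy (ht₁U K hKy hKO))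

end B

end Cfsg.Agent.Lib.Struct.TwoFix
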