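import Cfsg.Agent.Lib.Struct.TwoFixE

set_option autoImplicit false

namespace Cfsg.Agent.Lib.Struct.TwoFix

theorem exp_of_min {S : Type*} [Group S] [Finite S] (A : Subgroup S) (p : ℕ) [Fact p.Prime]
    (hnor : A.Normal) (hmin : ∀ N : Subgroup S, N.Normal → N ≤ A → N = ⊥ ∨ N = A)
    (hcard : Nat.card A = p ∨ Nat.card A = p ^ 2)
    (hcomm : ∀ a ∈ A, ∀ b ∈ A, a * b = b * a) : ∀ a ∈ A, a ^ p = 1 := by
  rcases hcard with h1 | h1
  · intro a ha
    have := pow_card_eq_one' (x := (⟨a, ha⟩ : ↥A))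
    rw [h1] at this
    simpa using congrArg Subtype.val this
  · let N : Subgroup S :=
      { carrier := {a | a ∈ A ∧ a ^ p = 1}
        mul_mem' := by
          rintro a b ⟨ha, ha'⟩ ⟨hb, hb'⟩
          refine ⟨A.mul_mem ha hb, ?_⟩
          rw [(show Commute a b from hcomm a ha b hb).mul_pow, ha', hb', one_mul]
        one_mem' := ⟨A.one_mem, one_pow _⟩
        inv_mem' := by
          rintro a ⟨ha, ha'⟩
          exact ⟨A.inv_mem ha, by rw [inv_pow, ha', inv_one]⟩ }
    haveI hNn : N.Normal := ⟨fun n hn g => ⟨hnor.conj_mem n hn.1 g, by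
      rw [conj_pow, hn.2, mul_one, mul_inv_cancel]⟩⟩
    rcases hmin N hNn (fun a ha => ha.1) with h2 | h2
    · exfalso
      obtain ⟨x, hx⟩ := exists_prime_orderOf_dvd_card' (G := ↥A) p
        (by rw [h1]; exact dvd_pow_self p two_ne_zero)
      have hxp : x ^ p = 1 := by rw [← hx]; exact pow_orderOf_eq_one x
      have hxN : (x : S) ∈ N := ⟨x.2, by simpa using congrArg Subtype.val hxp⟩
      rw [h2, Subgroup.mem_bot] at hxN
      have hx1 : x = 1 := Subtype.ext hxN
      rw [hx1, orderOf_one] at hx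
      exact (Fact.out : p.Prime).one_lt.ne hx
    · intro a ha
      rw [← h2] at ha
      exact ha.2

end Cfsg.Agent.Lib.Struct.TwoFix
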